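import Cfsg.Agent.CJ.RelB
import Cfsg.Agent.Class.U.Simple
import Cfsg.Agent.Class.U.Count

/-!
S4793: the bridge from the model group `Ga F q m` to `PSU (2m+1) F q`.
`exists_pi`: `Sp F m` has the orthonormal basis `(θ eᵢ, 0, eᵢ)`, `(-σθ y eᵢ, 0, y eᵢ)` (`y σy = -1`, `exists_norm_eq`), `(0,1,0)` (`θ = th F q`); this gives a linear
equivalence `e : Sp F m ≃ₗ (Fin (2m+1) → F)` with `𝐡 (e x) (e y) = fm x y` (e.g. explicit map `(a,s,b) ↦` the coordinates `fm x (basis vector)`, indexed through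
`Fin m ⊕ Unit ⊕ Fin m ≃ Fin (2m+1)`), hence `Ga ≃* GU`. With `n n' ≡ 1 mod (q+1)` the map `g ↦ (det g)^(-n') • g` is a homomorphism `GU → SU` (`detGU_mul_conj`, `mkSU`), the identity on `SU`,
with kernel the scalars of norm one; the centre of `SU` is trivial (`card_center`).
`sc_eq_one_of_comm`: determinants (`LinearEquiv.det`/`LinearMap.det`, `finrank = 2m+1`) give `z^(2m+1) = 1`, and `z^(q+1) = 1`.
`normal_top`, `hom_eq_one`, `tr_gen`: `PSU` is simple (`isSimpleGroup_PSU`) and perfect (`commutator_eq_top`); the transvections generate a normal subgroup (`Herm.mul_tr`;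
`Subgroup.normalClosure`/closure of a conjugation-invariant set) containing the non-scalar `tv (Pi.single 0 1) c`.
-/

set_option autoImplicit false
set_option linter.unusedSectionVars false

namespace Cfsg.Agent.CJ

open Module Matrix Cfsg Cfsg.Agent.Class.U Cfsg.Agent.KSG

variable {F : Type*} [Field F] {q : ℕ} [hU : UF F q] {m : ℕ}

local notation "σ" => conj F q
local notation "𝐡" => hermForm m F q

theorem Hyp.ne (hy : Hyp q m) : ¬ (2 * m + 1 = 3 ∧ q = 2) := by
  rintro ⟨h, rfl⟩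
  have := hy.2
  rw [h] at this
  exact absurd this (by decide)

theorem br_equiv : ∃ e : Sp F m ≃ₗ[F] (Fin (2 * m + 1) → F),
    ∀ x y, hermForm (2 * m + 1) F q (e x) (e y) = (fm F q m).f x y := by
  obtain ⟨y, hy⟩ := exists_norm_eq (q := q) (μ := (-1 : F)) (by simp)
  have hθ := th_spec (F := F) (q := q)
  let ε : Fin (2 * m + 1) ≃ Fin m ⊕ Unit ⊕ Fin m := Fintype.equivOfCardEq (by simp; omega)
  let f : Sp F m →ₗ[F] (Fin (2 * m + 1) → F) :=
    { toFun := fun x j => Sum.elim (fun i => x.1 i + th F q * x.2.2 i)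
        (Sum.elim (fun _ => x.2.1) (fun i => y * (x.1 i - σ (th F q) * x.2.2 i))) (ε j)
      map_add' := fun a b => by
        funext j
        simp only [Pi.add_apply]
        rcases ε j with i | i | i <;> simp <;> ring
      map_smul' := fun c a => by
        funext j
        simp only [Pi.smul_apply]
        rcases ε j with i | i | i <;> simp <;> ring }
  have hf : ∀ a b, hermForm (2 * m + 1) F q (f a) (f b) = (fm F q m).f a b := by
    intro a b
    rw [herm_eq, fm_f, herm_eq, herm_eq]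
    have := ε.sum_comp (fun k => Sum.elim (fun i => a.1 i + th F q * a.2.2 i)
        (Sum.elim (fun _ => a.2.1) (fun i => y * (a.1 i - σ (th F q) * a.2.2 i))) k *
      σ (Sum.elim (fun i => b.1 i + th F q * b.2.2 i)
        (Sum.elim (fun _ => b.2.1) (fun i => y * (b.1 i - σ (th F q) * b.2.2 i))) k))
    refine this.trans ?_
    simp only [Fintype.sum_sum_type, Sum.elim_inl, Sum.elim_inr, Finset.univ_unique,
      Finset.sum_singleton]
    rw [add_left_comm, add_right_comm, add_comm _ (a.2.1 * _), ← Finset.sum_add_distrib,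
      ← Finset.sum_add_distrib]
    congr 1
    refine Finset.sum_congr rfl fun i _ => ?_
    simp only [map_add, map_mul, map_sub, conj_conj]
    linear_combination ((a.1 i - σ (th F q) * a.2.2 i) * (σ (b.1 i) - th F q * σ (b.2.2 i))) * hy +
      (a.1 i * σ (b.2.2 i) + a.2.2 i * σ (b.1 i)) * hθ
  have hi : Function.Injective f := by
    rw [← LinearMap.ker_eq_bot, eq_bot_iff]
    intro x hx
    refine (fm F q m).nondeg x fun z => ?_
    rw [← hf, LinearMap.mem_ker.1 hx, herm_zero_left]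
  refine ⟨LinearMap.linearEquivOfInjective f hi (by simp; omega), hf⟩

/-- The determinant. -/
noncomputable def brD (g : Ga F q m) : F := LinearMap.det (g.1 : Sp F m →ₗ[F] Sp F m)

theorem brD_mul (g h : Ga F q m) : brD (g * h) = brD g * brD h := by
  rw [brD, brD, brD, ← map_mul]
  rfl

theorem brD_sc {z : F} (hz : z * σ z = 1) : brD (sc q m z) = z ^ (2 * m + 1) := by
  have : ((sc q m z).1 : Sp F m →ₗ[F] Sp F m) = z • LinearMap.id :=
    LinearMap.ext fun x => (fm F q m).sc_app hz x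
  rw [brD, this, LinearMap.det_smul, LinearMap.det_id, mul_one]
  congr 1
  simp
  omega

theorem br_mat {e : Sp F m ≃ₗ[F] (Fin (2 * m + 1) → F)}
    (he : ∀ x y, hermForm (2 * m + 1) F q (e x) (e y) = (fm F q m).f x y) (g : Ga F q m) :
    ∃ M : Matrix (Fin (2 * m + 1)) (Fin (2 * m + 1)) F, Pres q M ∧ M.det = brD g ∧
      ∀ x, M *ᵥ e x = e (g.1 x) := by
  have h3 : ∀ x, LinearMap.toMatrix' ((e : Sp F m →ₗ[F] _) ∘ₗ (g.1 : Sp F m →ₗ[F] Sp F m) ∘ₗ
      (e.symm : _ →ₗ[F] Sp F m)) *ᵥ e x = e (g.1 x) := by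
    intro x
    rw [LinearMap.toMatrix'_mulVec]
    simp
  refine ⟨_, fun u v => ?_, ?_, h3⟩
  · obtain ⟨x, rfl⟩ := e.surjective u
    obtain ⟨y, rfl⟩ := e.surjective v
    rw [h3, h3, he, he, Herm.iso_f]
  · rw [LinearMap.det_toMatrix', LinearMap.det_conj, brD]

theorem brD_norm (g : Ga F q m) : brD g * σ (brD g) = 1 := by
  obtain ⟨e, he⟩ := br_equiv (F := F) (q := q) (m := m)
  obtain ⟨M, h1, h2, -⟩ := br_mat he g
  rw [← h2]
  exact h1.det_mul_conj

theorem br_lift {π : Ga F q m →* PSU (2 * m + 1) F q}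
    (hπ : ∀ g, π g = 1 ↔ ∃ z : F, z * σ z = 1 ∧ g = sc q m z) (N : Subgroup (Ga F q m))
    (hZ : ∀ z : F, z * σ z = 1 → sc q m z ∈ N) (h : N.map π = ⊤) : N = ⊤ := by
  rw [eq_top_iff]
  intro g _
  obtain ⟨k, hk, e⟩ : π g ∈ N.map π := h ▸ Subgroup.mem_top _
  obtain ⟨z, hz, e'⟩ := (hπ (k⁻¹ * g)).1 (by rw [map_mul, map_inv, e, inv_mul_cancel])
  have := N.mul_mem hk (e' ▸ hZ z hz)
  rwa [mul_inv_cancel_left] at this

theorem br_partner {b : Fin m → F} (hb : b ≠ 0) : ∃ w, 𝐡 w b = 1 ∧ 𝐡 b w = 1 := by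
  obtain ⟨v, hv⟩ := exists_herm_ne_zero (q := q) hb
  have hv' := herm_comm_ne hv
  have h1 : 𝐡 ((𝐡 v b)⁻¹ • v) b = 1 := by rw [herm_smul_left, inv_mul_cancel₀ hv']
  exact ⟨_, h1, herm_comm_one h1⟩

theorem exists_pi (hy : Hyp q m) : ∃ π : Ga F q m →* PSU (2 * m + 1) F q,
    Function.Surjective π ∧ ∀ g, π g = 1 ↔ ∃ z : F, z * σ z = 1 ∧ g = sc q m z := by
  obtain ⟨e, he⟩ := br_equiv (F := F) (q := q) (m := m)
  obtain ⟨k, hk⟩ : ∃ k : ℕ, q + 1 ∣ (2 * m + 1) * k + 1 := by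
    have h2 := two_le_q F q
    obtain ⟨k, hk⟩ := Nat.exists_mul_mod_eq_one_of_coprime hy.2 (by omega)
    refine ⟨k * q, ?_⟩
    have e1 : (2 * m + 1) * k = (q + 1) * ((2 * m + 1) * k / (q + 1)) + 1 := by
      conv_lhs => rw [← Nat.div_add_mod ((2 * m + 1) * k) (q + 1)]
      rw [hk.2]
    refine ⟨((2 * m + 1) * k / (q + 1)) * q + 1, ?_⟩
    rw [← mul_assoc, e1, Nat.mul_add_div (by omega), Nat.div_eq_of_lt (by omega : 1 < q + 1)]
    ring
  have hn : ∀ g : Ga F q m, brD g ^ k * σ (brD g ^ k) = 1 := fun g => by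
    rw [map_pow, ← mul_pow, brD_norm, one_pow]
  have hex : ∀ g : Ga F q m, ∃ s : SU (2 * m + 1) F q, ∀ x, s • e x = brD g ^ k • e (g.1 x) := by
    intro g
    obtain ⟨M, h1, h2, h3⟩ := br_mat he g
    have h4 : Pres q (brD g ^ k • M) := by
      have := (pres_scalar (n := 2 * m + 1) (hn g)).mul h1
      rwa [smul_mul_assoc, one_mul] at this
    refine ⟨mkSU _ h4 ?_, fun x => by rw [mkSU_smul, smul_mulVec, h3]⟩
    obtain ⟨j, hj⟩ := hk
    rw [det_smul, h2, Fintype.card_fin, ← pow_mul, ← pow_succ, mul_comm k, hj, pow_mul,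
      ← mul_conj_eq_pow, brD_norm, one_pow]
  choose ψ hψ using hex
  let ψ' : Ga F q m →* SU (2 * m + 1) F q := MonoidHom.mk' ψ fun a b => SU_ext fun v => by
    obtain ⟨x, rfl⟩ := e.surjective v
    rw [mul_smul, hψ, hψ, SU_smul_comm, hψ, brD_mul, mul_pow, smul_smul, mul_comm (brD b ^ k), Herm.mul_app]
  refine ⟨(QuotientGroup.mk' _).comp ψ', ?_, fun g => ?_⟩
  · refine (QuotientGroup.mk'_surjective _).comp fun s => ?_
    let f : Sp F m →ₗ[F] Sp F m := (e.symm : _ →ₗ[F] Sp F m) ∘ₗ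
      (Matrix.toLin' ((s : Matrix.SpecialLinearGroup (Fin (2 * m + 1)) F) :
        Matrix (Fin (2 * m + 1)) (Fin (2 * m + 1)) F)) ∘ₗ (e : Sp F m →ₗ[F] _)
    have hf : ∀ x, e (f x) = s • e x := fun x => by
      simp [f, SU_smul_def]
    have hi : ∀ x y, (fm F q m).f (f x) (f y) = (fm F q m).f x y := fun x y => by
      rw [← he, hf, hf, SU_herm, he]
    obtain ⟨M, -, h2, h3⟩ := br_mat he ((fm F q m).el f)
    have hd : brD ((fm F q m).el f) = 1 := by
      rw [← h2]
      refine SU_det_eq_one (g := s) fun v => ?_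
      obtain ⟨x, rfl⟩ := e.surjective v
      rw [h3, Herm.el_app _ hi, hf]
    refine ⟨(fm F q m).el f, SU_ext fun v => ?_⟩
    obtain ⟨x, rfl⟩ := e.surjective v
    change ψ _ • e x = _
    rw [hψ, hd, one_pow, one_smul, Herm.el_app _ hi, hf]
  · change (QuotientGroup.mk (ψ g) : PSU (2 * m + 1) F q) = 1 ↔ _
    rw [QuotientGroup.eq_one_iff, mem_center_iff (by have := hy.1; omega)]
    constructor
    · rintro ⟨c, hc⟩
      have h0 : brD g ^ k ≠ 0 := left_ne_zero_of_mul_eq_one (hn g)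
      have h1 : ∀ x, g.1 x = ((brD g ^ k)⁻¹ * c) • x := fun x => by
        apply e.injective
        rw [map_smul, mul_smul, ← hc, hψ, inv_smul_smul₀ h0]
      have h2 : ((brD g ^ k)⁻¹ * c) * σ ((brD g ^ k)⁻¹ * c) = 1 := by
        have := Herm.iso_f g (0, 1, 0) (0, 1, 0)
        rw [h1, Herm.smul_left, Herm.smul_right, fm_f] at this
        simpa [herm_zero_left] using this
      exact ⟨_, h2, Herm.iso_ext fun x => by rw [h1, Herm.sc_app _ h2]⟩
    · rintro ⟨z, hz, rfl⟩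
      refine ⟨brD (sc q m z) ^ k * z, fun v => ?_⟩
      obtain ⟨x, rfl⟩ := e.surjective v
      rw [hψ, Herm.sc_app _ hz, map_smul, smul_smul]

theorem sc_eq_one_of_comm (hy : Hyp q m) {g h : Ga F q m} {z : F} (hz : z * σ z = 1)
    (e : g * h = sc q m z * (h * g)) : z = 1 := by
  have h1 := congrArg brD e
  rw [brD_mul, brD_mul, brD_mul, brD_sc hz] at h1
  have hg : brD g ≠ 0 := left_ne_zero_of_mul_eq_one (brD_norm g)
  have hh : brD h ≠ 0 := left_ne_zero_of_mul_eq_one (brD_norm h)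
  have h2 : z ^ (2 * m + 1) = 1 := by
    apply mul_right_cancel₀ (mul_ne_zero hg hh)
    linear_combination -h1
  rw [mul_conj_eq_pow] at hz
  exact (pow_eq_one_iff_of_coprime hy.2).1 ⟨h2, hz⟩

theorem normal_top (hy : Hyp q m) (N : Subgroup (Ga F q m)) [N.Normal]
    (hZ : ∀ z : F, z * σ z = 1 → sc q m z ∈ N)
    (h : ∃ g ∈ N, ∀ z : F, z * σ z = 1 → g ≠ sc q m z) : N = ⊤ := by
  obtain ⟨π, hs, hπ⟩ := exists_pi (F := F) hy
  have := isSimpleGroup_PSU (F := F) (q := q) (n := 2 * m + 1) (by have := hy.1; omega) hy.ne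
  rcases (Subgroup.Normal.map ‹N.Normal› π hs).eq_bot_or_eq_top with h1 | h1
  · obtain ⟨g, hg, hg'⟩ := h
    have : π g ∈ N.map π := Subgroup.mem_map_of_mem π hg
    rw [h1, Subgroup.mem_bot] at this
    obtain ⟨z, hz, e⟩ := (hπ g).1 this
    exact absurd e (hg' z hz)
  · exact br_lift hπ N hZ h1

theorem hom_eq_one (hy : Hyp q m) {C : Type*} [CommMonoid C] (φ : Ga F q m →* C)
    (hZ : ∀ z : F, z * σ z = 1 → φ (sc q m z) = 1) (g : Ga F q m) : φ g = 1 := by
  obtain ⟨π, hs, hπ⟩ := exists_pi (F := F) hy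
  have h1 : commutator (PSU (2 * m + 1) F q) = ⊤ := by
    have := map_commutator_eq (SU (2 * m + 1) F q)
      (QuotientGroup.mk' (Subgroup.center (SU (2 * m + 1) F q)))
    rw [commutator_eq_top (by have := hy.1; omega) hy.ne, ← MonoidHom.range_eq_map,
      MonoidHom.range_eq_top_of_surjective _ (QuotientGroup.mk'_surjective _)] at this
    exact this.symm
  have h2 : φ.toHomUnits.ker = ⊤ := by
    refine br_lift hπ _ (fun z hz => ?_) ?_
    · rw [MonoidHom.mem_ker]
      exact Units.ext (hZ z hz)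
    · rw [eq_top_iff, ← h1]
      have := map_commutator_eq (Ga F q m) π
      rw [MonoidHom.range_eq_top_of_surjective _ hs] at this
      rw [commutator_def, ← this]
      exact Subgroup.map_mono (Abelianization.commutator_subset_ker _)
  have h3 : g ∈ φ.toHomUnits.ker := h2 ▸ Subgroup.mem_top g
  exact congrArg Units.val (MonoidHom.mem_ker.1 h3)

theorem tr_gen (hy : Hyp q m) (H : Subgroup (Ga F q m)) (hZ : ∀ z : F, z * σ z = 1 → sc q m z ∈ H)
    (htr : ∀ (e : Sp F m) (c : F), (fm F q m).f e e = 0 → c + σ c = 0 → (fm F q m).tr e c ∈ H) :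
    H = ⊤ := by
  refine eq_top_iff.2 ((normal_top hy H.normalCore (fun z hz b => ?_) ?_).ge.trans H.normalCore_le)
  · rw [← Herm.sc_comm _ hz, mul_inv_cancel_right]
    exact hZ z hz
  · obtain ⟨c, c0, hc⟩ := exists_trace_zero F q
    let i : Fin m := ⟨0, hy.1⟩
    have h0 : (fm F q m).f (Pi.single i 1, 0, 0) (Pi.single i 1, 0, 0) = 0 := by
      simp [fm_f, herm_zero_left, herm_zero_right]
    refine ⟨(fm F q m).tr (Pi.single i 1, 0, 0) c, fun b => ?_, fun z hz e => ?_⟩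
    · rw [Herm.mul_tr _ b h0 hc, mul_inv_cancel_right]
      exact htr _ c (by rw [Herm.iso_f, h0]) hc
    · have h1 := Herm.tr_app _ h0 hc (0, 0, Pi.single i 1)
      rw [e, Herm.sc_app _ hz] at h1
      have h2 := congrFun (congrArg Prod.fst h1) i
      simp [fm_f, herm_zero_left, herm_single_single] at h2
      exact c0 h2.symm

/-- An isotropic vector with `b ≠ 0` is moved to `(0,0,b)` by the unipotent radical: `u = σ s • w` (`𝐡 w b = 1`) kills the middle
coordinate, giving `(a', 0, b)` with `𝐡 a' b + 𝐡 b a' = 0`; `S₀ = ou a' w - ou w a' + 𝐡 b a' • ou w w` is skew with `S₀ b = a'`; take `S = -S₀`. -/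
theorem exists_move_iso {e : Sp F m} (he : (fm F q m).f e e = 0) (hb : e.2.2 ≠ 0) :
    ∃ (u : Fin m → F) (S : Matrix (Fin m) (Fin m) F), cT q S = -S ∧
      (up q S * hs q u).1 e = (0, 0, e.2.2) := by
  obtain ⟨w, h1, h2⟩ := br_partner (q := q) hb
  have hu : 𝐡 e.2.2 (σ e.2.1 • w) = e.2.1 := by rw [herm_smul_right, conj_conj, h2, mul_one]
  obtain ⟨a, ha⟩ : ∃ a, (hs q (σ e.2.1 • w)).1 e = (a, 0, e.2.2) :=
    ⟨_, by rw [hs_app, hu, sub_self]⟩
  have h3 := Herm.iso_f (hs q (σ e.2.1 • w)) e e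
  rw [ha, he, fm_f] at h3
  have h4 : σ (𝐡 e.2.2 a) = -𝐡 e.2.2 a := by
    rw [herm_conj]
    simp only [zero_mul, add_zero] at h3
    linear_combination h3
  have hS : cT q (ou q w a - ou q a w - 𝐡 e.2.2 a • ou q w w) =
      -(ou q w a - ou q a w - 𝐡 e.2.2 a • ou q w w) := by
    rw [cT_sub, cT_sub, cT_smul, cT_ou, cT_ou, cT_ou, h4, neg_smul]
    abel
  refine ⟨σ e.2.1 • w, _, hS, ?_⟩
  rw [Herm.mul_app, ha, up_app hS]
  simp only [sub_mulVec, smul_mulVec, ou_mulVec, h2, one_smul]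
  congr 1
  abel

/-- Generation: an isotropic `e = (a,s,b)` with `b = 0` has `s = 0` (`tv_eq_tr`); otherwise move it to `(0,0,b)` and by `nn w b` to `(w,0,0)`
(`Herm.mul_tr`); scalars by `sc_eq`; conclude by `tr_gen`. -/
theorem gen_top (hy : Hyp q m) (H : Subgroup (Ga F q m))
    (h1 : ∀ X, IsUnit X.det → lev q X ∈ H) (h2 : ∀ S, cT q S = -S → up q S ∈ H)
    (h3 : ∀ u, hs q u ∈ H) (h4 : ∀ z : F, z * σ z = 1 → rr q m z ∈ H)
    (h5 : ∀ w w', 𝐡 w w' = 1 → nn q w w' ∈ H) : H = ⊤ := by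
  have h6 : ∀ (w : Fin m → F) (c : F), c + σ c = 0 → (fm F q m).tr (w, 0, 0) c ∈ H := by
    intro w c hc
    rw [← tv_eq_tr w hc]
    exact h2 _ (skew_tv w hc)
  refine tr_gen hy H (fun z hz => ?_) fun e c he hc => ?_
  · rw [sc_eq hz]
    refine H.mul_mem (h1 _ ?_) (h4 z hz)
    rw [det_smul, det_one, mul_one]
    exact (pow_ne_zero _ (left_ne_zero_of_mul_eq_one hz)).isUnit
  · by_cases hb : e.2.2 = 0
    · obtain ⟨a, s, b⟩ := e
      simp only at hb
      subst hb
      have hs : s = 0 := by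
        simpa [fm_f, herm_zero_left, herm_zero_right] using he
      subst hs
      exact h6 a c hc
    · obtain ⟨u, S, hS, e1⟩ := exists_move_iso he hb
      obtain ⟨w, w1, w2⟩ := br_partner (q := q) hb
      have hg : nn q w e.2.2 * (up q S * hs q u) ∈ H :=
        H.mul_mem (h5 _ _ w1) (H.mul_mem (h2 S hS) (h3 u))
      have e2 : (nn q w e.2.2 * (up q S * hs q u)).1 e = (w, 0, 0) := by
        rw [Herm.mul_app, e1, nn_app w1]
        simp [w2, herm_zero_left]
      have e3 := Herm.mul_tr _ (nn q w e.2.2 * (up q S * hs q u)) he hc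
      rw [e2] at e3
      rw [← H.mul_mem_cancel_left hg, e3]
      exact H.mul_mem (h6 w c hc) hg

end Cfsg.Agent.CJ
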