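import Cfsg.Agent.CJ.RelA

/-!
S4793: an isometry of an odd-dimensional Hermitian space has a nondegenerate cyclic primary invariant subspace of odd dimension.
Write `T = g.1.toLinearMap`, `p(T) = aeval T p`. The adjoint of `p(T)` is `p̄(T⁻¹)` (`p̄ = p.map σ`), again a polynomial in `T` (`T⁻¹` is a power of `T`): for all `p` there is `p'` with `β (p(T) x) y = β x (p'(T) y)`, and conversely.
Take a `T`-invariant submodule `U`, nondegenerate (`∀ x ∈ U, (∀ y ∈ U, β x y = 0) → x = 0`), of odd dimension, with minimal dimension (`⊤` qualifies). For an invariant nondegenerate `U' ≤ U`, `U' ⊕ (U ⊓ U'^⊥) = U` with `U ⊓ U'^⊥` invariant and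
nondegenerate, one of the two has odd dimension, so `U' = ⊥` or `U' = U`. Let `f` be a monic irreducible factor of the minimal polynomial `f^k g` (`f ∤ g`) of `T|U`, `φ = f(T)`, `U₁ = U ⊓ ker φ^k ≠ 0`, `U₂ = φ^k U`, `U = U₁ ⊕ U₂` (Bezout); the adjoint is `φ* = p'(T)`.
If `f ∣ p'`, `φ*^k` kills `U₁`, so `U₁ ⊥ U₂`, `U₁` is nondegenerate and `U = U₁`. Otherwise `p'` is coprime to `f`, `φ*` is bijective on `U₁`, so `U₁ = φ*^k U₁` is totally isotropic; `U₁* = U ⊓ ker φ*^k = U ⊓ U₂^⊥` has the dimension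
of `U₁`, meets `U₁` trivially, so `U₁* = φ^k U₁* ≤ U₂` is totally isotropic, and `U₁ ⊕ U₁*` is invariant, nondegenerate (`x + y ⊥ U₁*` gives `x ∈ U ⊓ (U ⊓ U₂^⊥)^⊥ = U₂`, `x = 0`; then `y ⊥ U₁, U₂`), of even dimension `≠ 0`: contradiction.
So `f(T)` is nilpotent on `U`; let `j ≥ 1` be least with `f(T)^j U = 0`; the sesquilinear form
`β x (f(T)^(j-1) y)` on `U` is nonzero, so by polarisation (`x + λ y`, two values of `λ` with `σλ ≠ λ`) some `v ∈ U` has `β v (f(T)^(j-1) v) ≠ 0`. The annihilator of `v` is `(f^j)`; the radical of `F[T] v` is invariant, and if nonzero it contains `f(T)^(j-1) v`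
(`p = f^i p₁`, `p₁` coprime to `f`, Bezout): so `F[T] v` is nondegenerate, `= U`, of dimension `deg f * j` (`AdjoinRoot`/quotient iso, or basis `T^i v`). Any other route is fine. May be split.
-/

set_option autoImplicit false
set_option linter.unusedSectionVars false

namespace Cfsg.Agent.CJ

open Module Matrix Cfsg Cfsg.Agent.Class.U Cfsg.Agent.KSG

variable {F : Type*} [Field F] {q : ℕ} [hU : UF F q] {m : ℕ}

local notation "σ" => conj F q
local notation "𝐡" => hermForm m F q

section

open Polynomial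

universe u

theorem c1_perp {V : Type*} [AddCommGroup V] [Module F V] [FiniteDimensional F V] (β : Herm F q V)
    (U P : Submodule F V) (hP : ∀ x, x ∈ P ↔ ∀ y ∈ U, β.f x y = 0) : finrank F V ≤ finrank F U + finrank F P := by
  let b := Module.finBasis F U
  let L : V →ₗ[F] (Fin (finrank F U) → F) := LinearMap.pi fun i => β.lf (b i)
  have h1 := L.finrank_range_add_finrank_ker
  have h2 := (Submodule.finrank_le (LinearMap.range L)).trans_eq (finrank_fin_fun F)
  have h3 : LinearMap.ker L ≤ P := fun x hx => (hP x).2 fun y hy => by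
    have k : ∀ y : U, β.f x y = 0 := fun y => by
      refine Submodule.span_induction (p := fun y : U => fun _ => β.f x y = 0) ?_ (β.zero_right x) ?_ ?_ (b.mem_span y)
      · rintro _ ⟨i, rfl⟩
        exact congrFun (LinearMap.mem_ker.1 hx) i
      · intro a b _ _ ha hb
        rw [Submodule.coe_add, β.add_right, ha, hb, add_zero]
      · intro c a _ ha
        rw [Submodule.coe_smul, β.smul_right, ha, mul_zero]
    exact k ⟨y, hy⟩
  have := Submodule.finrank_mono h3
  omega

variable {V : Type u} [AddCommGroup V] [Module F V] [Module F[X] V] [IsScalarTower F F[X] V]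
  [FiniteDimensional F V] {β : Herm F q V}

variable (β) in
/-- `p'` is the adjoint of `p` -/
def Adj (p p' : F[X]) : Prop := ∀ x y : V, β.f (p • x) y = β.f x (p' • y)

theorem Adj.symm {p p' : F[X]} (h : Adj β p p') : Adj β p' p := fun x y => by
  rw [← β.conj_f, ← h, β.conj_f]

theorem Adj.mul {p p' r r' : F[X]} (h : Adj β p p') (k : Adj β r r') : Adj β (p * r) (p' * r') := fun x y => by
  rw [mul_smul, h, k, mul_comm p', mul_smul]

theorem Adj.pow {p p' : F[X]} (h : Adj β p p') (n : ℕ) : Adj β (p ^ n) (p' ^ n) := by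
  induction n with
  | zero => intro x y; simp
  | succ n ih => rw [pow_succ, pow_succ]; exact ih.mul h

variable (β) in
/-- nondegenerate -/
def ND (U : Submodule F[X] V) : Prop := ∀ x ∈ U, (∀ y ∈ U, β.f x y = 0) → x = 0

theorem c1_fit (I : ∀ U, ND β U → U = ⊥ ∨ U = ⊤) {p p' : F[X]} (h : Adj β p p') (hd : p ∣ p') {x : V}
    (x0 : x ≠ 0) (hx : p • x = 0) : ∃ N, ∀ x : V, p ^ N • x = 0 := by
  have : IsArtinian F[X] V := isArtinian_of_tower F inferInstance
  obtain ⟨N, hN⟩ := Filter.eventually_atTop.1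
    (LinearMap.eventually_codisjoint_ker_pow_range_pow (algebraMap F[X] (End F[X] V) p))
  have h1 := hN (N + 1) N.le_succ
  rw [← map_pow, codisjoint_iff] at h1
  refine ⟨N + 1, fun y => ?_⟩
  rcases I (Submodule.torsionBy F[X] V (p ^ (N + 1))) (fun k hk h2 => β.nondeg k fun y => by
    obtain ⟨a, ha, _, ⟨b, rfl⟩, rfl⟩ := Submodule.mem_sup.1 (h1.ge (Submodule.mem_top (x := y)))
    obtain ⟨c, rfl⟩ := hd
    rw [β.add_right, h2 a ha, algebraMap_end_apply, ← (h.pow _).symm, mul_pow, mul_comm (p ^ _), mul_smul,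
      (Submodule.mem_torsionBy_iff _ _).1 hk, smul_zero, β.zero_left, add_zero]) with e | e
  · exact absurd ((Submodule.eq_bot_iff _).1 e x ((Submodule.mem_torsionBy_iff _ _).2
      (by rw [pow_succ, mul_smul, hx, smul_zero]))) x0
  · exact (Submodule.mem_torsionBy_iff _ _).1 (e.ge Submodule.mem_top)

theorem c1_top {p p' : F[X]} (hc : IsCoprime p p') (h0 : ∀ x : V, (p * p') • x = 0) (y : V) :
    ∃ a b : V, p • a = 0 ∧ p' • b = 0 ∧ (∃ z, a = p' • z) ∧ y = a + b := by
  obtain ⟨a, b, e⟩ := hc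
  exact ⟨p' • b • y, p • a • y, by rw [← mul_smul, h0], by rw [← mul_smul, mul_comm, h0], ⟨_, rfl⟩,
    by rw [← mul_smul, ← mul_smul, ← add_smul, add_comm, mul_comm p, mul_comm p', e, one_smul]⟩

theorem c1_le {p p' : F[X]} (h : Adj β p p') (hc : IsCoprime p p') (h0 : ∀ x : V, (p * p') • x = 0) :
    finrank F ((Submodule.torsionBy F[X] V p).restrictScalars F) ≤
      finrank F ((Submodule.torsionBy F[X] V p').restrictScalars F) := by
  let P : Submodule F V :=
    { carrier := {x | ∀ y ∈ (Submodule.torsionBy F[X] V p').restrictScalars F, β.f x y = 0}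
      add_mem' := fun ha hb y hy => by rw [β.add_left, ha y hy, hb y hy, add_zero]
      zero_mem' := fun y _ => β.zero_left y
      smul_mem' := fun c a ha y hy => by rw [β.smul_left, ha y hy, mul_zero] }
  have h1 := c1_perp β _ P fun _ => Iff.rfl
  have h2 := Submodule.finrank_add_finrank_le_of_disjoint
    (s := (Submodule.torsionBy F[X] V p).restrictScalars F) (t := P)
    (Submodule.disjoint_def.2 fun x hx hx' => β.nondeg x fun y => by
      obtain ⟨a, b, -, hb, ⟨z, rfl⟩, rfl⟩ := c1_top hc h0 y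
      rw [β.add_right, hx' b hb, ← h, show p • x = 0 from hx, β.zero_left, add_zero])
  omega

theorem c1_even {p p' : F[X]} (h : Adj β p p') (hc : IsCoprime p p') (h0 : ∀ x : V, (p * p') • x = 0) :
    Even (finrank F V) := by
  have h1 := c1_le h hc h0
  have h2 := c1_le h.symm hc.symm (by rwa [mul_comm])
  have h3 := Submodule.finrank_add_eq_of_isCompl (K := F)
    (U := (Submodule.torsionBy F[X] V p).restrictScalars F) (W := (Submodule.torsionBy F[X] V p').restrictScalars F)
    ⟨Submodule.disjoint_def.2 fun x hx hx' => by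
      obtain ⟨a, b, e⟩ := hc
      rw [← one_smul F[X] x, ← e, add_smul, mul_smul, mul_smul, show p • x = 0 from hx, show p' • x = 0 from hx',
        smul_zero, smul_zero, add_zero],
    codisjoint_iff.2 (eq_top_iff.2 fun y _ => by
      obtain ⟨a, b, ha, hb, -, rfl⟩ := c1_top hc h0 y
      exact Submodule.add_mem_sup ha hb)⟩
  exact ⟨_, by rw [← h3, le_antisymm h1 h2]⟩

theorem c1_f [Nontrivial V] : ∃ f : F[X], Irreducible f ∧ f.Monic ∧ ∃ x : V, x ≠ 0 ∧ f • x = 0 := by
  classical
  have k : ∀ p : F[X], p ≠ 0 → ∀ x : V, x ≠ 0 → p • x = 0 →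
      ∃ f : F[X], Irreducible f ∧ f.Monic ∧ ∃ x : V, x ≠ 0 ∧ f • x = 0 := fun p => by
    refine WfDvdMonoid.induction_on_irreducible p (fun h => absurd rfl h) (fun u hu _ x x0 hx => ?_)
      fun a i a0 hi ih _ x x0 hx => ?_
    · exact absurd (hu.smul_eq_zero.1 hx) x0
    · by_cases c : a • x = 0
      · exact ih a0 x x0 c
      · refine ⟨normalize i, (normalize_associated i).symm.irreducible hi, monic_normalize hi.ne_zero, _, c, ?_⟩
        rw [normalize_apply, mul_comm i, mul_smul, ← mul_smul i, hx, smul_zero]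
  obtain ⟨x, x0⟩ := exists_ne (0 : V)
  obtain ⟨p, hp, p0⟩ := (LinearMap.toSpanSingleton F[X] V x).restrictScalars F |>.ker.ne_bot_iff.1
    (fun e => Polynomial.not_finite (R := F) (Module.Finite.of_injective _ (LinearMap.ker_eq_bot.1 e)))
  exact k p p0 x x0 hp

theorem c1_pol {θ : F[X]} (h : ∀ v : V, β.f v (θ • v) = 0) (y : V) : θ • y = 0 := by
  obtain ⟨l, hl⟩ := exists_conj_ne (F := F) (q := q)
  have k : ∀ x y : V, β.f x (θ • y) + β.f y (θ • x) = 0 := fun x y => by
    have := h (x + y)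
    rw [smul_add, β.add_left, β.add_right, β.add_right, h, h] at this
    linear_combination this
  refine β.nondeg _ fun x => ?_
  have h1 := k (l • x) y
  rw [smul_comm θ l x, β.smul_left, β.smul_right] at h1
  have h2 : (σ l - l) * β.f x (θ • y) = 0 := by linear_combination σ l * k x y - h1
  rw [← β.conj_f, (mul_eq_zero.1 h2).resolve_left (sub_ne_zero.2 hl), map_zero]

theorem c1_bez {f p : F[X]} (hf : Irreducible f) {j : ℕ} (h : ¬ f ^ (j + 1) ∣ p) :
    ∃ a b, f ^ j = a * p + b * f ^ (j + 1) := by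
  obtain ⟨i, r, hr, rfl⟩ := WfDvdMonoid.max_power_factor (a₀ := p) (fun e => h (e ▸ dvd_zero _)) hf
  obtain ⟨k, rfl⟩ := Nat.exists_eq_add_of_le (show i ≤ j from
    not_lt.1 fun c => h ((pow_dvd_pow f c).mul_right r))
  obtain ⟨a, b, e⟩ := (hf.coprime_iff_not_dvd.2 hr).pow_left (m := i + k + 1)
  exact ⟨f ^ k * b, f ^ (i + k) * a, by linear_combination -f ^ (i + k) * e⟩

/-- the conclusion -/
def Cy (β : Herm F q V) : Prop :=
  ∃ (v : V) (f : F[X]) (j : ℕ), Irreducible f ∧ f.Monic ∧ 1 ≤ j ∧ Odd (f.natDegree * j) ∧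
    (∀ p : F[X], p • v = 0 ↔ f ^ j ∣ p) ∧
    ∀ p : F[X], (∀ p' : F[X], β.f (p • v) (p' • v) = 0) → p • v = 0

theorem c1_ind (H : ∀ p, ∃ p', Adj β p p') (I : ∀ U, ND β U → U = ⊥ ∨ U = ⊤) (hV : Odd (finrank F V)) :
    Cy β := by
  classical
  have : Nontrivial V := Module.nontrivial_of_finrank_pos hV.pos
  obtain ⟨f, hf, hm, x, x0, hx⟩ := c1_f (F := F) (V := V)
  have h1 : ∃ N, ∀ x : V, f ^ N • x = 0 := by
    obtain ⟨p', hp⟩ := H f
    by_cases c : f ∣ p'
    · exact c1_fit I hp c x0 hx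
    obtain ⟨N, hN⟩ := c1_fit I (hp.mul hp.symm) (mul_comm f p').dvd x0 (by rw [mul_comm, mul_smul, hx, smul_zero])
    exact absurd (c1_even (hp.pow N) (hf.coprime_iff_not_dvd.2 c).pow (by rwa [← mul_pow]))
      (Nat.not_even_iff_odd.2 hV)
  obtain ⟨j, hj⟩ : ∃ j, Nat.find h1 = j + 1 :=
    Nat.exists_eq_succ_of_ne_zero fun e => x0 (by simpa [e] using Nat.find_spec h1 x)
  have h2 : ∀ x : V, f ^ (j + 1) • x = 0 := hj ▸ Nat.find_spec h1
  obtain ⟨v, hv⟩ : ∃ v : V, β.f v (f ^ j • v) ≠ 0 :=
    by_contra fun n => Nat.find_min h1 (hj ▸ j.lt_succ_self) (c1_pol (β := β) fun v => by_contra fun e => n ⟨v, e⟩)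
  have h3 : ∀ p : F[X], (∀ p' : F[X], β.f (p • v) (p' • v) = 0) → f ^ (j + 1) ∣ p := fun p h => by_contra fun n => by
    obtain ⟨a, b, e⟩ := c1_bez hf n
    obtain ⟨a', ha⟩ := H a
    refine hv ?_
    rw [e, add_smul, mul_smul b, h2, smul_zero, add_zero, mul_smul, ← β.conj_f, ha, h, map_zero]
  have h4 : ∀ p : F[X], p • v = 0 ↔ f ^ (j + 1) ∣ p := fun p =>
    ⟨fun h => h3 p fun _ => by rw [h, β.zero_left], fun ⟨c, e⟩ => by rw [e, mul_smul, h2]⟩
  refine ⟨v, f, j + 1, hf, hm, by omega, ?_, h4, fun p h => (h4 p).2 (h3 p h)⟩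
  let L := LinearMap.toSpanSingleton F[X] V v
  rcases I (LinearMap.range L) (by
    rintro _ ⟨p, rfl⟩ h
    exact (h4 p).2 (h3 p fun p' => h _ ⟨p', rfl⟩)) with e | e
  · refine absurd ?_ hv
    rw [(Submodule.eq_bot_iff _).1 e (f ^ j • v) ⟨_, rfl⟩, β.zero_right]
  · have h5 : LinearMap.ker L = Ideal.span {f ^ (j + 1)} := Submodule.ext fun p => (h4 p).trans Ideal.mem_span_singleton.symm
    have := (((Submodule.quotEquivOfEq _ _ h5.symm).trans
      (L.quotKerEquivOfSurjective (LinearMap.range_eq_top.1 e))).restrictScalars F).finrank_eq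
    rwa [mul_comm, ← natDegree_pow, ← finrank_quotient_span_eq_natDegree, this]

/-- restriction of the form -/
def resH {U : Submodule F[X] V} (h : ND β U) : Herm F q U where
  f x y := β.f x y
  add_left x x' y := β.add_left x x' y
  smul_left c x y := β.smul_left c x y
  conj_f x y := β.conj_f x y
  nondeg x k := Subtype.ext (h x x.2 fun y hy => k ⟨y, hy⟩)

theorem c1_main (n : ℕ) : ∀ (V : Type u) [AddCommGroup V] [Module F V] [Module F[X] V] [IsScalarTower F F[X] V]
    [FiniteDimensional F V] (β : Herm F q V), (∀ p, ∃ p', Adj β p p') → finrank F V = n → Odd n → Cy β := by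
  induction n using Nat.strong_induction_on with
  | _ n ih =>
  intro V _ _ _ _ _ β H hn ho
  subst hn
  by_cases I : ∀ U, ND β U → U = ⊥ ∨ U = ⊤
  · exact c1_ind H I ho
  have k : ∀ U : Submodule F[X] V, ND β U → finrank F (U.restrictScalars F) < finrank F V →
      Odd (finrank F (U.restrictScalars F)) → Cy β := fun U hU h1 h2 => by
    have : FiniteDimensional F U := inferInstanceAs (FiniteDimensional F (U.restrictScalars F))
    obtain ⟨v, f, j, a, b, c, d, e, e'⟩ := ih _ h1 U (resH hU)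
      (fun p => (H p).imp fun p' h x y => h x y) rfl h2
    exact ⟨v, f, j, a, b, c, d, fun p => Iff.trans (by simp [Subtype.ext_iff]) (e p),
      fun p h => congrArg Subtype.val (e' p h)⟩
  push Not at I
  obtain ⟨U, hU, h0, h1⟩ := I
  let P : Submodule F[X] V :=
    { carrier := {x | ∀ y ∈ U, β.f x y = 0}
      add_mem' := fun ha hb y hy => by rw [β.add_left, ha y hy, hb y hy, add_zero]
      zero_mem' := fun y _ => β.zero_left y
      smul_mem' := fun c a ha y hy => by
        obtain ⟨c', h⟩ := H c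
        rw [h, ha _ (U.smul_mem c' hy)] }
  have h2 := c1_perp β (U.restrictScalars F) (P.restrictScalars F) fun _ => Iff.rfl
  have hd : Disjoint (U.restrictScalars F) (P.restrictScalars F) := Submodule.disjoint_def.2 hU
  have h3 := Submodule.finrank_add_finrank_le_of_disjoint hd
  have h4 := Submodule.eq_top_of_disjoint _ _ h2 hd
  have h5 : finrank F (U.restrictScalars F) < finrank F V :=
    Submodule.finrank_lt fun e => h1 ((Submodule.restrictScalars_eq_top_iff _ _ _).1 e)
  have h6 : finrank F (U.restrictScalars F) ≠ 0 :=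
    fun e => h0 ((Submodule.restrictScalars_eq_bot_iff _ _ _).1 (Submodule.finrank_eq_zero.1 e))
  rcases Nat.even_or_odd (finrank F (U.restrictScalars F)) with c | c
  · refine k P (fun x hx h => β.nondeg x fun y => ?_) (by omega) (by
      rw [← le_antisymm h3 h2] at ho
      exact (Nat.odd_add'.1 ho).2 c)
    obtain ⟨a, ha, b, hb, rfl⟩ := Submodule.mem_sup.1 (h4.ge (Submodule.mem_top (x := y)))
    rw [β.add_right, hx a ha, h b hb, add_zero]
  · exact k U hU h5 c

end

open Polynomial in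
theorem exists_cyclic {V : Type*} [AddCommGroup V] [Module F V] [FiniteDimensional F V]
    (β : Herm F q V) (hV : Odd (finrank F V)) (g : β.Iso) :
    ∃ (v : V) (f : F[X]) (j : ℕ), Irreducible f ∧ f.Monic ∧ 1 ≤ j ∧ Odd (f.natDegree * j) ∧
      (∀ p : F[X], aeval g.1.toLinearMap p v = 0 ↔ f ^ j ∣ p) ∧
      ∀ p : F[X], (∀ p' : F[X], β.f (aeval g.1.toLinearMap p v) (aeval g.1.toLinearMap p' v) = 0) →
        aeval g.1.toLinearMap p v = 0 := by
  let : Module F[X] V := Module.compHom V (aeval g.1.toLinearMap : F[X] →ₐ[F] End F V).toRingHom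
  have e : ∀ (p : F[X]) (x : V), p • x = aeval g.1.toLinearMap p x := fun _ _ => rfl
  have : IsScalarTower F F[X] V := ⟨fun c p x => by rw [e, e, map_smul, LinearMap.smul_apply]⟩
  have := hU.finite
  have : Finite V := Module.finite_of_finite F
  have eX : ∀ (n : ℕ) (x : V), (X ^ n : F[X]) • x = (g ^ n).1 x := fun n => by
    induction n with
    | zero => intro x; simp
    | succ n ih => intro x; rw [pow_succ, pow_succ, mul_smul, ih, Herm.mul_app, e, aeval_X]; rfl
  have hX : Adj β X (X ^ (orderOf g - 1)) := fun x y => by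
    rw [eX, ← Herm.iso_f g x, ← Herm.mul_app, ← pow_succ', Nat.sub_add_cancel (orderOf_pos g), pow_orderOf_eq_one,
      e, aeval_X]
    rfl
  refine c1_main _ V β (fun p => ?_) rfl hV
  induction p using Polynomial.induction_on' with
  | add p r hp hr =>
    obtain ⟨p', hp⟩ := hp
    obtain ⟨r', hr⟩ := hr
    exact ⟨p' + r', fun x y => by rw [add_smul, add_smul, β.add_left, β.add_right, hp, hr]⟩
  | monomial n a =>
    rw [← C_mul_X_pow_eq_monomial]
    refine ⟨_, Adj.mul (p' := C (σ a)) (fun x y => ?_) (hX.pow n)⟩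
    rw [← algebraMap_eq, algebraMap_smul, algebraMap_smul, β.smul_left, β.smul_right, conj_conj]

end Cfsg.Agent.CJ
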