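import Cfsg.Agent.CJ.Defs

/-!
S4793: the unitary elements of a finite chain ring with a semilinear involution.
`I i = π^i A`; `st` preserves the non-units `π A`, so `st π = π c`, and `st (I i) ⊆ I i`. `card (I i) = Q^(2(j-i))`, `Q = q^e` (`hfin`). For an `st`-stable `F`-submodule `I` the symmetric elements `I⁺` satisfy `card I = (card I⁺)²`
(`x = a + ω b`, `b = (ω - σω)⁻¹ (x - st x)`, `a = x - ω b`, `σω ≠ ω`). For `1 ≤ i ≤ j` the map `a ↦ a / st a` from the group `1 + I i` onto `H i = {h | h st h = 1, h - 1 ∈ I i}` is onto (`a = θ + σθ h`, `θ + σθ = 1`: `a = h * st a`, `a - 1 ∈ I i`)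
with kernel the symmetric elements: `card (H i) = Q^(j-i)`. For the whole `H = {h | h st h = 1}`: `a ↦ a / st a` from `Aˣ` is onto (for `h ∈ H`, among the elements `λ + σλ h`, `λ ∈ F`, one is a unit: if `1 + h` and `ω + σω h` are both in `π A` then so is
`(ω - σω)`), with kernel the symmetric units, `card Aˣ = Q^(2j) - Q^(2j-2)`, symmetric units `Q^j - Q^(j-1)`, so `card H = Q^(j-1) (Q+1)`. If `h - 1 ∈ I i ∖ I (i+1)` (`i < j`) then `h - 1 = π^i u` with `u` a unit and the kernel of the
multiplication has dimension `e j - e (j - i) = e i` (rank-nullity, range `= I i`); for `h = 1` it is `e j`. As `e, j` are odd, `(-q)^(e i) = (-Q)^i` and the sum is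
`(Q^(j-1)(Q+1) - Q^(j-1)) + ∑_{i=1}^{j-1} (-Q)^i (Q^(j-i) - Q^(j-i-1)) + (-Q)^j = Q^j + (Q^j - Q^(j-1)) ∑_{i=1}^{j-1} (-1)^i - Q^j = 0`.
-/

set_option autoImplicit false
set_option linter.unusedSectionVars false

namespace Cfsg.Agent.CJ

open Module Matrix Cfsg Cfsg.Agent.Class.U Cfsg.Agent.KSG

variable {F : Type*} [Field F] {q : ℕ} [hU : UF F q] {m : ℕ}

local notation "σ" => conj F q
local notation "𝐡" => hermForm m F q

section C2

open Finset Classical

variable {A : Type*} [CommRing A] [Algebra F A] [Fintype A] [DecidableEq A] {st : A →+* A}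

theorem c2_sq (hst : ∀ a, st (st a) = a) (hsF : ∀ c : F, st (algebraMap F A c) = algebraMap F A (σ c))
    {p : A} (hp : ∀ a, p ∣ a → p ∣ st a) :
    #{a : A | p ∣ a} = #{a : A | p ∣ a ∧ st a = a} ^ 2 := by
  obtain ⟨ω, hω⟩ := exists_conj_ne F q
  have n : ω - σ ω ≠ 0 := sub_ne_zero.2 hω.symm
  obtain ⟨w, hw⟩ : ∃ w, w = algebraMap F A ω := ⟨_, rfl⟩
  obtain ⟨d, hd⟩ : ∃ d, d = algebraMap F A (ω - σ ω)⁻¹ := ⟨_, rfl⟩
  have e1 : d * (w - st w) = 1 := by
    rw [hw, hsF, hd, ← map_sub, ← map_mul, inv_mul_cancel₀ n, map_one]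
  have e2 : st d = -d := by
    rw [hd, hsF, ← map_neg, map_inv₀, map_sub, conj_conj, ← neg_sub, inv_neg]
  rw [sq, ← card_product]
  symm
  refine card_nbij' (fun x => x.1 + w * x.2) (fun a => (a - w * (d * (a - st a)), d * (a - st a))) ?_ ?_ ?_ ?_
  · rintro ⟨a, b⟩ h
    simp only [coe_product, coe_filter, mem_univ, true_and, Set.mem_prod, Set.mem_ofPred_eq] at h ⊢
    exact h.1.1.add (h.2.1.mul_left _)
  · intro a h
    simp only [coe_product, coe_filter, mem_univ, true_and, Set.mem_prod, Set.mem_ofPred_eq] at h ⊢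
    have k := (dvd_sub h (hp a h)).mul_left d
    refine ⟨⟨dvd_sub h (k.mul_left _), ?_⟩, k, ?_⟩
    · simp only [map_sub, map_mul, hst, e2]
      linear_combination (a - st a) * e1
    · simp only [map_sub, map_mul, hst, e2]
      ring
  · rintro ⟨a, b⟩ h
    simp only [coe_product, coe_filter, mem_univ, true_and, Set.mem_prod, Set.mem_ofPred_eq] at h
    simp only [map_add, map_mul, h.1.2, h.2.2, Prod.mk.injEq]
    exact ⟨by linear_combination (-w * b) * e1, by linear_combination b * e1⟩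
  · intro a _
    simp

theorem c2_fib (hst : ∀ a, st (st a) = a) {p : A} (hp : ∀ a, p ∣ a → p ∣ st a)
    (hex : ∀ h, h * st h = 1 → p ∣ h - 1 → ∃ a, IsUnit a ∧ p ∣ a - 1 ∧ a = h * st a) :
    #{a : A | IsUnit a ∧ p ∣ a - 1} =
      #{h : A | h * st h = 1 ∧ p ∣ h - 1} * #{a : A | (IsUnit a ∧ p ∣ a - 1) ∧ st a = a} := by
  have k : ∀ a h : A, IsUnit a → (a * Ring.inverse (st a) = h ↔ a = h * st a) := fun a h ha => by
    have := Ring.inverse_mul_cancel _ (ha.map st)
    exact ⟨fun e => by rw [← e, mul_assoc, this, mul_one], fun e => by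
      linear_combination Ring.inverse (st a) * e + h * this⟩
  have hp1 : ∀ a, p ∣ a - 1 → p ∣ st a - 1 := fun a ha => by simpa using hp _ ha
  rw [card_eq_sum_card_fiberwise (f := fun a => a * Ring.inverse (st a))
    (t := {h : A | h * st h = 1 ∧ p ∣ h - 1}), sum_const_nat]
  · intro h hh
    simp only [mem_filter, mem_univ, true_and] at hh
    obtain ⟨a0, u0, d0, e0⟩ := hex h hh.1 hh.2
    symm
    refine card_bij (fun s _ => a0 * s) ?_ ?_ ?_
    · intro s hs
      simp only [mem_filter, mem_univ, true_and] at hs ⊢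
      refine ⟨⟨u0.mul hs.1.1, ?_⟩, (k _ _ (u0.mul hs.1.1)).2 ?_⟩
      · rw [show a0 * s - 1 = (a0 - 1) * s + (s - 1) by ring]
        exact (d0.mul_right _).add hs.1.2
      · rw [map_mul, hs.2, ← mul_assoc, ← e0]
    · intro s _ t _ e
      exact u0.mul_left_cancel e
    · intro a ha
      simp only [mem_filter, mem_univ, true_and] at ha
      obtain ⟨s, rfl⟩ := u0.dvd (a := a)
      have e := (k _ _ ha.1.1).1 ha.2
      rw [map_mul, ← mul_assoc, ← e0] at e
      refine ⟨s, ?_, rfl⟩
      simp only [mem_filter, mem_univ, true_and]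
      refine ⟨⟨isUnit_of_mul_isUnit_right ha.1.1, u0.dvd_mul_left.1 ?_⟩, (u0.mul_left_cancel e).symm⟩
      rw [show a0 * (s - 1) = (a0 * s - 1) - (a0 - 1) by ring]
      exact dvd_sub ha.1.2 d0
  · intro a ha
    simp only [coe_filter, mem_univ, true_and, Set.mem_ofPred_eq] at ha ⊢
    have e := (k a _ ha.1).1 rfl
    generalize a * Ring.inverse (st a) = h at e
    have e' := congrArg st e
    rw [map_mul, hst] at e'
    refine ⟨ha.1.mul_left_cancel (by linear_combination (-1) * e - h * e'), (ha.1.map st).dvd_mul_left.1 ?_⟩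
    rw [show st a * (h - 1) = (h * st a - 1) - (st a - 1) by ring, ← e]
    exact dvd_sub ha.2 (hp1 a ha.2)

end C2

theorem chain_sum {A : Type*} [CommRing A] [Algebra F A] [Fintype A] [DecidableEq A] (st : A →+* A)
    (hst : ∀ a, st (st a) = a) (hsF : ∀ c : F, st (algebraMap F A c) = algebraMap F A (σ c))
    (π : A) {e j : ℕ} (hj : 1 ≤ j) (hodd : Odd (e * j)) (hu : ∀ a : A, IsUnit a ∨ π ∣ a)
    (hπ : ¬ IsUnit π) (hπj : π ^ j = 0)
    (hfin : ∀ i ≤ j, finrank F (LinearMap.range (LinearMap.mulLeft F (π ^ i))) = e * (j - i)) :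
    ∑ h ∈ Finset.univ.filter (fun h : A => h * st h = 1),
      (-(q : ℂ)) ^ finrank F (LinearMap.ker (LinearMap.mulLeft F (h - 1))) = 0 := by
  classical
  have := hU.finite
  have q2 := two_le_q F q
  obtain ⟨oe, oj⟩ := Nat.odd_mul.1 hodd
  obtain ⟨Q, hQ⟩ : ∃ Q, Q = q ^ e := ⟨_, rfl⟩
  have Q2 : 1 < Q := hQ ▸ Nat.one_lt_pow oe.pos.ne' q2
  have nu : ∀ a, π ∣ a → ¬ IsUnit a := fun a h u => hπ (isUnit_of_dvd_unit h u)
  have u1 : ∀ a b, IsUnit a → π ∣ b → IsUnit (a + b) := fun a b ha hb =>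
    (hu _).resolve_right fun h => nu a ((dvd_add_left hb).1 h) ha
  have sπ : π ∣ st π := (hu _).resolve_left fun u => hπ (hst π ▸ u.map st)
  have hp : ∀ i a, π ^ i ∣ a → π ^ i ∣ st a := fun i a h =>
    (pow_dvd_pow_of_dvd sπ i).trans (map_pow st π i ▸ map_dvd st h)
  have cI : ∀ i ≤ j, (Finset.univ.filter fun a : A => π ^ i ∣ a).card = (Q ^ (j - i)) ^ 2 := fun i hi => by
    have k := Module.natCard_eq_pow_finrank (K := F) (V := LinearMap.range (LinearMap.mulLeft F (π ^ i)))
    rw [hfin i hi, hU.card_eq] at k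
    rw [hQ, show ((q ^ e) ^ (j - i)) ^ 2 = (q ^ 2) ^ (e * (j - i)) by ring, ← k, ← Fintype.card_subtype,
      ← Nat.card_eq_fintype_card]
    exact Nat.card_congr (Equiv.subtypeEquivRight fun a => ⟨fun ⟨c, e⟩ => ⟨c, e.symm⟩, fun ⟨c, e⟩ => ⟨c, e.symm⟩⟩)
  have cS : ∀ i ≤ j, (Finset.univ.filter fun a : A => π ^ i ∣ a ∧ st a = a).card = Q ^ (j - i) := fun i hi =>
    Nat.pow_left_injective two_ne_zero ((c2_sq hst hsF (hp i)).symm.trans (cI i hi))
  have cH : ∀ i, i < j → (Finset.univ.filter fun h : A => h * st h = 1 ∧ π ^ (i + 1) ∣ h - 1).card =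
      Q ^ (j - (i + 1)) := fun i hi => by
    have uu : ∀ a, π ^ (i + 1) ∣ a - 1 → IsUnit a := fun a h => by
      simpa using u1 1 _ isUnit_one ((dvd_pow_self π i.succ_ne_zero).trans h)
    have k := c2_fib hst (hp (i + 1)) fun h hh d => by
      obtain ⟨θ, hθ⟩ := exists_trace_eq_one F q
      have e1 : algebraMap F A θ + st (algebraMap F A θ) = 1 := by rw [hsF, ← map_add, hθ, map_one]
      generalize algebraMap F A θ = t at e1
      have d1 : π ^ (i + 1) ∣ t + st t * h - 1 := by
        rw [show t + st t * h - 1 = st t * (h - 1) by linear_combination e1]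
        exact d.mul_left _
      refine ⟨t + st t * h, uu _ d1, d1, ?_⟩
      rw [map_add, map_mul, hst]
      linear_combination (-t) * hh
    have k1 : (Finset.univ.filter fun a : A => IsUnit a ∧ π ^ (i + 1) ∣ a - 1).card =
        (Finset.univ.filter fun a : A => π ^ (i + 1) ∣ a).card :=
      Finset.card_equiv (Equiv.subRight 1) fun a => by
        simpa using uu a
    have k2 : (Finset.univ.filter fun a : A => (IsUnit a ∧ π ^ (i + 1) ∣ a - 1) ∧ st a = a).card =
        (Finset.univ.filter fun a : A => π ^ (i + 1) ∣ a ∧ st a = a).card :=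
      Finset.card_equiv (Equiv.subRight 1) fun a => by
        simpa using fun _ => uu a
    rw [k1, k2, cI _ hi, cS _ hi, sq] at k
    exact (Nat.eq_of_mul_eq_mul_right (by positivity) k).symm
  obtain ⟨n, rfl⟩ : ∃ n, j = n + 1 := ⟨j - 1, by omega⟩
  have cH0 : ((Finset.univ.filter fun h : A => h * st h = 1).card : ℂ) = Q ^ n * (Q + 1) := by
    have k := c2_fib hst (p := 1) (fun _ _ => one_dvd _) fun h hh _ => by
      obtain ⟨ω, hω⟩ := exists_conj_ne F q
      have uw : IsUnit (algebraMap F A ω - st (algebraMap F A ω)) := by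
        rw [hsF, ← map_sub]
        exact (Ne.isUnit (sub_ne_zero.2 hω.symm)).map _
      generalize algebraMap F A ω = w at uw
      rcases hu (1 + h) with u | d
      · exact ⟨_, u, one_dvd _, by rw [map_add, map_one]; linear_combination -hh⟩
      rcases hu (w + st w * h) with u | d'
      · exact ⟨_, u, one_dvd _, by rw [map_add, map_mul, hst]; linear_combination (-w) * hh⟩
      refine absurd uw (nu _ ?_)
      rw [show w - st w = w + st w * h - st w * (1 + h) by ring]
      exact dvd_sub d' (d.mul_left _)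
    have a0 := cI 0 (by omega)
    have a1 := cI 1 (by omega)
    have b0 := cS 0 (by omega)
    have b1 := cS 1 (by omega)
    simp only [one_dvd, and_true, pow_zero, pow_one, true_and, Nat.sub_zero, Nat.add_sub_cancel] at k a0 a1 b0 b1
    have iu : ∀ a : A, ¬ π ∣ a ↔ IsUnit a := fun a => ⟨(hu a).resolve_right, fun u d => nu a d u⟩
    have a2 := Finset.card_filter_add_card_filter_not (s := (Finset.univ : Finset A)) fun a => π ∣ a
    have b2 := Finset.card_filter_add_card_filter_not (s := Finset.univ.filter fun a : A => st a = a)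
      fun a => π ∣ a
    simp only [Finset.filter_filter, iu, and_comm (a := st _ = _)] at a2 b2
    rw [Finset.filter_true] at a0
    rw [a0, a1, k] at a2
    rw [b0, b1] at b2
    have a3 := congrArg (Nat.cast : ℕ → ℂ) a2
    have b3 := congrArg (Nat.cast : ℕ → ℂ) b2
    push_cast at a3 b3
    have n1 : (Q : ℂ) ^ n * (Q - 1) ≠ 0 :=
      mul_ne_zero (pow_ne_zero _ (Nat.cast_ne_zero.2 (by omega))) (sub_ne_zero.2 (by exact_mod_cast Q2.ne'))
    refine mul_right_cancel₀ n1 ?_
    linear_combination a3 - ((Finset.univ.filter fun h : A => h * st h = 1).card : ℂ) * b3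
  have val : ∀ y : A, ∃ i ≤ n + 1, ∃ u, IsUnit u ∧ y = π ^ i * u := fun y => by
    have k : ∀ l, π ^ l ∣ y ∨ ∃ i < l, ∃ u, IsUnit u ∧ y = π ^ i * u := fun l => by
      induction l with
      | zero => exact .inl (by simp)
      | succ l ih =>
        rcases ih with ⟨c, rfl⟩ | ⟨i, hi, r⟩
        · rcases hu c with u | d
          · exact .inr ⟨l, by omega, c, u, rfl⟩
          · exact .inl (pow_succ π l ▸ mul_dvd_mul_left _ d)
        · exact .inr ⟨i, by omega, r⟩
    rcases k (n + 1) with d | ⟨i, hi, r⟩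
    · exact ⟨n + 1, le_rfl, 1, isUnit_one, by rw [hπj] at d ⊢; rw [zero_dvd_iff.1 d, zero_mul]⟩
    · exact ⟨i, hi.le, r⟩
  have fA : finrank F A = e * (n + 1) := by
    have k := hfin 0 (by omega)
    rwa [pow_zero, LinearMap.mulLeft_one, LinearMap.range_id, finrank_top] at k
  have term : ∀ y : A, (-(q : ℂ)) ^ finrank F (LinearMap.ker (LinearMap.mulLeft F y)) =
      1 + ∑ l ∈ Finset.range (n + 1),
        if π ^ (l + 1) ∣ y then (-(Q : ℂ)) ^ (l + 1) - (-(Q : ℂ)) ^ l else 0 := fun y => by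
    obtain ⟨i, hi, u, uu, rfl⟩ := val y
    have k := LinearMap.finrank_range_add_finrank_ker (LinearMap.mulLeft F (π ^ i * u))
    have r : LinearMap.range (LinearMap.mulLeft F (π ^ i * u)) = LinearMap.range (LinearMap.mulLeft F (π ^ i)) := by
      rw [LinearMap.mulLeft_mul]
      exact LinearMap.range_comp_of_range_eq_top _ (LinearMap.range_eq_top.2 fun a => by
        obtain ⟨c, rfl⟩ := uu.dvd (a := a)
        exact ⟨c, rfl⟩)
    rw [r, hfin i hi, fA] at k
    have k1 : finrank F (LinearMap.ker (LinearMap.mulLeft F (π ^ i * u))) = e * i := by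
      obtain ⟨t, ht⟩ := Nat.exists_eq_add_of_le hi
      rw [ht, Nat.add_sub_cancel_left, mul_add] at k
      omega
    have k2 : ∀ l ∈ Finset.range (n + 1), (π ^ (l + 1) ∣ π ^ i * u) ↔ l < i := fun l hl => by
      refine ⟨fun d => lt_of_not_ge fun c => ?_, fun c => (pow_dvd_pow π c).mul_right _⟩
      obtain ⟨c', e1⟩ := (pow_dvd_pow π (Nat.succ_le_succ c)).trans d
      have z : π ^ i = 0 := (u1 u (-(π * c')) uu (dvd_neg.2 (dvd_mul_right _ _))).mul_left_eq_zero.1
        (by rw [Nat.succ_eq_add_one] at e1; linear_combination e1)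
      have f := hfin i hi
      rw [z, LinearMap.mulLeft_zero_eq_zero, LinearMap.range_zero, finrank_bot] at f
      have := Finset.mem_range.1 hl
      exact mul_ne_zero oe.pos.ne' (by omega) f.symm
    rw [k1, pow_mul, oe.neg_pow, ← Nat.cast_pow, ← hQ, Finset.sum_congr rfl fun l hl => if_congr (k2 l hl) rfl rfl,
      ← Finset.sum_filter, show (Finset.range (n + 1)).filter (· < i) = Finset.range i by
        ext l; simp only [Finset.mem_filter, Finset.mem_range]; omega,
      Finset.sum_range_sub fun l => (-(Q : ℂ)) ^ l]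
    ring
  simp only [term]
  rw [Finset.sum_add_distrib, Finset.sum_comm, Finset.sum_const, nsmul_one, cH0]
  have fin : ∀ l ∈ Finset.range (n + 1), (∑ h ∈ Finset.univ.filter (fun h : A => h * st h = 1),
      if π ^ (l + 1) ∣ h - 1 then (-(Q : ℂ)) ^ (l + 1) - (-(Q : ℂ)) ^ l else 0) =
      -(Q ^ n * (Q + 1)) * (-1) ^ l := fun l hl => by
    have hl' := Finset.mem_range.1 hl
    rw [← Finset.sum_filter, Finset.sum_const, Finset.filter_filter, cH l hl', nsmul_eq_mul]
    obtain ⟨t, rfl⟩ := Nat.exists_eq_add_of_le (Nat.lt_succ_iff.1 hl')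
    rw [show l + t + 1 - (l + 1) = t by omega, pow_succ, neg_pow (Q : ℂ)]
    push_cast
    ring
  rw [Finset.sum_congr rfl fin, ← Finset.mul_sum, neg_one_geom_sum, if_neg (Nat.not_even_iff_odd.2 oj)]
  ring

end Cfsg.Agent.CJ
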