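import Cfsg.Agent.CJ.C1
import Cfsg.Agent.CJ.C2

/-!
S4793: in odd dimension every centraliser contains a subgroup on which the Weil character has no trivial constituent.
Take `v, f, j` from `exists_cyclic`, `A = AdjoinRoot (f^j)`, `π = mk f`, `e = deg f` (units: `p` coprime to `f` or `f ∣ p`; `finrank (π^i A) = e (j - i)` since `π^i A ≅ F[X]/(f^(j-i))`), `U = F[T] v`, `ev : A ≃ₗ U`, `mk p ↦ p(T) v`.
`st : A →+* A` is `AdjoinRoot.lift` with coefficients `σ` and `root ↦ root⁻¹` (`T` has finite order `o`, `root^o = 1`, use `root^(o-1)`); `β (ev (a x)) (ev y) = β (ev x) (ev (st a * y))` (first for polynomials, which also shows that the lift is well defined,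
by nondegeneracy), and this adjointness gives `st (st a) = a`. `V = U ⊕ U^⊥` (nondegeneracy), both `g`-invariant; for `h st h = 1` let `φ h` act as `h` on `U` and as `1` on `U^⊥` (e.g. `β.el (id + U.subtype ∘ ev ∘ mulLeft (h - 1) ∘ ev⁻¹ ∘ proj)`):
an isometry commuting with `g`, `φ` is an injective homomorphism from the unitary group of `A`, `fx (φ h) = dim ker (h - 1) + dim U^⊥`. `H = range φ`, `chain_sum`.
-/

set_option autoImplicit false
set_option linter.unusedSectionVars false

namespace Cfsg.Agent.CJ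

open Module Matrix Cfsg Cfsg.Agent.Class.U Cfsg.Agent.KSG

variable {F : Type*} [Field F] {q : ℕ} [hU : UF F q] {m : ℕ}

local notation "σ" => conj F q
local notation "𝐡" => hermForm m F q

open Polynomial in
theorem c3_lift {W : Type*} [AddCommGroup W] [Module F W] {P : F[X]} (hP : P.Monic)
    (L0 : F[X] →ₗ[F] W) (h : ∀ p, L0 p = 0 ↔ P ∣ p) :
    ∃ L : AdjoinRoot P →ₗ[F] W, (∀ p, L (AdjoinRoot.mk P p) = L0 p) ∧ Function.Injective L := by
  have key : ∀ p, (L0 ∘ₗ AdjoinRoot.modByMonicHom hP) (AdjoinRoot.mk P p) = L0 p := by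
    intro p
    rw [LinearMap.comp_apply, AdjoinRoot.modByMonicHom_mk, ← sub_eq_zero, ← map_sub, h]
    have := modByMonic_add_div p P
    exact ⟨-(p /ₘ P), by linear_combination this⟩
  refine ⟨_, key, ?_⟩
  rw [← LinearMap.ker_eq_bot, eq_bot_iff]
  intro a ha
  obtain ⟨p, rfl⟩ := AdjoinRoot.mk_surjective a
  rw [LinearMap.mem_ker, key, h] at ha
  exact AdjoinRoot.mk_eq_zero.2 ha

open Polynomial in
theorem c3_fin {f : F[X]} (hm : f.Monic) {i j : ℕ} (hij : i ≤ j) :
    finrank F (LinearMap.range (LinearMap.mulLeft F (AdjoinRoot.mk (f ^ j) f ^ i))) =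
      f.natDegree * (j - i) := by
  obtain ⟨k, rfl⟩ := Nat.exists_eq_add_of_le hij
  let L0 : F[X] →ₗ[F] AdjoinRoot (f ^ (i + k)) :=
    LinearMap.mulLeft F (AdjoinRoot.mk (f ^ (i + k)) f ^ i) ∘ₗ (AdjoinRoot.mkₐ (f ^ (i + k))).toLinearMap
  have hL0 : ∀ p, L0 p = AdjoinRoot.mk (f ^ (i + k)) (f ^ i * p) := fun p => by
    simp [L0]
  obtain ⟨L, hL, hi⟩ := c3_lift (hm.pow k) L0 fun p => by
    rw [hL0, AdjoinRoot.mk_eq_zero, pow_add, mul_dvd_mul_iff_left (hm.pow i).ne_zero]
  have hr : LinearMap.range (LinearMap.mulLeft F (AdjoinRoot.mk (f ^ (i + k)) f ^ i)) =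
      LinearMap.range L := by
    ext a
    constructor
    · rintro ⟨b, rfl⟩
      obtain ⟨p, rfl⟩ := AdjoinRoot.mk_surjective b
      exact ⟨AdjoinRoot.mk _ p, by rw [hL, hL0]; simp⟩
    · rintro ⟨b, rfl⟩
      obtain ⟨p, rfl⟩ := AdjoinRoot.mk_surjective b
      exact ⟨AdjoinRoot.mk _ p, by rw [hL, hL0]; simp⟩
  rw [hr, LinearMap.finrank_range_of_inj hi, (AdjoinRoot.powerBasis' (hm.pow k)).finrank,
    AdjoinRoot.powerBasis'_dim, hm.natDegree_pow, Nat.add_sub_cancel_left, mul_comm]

theorem c3_core {V : Type*} [AddCommGroup V] [Module F V] [FiniteDimensional F V]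
    (β : Herm F q V) (g : β.Iso) {A : Type*} [CommRing A] [Algebra F A] [Fintype A] [DecidableEq A]
    (ev : A →ₗ[F] V) (hi : Function.Injective ev) (r : A) (hr : ∀ a, ev (r * a) = g.1 (ev a))
    (hgen : ∀ S : Subalgebra F A, r ∈ S → S = ⊤)
    (hnd : ∀ a, (∀ b, β.f (ev a) (ev b) = 0) → a = 0) :
    ∃ st : A →+* A, (∀ a, st (st a) = a) ∧ (∀ c : F, st (algebraMap F A c) = algebraMap F A (σ c)) ∧
      ((∑ h ∈ Finset.univ.filter (fun h : A => h * st h = 1),
      (-(q : ℂ)) ^ finrank F (LinearMap.ker (LinearMap.mulLeft F (h - 1))) = 0) →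
      ∃ H : Subgroup β.Iso, (∀ h ∈ H, h * g = g * h) ∧
        ∑ᶠ h : H, (-(q : ℂ)) ^ Herm.fx (h : β.Iso) = 0) := by
  classical
  have : Finite F := hU.finite
  have : Finite V := Module.finite_of_finite F
  have huq : ∀ a a' : A, (∀ b, β.f (ev b) (ev a) = β.f (ev b) (ev a')) → a = a' := by
    intro a a' h
    rw [← sub_eq_zero]
    refine hnd _ fun b => ?_
    rw [← β.conj_f, map_sub, β.sub_right, h, sub_self, map_zero]
  obtain ⟨r', hr'⟩ : ∃ r', r * r' = 1 := by
    refine (Finite.injective_iff_surjective (f := fun x : A => r * x)).1 (fun x y e => ?_) 1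
    apply hi
    apply g.1.injective
    rw [← hr, ← hr]
    exact congrArg ev e
  have hrr : ∀ a b, β.f (ev (r * a)) (ev (r * b)) = β.f (ev a) (ev b) := fun a b => by
    rw [hr, hr, Herm.iso_f]
  let S : Subalgebra F A :=
    { carrier := {a | ∃ a', ∀ x y, β.f (ev (a * x)) (ev y) = β.f (ev x) (ev (a' * y))}
      mul_mem' := by
        rintro a b ⟨a', ha⟩ ⟨b', hb⟩
        exact ⟨b' * a', fun x y => by rw [mul_assoc, ha, hb, mul_assoc]⟩
      add_mem' := by
        rintro a b ⟨a', ha⟩ ⟨b', hb⟩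
        exact ⟨a' + b', fun x y => by
          rw [add_mul, add_mul, map_add, map_add, β.add_left, β.add_right, ha, hb]⟩
      algebraMap_mem' := fun c => ⟨algebraMap F A (σ c), fun x y => by
        rw [← Algebra.smul_def, ← Algebra.smul_def, map_smul, map_smul, β.smul_left, β.smul_right,
          conj_conj]⟩ }
  have hS : S = ⊤ := hgen S ⟨r', fun x y => by
    rw [← hrr x, ← mul_assoc, hr', one_mul]⟩
  have hex : ∀ a : A, ∃ a', ∀ x y, β.f (ev (a * x)) (ev y) = β.f (ev x) (ev (a' * y)) :=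
    fun a => (hS ▸ Algebra.mem_top : a ∈ S)
  choose st0 hst0 using hex
  have hst1 : ∀ a a', (∀ x y, β.f (ev (a * x)) (ev y) = β.f (ev x) (ev (a' * y))) → st0 a = a' := by
    intro a a' h
    refine huq _ _ fun b => ?_
    have h1 := hst0 a b 1
    have h2 := h b 1
    rw [mul_one] at h1 h2
    rw [← h1, h2]
  let st : A →+* A :=
    { toFun := st0
      map_one' := hst1 _ _ fun x y => by rw [one_mul, one_mul]
      map_mul' := fun a b => hst1 _ _ fun x y => by
        rw [mul_assoc, hst0, hst0, ← mul_assoc, mul_comm (st0 b)]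
      map_zero' := hst1 _ _ fun x y => by
        rw [zero_mul, zero_mul, map_zero, β.zero_left, β.zero_right]
      map_add' := fun a b => hst1 _ _ fun x y => by
        rw [add_mul, add_mul, map_add, map_add, β.add_left, β.add_right, hst0, hst0] }
  have hst : ∀ a x y, β.f (ev (a * x)) (ev y) = β.f (ev x) (ev (st a * y)) := hst0
  have hss : ∀ a, st (st a) = a := fun a => hst1 _ _ fun x y => by
    rw [← β.conj_f, ← hst, β.conj_f]
  refine ⟨st, hss, fun c => hst1 _ _ fun x y => by
    rw [← Algebra.smul_def, ← Algebra.smul_def, map_smul, map_smul, β.smul_left, β.smul_right,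
          conj_conj], fun hsum => ?_⟩
  -- the projection
  have hpe : ∀ x : V, ∃ a : A, ∀ b, β.f (ev b) x = β.f (ev b) (ev a) := by
    intro x
    let D : A → Module.Dual F A := fun a => β.lf (ev a) ∘ₗ ev
    have hD : Function.Injective D := fun a a' e => huq _ _ fun b => LinearMap.congr_fun e b
    obtain ⟨a, ha⟩ := (Finite.injective_iff_surjective_of_equiv
      (Module.finBasis F A).toDualEquiv.toEquiv).1 hD (β.lf x ∘ₗ ev)
    exact ⟨a, fun b => (LinearMap.congr_fun ha b).symm⟩
  choose pr0 hpr0 using hpe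
  have hpr1 : ∀ x a, (∀ b, β.f (ev b) x = β.f (ev b) (ev a)) → pr0 x = a :=
    fun x a h => huq _ _ fun b => by rw [← hpr0, h]
  let pr : V →ₗ[F] A :=
    { toFun := pr0
      map_add' := fun x y => hpr1 _ _ fun b => by
        rw [map_add, β.add_right, β.add_right, ← hpr0, ← hpr0]
      map_smul' := fun c x => hpr1 _ _ fun b => by
        rw [map_smul, β.smul_right, β.smul_right, ← hpr0]; rfl }
  have hpr : ∀ x b, β.f (ev b) x = β.f (ev b) (ev (pr x)) := hpr0
  have hpr' : ∀ x b, β.f x (ev b) = β.f (ev (pr x)) (ev b) := fun x b => by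
    rw [← β.conj_f, hpr, β.conj_f]
  have hpv : ∀ a, pr (ev a) = a := fun a => hpr1 _ _ fun b => rfl
  have hpg : ∀ x, pr (g.1 x) = r * pr x := fun x => hpr1 _ _ fun b => by
    have e : b = r * (r' * b) := by rw [← mul_assoc, hr', one_mul]
    rw [e, hrr, hr, Herm.iso_f, hpr]
  let M : A → V →ₗ[F] V := fun h => ev ∘ₗ LinearMap.mulLeft F (h - 1) ∘ₗ pr
  have hM : ∀ h x, M h x = ev ((h - 1) * pr x) := fun h x => rfl
  have hiso : ∀ h, h * st h = 1 → ∀ x y,
      β.f ((LinearMap.id + M h : V →ₗ[F] V) x) ((LinearMap.id + M h : V →ₗ[F] V) y) = β.f x y := by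
    intro h hh x y
    simp only [LinearMap.add_apply, LinearMap.id_apply, hM]
    rw [β.add_left, β.add_right, β.add_right, hpr' x ((h - 1) * pr y), hpr y ((h - 1) * pr x), hst,
      hst, add_assoc, ← β.add_right, ← β.add_right, ← map_add, ← map_add]
    have e : (h - 1) * pr y + (st (h - 1) * pr y + st (h - 1) * ((h - 1) * pr y)) = 0 := by
      rw [map_sub, map_one]
      linear_combination (pr y) * hh
    rw [e, map_zero, β.zero_right, add_zero]
  let H : Subgroup β.Iso :=
    { carrier := {k | ∃ h, h * st h = 1 ∧ ∀ x, k.1 x = x + ev ((h - 1) * pr x)}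
      one_mem' := ⟨1, by simp, fun x => by simp⟩
      mul_mem' := by
        rintro k k' ⟨h, hh, e⟩ ⟨h', hh', e'⟩
        refine ⟨h * h', by rw [map_mul]; linear_combination (h' * st h') * hh + hh', fun x => ?_⟩
        rw [Herm.mul_app, e, e', map_add, hpv, add_assoc, ← map_add]
        congr 2
        ring
      inv_mem' := by
        rintro k ⟨h, hh, e⟩
        refine ⟨st h, by rw [hss, mul_comm, hh], fun x => ?_⟩
        have e1 : k.1 (x + ev ((st h - 1) * pr x)) = x := by
          rw [e, map_add, hpv, add_assoc, ← map_add]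
          have : (st h - 1) * pr x + (h - 1) * (pr x + (st h - 1) * pr x) = 0 := by
            linear_combination (pr x) * hh
          rw [this, map_zero, add_zero]
        conv_lhs => rw [← e1]
        exact Herm.inv_app _ _ }
  refine ⟨H, ?_, ?_⟩
  · rintro k ⟨h, hh, e⟩
    refine Herm.iso_ext fun x => ?_
    rw [Herm.mul_app, Herm.mul_app, e, e, map_add, hpg, ← hr, mul_left_comm]
  · let ψ : {h : A // h * st h = 1} → H := fun h =>
      ⟨β.el (LinearMap.id + M h.1), h.1, h.2, fun x => by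
        rw [β.el_app (hiso _ h.2)]; rfl⟩
    have hψ : ∀ h x, (ψ h).1.1 x = x + ev ((h.1 - 1) * pr x) := fun h x => by
      change (β.el _).1 x = _
      rw [β.el_app (hiso _ h.2)]; rfl
    have hb : Function.Bijective ψ := by
      constructor
      · intro h h' e
        have h1 := hψ h (ev 1)
        rw [e, hψ, hpv, add_right_inj] at h1
        have h2 := hi h1
        exact Subtype.ext (by linear_combination -h2)
      · rintro ⟨k, h, hh, e⟩
        exact ⟨⟨h, hh⟩, Subtype.ext (Herm.iso_ext fun x => by rw [hψ, e])⟩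
    have hle : finrank F A ≤ finrank F V := LinearMap.finrank_le_finrank_of_injective hi
    have hfx : ∀ h, Herm.fx (ψ h).1 =
        finrank F (LinearMap.ker (LinearMap.mulLeft F (h.1 - 1))) + (finrank F V - finrank F A) := by
      intro h
      have e : (ψ h).1.1.toLinearMap - LinearMap.id = M h.1 := by
        ext x
        simp only [LinearMap.sub_apply, LinearEquiv.coe_coe, LinearMap.id_apply, hψ, hM]
        abel
      have h1 := LinearMap.finrank_range_add_finrank_ker (M h.1)
      have h2 := LinearMap.finrank_range_add_finrank_ker (LinearMap.mulLeft F (h.1 - 1))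
      have h3 : LinearMap.range (M h.1) = (LinearMap.range (LinearMap.mulLeft F (h.1 - 1))).map ev := by
        simp only [M]
        rw [LinearMap.range_comp, LinearMap.range_comp_of_range_eq_top]
        exact LinearMap.range_eq_top.2 fun a => ⟨ev a, hpv a⟩
      rw [h3, ← (Submodule.equivMapOfInjective ev hi _).finrank_eq] at h1
      rw [Herm.fx, e]
      omega
    have : Fintype H := Fintype.ofFinite _
    rw [finsum_eq_sum_of_fintype, ← hb.sum_comp]
    simp only [hfx, pow_add]
    rw [← Finset.sum_mul, ← Finset.sum_subtype (Finset.univ.filter fun h : A => h * st h = 1)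
      (by simp) (fun h => (-(q : ℂ)) ^ finrank F (LinearMap.ker (LinearMap.mulLeft F (h - 1)))),
      hsum, zero_mul]

open Polynomial in
theorem exists_cen_sum {V : Type*} [AddCommGroup V] [Module F V] [FiniteDimensional F V]
    (β : Herm F q V) (hV : Odd (finrank F V)) (g : β.Iso) :
    ∃ H : Subgroup β.Iso, (∀ h ∈ H, h * g = g * h) ∧
      ∑ᶠ h : H, (-(q : ℂ)) ^ Herm.fx (h : β.Iso) = 0 := by
  classical
  have : Finite F := hU.finite
  obtain ⟨v, f, j, hf, hm, hj, hodd, hann, hnd⟩ := exists_cyclic β hV g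
  let L0 : F[X] →ₗ[F] V := LinearMap.applyₗ v ∘ₗ (aeval g.1.toLinearMap).toLinearMap
  have hL0 : ∀ p, L0 p = aeval g.1.toLinearMap p v := fun p => rfl
  obtain ⟨ev, hev, hi⟩ := c3_lift (hm.pow j) L0 hann
  have : Module.Finite F (AdjoinRoot (f ^ j)) := (AdjoinRoot.powerBasis' (hm.pow j)).finite
  have : Finite (AdjoinRoot (f ^ j)) := Module.finite_of_finite F
  have : Fintype (AdjoinRoot (f ^ j)) := Fintype.ofFinite _
  obtain ⟨st, h1, h2, h3⟩ := c3_core β g ev hi (AdjoinRoot.root (f ^ j))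
    (fun a => by
      obtain ⟨p, rfl⟩ := AdjoinRoot.mk_surjective a
      rw [← AdjoinRoot.mk_X, ← map_mul, hev, hev, hL0, hL0, map_mul, aeval_X]
      rfl)
    (fun S hS => by
      rw [eq_top_iff, ← AdjoinRoot.adjoinRoot_eq_top]
      exact Algebra.adjoin_le (by simpa using hS))
    (fun a ha => by
      obtain ⟨p, rfl⟩ := AdjoinRoot.mk_surjective a
      refine AdjoinRoot.mk_eq_zero.2 ((hann p).1 (hnd p fun p' => ?_))
      have := ha (AdjoinRoot.mk _ p')
      rwa [hev, hev] at this)
  have hπj : AdjoinRoot.mk (f ^ j) f ^ j = 0 := by rw [← map_pow, AdjoinRoot.mk_self]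
  refine h3 (chain_sum st h1 h2 (AdjoinRoot.mk (f ^ j) f) hj hodd (fun a => ?_) (fun hu => ?_) hπj
    fun i hi => c3_fin hm hi)
  · obtain ⟨p, rfl⟩ := AdjoinRoot.mk_surjective a
    by_cases hp : f ∣ p
    · exact Or.inr (map_dvd _ hp)
    · obtain ⟨a, b, e⟩ := ((hf.coprime_iff_not_dvd.2 hp).pow_left (m := j))
      refine Or.inl (IsUnit.of_mul_eq_one (AdjoinRoot.mk _ b) ?_)
      have := congrArg (AdjoinRoot.mk (f ^ j)) e
      rw [map_add, map_mul, AdjoinRoot.mk_self, mul_zero, zero_add, map_mul, map_one] at this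
      rw [mul_comm, this]
  · have h0 := hu.pow j
    rw [hπj, isUnit_zero_iff, eq_comm, ← map_one (AdjoinRoot.mk (f ^ j)), AdjoinRoot.mk_eq_zero] at h0
    exact hf.not_isUnit (isUnit_of_dvd_one ((dvd_pow_self f (by omega)).trans h0))

end Cfsg.Agent.CJ
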