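import Cfsg.Agent.CJ.RelA

/-!
S4793: linear algebra.
`dl_induction`: downward induction on `dim ker (X - 1)`. If `X ≠ 1` take `x` with `X x ≠ x`; `x, X x ∉ Fix X`; there is `y` with `𝐡 · y = 0` on `Fix X`, `𝐡 (X x) y = 1`, `𝐡 x y ≠ 0`
(a functional vanishing on a subspace and nonzero on two vectors outside it, `|F| ≥ 3`; functionals are `𝐡 · y`). With `u = x - X x` (`𝐡 u b = 0` as `𝐡 (X x) b = 𝐡 x (X* b)`), `E = 1 + ou u y` has
`det E = 𝐡 x y ≠ 0`, `E X` fixes `x` and `Fix X`, `(E X)* b = b`. `E⁻¹ = 1 + ou u y'` is a dilatation if `𝐡 u y' ≠ 0` (`a - 1 = 𝐡 u y'`, `w = u`, `w' = (σ (a-1))⁻¹ • y'`), otherwise a product of two: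
`(1 + (a-1) ou u y₁)(1 + (a⁻¹-1) ou u y₂) = 1 + (a-1) ou u (y₁ - y₂)` for `𝐡 u y₁ = 𝐡 u y₂ = 1`, `a ≠ 0, 1`.
`exists_eig`: project on the characters as in `Gen.free_orbit` (`AddChar.sum_apply_eq_ite`).
-/

set_option autoImplicit false
set_option linter.unusedSectionVars false

namespace Cfsg.Agent.CJ

open Module Matrix Cfsg Cfsg.Agent.Class.U Cfsg.Agent.KSG

variable {F : Type*} [Field F] {q : ℕ} [hU : UF F q] {m : ℕ}

local notation "σ" => conj F q
local notation "𝐡" => hermForm m F q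

theorem lin_sep (W : Submodule F (Fin m → F)) {x : Fin m → F} (hx : x ∉ W) :
    ∃ y, (∀ v ∈ W, 𝐡 v y = 0) ∧ 𝐡 x y = 1 := by
  obtain ⟨φ, h1, h2⟩ := W.exists_dual_map_eq_bot_of_notMem hx inferInstance
  have h3 : ∀ v, 𝐡 v (fun i => σ ((φ x)⁻¹ * φ (Pi.single i 1))) = (φ x)⁻¹ * φ v := fun v => by
    rw [herm_eq, LinearMap.pi_apply_eq_sum_univ φ v, Finset.mul_sum]
    refine Finset.sum_congr rfl fun i _ => ?_
    rw [conj_conj, smul_eq_mul, mul_left_comm]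
    congr 3
    ext j
    simp [Pi.single_apply, eq_comm]
  refine ⟨_, fun v hv => ?_, by rw [h3, inv_mul_cancel₀ h1]⟩
  have h4 : φ v = 0 := by
    have : φ v ∈ W.map φ := Submodule.mem_map_of_mem hv
    rwa [h2, Submodule.mem_bot] at this
  rw [h3, h4, mul_zero]

theorem lin_sep2 (W : Submodule F (Fin m → F)) {x x' : Fin m → F} (hx : x ∉ W) (hx' : x' ∉ W) :
    ∃ y, (∀ v ∈ W, 𝐡 v y = 0) ∧ 𝐡 x' y = 1 ∧ 𝐡 x y ≠ 0 := by
  obtain ⟨y1, a1, b1⟩ := lin_sep (q := q) W hx'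
  obtain ⟨y2, a2, b2⟩ := lin_sep (q := q) W hx
  by_cases h1 : 𝐡 x y1 = 0
  · by_cases h2 : 𝐡 x' y2 = 0
    · refine ⟨y1 + y2, fun v hv => ?_, ?_, ?_⟩
      · rw [herm_add_right, a1 v hv, a2 v hv, add_zero]
      · rw [herm_add_right, b1, h2, add_zero]
      · rw [herm_add_right, h1, b2, zero_add]; exact one_ne_zero
    · refine ⟨σ (𝐡 x' y2)⁻¹ • y2, fun v hv => ?_, ?_, ?_⟩
      · rw [herm_smul_right, a2 v hv, mul_zero]
      · rw [herm_smul_right, conj_conj, inv_mul_cancel₀ h2]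
      · rw [herm_smul_right, conj_conj, b2, mul_one]; exact inv_ne_zero h2
  · exact ⟨y1, a1, b1, h1⟩

theorem lin_step (b : Fin m → F) (P : Matrix (Fin m) (Fin m) F → Prop)
    (hmul : ∀ (w w' : Fin m → F) (a : F) (X : Matrix (Fin m) (Fin m) F), 𝐡 w w' = 1 → a ≠ 0 →
      𝐡 w b = 0 → IsUnit X.det → P X → P ((1 + (a - 1) • ou q w w') * X))
    {u y : Fin m → F} (hu : 𝐡 u b = 0) (hy : 1 + 𝐡 u y ≠ 0) {X : Matrix (Fin m) (Fin m) F}
    (hX : IsUnit X.det) (hP : P X) : P ((1 + ou q u y) * X) := by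
  have key : ∀ (y : Fin m → F) (X : Matrix (Fin m) (Fin m) F), 𝐡 u y ≠ 0 → 1 + 𝐡 u y ≠ 0 →
      IsUnit X.det → P X → P ((1 + ou q u y) * X) := fun y X h0 hy hX hP => by
    have := hmul u (σ (𝐡 u y)⁻¹ • y) (1 + 𝐡 u y) X
      (by rw [herm_smul_right, conj_conj, inv_mul_cancel₀ h0]) hy hu hX hP
    rwa [ou_smul_right, conj_conj, smul_smul, add_sub_cancel_left, mul_inv_cancel₀ h0,
      one_smul] at this
  by_cases h0 : 𝐡 u y = 0
  swap
  · exact key y X h0 hy hX hP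
  by_cases hu0 : u = 0
  · have : ou q u y = 0 := by
      have := ou_smul_left (q := q) 0 u y
      rwa [zero_smul, zero_smul, ← hu0] at this
    rwa [this, add_zero, one_mul]
  obtain ⟨y2, -, h2⟩ := lin_sep (q := q) ⊥ (x := u) (by simpa using hu0)
  obtain ⟨z, hz, hz1⟩ := exists_norm_one_ne_one (F := F) (q := q)
  have hz0 : z ≠ 0 := by rintro rfl; simp at hz
  have e1 : 𝐡 u (σ (z - 1) • y2) = z - 1 := by rw [herm_smul_right, conj_conj, h2, mul_one]
  have e2 : 𝐡 u (y + σ (z⁻¹ - 1) • y2) = z⁻¹ - 1 := by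
    rw [herm_add_right, herm_smul_right, conj_conj, h2, mul_one, h0, zero_add]
  have h3 := key (σ (z - 1) • y2) X (by rw [e1]; exact sub_ne_zero.2 hz1)
    (by rw [e1, add_sub_cancel]; exact hz0) hX hP
  have h4 := key (y + σ (z⁻¹ - 1) • y2) _ (by rw [e2]; exact sub_ne_zero.2 (by simpa using hz1))
    (by rw [e2, add_sub_cancel]; exact inv_ne_zero hz0)
    (by rw [det_mul, det_one_add_ou, e1, add_sub_cancel]; exact (Ne.isUnit hz0).mul hX) h3
  have h5 : (1 + ou q u (y + σ (z⁻¹ - 1) • y2)) * (1 + ou q u (σ (z - 1) • y2)) =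
      1 + ou q u y := by
    rw [add_mul, one_mul, mul_add, mul_one, mul_ou, ou_mulVec, e2, ou_smul_left, ou_add_right,
      ou_smul_right, ou_smul_right, conj_conj, conj_conj, smul_smul]
    have : (z⁻¹ - 1) * (z - 1) = -(z - 1) - (z⁻¹ - 1) := by field_simp; ring
    rw [this]
    module
  rwa [← mul_assoc, h5] at h4

theorem dl_induction (b : Fin m → F) (P : Matrix (Fin m) (Fin m) F → Prop) (h1 : P 1)
    (hmul : ∀ (w w' : Fin m → F) (a : F) (X : Matrix (Fin m) (Fin m) F), 𝐡 w w' = 1 → a ≠ 0 →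
      𝐡 w b = 0 → IsUnit X.det → P X → P ((1 + (a - 1) • ou q w w') * X))
    {X : Matrix (Fin m) (Fin m) F} (hX : IsUnit X.det) (hb : cT q X *ᵥ b = b) : P X := by
  have hmem : ∀ (X : Matrix (Fin m) (Fin m) F) v,
      v ∈ LinearMap.ker (X - 1).mulVecLin ↔ X *ᵥ v = v := fun X v => by
    rw [LinearMap.mem_ker, mulVecLin_apply, sub_mulVec, one_mulVec, sub_eq_zero]
  induction hn : m - finrank F (LinearMap.ker (X - 1).mulVecLin) using Nat.strong_induction_on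
    generalizing X with
  | _ n ih =>
  by_cases hX1 : ∀ x, X *ᵥ x = x
  · have : X = 1 := by
      ext i j
      have := congrFun (hX1 (Pi.single j 1)) i
      rw [mulVec_single_one] at this
      rw [show X i j = _ from this, one_apply, Pi.single_apply]
    rwa [this]
  push Not at hX1
  obtain ⟨x, hx⟩ := hX1
  have hinj : Function.Injective X.mulVec :=
    mulVec_injective_iff_isUnit.2 ((isUnit_iff_isUnit_det X).2 hX)
  obtain ⟨y, a1, a2, a3⟩ := lin_sep2 (q := q) (LinearMap.ker (X - 1).mulVecLin)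
    (x := x) (x' := X *ᵥ x) (fun h => hx ((hmem _ _).1 h)) fun h => hx (hinj ((hmem _ _).1 h))
  have hu : 𝐡 (x - X *ᵥ x) b = 0 := by rw [herm_sub_left, herm_mulVec, hb, sub_self]
  have ht : 1 + 𝐡 (x - X *ᵥ x) y = 𝐡 x y := by rw [herm_sub_left, a2]; ring
  have hY : IsUnit ((1 + ou q (x - X *ᵥ x) y) * X).det := by
    rw [det_mul, det_one_add_ou, ht]; exact (Ne.isUnit a3).mul hX
  have hap : ∀ v, ((1 + ou q (x - X *ᵥ x) y) * X) *ᵥ v =
      X *ᵥ v + 𝐡 (X *ᵥ v) y • (x - X *ᵥ x) := fun v => by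
    rw [← mulVec_mulVec, add_mulVec, one_mulVec, ou_mulVec]
  have hlt : LinearMap.ker (X - 1).mulVecLin <
      LinearMap.ker ((1 + ou q (x - X *ᵥ x) y) * X - 1).mulVecLin := by
    refine lt_of_le_of_ne (fun v hv => ?_) fun h => hx ((hmem _ _).1 (h ▸ (hmem _ _).2 ?_))
    · rw [hmem, hap, (hmem _ _).1 hv, a1 v hv, zero_smul, add_zero]
    · rw [hap, a2, one_smul, add_sub_cancel]
  have h2 := Submodule.finrank_lt_finrank_of_lt hlt
  have h3 := Submodule.finrank_le (LinearMap.ker ((1 + ou q (x - X *ᵥ x) y) * X - 1).mulVecLin)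
  rw [finrank_fin_fun] at h3
  have h4 := ih _ (by omega) hY (by
    rw [cT_mul, ← mulVec_mulVec, cT_add, cT_one, cT_ou, add_mulVec, one_mulVec, ou_mulVec,
      herm_comm_zero hu, zero_smul, add_zero, hb]) rfl
  have h5 := lin_step b P hmul hu (y := σ (-(𝐡 x y)⁻¹) • y) (by
    rw [herm_smul_right, conj_conj, eq_sub_of_add_eq' ht]
    have : 1 + -(𝐡 x y)⁻¹ * (𝐡 x y - 1) = (𝐡 x y)⁻¹ := by field_simp; ring
    rw [this]
    exact inv_ne_zero a3) hY h4
  rwa [ou_smul_right, conj_conj, neg_smul, ← sub_eq_add_neg, ← ht,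
    ← inv_one_add_ou (ht ▸ a3), ← mul_assoc, nonsing_inv_mul _ (by
      rw [det_one_add_ou, ht]; exact Ne.isUnit a3), one_mul] at h5

theorem exists_lev_move {b b' : Fin m → F} (hb : b ≠ 0) (hb' : b' ≠ 0) :
    ∃ X : Matrix (Fin m) (Fin m) F, IsUnit X.det ∧ cT q X⁻¹ *ᵥ b = b' := by
  obtain ⟨y, -, a2, a3⟩ := lin_sep2 (q := q) ⊥ (x := b') (x' := b) (by simpa using hb')
    (by simpa using hb)
  have h1 : IsUnit (1 + ou q y (b' - b)).det := by
    rw [det_one_add_ou, herm_sub_right, herm_comm_one a2, add_sub_cancel]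
    exact Ne.isUnit (herm_comm_ne a3)
  refine ⟨(1 + ou q y (b' - b))⁻¹, isUnit_nonsing_inv_det _ h1, ?_⟩
  rw [nonsing_inv_nonsing_inv _ h1, cT_add, cT_one, cT_ou, add_mulVec, one_mulVec, ou_mulVec, a2,
    one_smul, add_sub_cancel]

theorem exists_herm_one {b : Fin m → F} (hb : b ≠ 0) : ∃ w, 𝐡 w b = 1 := by
  obtain ⟨y, -, h⟩ := lin_sep (q := q) ⊥ (x := b) (by simpa using hb)
  exact ⟨y, herm_comm_one h⟩

/-- Separation of a vector from a line. -/
theorem exists_herm_sep {b w' : Fin m → F} (h : ∀ c : F, b ≠ c • w') :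
    ∃ u, 𝐡 u w' = 0 ∧ 𝐡 u b = 1 := by
  obtain ⟨y, h1, h2⟩ := lin_sep (q := q) (Submodule.span F {w'}) (x := b) fun h1 => by
    obtain ⟨c, hc⟩ := Submodule.mem_span_singleton.1 h1
    exact h c hc.symm
  exact ⟨y, herm_comm_zero (h1 _ (Submodule.mem_span_singleton_self _)), herm_comm_one h2⟩

variable (q) in
include hU in
theorem exists_eig {M : Type*} [AddCommGroup M] [Module ℂ M] (U : Submodule ℂ M) (τ : F → End ℂ M)
    (hτU : ∀ a, a ≠ 0 → ∀ x ∈ U, τ a x ∈ U) (h1 : ∀ x ∈ U, τ 1 x = x)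
    (hm : ∀ a a', a ≠ 0 → a' ≠ 0 → ∀ x ∈ U, τ (a * a') x = τ a (τ a' x)) {x : M} (hx : x ∈ U)
    {a : F} (ha : a ≠ 0) (hxa : τ a x ≠ x) :
    ∃ y ∈ U, y ≠ 0 ∧ ∃ α : F → ℂ, (∀ a, a ≠ 0 → τ a y = α a • y) ∧ ∃ a0, a0 ≠ 0 ∧ α a0 ≠ 1 := by
  classical
  have := hU.finite
  have := Fintype.ofFinite (Additive Fˣ)
  let t : Additive Fˣ → End ℂ M := fun a => τ (a.toMul : Fˣ)
  have htU : ∀ a, ∀ x ∈ U, t a x ∈ U := fun a => hτU _ (Units.ne_zero _)
  have h0 : ∀ x ∈ U, t 0 x = x := h1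
  have hadd : ∀ a b, ∀ x ∈ U, t (a + b) x = t a (t b x) := fun a b =>
    hm _ _ (Units.ne_zero _) (Units.ne_zero _)
  let E : AddChar (Additive Fˣ) ℂ → M := fun χ => ∑ a, χ (-a) • t a x
  have n0 : (Fintype.card (Additive Fˣ) : ℂ) ≠ 0 := Nat.cast_ne_zero.2 Fintype.card_ne_zero
  have e2 : ∀ χ b, t b (E χ) = χ b • E χ := fun χ b => by
    simp only [E]
    rw [map_sum, Finset.smul_sum, ← Equiv.sum_comp (Equiv.addLeft b) fun a => χ b • χ (-a) • t a x]
    refine Finset.sum_congr rfl fun a _ => ?_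
    rw [map_smul, ← hadd _ _ _ hx, Equiv.coe_addLeft, smul_smul, ← AddChar.map_add_eq_mul, neg_add,
      add_neg_cancel_left]
  have e1 : ∑ χ, E χ = (Fintype.card (Additive Fˣ) : ℂ) • x := by
    simp only [E]
    rw [Finset.sum_comm, Finset.sum_eq_single 0 (fun b _ hb => by
      rw [← Finset.sum_smul, AddChar.sum_apply_eq_ite, if_neg (neg_ne_zero.2 hb), zero_smul]) (by simp),
      ← Finset.sum_smul, AddChar.sum_apply_eq_ite, if_pos neg_zero, h0 x hx]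
  by_cases e4 : ∀ χ ≠ 1, E χ = 0
  · rw [Finset.sum_eq_single 1 (fun χ _ => e4 χ) (by simp)] at e1
    have := e2 1 (Additive.ofMul (Units.mk0 a ha))
    rw [e1, map_smul, AddChar.one_apply, one_smul] at this
    exact absurd (smul_right_injective M n0 this) hxa
  push Not at e4
  obtain ⟨χ, hχ, hE⟩ := e4
  obtain ⟨c, hc⟩ := AddChar.ne_one_iff.1 hχ
  refine ⟨E χ, U.sum_mem fun a _ => U.smul_mem _ (htU a x hx), hE,
    fun a => if h : a = 0 then 0 else χ (Additive.ofMul (Units.mk0 a h)), fun a ha => ?_,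
    (c.toMul : Fˣ), Units.ne_zero _, ?_⟩
  · simp only [dif_neg ha]
    exact e2 χ (Additive.ofMul (Units.mk0 a ha))
  · simpa using hc

variable (F q) in
include hU in
theorem exists_mulChar : ∃ α : F → ℂ, α 1 = 1 ∧ (∀ a a', α (a * a') = α a * α a') ∧
    ∃ a0, a0 ≠ 0 ∧ α a0 ≠ 1 := by
  classical
  have := hU.finite
  obtain ⟨z, hz, hz1⟩ := exists_norm_one_ne_one (F := F) (q := q)
  have hz0 : z ≠ 0 := by rintro rfl; simp at hz
  obtain ⟨χ, hχ⟩ := (AddChar.exists_apply_ne_zero (α := Additive Fˣ)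
    (a := Additive.ofMul (Units.mk0 z hz0))).2 (by
      intro h
      exact hz1 (congrArg (fun a : Additive Fˣ => ((a.toMul : Fˣ) : F)) h))
  refine ⟨fun a => if h : a = 0 then 0 else χ (Additive.ofMul (Units.mk0 a h)), by simp,
    fun a a' => ?_, z, hz0, by simpa [hz0] using hχ⟩
  by_cases ha : a = 0
  · simp [ha]
  by_cases ha' : a' = 0
  · simp [ha']
  simp only [dif_neg ha, dif_neg ha', dif_neg (mul_ne_zero ha ha')]
  rw [← AddChar.map_add_eq_mul, ← ofMul_mul, Units.mk0_mul]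

end Cfsg.Agent.CJ
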