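import Cfsg.Agent.CJ.Good
import Cfsg.Agent.CJ.Lin

/-!
S4793: representations of degree `(q^n - q)/(q+1)`. Let `N (q+1) + 1 = q^(2m)`, so `finrank M = q N`.
`orbit_le`: by `good`, `finrank_lev`: the matrices `cT (ι t)⁻¹ B' (ι t)⁻¹`, `t ≠ 0`, all have weight spaces of dimension `finrank (Wt B)`, and each fibre of `t ↦ cT (ι t)⁻¹ B' (ι t)⁻¹` has at most `q + 1` elements
(`card_norm_fiber`); `finrank_eq_sum`. `d1`: for `B ≠ 0` with `Wt B ≠ ⊥`, `finrank (Wt B) ≤ q`. If some isotropic `u` has `B u ≠ 0`, take `v` with `𝐡 (B u) v = 1`; the operators `hW B (l • u + l' • v)`, `(l,l') ∈ F × F`, commute up to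
`Ψ (𝐡 (B y') y - 𝐡 (B y) y')` (`hs_comm`), nondegenerate on the span of `u, v`, so `q⁴ ≤ finrank²` (`KSG.card_le_finrank_sq_of_comm`): contradiction. So `B = ou b b` (`rank_one_of_iso`), `q ≤ finrank` (`le_finrank1`, `hS_hW`, `exists_herm_one`),
all rank-one weight spaces have dimension `q` (`exists_lev_move`, `finrank_lev`), and `finrank_eq_sum`, `card_rank_one` leave no room for `Wt 0`.
-/

set_option autoImplicit false
set_option linter.unusedSectionVars false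

namespace Cfsg.Agent.CJ

open Module Matrix Cfsg Cfsg.Agent.Class.U Cfsg.Agent.KSG

variable {F : Type*} [Field F] {q : ℕ} [hU : UF F q] {m : ℕ}

local notation "σ" => conj F q
local notation "𝐡" => hermForm m F q

variable [Fintype F] [DecidableEq F] {M : Type*} [AddCommGroup M] [Module ℂ M]
  {Ψ : AddChar F ℂ} {ρ : Ga F q m →* End ℂ M}
variable {K : Type*} [Field K] [Fintype K] [Algebra F K] (ι : K →ₐ[F] Matrix (Fin m) (Fin m) F)

theorem d1_sep (hΨ : Gd q Ψ) {B : Matrix (Fin m) (Fin m) F} (hB : cT q B = B) {δ y : Fin m → F}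
    (h : 𝐡 (B *ᵥ δ) y ≠ 0) : ∃ k : F, Ψ (𝐡 (B *ᵥ δ) (k • y) - 𝐡 (B *ᵥ (k • y)) δ) ≠ 1 := by
  obtain ⟨c, hc, hc1⟩ := hΨ
  obtain ⟨s, hs⟩ := exists_conj_sub_eq hc
  refine ⟨s * σ (𝐡 (B *ᵥ δ) y)⁻¹, ?_⟩
  have e : 𝐡 (B *ᵥ δ) ((s * σ (𝐡 (B *ᵥ δ) y)⁻¹) • y) = σ s := by
    rw [herm_smul_right, map_mul, conj_conj, mul_assoc, inv_mul_cancel₀ h, mul_one]
  rw [herm_mulVec B (_ • y), hB, ← herm_conj (B *ᵥ δ), e, conj_conj, hs]
  exact hc1

theorem d1_iso [FiniteDimensional ℂ M] (hΨ : Gd q Ψ) {B : Matrix (Fin m) (Fin m) F} (hB : cT q B = B)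
    (hne : Wt Ψ ρ B ≠ ⊥) (hle : finrank ℂ (Wt Ψ ρ B) ≤ q) {u : Fin m → F} (hu : 𝐡 (B *ᵥ u) u = 0) :
    B *ᵥ u = 0 := by
  by_contra h0
  obtain ⟨v, hv'⟩ := exists_herm_one (q := q) h0
  have hv : 𝐡 (B *ᵥ u) v = 1 := herm_comm_one hv'
  have hvu : 𝐡 (B *ᵥ v) u = 1 := by rw [herm_mulVec, hB, hv']
  have : Nontrivial (Wt Ψ ρ B) := Submodule.nontrivial_iff_ne_bot.2 hne
  have key := card_le_finrank_sq_of_comm (V := Wt Ψ ρ B) (B := F × F)
    (fun p => hW Ψ ρ B (p.1 • u + p.2 • v)) (fun p => ?_)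
    (fun c b => Ψ (𝐡 (B *ᵥ (b.1 • u + b.2 • v)) (c.1 • u + c.2 • v) -
      𝐡 (B *ᵥ (c.1 • u + c.2 • v)) (b.1 • u + b.2 • v))) (fun c b => ?_) (fun a b hab => ?_)
  · rw [Nat.card_prod, hU.card_eq] at key
    have h2 := two_le_q F q
    have h3 : finrank ℂ (Wt Ψ ρ B) ^ 2 ≤ q ^ 2 := Nat.pow_le_pow_left hle 2
    have h4 : 2 ^ 2 ≤ q ^ 2 := Nat.pow_le_pow_left h2 2
    nlinarith
  · rw [LinearMap.isUnit_iff_ker_eq_bot, eq_bot_iff]
    intro x hx
    have h1 : ρ (hs q (p.1 • u + p.2 • v)) x = 0 := congrArg Subtype.val (LinearMap.mem_ker.1 hx)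
    have h2 := congrArg (ρ (hs q (p.1 • u + p.2 • v))⁻¹) h1
    rw [wt_rho_mul, inv_mul_cancel, map_one, map_zero] at h2
    exact Subtype.ext h2
  · refine LinearMap.ext fun x => Subtype.ext ?_
    change ρ _ (ρ _ (x : M)) = _ • ρ _ (ρ _ (x : M))
    rw [wt_rho_mul, hs_comm, ← wt_rho_mul, ← wt_rho_mul,
      mem_Wt.1 (hs_mem _ (hs_mem _ x.2)) _ (skew_sub _ _), sub_mul, trace_sub, s1_tr, s1_tr]
  · have h1 : ∃ c : F × F, 𝐡 (B *ᵥ ((a.1 - b.1) • u + (a.2 - b.2) • v)) (c.1 • u + c.2 • v) ≠ 0 := by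
      by_cases h2 : a.2 - b.2 = 0
      · refine ⟨(0, 1), ?_⟩
        have h3 : a.1 - b.1 ≠ 0 := fun h3 =>
          hab (Prod.ext (sub_eq_zero.1 h3) (sub_eq_zero.1 h2))
        simpa [h2, mulVec_smul, herm_smul_left, hv] using h3
      · refine ⟨(1, 0), ?_⟩
        simpa [mulVec_add, mulVec_smul, herm_add_left, herm_smul_left, hu, hvu] using h2
    obtain ⟨c, hc⟩ := h1
    obtain ⟨k, hk⟩ := d1_sep hΨ hB hc
    refine ⟨(k * c.1, k * c.2), fun e => hk ?_⟩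
    have e1 : (k * c.1) • u + (k * c.2) • v = k • (c.1 • u + c.2 • v) := by module
    have e2 : (a.1 - b.1) • u + (a.2 - b.2) • v = (a.1 • u + a.2 • v) - (b.1 • u + b.2 • v) := by module
    simp only [e1] at e
    rw [e2, mulVec_sub, herm_sub_left, herm_sub_right, sub_sub_sub_comm, AddChar.map_sub_eq_div, e,
      div_self]
    exact (AddChar.val_isUnit Ψ _).ne_zero

include ι in
theorem orbit_le [FiniteDimensional ℂ M] (hΨ : Gd q Ψ) (hK : Fintype.card K = (q ^ 2) ^ m)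
    {B : Matrix (Fin m) (Fin m) F} (hB : cT q B = B) (h0 : B ≠ 0) :
    ((q ^ 2) ^ m - 1) * finrank ℂ (Wt Ψ ρ B) ≤ (q + 1) * finrank ℂ M := by
  classical
  obtain ⟨X, hX, hg⟩ := good ι hK hB h0
  rw [← finrank_lev (Ψ := Ψ) (ρ := ρ) hX B]
  have hB' := herm_conj_inv X hB
  generalize cT q X⁻¹ * B * X⁻¹ = B' at hg hB'
  let f : K → Matrix (Fin m) (Fin m) F := fun t => cT q (ι t)⁻¹ * B' * (ι t)⁻¹
  have h1 : (Finset.univ.erase (0 : K)).card ≤ (q + 1) * ((Finset.univ.erase (0 : K)).image f).card := by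
    refine Finset.card_le_mul_card_image _ _ fun C hC => ?_
    obtain ⟨t0, ht0, rfl⟩ := Finset.mem_image.1 hC
    have t0' := Finset.ne_of_mem_erase ht0
    have hmu : (mu F q).card = q + 1 := by exact_mod_cast h1_card_mu (F := F) (q := q)
    refine le_trans (Finset.card_le_card (t := (mu F q).image fun z => algebraMap F K z * t0) ?_)
      (Finset.card_image_le.trans hmu.le)
    intro t ht
    obtain ⟨ht, e⟩ := Finset.mem_filter.1 ht
    have t' := Finset.ne_of_mem_erase ht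
    obtain ⟨z, hz, e'⟩ := hg (t * t0⁻¹) (mul_ne_zero t' (inv_ne_zero t0')) (by
      have e1 : cT q (ι t⁻¹) * B' * ι t⁻¹ = cT q (ι t0⁻¹) * B' * ι t0⁻¹ := by
        rw [← sing_inv ι t', ← sing_inv ι t0']
        exact e
      have e2 : ι t0⁻¹ * ι t0 = 1 := by rw [← map_mul, inv_mul_cancel₀ t0', map_one]
      rw [sing_inv ι (mul_ne_zero t' (inv_ne_zero t0')), mul_inv, inv_inv, map_mul, cT_mul]
      calc cT q (ι t0) * cT q (ι t⁻¹) * B' * (ι t⁻¹ * ι t0)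
          = cT q (ι t0) * (cT q (ι t⁻¹) * B' * ι t⁻¹) * ι t0 := by simp only [Matrix.mul_assoc]
        _ = cT q (ι t0⁻¹ * ι t0) * B' * (ι t0⁻¹ * ι t0) := by
          rw [e1, cT_mul]; simp only [Matrix.mul_assoc]
        _ = B' := by rw [e2, cT_one, one_mul, mul_one])
    refine Finset.mem_image.2 ⟨z, mem_mu.2 hz, ?_⟩
    rw [← e', inv_mul_cancel_right₀ t0']
  rw [Finset.card_erase_of_mem (Finset.mem_univ _), Finset.card_univ, hK] at h1
  have h2 : ((Finset.univ.erase (0 : K)).image f).card * finrank ℂ (Wt Ψ ρ B') ≤ finrank ℂ M := by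
    rw [finrank_eq_sum (ρ := ρ) hΨ, ← smul_eq_mul, ← Finset.sum_const]
    refine le_trans (Finset.sum_congr rfl fun C hC => ?_).le
      (Finset.sum_le_sum_of_subset (f := fun C => finrank ℂ (Wt Ψ ρ C)) fun C hC => ?_)
    · obtain ⟨t, ht, rfl⟩ := Finset.mem_image.1 hC
      exact (finrank_lev (sing_unit ι (Finset.ne_of_mem_erase ht)) B').symm
    · obtain ⟨t, ht, rfl⟩ := Finset.mem_image.1 hC
      exact mem_hmS.2 (herm_conj_inv _ hB')
  calc _ ≤ (q + 1) * ((Finset.univ.erase (0 : K)).image f).card * finrank ℂ (Wt Ψ ρ B') :=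
        Nat.mul_le_mul_right _ h1
    _ ≤ _ := by rw [mul_assoc]; exact Nat.mul_le_mul_left _ h2

include ι in
theorem d1 [FiniteDimensional ℂ M] (hΨ : Gd q Ψ) (hK : Fintype.card K = (q ^ 2) ^ m)
    (hd : finrank ℂ M * (q + 1) + q = q ^ (2 * m + 1))
    (hA : ∃ S, cT q S = -S ∧ ρ (up q S) ≠ 1) :
    (∀ B, cT q B = B → Wt Ψ ρ B ≠ ⊥ → ∃ b, b ≠ 0 ∧ B = ou q b b) ∧
      ∀ b : Fin m → F, b ≠ 0 → finrank ℂ (Wt Ψ ρ (ou q b b)) = q := by
  classical
  have hR := card_rank_one (F := F) (q := q) (m := m)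
  obtain ⟨R, hRd⟩ : ∃ R, R = (hmS F q m).filter fun B => ∃ b : Fin m → F, b ≠ 0 ∧ B = ou q b b :=
    ⟨_, rfl⟩
  have hR' : R.card * (q + 1) + 1 = (q ^ 2) ^ m := by
    rw [← hR, hRd]
  have hM : finrank ℂ M = q * R.card := by
    rw [pow_succ, pow_mul, ← hR'] at hd
    apply Nat.eq_of_mul_eq_mul_right (Nat.succ_pos q)
    change finrank ℂ M * (q + 1) = q * R.card * (q + 1)
    nlinarith
  obtain ⟨S, hS, hS1⟩ := hA
  obtain ⟨B0, hB0, h00, hne0⟩ : ∃ B, cT q B = B ∧ B ≠ 0 ∧ Wt Ψ ρ B ≠ ⊥ := by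
    by_contra hc
    push Not at hc
    refine hS1 (LinearMap.ext fun x => ?_)
    have h1 := sum_pj (ρ := ρ) hΨ x
    rw [Finset.sum_eq_single 0 (fun B hB h0 => by
      have := pj_mem (Ψ := Ψ) (ρ := ρ) B x
      rwa [hc B (mem_hmS.1 hB) h0, Submodule.mem_bot] at this)
      (fun h => absurd (mem_hmS.2 cT_zero) h)] at h1
    have h2 := pj_mem (Ψ := Ψ) (ρ := ρ) 0 x
    rw [h1] at h2
    simpa using mem_Wt.1 h2 S hS
  have hpos : 0 < R.card := by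
    have : 0 < finrank ℂ M := lt_of_lt_of_le (Nat.pos_of_ne_zero fun h =>
      hne0 (Submodule.finrank_eq_zero.1 h)) (Submodule.finrank_le _)
    rw [hM] at this
    exact Nat.pos_of_mul_pos_left this
  have s1 : ∀ B, cT q B = B → B ≠ 0 → finrank ℂ (Wt Ψ ρ B) ≤ q := by
    intro B hB h0
    have := orbit_le (ρ := ρ) ι hΨ hK hB h0
    rw [← hR', Nat.add_sub_cancel, hM] at this
    refine Nat.le_of_mul_le_mul_left (c := R.card * (q + 1)) ?_ (Nat.mul_pos hpos (Nat.succ_pos q))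
    nlinarith
  have s2 : ∀ B, cT q B = B → B ≠ 0 → Wt Ψ ρ B ≠ ⊥ → ∃ b, b ≠ 0 ∧ B = ou q b b := by
    intro B hB h0 hne
    obtain ⟨b, hb⟩ := rank_one_of_iso hB fun u hu => d1_iso hΨ hB hne (s1 B hB h0) hu
    exact ⟨b, fun e => h0 (by rw [hb, ou_self_eq_zero.2 e]), hb⟩
  obtain ⟨b0, hb0, rfl⟩ := s2 B0 hB0 h00 hne0
  have s3 : finrank ℂ (Wt Ψ ρ (ou q b0 b0)) = q := by
    refine le_antisymm (s1 _ hB0 h00) ?_
    obtain ⟨w, hw⟩ := exists_herm_one (q := q) hb0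
    have : Nontrivial (Wt Ψ ρ (ou q b0 b0)) := Submodule.nontrivial_iff_ne_bot.2 hne0
    exact le_finrank1 (gd_psiT hΨ) (hS_hW hw)
  have s4 : ∀ b : Fin m → F, b ≠ 0 → finrank ℂ (Wt Ψ ρ (ou q b b)) = q := by
    intro b hb
    obtain ⟨X, hX, e⟩ := exists_lev_move (q := q) hb0 hb
    have := finrank_lev (Ψ := Ψ) (ρ := ρ) hX (ou q b0 b0)
    rwa [mul_ou, ou_mul, e, s3] at this
  refine ⟨fun B hB hne => s2 B hB ?_ hne, s4⟩
  rintro rfl
  have h0R : (0 : Matrix (Fin m) (Fin m) F) ∉ R := by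
    rw [hRd, Finset.mem_filter]
    rintro ⟨-, b, hb, e⟩
    exact hb (ou_self_eq_zero.1 e.symm)
  have h1 : ∑ B ∈ insert 0 R, finrank ℂ (Wt Ψ ρ B) ≤ finrank ℂ M := by
    rw [finrank_eq_sum (ρ := ρ) hΨ]
    refine Finset.sum_le_sum_of_subset (Finset.insert_subset (mem_hmS.2 hB) ?_)
    rw [hRd]
    exact Finset.filter_subset _ _
  rw [Finset.sum_insert h0R, Finset.sum_congr rfl (g := fun _ => q) (fun B hB => by
    rw [hRd] at hB
    obtain ⟨-, b, hb, rfl⟩ := Finset.mem_filter.1 hB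
    exact s4 b hb), Finset.sum_const, smul_eq_mul, hM, mul_comm] at h1
  exact hne (Submodule.finrank_eq_zero.1 (by omega))

end Cfsg.Agent.CJ
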