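import Cfsg.Agent.CJ.D1
import Cfsg.Agent.CJ.Br

/-!
S4793: a representation of degree `(q^n - q)/(q+1)` on which `A` acts nontrivially has no `R`-fixed vector.
Fix `Ψ`, a Singer cycle `ι` with generator `a` (`exists_singer`, `exists_gen`), `N (q+1) = q^(2m) - 1`, `b₀ ≠ 0`, `φ` from `exists_phi` (for `hW (ou b₀ b₀) (l • w₀)`, `rW`, `d1`). `a^N = algebraMap z₀` with `z₀` of order `q + 1` (`exists_mu_of_pow`),
generating the norm-one group. Let `c = ρ (lev (ι a))`, `c^k = ρ (lev (ι (a^k)))`. By `trace_eq_sum`: if `N ∤ k`, `a^k` moves every `ou b b` (`ou_self_eq_iff`, `sing_bij'`), so `pj B * c^k * pj B = 0` (`lev_mem`, `pj_ne`) and the trace vanishes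
(`trace_mul_comm`, `pj B * pj B = pj B`). For `z` of norm one, `ρ (lev (z • 1)) = ρ (rr (σ z))` (`sc_eq`, `ZT`), and `trace (ρ (rr z) * pj (ou b b))` does not depend on `b ≠ 0` (conjugate by `lev X`: `lev_pj`, `lev_rr`, `exists_lev_move`),
so `trace (ρ (rr z)) = -N φ z` for `z ≠ 1` (`trace_pj_mul`, `card_rank_one`; `pj B = 0` if `Wt B = ⊥`). `det_lemma` with `r = q + 1`, `ε = φ (σ z₀)`, `det c = 1` (`hom_eq_one` for `LinearMap.det ∘ ρ`), `finrank M = q N` even (`q` odd: `N = (q-1) ∑ q^(2i)`).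
So `φ = 1`, `∑ ρ (rr z) = 0` on `Wt (ou b₀ b₀)`, hence on every weight space (conjugate by `lev X`), hence on `M` (`sum_pj`); a fixed `x` has `(q+1) • x = 0`.
-/

set_option autoImplicit false
set_option linter.unusedSectionVars false

namespace Cfsg.Agent.CJ

open Module Matrix Cfsg Cfsg.Agent.Class.U Cfsg.Agent.KSG

variable {F : Type*} [Field F] {q : ℕ} [hU : UF F q] {m : ℕ}

local notation "σ" => conj F q
local notation "𝐡" => hermForm m F q

variable [Fintype F] [DecidableEq F] {M : Type*} [AddCommGroup M] [Module ℂ M]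
  {Ψ : AddChar F ℂ} {ρ : Ga F q m →* End ℂ M}

theorem d3_conj (Ψ : AddChar F ℂ) (ρ : Ga F q m →* End ℂ M) {b0 b : Fin m → F} (hb0 : b0 ≠ 0)
    (hb : b ≠ 0) : ∃ g : Ga F q m, (∀ z : F, z * σ z = 1 → ρ (rr q m z) * ρ g = ρ g * ρ (rr q m z)) ∧
      pj Ψ ρ (ou q b b) = ρ g * pj Ψ ρ (ou q b0 b0) * ρ g⁻¹ := by
  obtain ⟨X, hX, e⟩ := exists_lev_move (q := q) hb0 hb
  refine ⟨lev q X, fun z hz => by rw [← map_mul, ← map_mul, lev_rr hX hz], LinearMap.ext fun x => ?_⟩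
  rw [End.mul_apply, End.mul_apply, lev_pj hX, mul_ou, ou_mul, e, wt_rho_mul, mul_inv_cancel, map_one,
    End.one_apply]

theorem d3_lev_sc (hZ : ZT ρ) {z : F} (hz : z * σ z = 1) :
    ρ (lev q (z • (1 : Matrix (Fin m) (Fin m) F))) = ρ (rr q m (σ z)) := by
  have := hZ z hz
  rw [sc_eq hz, map_mul] at this
  rw [← one_mul (ρ (rr q m (σ z))), ← this, mul_assoc, ← map_mul, ← rr_mul hz (h1_nz hz), hz, rr_one,
    map_one, mul_one]

theorem d3_npow {z : F} (hz : z * σ z = 1) (j : ℕ) : z ^ j * σ (z ^ j) = 1 := by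
  rw [map_pow, ← mul_pow, hz, one_pow]

theorem d3_even {N q m : ℕ} (hq : 1 ≤ q) (h : N * (q + 1) + 1 = (q ^ 2) ^ m) : Even (q * N) := by
  obtain ⟨p, rfl⟩ : ∃ p, q = p + 1 := ⟨q - 1, by omega⟩
  obtain ⟨t, ht⟩ : ∃ t, ((p + 1) ^ 2) ^ m = p * t * (p + 1 + 1) + 1 := by
    clear h
    induction m with
    | zero => exact ⟨0, by simp⟩
    | succ m ih =>
      obtain ⟨t, ht⟩ := ih
      exact ⟨t * (p + 1) ^ 2 + 1, by rw [pow_succ _ m, ht]; ring⟩
  rw [ht, add_left_inj, mul_left_inj' (by omega)] at h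
  rw [h, ← mul_assoc, mul_comm (p + 1)]
  exact (Nat.even_mul_succ_self p).mul_right t

theorem d3_lev_pow {K : Type*} [Field K] [Fintype K] [Algebra F K]
    (ι : K →ₐ[F] Matrix (Fin m) (Fin m) F) {a : K} (ha : a ≠ 0) (k : ℕ) :
    ρ (lev q (ι a)) ^ k = ρ (lev q (ι (a ^ k))) := by
  induction k with
  | zero => rw [pow_zero, pow_zero, map_one, lev_one, map_one]
  | succ k ih =>
    rw [pow_succ, pow_succ, ih, map_mul ι, lev_mul (sing_unit ι (pow_ne_zero k ha)) (sing_unit ι ha),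
      map_mul]

theorem main_D [FiniteDimensional ℂ M] (hy : Hyp q m) (hZ : ZT ρ)
    (hd : finrank ℂ M * (q + 1) + q = q ^ (2 * m + 1))
    (hA : ∃ S, cT q S = -S ∧ ρ (up q S) ≠ 1) : RF ρ := by
  obtain ⟨Ψ, hΨ⟩ := exists_gd (F := F) (q := q)
  obtain ⟨K, _, _, _, ι, hK⟩ := exists_singer (F := F) (q := q) hy.1
  obtain ⟨a, a0, ao, ag⟩ := exists_gen K
  obtain ⟨hd1, hd2⟩ := d1 ι hΨ hK hd hA
  have q2 := two_le_q F q
  have hN := card_rank_one (F := F) (q := q) (m := m)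
  set R1 := (hmS F q m).filter fun B => ∃ b : Fin m → F, b ≠ 0 ∧ B = ou q b b with hR1
  set N := R1.card with hNd
  have N0 : 0 < N := by
    refine Nat.pos_of_ne_zero fun e => ?_
    rw [e, zero_mul, zero_add] at hN
    exact (Nat.one_lt_pow (by have := hy.1; omega) (Nat.one_lt_pow two_ne_zero q2)).ne hN
  replace ao : orderOf a = N * (q + 1) := by rw [ao, hK, ← hN, Nat.add_sub_cancel]
  have dv : ∀ k, (a ^ k) ^ (q + 1) = 1 → N ∣ k := fun k e => by
    rw [← pow_mul, ← orderOf_dvd_iff_pow_eq_one, ao] at e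
    exact Nat.dvd_of_mul_dvd_mul_right (Nat.add_one_pos q) e
  have nq : ∀ z : F, z * σ z = 1 → algebraMap F K z ^ (q + 1) = 1 := fun z hz => by
    rw [← map_pow, ← mul_conj_eq_pow, hz, map_one]
  obtain ⟨b0, hb0⟩ : ∃ b : Fin m → F, b ≠ 0 :=
    ⟨fun _ => 1, fun e => one_ne_zero (congrFun e ⟨0, hy.1⟩)⟩
  obtain ⟨w0, hw⟩ := exists_herm_one (q := q) hb0
  obtain ⟨φ, φ1, φm, φt, φs⟩ := exists_phi (gd_psiT hΨ) (hS_hW (Ψ := Ψ) (ρ := ρ) hw) (rS_rW _ w0)
    (hd2 b0 hb0)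
  have φp : ∀ z : F, z * σ z = 1 → ∀ j : ℕ, φ (z ^ j) = φ z ^ j := fun z hz j => by
    induction j with
    | zero => rw [pow_zero, pow_zero, φ1]
    | succ j ih => rw [pow_succ, pow_succ, φm _ _ (d3_npow hz j) hz, ih]
  have pj0 : ∀ B ∈ hmS F q m, pj Ψ ρ B ≠ 0 → ∃ b : Fin m → F, b ≠ 0 ∧ B = ou q b b := fun B hB h0 =>
    hd1 B (mem_hmS.1 hB) fun e => h0 (LinearMap.ext fun x => by
      have := pj_mem (Ψ := Ψ) (ρ := ρ) B x
      rw [e] at this
      exact this)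
  have trs : ∀ T : End ℂ M, LinearMap.trace ℂ M T = ∑ B ∈ R1, LinearMap.trace ℂ M (T * pj Ψ ρ B) :=
    fun T => by
      rw [trace_eq_sum hΨ T, hR1, Finset.sum_filter_of_ne]
      exact fun B hB h0 => pj0 B hB fun e => h0 (by rw [e, mul_zero, map_zero])
  have trr : ∀ z : F, z * σ z = 1 → z ≠ 1 → LinearMap.trace ℂ M (ρ (rr q m z)) = -(N : ℂ) * φ z :=
    fun z hz z1 => by
      rw [trs, Finset.sum_congr rfl (g := fun _ => -φ z), Finset.sum_const, nsmul_eq_mul, mul_neg,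
        neg_mul]
      intro B hB
      obtain ⟨b, hb, rfl⟩ := (Finset.mem_filter.1 hB).2
      obtain ⟨g, g1, g2⟩ := d3_conj Ψ ρ hb0 hb
      rw [g2, ← mul_assoc, LinearMap.trace_mul_comm, ← mul_assoc (ρ _) (ρ g), g1 z hz, ← mul_assoc,
        ← mul_assoc, ← map_mul, inv_mul_cancel, map_one, one_mul,
        trace_pj_mul fun _ hx => rr_mem hz hx, ← φt z hz z1, rW, dif_pos hz]
  obtain ⟨z0, hz0, e0⟩ := exists_mu_of_pow (F := F) (q := q) (t := a ^ N)
    (by rw [← pow_mul, ← ao, pow_orderOf_eq_one])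
  have hfr : finrank ℂ M = q * N := by
    refine Nat.eq_of_mul_eq_mul_right (Nat.add_one_pos q) (Nat.add_right_cancel (m := q) ?_)
    rw [hd, pow_succ, pow_mul, ← hN]
    ring
  have ε1 : φ (σ z0) = 1 := by
    refine det_lemma (ρ (lev q (ι a))) N0 (Nat.add_one_pos q) ?_ ?_ (fun k hk => ?_) (fun j hj => ?_)
      (by rw [hfr]; ring) (hom_eq_one hy (LinearMap.det.comp ρ) (fun z hz => ?_) _)
      (hfr ▸ d3_even (by omega) hN)
    · rw [d3_lev_pow ι a0, ← ao, pow_orderOf_eq_one, map_one, lev_one, map_one]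
    · rw [← φp _ (h1_nz hz0), ← mul_conj_eq_pow, h1_nz hz0, φ1]
    · rw [trs]
      refine Finset.sum_eq_zero fun B hB => ?_
      obtain ⟨b, hb, rfl⟩ := (Finset.mem_filter.1 hB).2
      have pp : pj Ψ ρ (ou q b b) = pj Ψ ρ (ou q b b) * pj Ψ ρ (ou q b b) :=
        LinearMap.ext fun x => (pj_same (pj_mem _ x)).symm
      have t0 := pow_ne_zero k a0
      have z : pj Ψ ρ (ou q b b) * (ρ (lev q (ι (a ^ k))) * pj Ψ ρ (ou q b b)) = 0 := by
        refine LinearMap.ext fun x => pj_ne hΨ (cT_ou _ _) (cT_ou _ _) (fun e => hk (dv k ?_))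
          (lev_mem_ou (sing_unit ι t0) (pj_mem _ x))
        obtain ⟨z, hz, e⟩ := ou_self_eq_iff.1 e
        have e2 : (a ^ k)⁻¹ = algebraMap F K (σ z) := by
          refine (sing_bij' ι hK hb).1 ?_
          beta_reduce
          rw [← sing_inv ι t0, e, sing_alg, cT_smul, cT_one, conj_conj, smul_mulVec, one_mulVec]
        rw [← inv_eq_one, ← inv_pow, e2, nq _ (h1_nz hz)]
      rw [d3_lev_pow ι a0, pp, ← mul_assoc, LinearMap.trace_mul_comm, z, map_zero]
    · rw [d3_lev_pow ι a0, pow_mul, e0, ← map_pow, sing_alg, d3_lev_sc hZ (d3_npow hz0 j),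
        trr _ (h1_nz (d3_npow hz0 j)), map_pow, φp _ (h1_nz hz0)]
      intro e
      rw [conj_eq_iff, map_one] at e
      have : a ^ (N * j) = 1 := by rw [pow_mul, e0, ← map_pow, e, map_one]
      rw [← orderOf_dvd_iff_pow_eq_one, ao] at this
      exact hj (Nat.dvd_of_mul_dvd_mul_left N0 this)
    · rw [MonoidHom.comp_apply, hZ z hz, map_one]
  have s0 := φs fun z hz => by
    obtain ⟨k, hk⟩ := ag (algebraMap F K (σ z)) (by
      rw [_root_.map_ne_zero]
      intro e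
      rw [e, mul_zero] at hz
      exact zero_ne_one hz)
    obtain ⟨j, rfl⟩ := dv k (by rw [hk, nq _ (h1_nz hz)])
    rw [pow_mul, e0, ← map_pow] at hk
    have := (algebraMap F K).injective hk
    rw [eq_comm, conj_eq_iff, map_pow] at this
    rw [this, φp _ (h1_nz hz0), ε1, one_pow]
  have T0 : (∑ z ∈ mu F q, ρ (rr q m z)) * pj Ψ ρ (ou q b0 b0) = 0 := LinearMap.ext fun x => by
    have := congrArg Subtype.val (LinearMap.congr_fun s0 ⟨_, pj_mem (ou q b0 b0) x⟩)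
    rw [LinearMap.sum_apply, Submodule.coe_sum,
      Finset.sum_congr rfl fun z hz => rW_coe _ (mem_mu.1 hz) _] at this
    rw [End.mul_apply, LinearMap.sum_apply]
    exact this
  have T1 : ∑ z ∈ mu F q, ρ (rr q m z) = 0 := by
    rw [← mul_one (∑ z ∈ mu F q, ρ (rr q m z)), ← wt_sum_pj_one (ρ := ρ) hΨ, Finset.mul_sum]
    refine Finset.sum_eq_zero fun B hB => ?_
    by_cases h0 : pj Ψ ρ B = 0
    · rw [h0, mul_zero]
    obtain ⟨b, hb, rfl⟩ := pj0 B hB h0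
    obtain ⟨g, g1, g2⟩ := d3_conj Ψ ρ hb0 hb
    have : (∑ z ∈ mu F q, ρ (rr q m z)) * ρ g = ρ g * ∑ z ∈ mu F q, ρ (rr q m z) := by
      rw [Finset.sum_mul, Finset.mul_sum]
      exact Finset.sum_congr rfl fun z hz => g1 z (mem_mu.1 hz)
    rw [g2, ← mul_assoc, ← mul_assoc, this, mul_assoc (ρ g), T0, mul_zero, zero_mul]
  intro x hx
  have := LinearMap.congr_fun T1 x
  rw [LinearMap.sum_apply, Finset.sum_congr rfl fun z hz => hx z (mem_mu.1 hz), Finset.sum_const,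
    ← Nat.cast_smul_eq_nsmul ℂ, h1_card_mu, LinearMap.zero_apply] at this
  exact (smul_eq_zero.1 this).resolve_left h1_q1

end Cfsg.Agent.CJ
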