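import Cfsg.Agent.CJ.Ext

/-!
S4793: an intertwiner of the parabolic subgroup intertwines the whole group; uniqueness and degree.
`dz`: `D x = ρ' nn (Φ x) - Φ (ρ nn x)`; by `sum_pj`, `wt_rank_one`, `wt_zero` it suffices to treat `x ∈ Wt (ou b b)`, `b ≠ 0`. With `a u = up (ou u w - ou w u)`, `y u = lev (1 + ou u w')` (`𝐡 u w' = 0`):
`nn * a u = y u * nn` (`nn_up`) and `nn * y u = a u * nn` (`nn_nn`), so `D (ρ (a u) x) = ρ' (y u) (D x)` and `D (ρ (y u) x) = ρ' (a u) (D x)`. `y u` maps `Wt (ou b' b')` to `Wt (ou b'' b'')`, `b'' = b' - 𝐡 b' u • w'` (`lev_pj`, `inv_one_add_ou`).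
Case `𝐡 w b ≠ 0`: `l2b` (`μ = 𝐡 w b * σ ..`, `tv_wt`): `D x` is fixed by the `tv w c`; `ρ (a u) x = ω • x`, so `ρ' (y u) (D x) = ω • D x`. For a Hermitian `B'`: `pj B' (D x) = 0` if `Wt B' = ⊥`, else `B' = ou b' b'`, `b' ≠ 0`;
if `𝐡 w b' ≠ 0` use `pj_eq_zero_of_tv`; else take `u` with `𝐡 u w' = 0`, `𝐡 u b' = 1` (`exists_herm_sep`): `ρ' (y u) (pj B' (D x)) = ω • pj (ou b'' b'') (D x) = 0` as `𝐡 w b'' = -1`. So `D x = 0`.
Case `𝐡 w b = 0`: `u` with `𝐡 u w' = 0`, `𝐡 u b = 1`; `ρ (y u) x` falls under the first case, so `ρ' (a u) (D x) = 0`.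
`iw_all`: `{g | Iw ρ ρ' Φ g}` is a subgroup, `gen_top`. `exists_iw`: some weight space is nonzero (`sum_pj`), of rank one and `b ≠ 0`; all rank-one weight spaces have the same dimension (`finrank_lev`, `exists_lev_move`, `mul_ou`, `ou_mul`);
`exists_iw1`, `extend`. `finrank_eq`: `finrank_of_scalar` via `extend` + `iw_all`; `finrank_eq_sum`, `card_rank_one`.
-/

set_option autoImplicit false
set_option linter.unusedSectionVars false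

namespace Cfsg.Agent.CJ

open Module Matrix Cfsg Cfsg.Agent.Class.U Cfsg.Agent.KSG

variable {F : Type*} [Field F] {q : ℕ} [hU : UF F q] {m : ℕ}

local notation "σ" => conj F q
local notation "𝐡" => hermForm m F q

variable [Fintype F] [DecidableEq F] {M : Type*} [AddCommGroup M] [Module ℂ M]
  {Ψ : AddChar F ℂ} {ρ : Ga F q m →* End ℂ M}
  {M' : Type*} [AddCommGroup M'] [Module ℂ M'] {ρ' : Ga F q m →* End ℂ M'}

theorem dz_det {u w' : Fin m → F} (hu : 𝐡 u w' = 0) : IsUnit (1 + ou q u w').det := by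
  rw [det_one_add_ou, hu, add_zero]; exact isUnit_one

theorem dz_inv {u w' : Fin m → F} (hu : 𝐡 u w' = 0) (b : Fin m → F) :
    cT q (1 + ou q u w')⁻¹ *ᵥ b = b - 𝐡 b u • w' := by
  rw [inv_one_add_ou (by rw [hu, add_zero]; exact one_ne_zero), hu, add_zero, inv_one, one_smul,
    cT_sub, cT_one, cT_ou, sub_mulVec, one_mulVec, ou_mulVec]

theorem dz_conj_ou (X : Matrix (Fin m) (Fin m) F) (b : Fin m → F) :
    cT q X⁻¹ * ou q b b * X⁻¹ = ou q (cT q X⁻¹ *ᵥ b) (cT q X⁻¹ *ᵥ b) := by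
  rw [mul_ou, ou_mul]

theorem dz_inj (ρ : Ga F q m →* End ℂ M) (g : Ga F q m) {x : M} (h : ρ g x = 0) : x = 0 := by
  have := congrArg (ρ g⁻¹) h
  rwa [wt_rho_mul, inv_mul_cancel, map_one, map_zero, Module.End.one_apply] at this

theorem dz_comm {Φ : M →ₗ[ℂ] M'} {n a y : Ga F q m} (e : n * a = y * n) (ha : Iw ρ ρ' Φ a)
    (hy : Iw ρ ρ' Φ y) (x : M) :
    ρ' n (Φ (ρ a x)) - Φ (ρ n (ρ a x)) = ρ' y (ρ' n (Φ x) - Φ (ρ n x)) := by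
  rw [ha x, wt_rho_mul, wt_rho_mul, e, ← wt_rho_mul, ← wt_rho_mul, hy, map_sub]

theorem dz_mu (w b : Fin m → F) : 𝐡 (ou q b b *ᵥ w) w = 𝐡 w b * 𝐡 b w := by
  rw [ou_mulVec, herm_smul_left]

theorem dz_sep {w w' b : Fin m → F} (hw : 𝐡 w w' = 1) (hb : b ≠ 0) (hwb : 𝐡 w b = 0) :
    ∃ u, 𝐡 u w' = 0 ∧ 𝐡 w (cT q (1 + ou q u w')⁻¹ *ᵥ b) ≠ 0 := by
  obtain ⟨u, hu, hub⟩ := exists_herm_sep (q := q) (b := b) (w' := w') (fun c hc => by
    rw [hc, herm_smul_right, hw, mul_one, map_eq_zero] at hwb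
    exact hb (by rw [hc, hwb, zero_smul]))
  refine ⟨u, hu, ?_⟩
  rw [dz_inv hu, herm_comm_one hub, one_smul, herm_sub_right, hwb, hw, zero_sub]
  exact neg_ne_zero.2 one_ne_zero

theorem dz_one (hy : Hyp q m) (hΨ : Gd q Ψ) (hR : RF ρ) (hR' : RF ρ') (hZ' : ZT ρ')
    {Φ : M →ₗ[ℂ] M'} (h1 : ∀ X, IsUnit X.det → Iw ρ ρ' Φ (lev q X))
    (h2 : ∀ S, cT q S = -S → Iw ρ ρ' Φ (up q S)) {w w' : Fin m → F} (hw : 𝐡 w w' = 1)
    {b : Fin m → F} (hwb : 𝐡 w b ≠ 0) {x : M} (hx : x ∈ Wt Ψ ρ (ou q b b)) :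
    ρ' (nn q w w') (Φ x) - Φ (ρ (nn q w w') x) = 0 := by
  set d := ρ' (nn q w w') (Φ x) - Φ (ρ (nn q w w') x) with hd
  have hfix : ∀ c, c + σ c = 0 → ρ' (tv q w c) d = d := fun c hc =>
    l2b hΨ hR hR' hw (fun c hc => h2 _ (skew_tv w hc))
      (fun a ha => h1 _ (by rw [det_dl hw]; exact ha.isUnit))
      (wt_conj_herm_hm (cT_ou b b) w)
      (by rw [dz_mu]; exact mul_ne_zero hwb (herm_comm_ne hwb))
      (fun c hc => by rw [tv_wt w hc hx, mul_comm]) hc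
  have hne : ∀ b' : Fin m → F, 𝐡 w b' ≠ 0 → pj Ψ ρ' (ou q b' b') d = 0 := fun b' hb' =>
    pj_eq_zero_of_tv hΨ (cT_ou b' b')
      (by rw [dz_mu]; exact mul_ne_zero hb' (herm_comm_ne hb')) hfix
  rw [← sum_pj (ρ := ρ') hΨ d]
  refine Finset.sum_eq_zero fun B hB => ?_
  rw [mem_hmS] at hB
  by_cases hbot : Wt Ψ ρ' B = ⊥
  · have := pj_mem (Ψ := Ψ) (ρ := ρ') B d
    rwa [hbot, Submodule.mem_bot] at this
  obtain ⟨b', rfl⟩ := wt_rank_one hΨ hR' hB hbot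
  by_cases hwb' : 𝐡 w b' = 0
  · have hb' : b' ≠ 0 := fun h0 => hbot (by
      rw [ou_self_eq_zero.2 h0]; exact wt_zero hy hΨ hR' hZ')
    obtain ⟨u, hu, hu'⟩ := dz_sep hw hb' hwb'
    refine dz_inj ρ' (lev q (1 + ou q u w')) ?_
    rw [lev_pj (dz_det hu), dz_conj_ou, hd,
      ← dz_comm (nn_up hw hu) (h2 _ (skew_sub w u)) (h1 _ (dz_det hu)) x,
      mem_Wt.1 hx _ (skew_sub w u)]
    simp only [map_smul]
    rw [← smul_sub, map_smul, ← hd, hne _ hu', smul_zero]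
  · exact hne b' hwb'

theorem dz (hy : Hyp q m) (hΨ : Gd q Ψ) (hR : RF ρ) (hR' : RF ρ') (hZ : ZT ρ) (hZ' : ZT ρ')
    {Φ : M →ₗ[ℂ] M'} (h1 : ∀ X, IsUnit X.det → Iw ρ ρ' Φ (lev q X))
    (h2 : ∀ S, cT q S = -S → Iw ρ ρ' Φ (up q S)) {w w' : Fin m → F} (hw : 𝐡 w w' = 1) :
    Iw ρ ρ' Φ (nn q w w') := by
  intro x
  rw [← sum_pj (ρ := ρ) hΨ x]
  simp only [map_sum]
  refine Finset.sum_congr rfl fun B hB => ?_
  rw [mem_hmS] at hB
  have hx := pj_mem (Ψ := Ψ) (ρ := ρ) B x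
  generalize pj Ψ ρ B x = y at hx
  by_cases hbot : Wt Ψ ρ B = ⊥
  · rw [hbot, Submodule.mem_bot] at hx
    simp [hx]
  obtain ⟨b, rfl⟩ := wt_rank_one hΨ hR hB hbot
  refine (sub_eq_zero.1 ?_).symm
  by_cases hwb : 𝐡 w b = 0
  · have hb : b ≠ 0 := fun h0 => hbot (by
      rw [ou_self_eq_zero.2 h0]; exact wt_zero hy hΨ hR hZ)
    obtain ⟨u, hu, hu'⟩ := dz_sep hw hb hwb
    have e : nn q w w' * lev q (1 + ou q u w') = up q (ou q u w - ou q w u) * nn q w w' := by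
      have e1 := nn_up hw hu
      have e2 := nn_nn hw
      calc nn q w w' * lev q (1 + ou q u w')
          = nn q w w' * (lev q (1 + ou q u w') * nn q w w') * nn q w w' := by
            rw [mul_assoc, mul_assoc, e2, mul_one]
        _ = _ := by rw [← e1, ← mul_assoc, e2, one_mul]
    refine dz_inj ρ' (up q (ou q u w - ou q w u)) ?_
    rw [← dz_comm e (h1 _ (dz_det hu)) (h2 _ (skew_sub w u)) y]
    exact dz_one hy hΨ hR hR' hZ' h1 h2 hw hu' (lev_mem_ou (dz_det hu) hx)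
  · exact dz_one hy hΨ hR hR' hZ' h1 h2 hw hwb hx

theorem iw_all (hy : Hyp q m) (hR : RF ρ) (hR' : RF ρ') (hZ : ZT ρ) (hZ' : ZT ρ')
    {Φ : M →ₗ[ℂ] M'} (h1 : ∀ X, IsUnit X.det → Iw ρ ρ' Φ (lev q X))
    (h2 : ∀ S, cT q S = -S → Iw ρ ρ' Φ (up q S)) (h3 : ∀ u, Iw ρ ρ' Φ (hs q u))
    (h4 : ∀ z : F, z * σ z = 1 → Iw ρ ρ' Φ (rr q m z)) (g : Ga F q m) : Iw ρ ρ' Φ g := by
  obtain ⟨Ψ, hΨ⟩ := exists_gd (F := F) (q := q)
  let H : Subgroup (Ga F q m) :=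
    { carrier := {g | Iw ρ ρ' Φ g}
      mul_mem' := fun {a b} ha hb x => by
        rw [← wt_rho_mul, ← wt_rho_mul, ha, hb]
      one_mem' := fun x => by simp
      inv_mem' := fun {a} ha x => by
        have := congrArg (ρ' a⁻¹) (ha (ρ a⁻¹ x))
        rw [wt_rho_mul, wt_rho_mul, mul_inv_cancel, inv_mul_cancel, map_one, map_one,
          Module.End.one_apply, Module.End.one_apply] at this
        exact this.symm }
  have hH : H = ⊤ := gen_top hy H h1 h2 h3 h4 fun w w' hw => dz hy hΨ hR hR' hZ hZ' h1 h2 hw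
  have : g ∈ H := hH ▸ Subgroup.mem_top g
  exact this

theorem dz_finrank [FiniteDimensional ℂ M] {b b' : Fin m → F} (hb : b ≠ 0) (hb' : b' ≠ 0) :
    finrank ℂ (Wt Ψ ρ (ou q b' b')) = finrank ℂ (Wt Ψ ρ (ou q b b)) := by
  obtain ⟨X, hX, rfl⟩ := exists_lev_move (q := q) hb hb'
  rw [← dz_conj_ou, finrank_lev hX]

theorem dz_nontriv [FiniteDimensional ℂ M] [Nontrivial M] (hy : Hyp q m) (hΨ : Gd q Ψ) (hR : RF ρ)
    (hZ : ZT ρ) {b : Fin m → F} (hb : b ≠ 0) : Nontrivial (Wt Ψ ρ (ou q b b)) := by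
  obtain ⟨x, hx⟩ := exists_ne (0 : M)
  rw [← sum_pj (ρ := ρ) hΨ x] at hx
  obtain ⟨B, hB, hB0⟩ := Finset.exists_ne_zero_of_sum_ne_zero hx
  rw [mem_hmS] at hB
  have hbot : Wt Ψ ρ B ≠ ⊥ := fun h => hB0 (by
    have := pj_mem (Ψ := Ψ) (ρ := ρ) B x
    rwa [h, Submodule.mem_bot] at this)
  obtain ⟨b', rfl⟩ := wt_rank_one hΨ hR hB hbot
  have hb' : b' ≠ 0 := fun h0 => hbot (by
    rw [ou_self_eq_zero.2 h0]; exact wt_zero hy hΨ hR hZ)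
  have : Nontrivial (Wt Ψ ρ (ou q b' b')) := Submodule.nontrivial_iff_ne_bot.2 hbot
  rw [← Module.finrank_pos_iff (R := ℂ), dz_finrank hb' hb]
  exact Module.finrank_pos

theorem dz_exists_ne (hy : Hyp q m) : ∃ b : Fin m → F, b ≠ 0 := by
  have : Nonempty (Fin m) := ⟨⟨0, hy.1⟩⟩
  exact exists_ne 0

theorem exists_iw [FiniteDimensional ℂ M] [FiniteDimensional ℂ M'] [Nontrivial M] [Nontrivial M']
    (hy : Hyp q m) (hR : RF ρ) (hR' : RF ρ') (hZ : ZT ρ) (hZ' : ZT ρ') :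
    ∃ Φ : M →ₗ[ℂ] M', Φ ≠ 0 ∧ ∀ g, Iw ρ ρ' Φ g := by
  obtain ⟨Ψ, hΨ⟩ := exists_gd (F := F) (q := q)
  obtain ⟨b, hb⟩ := dz_exists_ne (F := F) hy
  obtain ⟨w0, hw⟩ := exists_herm_one (q := q) hb
  have := dz_nontriv hy hΨ hR hZ hb
  have := dz_nontriv hy hΨ hR' hZ' hb
  obtain ⟨Φ0, h0, hi⟩ := exists_iw1 (gd_psiT hΨ) (hS_hW (Ψ := Ψ) (ρ := ρ) hw)
    (hS_hW (Ψ := Ψ) (ρ := ρ') hw)
  obtain ⟨Φ, e, h1, h2, h3, h4⟩ := extend hΨ hR hR' hZ hZ' hw Φ0 hi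
  refine ⟨Φ, fun hΦ => h0 (LinearMap.ext fun x => Subtype.ext ?_),
    iw_all hy hR hR' hZ hZ' h1 h2 h3 h4⟩
  rw [← e x, hΦ]; rfl

theorem finrank_eq [FiniteDimensional ℂ M] [Nontrivial M] (hy : Hyp q m) (hR : RF ρ) (hZ : ZT ρ)
    (hirr : ∀ Φ : End ℂ M, (∀ g, Iw ρ ρ Φ g) → ∃ c : ℂ, Φ = c • 1) :
    finrank ℂ M * (q + 1) + q = q ^ (2 * m + 1) := by
  classical
  obtain ⟨Ψ, hΨ⟩ := exists_gd (F := F) (q := q)
  have key : ∀ b : Fin m → F, b ≠ 0 → finrank ℂ (Wt Ψ ρ (ou q b b)) = q := by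
    intro b hb
    obtain ⟨w0, hw⟩ := exists_herm_one (q := q) hb
    have := dz_nontriv hy hΨ hR hZ hb
    refine finrank_of_scalar (gd_psiT hΨ) (hS_hW (Ψ := Ψ) (ρ := ρ) hw) fun Φ0 hi => ?_
    obtain ⟨Φ, e, h1, h2, h3, h4⟩ := extend hΨ hR hR hZ hZ hw Φ0 hi
    obtain ⟨c, hc⟩ := hirr Φ (iw_all hy hR hR hZ hZ h1 h2 h3 h4)
    refine ⟨c, LinearMap.ext fun x => Subtype.ext ?_⟩
    rw [← e x, hc]; rfl
  have hs : finrank ℂ M =
      ((hmS F q m).filter fun B => ∃ b : Fin m → F, b ≠ 0 ∧ B = ou q b b).card * q := by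
    rw [finrank_eq_sum (ρ := ρ) hΨ, ← smul_eq_mul, ← Finset.sum_const, Finset.sum_filter]
    refine Finset.sum_congr rfl fun B hB => ?_
    rw [mem_hmS] at hB
    split_ifs with h
    · obtain ⟨b, hb, rfl⟩ := h
      exact key b hb
    · by_cases hbot : Wt Ψ ρ B = ⊥
      · rw [hbot, finrank_bot]
      obtain ⟨b, rfl⟩ := wt_rank_one hΨ hR hB hbot
      refine absurd ⟨b, fun h0 => hbot ?_, rfl⟩ h
      rw [ou_self_eq_zero.2 h0]; exact wt_zero hy hΨ hR hZ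
  have hc := card_rank_one (F := F) (q := q) (m := m)
  rw [hs, pow_succ, pow_mul, ← hc]
  ring

end Cfsg.Agent.CJ
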