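import Cfsg.Agent.KSG.SUSiegel

/-!
S4793 (constituents of the conjugation character of `PSU_n(q)`, `gcd(n, 2(q+1)) = 1`): definitions.

`Herm F q V`: nondegenerate Hermitian form, `β.Iso` its isometry group, `β.el f` the isometry with
underlying linear map `f` (junk `1` if `f` is not an isometry).
Model: `Sp F m = W × F × W'` (`W = W' = F^m`, `n = 2m+1`), group `Ga F q m`, elements `lev M` (Levi
`GL(W)`), `up S` (abelian radical `A`, `S` skew-Hermitian), `hs u` (Heisenberg part of `Q`), `rr z`
(reflections `R` along the middle vector), `sc z` (scalars), `nn w w'` (swap of a hyperbolic pair).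
`Wt Ψ ρ B`: weight space of `A` for the Hermitian matrix `B`.
-/

set_option autoImplicit false
set_option linter.unusedSectionVars false

namespace Cfsg.Agent.CJ

open Module Matrix Cfsg Cfsg.Agent.Class.U Cfsg.Agent.KSG

/-- A nondegenerate Hermitian form (linear in the first variable). -/
structure Herm (F : Type*) [Field F] (q : ℕ) [UF F q] (V : Type*) [AddCommGroup V] [Module F V] where
  f : V → V → F
  add_left : ∀ x x' y, f (x + x') y = f x y + f x' y
  smul_left : ∀ (c : F) x y, f (c • x) y = c * f x y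
  conj_f : ∀ x y, conj F q (f x y) = f y x
  nondeg : ∀ x, (∀ y, f x y = 0) → x = 0

variable {F : Type*} [Field F] {q : ℕ} [hU : UF F q]

local notation "σ" => conj F q

namespace Herm

variable {V : Type*} [AddCommGroup V] [Module F V] (β : Herm F q V)

theorem add_right (x y y' : V) : β.f x (y + y') = β.f x y + β.f x y' := by
  rw [← β.conj_f, β.add_left, map_add, β.conj_f, β.conj_f]
theorem smul_right (c : F) (x y : V) : β.f x (c • y) = σ c * β.f x y := by
  rw [← β.conj_f, β.smul_left, map_mul, β.conj_f]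
theorem zero_left (y : V) : β.f 0 y = 0 := by simpa using β.smul_left 0 0 y
theorem zero_right (x : V) : β.f x 0 = 0 := by simpa using β.smul_right 0 x 0
theorem neg_left (x y : V) : β.f (-x) y = -β.f x y := by simpa using β.smul_left (-1) x y
theorem neg_right (x y : V) : β.f x (-y) = -β.f x y := by simpa using β.smul_right (-1) x y
theorem sub_left (x x' y : V) : β.f (x - x') y = β.f x y - β.f x' y := by
  rw [sub_eq_add_neg, β.add_left, β.neg_left, sub_eq_add_neg]
theorem sub_right (x y y' : V) : β.f x (y - y') = β.f x y - β.f x y' := by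
  rw [sub_eq_add_neg, β.add_right, β.neg_right, sub_eq_add_neg]

/-- The isometry group. -/
def Iso : Subgroup (V ≃ₗ[F] V) where
  carrier := {g | ∀ x y, β.f (g x) (g y) = β.f x y}
  mul_mem' := fun {a b} ha hb x y => (ha _ _).trans (hb x y)
  one_mem' := fun _ _ => rfl
  inv_mem' := fun {a} ha x y => by
    have := ha (a⁻¹ x) (a⁻¹ y)
    simpa using this.symm

variable {β}

theorem iso_f (g : β.Iso) (x y : V) : β.f (g.1 x) (g.1 y) = β.f x y := g.2 x y
theorem iso_ext {g h : β.Iso} (e : ∀ x, g.1 x = h.1 x) : g = h := Subtype.ext (LinearEquiv.ext e)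
@[simp] theorem mul_app (g h : β.Iso) (x : V) : (g * h).1 x = g.1 (h.1 x) := rfl
@[simp] theorem one_app (x : V) : (1 : β.Iso).1 x = x := rfl
@[simp] theorem inv_app (g : β.Iso) (x : V) : (g⁻¹).1 (g.1 x) = x := g.1.symm_apply_apply x
@[simp] theorem app_inv (g : β.Iso) (x : V) : g.1 ((g⁻¹).1 x) = x := g.1.apply_symm_apply x

instance [Finite V] : Finite β.Iso :=
  Finite.of_injective (fun g : β.Iso => (g.1 : V → V)) fun _ _ e => iso_ext fun x => congrFun e x

variable (β) [FiniteDimensional F V]

open Classical in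
/-- The isometry with underlying map `f` (if `f` is an isometry). -/
noncomputable def el (f : V →ₗ[F] V) : β.Iso :=
  if h : ∀ x y, β.f (f x) (f y) = β.f x y then
    ⟨LinearEquiv.ofInjectiveEndo f (by
      rw [← LinearMap.ker_eq_bot, eq_bot_iff]
      intro x hx
      refine β.nondeg x fun y => ?_
      rw [← h, LinearMap.mem_ker.1 hx, β.zero_left]), h⟩
  else 1

theorem el_app {f : V →ₗ[F] V} (h : ∀ x y, β.f (f x) (f y) = β.f x y) (x : V) :
    (β.el f).1 x = f x := by
  rw [el, dif_pos h]; rfl

/-- The linear form `x ↦ β x e`. -/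
def lf (e : V) : V →ₗ[F] F where
  toFun x := β.f x e
  map_add' x y := β.add_left x y e
  map_smul' c x := β.smul_left c x e

@[simp] theorem lf_apply (e x : V) : β.lf e x = β.f x e := rfl

/-- The reflection along the nonisotropic vector `e` with eigenvalue `z` (`z * σ z = 1`). -/
noncomputable def rf (e : V) (z : F) : β.Iso :=
  β.el (LinearMap.id + ((z - 1) / β.f e e) • (β.lf e).smulRight e)

/-- The transvection with isotropic centre `e` (`c + σ c = 0`). -/
noncomputable def tr (e : V) (c : F) : β.Iso := β.el (LinearMap.id + c • (β.lf e).smulRight e)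

/-- The scalar `z` (`z * σ z = 1`). -/
noncomputable def sc (z : F) : β.Iso := β.el (z • LinearMap.id)

variable {β}

/-- The dimension of the fixed space. -/
noncomputable def fx (g : β.Iso) : ℕ := finrank F (LinearMap.ker (g.1.toLinearMap - LinearMap.id))

end Herm

variable (F q) in
/-- The norm form on `F`. -/
def herm1 : Herm F q F where
  f x y := x * σ y
  add_left x x' y := add_mul _ _ _
  smul_left c x y := by simp [mul_assoc]
  conj_f x y := by simp [conj_conj, mul_comm]
  nondeg x h := by simpa using h 1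

/-- The model space `W × F × W'`. -/
abbrev Sp (F : Type*) (m : ℕ) := (Fin m → F) × F × (Fin m → F)

variable {m : ℕ}

local notation "𝐡" => hermForm m F q

variable (F q m) in
/-- The Hermitian form on the model space. -/
def fm : Herm F q (Sp F m) where
  f x y := 𝐡 x.1 y.2.2 + x.2.1 * σ y.2.1 + 𝐡 x.2.2 y.1
  add_left x x' y := by simp only [Prod.fst_add, Prod.snd_add, herm_add_left]; ring
  smul_left c x y := by
    simp only [Prod.smul_fst, Prod.smul_snd, herm_smul_left, smul_eq_mul]; ring
  conj_f x y := by simp only [map_add, map_mul, herm_conj, conj_conj]; ring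
  nondeg x h := by
    refine Prod.ext (eq_zero_of_herm_left (q := q) fun v => ?_)
      (Prod.ext ?_ (eq_zero_of_herm_left (q := q) fun v => ?_))
    · simpa [herm_zero_right] using h (0, 0, v)
    · simpa [herm_zero_right] using h (0, 1, 0)
    · simpa [herm_zero_right] using h (v, 0, 0)

theorem fm_f (x y : Sp F m) :
    (fm F q m).f x y = 𝐡 x.1 y.2.2 + x.2.1 * σ y.2.1 + 𝐡 x.2.2 y.1 := rfl

variable (F q m) in
/-- The unitary group `GU_{2m+1}(q)` of the model space. -/
abbrev Ga := (fm F q m).Iso

variable (F q) in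
/-- A fixed element of trace one. -/
noncomputable def th : F := Classical.choose (exists_trace_eq_one F q)

theorem th_spec : th F q + σ (th F q) = 1 := Classical.choose_spec (exists_trace_eq_one F q)

variable (q) in
/-- The matrix `u v*`, acting as `x ↦ 𝐡 x v • u`. -/
def ou (u v : Fin m → F) : Matrix (Fin m) (Fin m) F := vecMulVec u (σ ∘ v)

/-- A linear map of the model space from a formula. -/
def mk3 (f : Sp F m → Sp F m) (h1 : ∀ x y, f (x + y) = f x + f y) (h2 : ∀ (c : F) x, f (c • x) = c • f x) :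
    Sp F m →ₗ[F] Sp F m where
  toFun := f
  map_add' := h1
  map_smul' := h2

variable (q)

/-- Levi element, for `M` invertible. -/
noncomputable def lev (M : Matrix (Fin m) (Fin m) F) : Ga F q m :=
  (fm F q m).el (mk3 (fun x => (M *ᵥ x.1, x.2.1, cT q M⁻¹ *ᵥ x.2.2))
    (fun x y => by simp [mulVec_add]) (fun c x => by simp [mulVec_smul]))

/-- Element of the abelian radical `A`, for `S` skew-Hermitian. -/
noncomputable def up (S : Matrix (Fin m) (Fin m) F) : Ga F q m :=
  (fm F q m).el (mk3 (fun x => (x.1 + S *ᵥ x.2.2, x.2))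
    (fun x y => by simp [mulVec_add, add_add_add_comm]) (fun c x => by simp [mulVec_smul]))

/-- Heisenberg element. -/
noncomputable def hs (u : Fin m → F) : Ga F q m :=
  (fm F q m).el (mk3 (fun x => (x.1 + (x.2.1 - th F q * 𝐡 x.2.2 u) • u, x.2.1 - 𝐡 x.2.2 u, x.2.2))
    (fun x y => by
      simp only [Prod.fst_add, Prod.snd_add, herm_add_left, Prod.mk_add_mk, Prod.mk.injEq]
      exact ⟨by module, by ring, trivial⟩)
    (fun c x => by
      simp only [Prod.smul_fst, Prod.smul_snd, herm_smul_left, Prod.smul_mk, smul_eq_mul,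
        Prod.mk.injEq]
      exact ⟨by module, by ring, trivial⟩))

variable (m) in
/-- Reflection along the middle vector, for `z * σ z = 1`. -/
noncomputable def rr (z : F) : Ga F q m :=
  (fm F q m).el (mk3 (fun x => (x.1, z * x.2.1, x.2.2))
    (fun x y => by simp [mul_add]) (fun c x => by simp [mul_left_comm]))

variable (m) in
/-- Scalars. -/
noncomputable abbrev sc (z : F) : Ga F q m := (fm F q m).sc z

/-- The involution swapping `(w,0,0)` and `(0,0,w')`, for `𝐡 w w' = 1`. -/
noncomputable def nn (w w' : Fin m → F) : Ga F q m :=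
  (fm F q m).el (mk3 (fun x => (x.1 + (𝐡 x.2.2 w - 𝐡 x.1 w') • w, x.2.1,
      x.2.2 + (𝐡 x.1 w' - 𝐡 x.2.2 w) • w'))
    (fun x y => by
      simp only [Prod.fst_add, Prod.snd_add, herm_add_left, Prod.mk_add_mk, Prod.mk.injEq]
      exact ⟨by module, trivial, by module⟩)
    (fun c x => by
      simp only [Prod.smul_fst, Prod.smul_snd, herm_smul_left, Prod.smul_mk, Prod.mk.injEq]
      exact ⟨by module, trivial, by module⟩))

/-- The transvection with centre `(w,0,0)`, for `c + σ c = 0`. -/
noncomputable def tv (w : Fin m → F) (c : F) : Ga F q m := up q (c • ou q w w)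

/-- The dilatation `w ↦ a w`, `w' ↦ (σ a)⁻¹ w'`, for `𝐡 w w' = 1`, `a ≠ 0`. -/
noncomputable def dl (w w' : Fin m → F) (a : F) : Ga F q m := lev q (1 + (a - 1) • ou q w w')

variable (m) in
/-- The standing hypothesis on `n = 2m + 1`. -/
def Hyp : Prop := 1 ≤ m ∧ Nat.Coprime (2 * m + 1) (q + 1)

/-- The additive character `Ψ` is nontrivial on the elements of trace zero. -/
def Gd (Ψ : AddChar F ℂ) : Prop := ∃ c, c + σ c = 0 ∧ Ψ c ≠ 1

variable {q} {M : Type*} [AddCommGroup M] [Module ℂ M]

/-- The weight space of `A` for the Hermitian matrix `B`. -/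
def Wt (Ψ : AddChar F ℂ) (ρ : Ga F q m →* End ℂ M) (B : Matrix (Fin m) (Fin m) F) : Submodule ℂ M where
  carrier := {x | ∀ S, cT q S = -S → ρ (up q S) x = Ψ (S * B).trace • x}
  add_mem' := fun {a b} ha hb S hS => by rw [map_add, ha S hS, hb S hS, smul_add]
  zero_mem' := fun S _ => by simp
  smul_mem' := fun c x hx S hS => by rw [map_smul, hx S hS, smul_comm]

theorem mem_Wt {Ψ : AddChar F ℂ} {ρ : Ga F q m →* End ℂ M} {B : Matrix (Fin m) (Fin m) F} {x : M} :
    x ∈ Wt Ψ ρ B ↔ ∀ S, cT q S = -S → ρ (up q S) x = Ψ (S * B).trace • x := Iff.rfl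

/-- The reflection group `R` has no nonzero fixed vector. -/
def RF (ρ : Ga F q m →* End ℂ M) : Prop :=
  ∀ x, (∀ z : F, z * σ z = 1 → ρ (rr q m z) x = x) → x = 0

/-- The scalars act trivially. -/
def ZT (ρ : Ga F q m →* End ℂ M) : Prop := ∀ z : F, z * σ z = 1 → ρ (sc q m z) = 1

/-- `Φ` intertwines the actions of `g`. -/
def Iw {M' : Type*} [AddCommGroup M'] [Module ℂ M'] (ρ : Ga F q m →* End ℂ M)
    (ρ' : Ga F q m →* End ℂ M') (Φ : M →ₗ[ℂ] M') (g : Ga F q m) : Prop :=
  ∀ x, Φ (ρ g x) = ρ' g (Φ x)

variable [Fintype F] [DecidableEq F]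

variable (F q) in
/-- The elements of norm one. -/
def mu : Finset F := Finset.univ.filter fun z => z * σ z = 1

theorem mem_mu {z : F} : z ∈ mu F q ↔ z * σ z = 1 := by simp [mu]

variable (F q m) in
/-- The skew-Hermitian matrices. -/
def skS : Finset (Matrix (Fin m) (Fin m) F) := Finset.univ.filter fun S => cT q S = -S

variable (F q m) in
/-- The Hermitian matrices. -/
def hmS : Finset (Matrix (Fin m) (Fin m) F) := Finset.univ.filter fun B => cT q B = B

theorem mem_skS {S : Matrix (Fin m) (Fin m) F} : S ∈ skS F q m ↔ cT q S = -S := by simp [skS]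
theorem mem_hmS {B : Matrix (Fin m) (Fin m) F} : B ∈ hmS F q m ↔ cT q B = B := by simp [hmS]

/-- The projection on the weight space `Wt Ψ ρ B`. -/
noncomputable def pj (Ψ : AddChar F ℂ) (ρ : Ga F q m →* End ℂ M) (B : Matrix (Fin m) (Fin m) F) :
    End ℂ M :=
  ((skS F q m).card : ℂ)⁻¹ • ∑ S ∈ skS F q m, Ψ (-(S * B).trace) • ρ (up q S)

/-- The Weil operator of an isometry `g`, for a projective representation `h` of `V` with
`h u * h v = Ψ (β v u) • h (u + v)`; here `Ψ (β v v) • h (-v)` is the inverse of `h v`. -/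
noncomputable def wop {V : Type*} [AddCommGroup V] [Module F V] [Fintype V] (β : Herm F q V)
    (Ψ : AddChar F ℂ) {𝒜 : Type*} [Ring 𝒜] [Algebra ℂ 𝒜] (h : V → 𝒜) (g : β.Iso) : 𝒜 :=
  ((-(q : ℂ)) ^ (Herm.fx g + finrank F V))⁻¹ • ∑ v, h (g.1 v) * (Ψ (β.f v v) • h (-v))

end Cfsg.Agent.CJ
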