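import Cfsg.Agent.CJ.S2

/-!
S4793: extension of an intertwiner of the Heisenberg group on one weight space to the parabolic subgroup.
`B₀ = ou b b`, `T : M → M'`, `T x = Φ₀ (pj B₀ x)` (`codRestrict`, `pj_mem`). `T` intertwines every `up S` (both sides of weight `B₀`), every `hs u` (`hs_congr` with `u' = 𝐡 u b • w0`; `hs` commutes with `pj`: `map_pj`, `hs_up`),
every `rr z` (`iw_r`, `hS_hW`, `rS_rW`, `sum_rW`, `gd_psiT`), and every `lev X` with `cT X⁻¹ B₀ X⁻¹ = B₀`: then `cT X⁻¹ b = z • b` (`ou_self_eq_iff`), `X = X₁ * (z • 1)` with `cT X₁⁻¹ b = b` (`lev_triv`), and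
`lev (z • 1) = sc z * (rr z)⁻¹` (`sc_eq`, `ZT`). Put `Φ = c⁻¹ • ∑_{X : GL (Fin m) F} ρ' (lev X) ∘ T ∘ ρ (lev X⁻¹)`, `c` = number of `X` stabilising `B₀`. It intertwines `lev` (reindex), `up`, `hs`, `rr`
(`lev_up`, `lev_hs`, `lev_rr`); for `x ∈ Wt B₀` the terms with `X` not stabilising `B₀` vanish (`lev_mem`, `pj_ne`), the others equal `Φ₀ x`.
-/

set_option autoImplicit false
set_option linter.unusedSectionVars false

namespace Cfsg.Agent.CJ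

open Module Matrix Cfsg Cfsg.Agent.Class.U Cfsg.Agent.KSG

variable {F : Type*} [Field F] {q : ℕ} [hU : UF F q] {m : ℕ}

local notation "σ" => conj F q
local notation "𝐡" => hermForm m F q

variable [Fintype F] [DecidableEq F] {M : Type*} [AddCommGroup M] [Module ℂ M]
  {Ψ : AddChar F ℂ} {ρ : Ga F q m →* End ℂ M}
  {M' : Type*} [AddCommGroup M'] [Module ℂ M'] {ρ' : Ga F q m →* End ℂ M'}

section Avg

variable {Γ : Type*} [Group Γ] [Fintype Γ] (L : Γ →* Ga F q m) (ρ ρ') (T : M →ₗ[ℂ] M')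

/-- the average of `T` over `L` -/
noncomputable def extAv : M →ₗ[ℂ] M' := ∑ X : Γ, ρ' (L X⁻¹) ∘ₗ T ∘ₗ ρ (L X)

theorem extAv_app (x : M) : extAv ρ ρ' L T x = ∑ X : Γ, ρ' (L X⁻¹) (T (ρ (L X) x)) := by
  simp [extAv, LinearMap.sum_apply]

theorem extAv_L (Y : Γ) : Iw ρ ρ' (extAv ρ ρ' L T) (L Y) := fun x => by
  rw [extAv_app, extAv_app, map_sum, ← Equiv.sum_comp (Equiv.mulRight Y)
    (fun X => ρ' (L Y) (ρ' (L X⁻¹) (T (ρ (L X) x))))]
  refine Finset.sum_congr rfl fun X _ => ?_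
  rw [Equiv.coe_mulRight, wt_rho_mul, wt_rho_mul, ← map_mul, ← map_mul, _root_.mul_inv_rev, mul_inv_cancel_left]

theorem extAv_g {g : Ga F q m} (h : ∀ X, ∃ g', Iw ρ ρ' T g' ∧ L X * g = g' * L X) :
    Iw ρ ρ' (extAv ρ ρ' L T) g := fun x => by
  rw [extAv_app, extAv_app, map_sum]
  refine Finset.sum_congr rfl fun X _ => ?_
  obtain ⟨g', h1, h2⟩ := h X
  rw [wt_rho_mul, h2, ← wt_rho_mul, h1, wt_rho_mul, wt_rho_mul, map_inv,
    show (L X)⁻¹ * g' = g * (L X)⁻¹ by rw [inv_mul_eq_iff_eq_mul, ← mul_assoc, h2, mul_inv_cancel_right]]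

end Avg

theorem ext_pj {g : Ga F q m} (h : ∀ S, cT q S = -S → g * up q S = up q S * g)
    (B : Matrix (Fin m) (Fin m) F) (x : M) : ρ g (pj Ψ ρ B x) = pj Ψ ρ B (ρ g x) :=
  map_pj (ρ' := ρ) (Φ := ρ g) (fun S hS y => by rw [wt_rho_mul, wt_rho_mul, h S hS]) B x

theorem ext_lev (hΨ : Gd q Ψ) (hR : RF ρ) (hZ : ZT ρ) {b : Fin m → F} (hb : b ≠ 0)
    {X : Matrix (Fin m) (Fin m) F} (hX : IsUnit X.det) {z : F} (hz : z * σ z = 1)
    (e : cT q X⁻¹ *ᵥ b = z • b) {x : M} (hx : x ∈ Wt Ψ ρ (ou q b b)) :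
    ρ (lev q X) x = ρ (rr q m (σ z)) x := by
  have hz' : σ z * σ (σ z) = 1 := by rw [conj_conj, mul_comm, hz]
  have e1 : (σ z • X) * (z • X⁻¹) = 1 := by
    rw [smul_mul_smul_comm, mul_nonsing_inv X hX, mul_comm, hz, one_smul]
  have e2 : (z • (1 : Matrix (Fin m) (Fin m) F)) * (σ z • 1) = 1 := by
    rw [smul_mul_smul_comm, mul_one, hz, one_smul]
  have u1 := isUnit_det_of_right_inverse e1
  have e3 : lev q X = lev q (σ z • X) * (sc q m z * rr q m (σ z)) := by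
    rw [sc_eq hz, mul_assoc, ← rr_mul hz hz', hz, rr_one, mul_one,
      ← lev_mul u1 (isUnit_det_of_right_inverse e2), smul_mul_smul_comm, mul_one, mul_comm, hz, one_smul]
  rw [e3, ← wt_rho_mul, ← wt_rho_mul, hZ z hz, End.one_apply]
  exact lev_triv hΨ hR hb u1 (by
    rw [inv_eq_right_inv e1, cT_smul, smul_mulVec, e, smul_smul, mul_comm, hz, one_smul]) (rr_mem hz' hx)

theorem extend (hΨ : Gd q Ψ) (hR : RF ρ) (hR' : RF ρ') (hZ : ZT ρ) (hZ' : ZT ρ') {b w0 : Fin m → F}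
    (hw : 𝐡 w0 b = 1) (Φ0 : Wt Ψ ρ (ou q b b) →ₗ[ℂ] Wt Ψ ρ' (ou q b b))
    (h0 : ∀ (l : F) x, Φ0 (hW Ψ ρ _ (l • w0) x) = hW Ψ ρ' _ (l • w0) (Φ0 x)) :
    ∃ Φ : M →ₗ[ℂ] M', (∀ x : Wt Ψ ρ (ou q b b), Φ x = Φ0 x) ∧
      (∀ X, IsUnit X.det → Iw ρ ρ' Φ (lev q X)) ∧ (∀ S, cT q S = -S → Iw ρ ρ' Φ (up q S)) ∧
      (∀ u, Iw ρ ρ' Φ (hs q u)) ∧ ∀ z : F, z * σ z = 1 → Iw ρ ρ' Φ (rr q m z) := by
  classical
  have hb : b ≠ 0 := by
    rintro rfl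
    rw [herm_zero_right] at hw
    exact zero_ne_one hw
  let T : M →ₗ[ℂ] M' := (Wt Ψ ρ' (ou q b b)).subtype ∘ₗ Φ0 ∘ₗ (pj Ψ ρ (ou q b b)).codRestrict _ (pj_mem _)
  have hT : ∀ x, T x = Φ0 ⟨pj Ψ ρ (ou q b b) x, pj_mem _ x⟩ := fun x => rfl
  have iw : ∀ g : Ga F q m, (∀ x, ρ g (pj Ψ ρ (ou q b b) x) = pj Ψ ρ (ou q b b) (ρ g x)) →
      (∀ y y' : Wt Ψ ρ (ou q b b), (y' : M) = ρ g y → (Φ0 y' : M') = ρ' g (Φ0 y)) → Iw ρ ρ' T g :=
    fun g h1 h2 x => by rw [hT, hT]; exact h2 _ _ (h1 x).symm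
  have kr : ∀ z : F, z * σ z = 1 → ∀ y y' : Wt Ψ ρ (ou q b b), (y' : M) = ρ (rr q m z) y →
      (Φ0 y' : M') = ρ' (rr q m z) (Φ0 y) := fun z hz y y' e => by
    rw [← rW_coe _ hz, ← iw_r (gd_psiT hΨ) (hS_hW hw) (rS_rW _ w0) (sum_rW hR _) (hS_hW hw) (rS_rW _ w0)
      (sum_rW hR' _) h0 hz y, show y' = rW Ψ ρ _ z y from Subtype.ext (by rw [rW_coe _ hz, e])]
  have iu : ∀ S, cT q S = -S → Iw ρ ρ' T (up q S) := fun S hS =>
    iw _ (ext_pj (fun S' hS' => wt_up_comm hS hS') _) fun y y' e => by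
      rw [(Φ0 y).2 S hS, show y' = Ψ (S * ou q b b).trace • y from Subtype.ext (by rw [e, y.2 S hS]; rfl),
        map_smul]; rfl
  have ih : ∀ u, Iw ρ ρ' T (hs q u) := fun u =>
    iw _ (ext_pj (fun S' hS' => hs_up u hS') _) fun y y' e => by
      have k : 𝐡 u b = 𝐡 (𝐡 u b • w0) b := by rw [herm_smul_left, hw, mul_one]
      rw [hs_congr hR' k (Φ0 y).2, ← hW_coe, ← h0,
        show y' = hW Ψ ρ _ (𝐡 u b • w0) y from Subtype.ext (by rw [hW_coe, e, hs_congr hR k y.2])]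
  have ir : ∀ z : F, z * σ z = 1 → Iw ρ ρ' T (rr q m z) := fun z hz =>
    iw _ (ext_pj (fun S' hS' => rr_up hz hS') _) (kr z hz)
  have il : ∀ X : Matrix (Fin m) (Fin m) F, IsUnit X.det → cT q X⁻¹ * ou q b b * X⁻¹ = ou q b b →
      Iw ρ ρ' T (lev q X) := fun X hX e =>
    iw _ (fun x => by rw [lev_pj hX, e]) fun y y' e' => by
      rw [mul_ou, ou_mul] at e
      obtain ⟨z, hz, e1⟩ := ou_self_eq_iff.1 e.symm
      rw [ext_lev hΨ hR hZ hb hX hz e1 y.2] at e'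
      rw [ext_lev hΨ hR' hZ' hb hX hz e1 (Φ0 y).2]
      exact kr _ (by rw [conj_conj, mul_comm, hz]) y y' e'
  have du : ∀ X : (Matrix (Fin m) (Fin m) F)ˣ, IsUnit (X : Matrix (Fin m) (Fin m) F).det := fun X =>
    (isUnit_iff_isUnit_det _).1 X.isUnit
  let L : (Matrix (Fin m) (Fin m) F)ˣ →* Ga F q m :=
    { toFun := fun X => lev q X
      map_one' := lev_one
      map_mul' := fun X Y => lev_mul (du X) (du Y) }
  let s : Finset (Matrix (Fin m) (Fin m) F)ˣ := Finset.univ.filter fun X =>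
    cT q (X : Matrix (Fin m) (Fin m) F)⁻¹ * ou q b b * (X : Matrix (Fin m) (Fin m) F)⁻¹ = ou q b b
  have s0 : (s.card : ℂ) ≠ 0 := Nat.cast_ne_zero.2 (Finset.card_ne_zero.2 ⟨1, by simp [s, cT_one]⟩)
  have sm : ∀ g, Iw ρ ρ' (extAv ρ ρ' L T) g → Iw ρ ρ' ((s.card : ℂ)⁻¹ • extAv ρ ρ' L T) g := fun g h x => by
    rw [LinearMap.smul_apply, LinearMap.smul_apply, h x, map_smul]
  refine ⟨(s.card : ℂ)⁻¹ • extAv ρ ρ' L T, fun x => ?_, fun X hX => sm _ ?_, fun S hS => sm _ ?_,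
    fun u => sm _ ?_, fun z hz => sm _ ?_⟩
  · have e : ∀ X : (Matrix (Fin m) (Fin m) F)ˣ, ρ' (L X⁻¹) (T (ρ (L X) x)) = if X ∈ s then (Φ0 x : M') else 0 :=
      fun X => by
        split_ifs with k
        · rw [show T (ρ (L X) x) = ρ' (L X) (T x) from il _ (du X) (Finset.mem_filter.1 k).2 x, wt_rho_mul,
            ← map_mul, inv_mul_cancel, map_one, map_one, End.one_apply, hT]
          congr 2
          exact Subtype.ext (pj_same x.2)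
        · have : pj Ψ ρ (ou q b b) (ρ (L X) x) = 0 := pj_ne hΨ (cT_ou b b) (herm_conj_inv _ (cT_ou b b))
            (fun e => k (Finset.mem_filter.2 ⟨Finset.mem_univ _, e.symm⟩)) (lev_mem (du X) x.2)
          rw [hT, show (⟨_, pj_mem _ _⟩ : Wt Ψ ρ (ou q b b)) = 0 from Subtype.ext this]
          simp
    rw [LinearMap.smul_apply, extAv_app, Finset.sum_congr rfl fun X _ => e X, Finset.sum_ite_mem,
      Finset.univ_inter, Finset.sum_const, ← Nat.cast_smul_eq_nsmul ℂ, smul_smul, inv_mul_cancel₀ s0, one_smul]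
  · obtain ⟨Y, rfl⟩ := (isUnit_iff_isUnit_det X).2 hX
    exact extAv_L ρ ρ' L T Y
  · exact extAv_g ρ ρ' L T fun X => ⟨_, iu _ (skew_conj _ hS), lev_up (du X) hS⟩
  · exact extAv_g ρ ρ' L T fun X => ⟨_, ih _, lev_hs (du X) u⟩
  · exact extAv_g ρ ρ' L T fun X => ⟨_, ir z hz, lev_rr (du X) hz⟩

end Cfsg.Agent.CJ
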