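import Cfsg.Agent.CJ.RelA

/-!
S4793: relations between the model elements. All by `Herm.iso_ext`, the `*_app` formulas of `RelA`
and `Prod.ext`, `herm_*` lemmas, `module`/`ring`.
-/

set_option autoImplicit false
set_option linter.unusedSectionVars false

namespace Cfsg.Agent.CJ

open Module Matrix Cfsg Cfsg.Agent.Class.U Cfsg.Agent.KSG

variable {F : Type*} [Field F] {q : ℕ} [hU : UF F q] {m : ℕ}

local notation "σ" => conj F q
local notation "𝐡" => hermForm m F q

theorem rb_neg {c : F} (hc : c + σ c = 0) : σ c = -c := eq_neg_of_add_eq_zero_right hc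

theorem rb_add {S S' : Matrix (Fin m) (Fin m) F} (hS : cT q S = -S) (hS' : cT q S' = -S') :
    cT q (S + S') = -(S + S') := by rw [cT_add, hS, hS', neg_add]

theorem rb_inv {c : F} (hc : c + σ c = 0) : -c⁻¹ + σ (-c⁻¹) = 0 := by
  rw [map_neg, map_inv₀, rb_neg hc, inv_neg, neg_neg, neg_add_cancel]

theorem lev_one : lev q (1 : Matrix (Fin m) (Fin m) F) = 1 := by
  refine Herm.iso_ext fun ⟨x, t, y⟩ => ?_
  rw [lev_app (by simp), inv_one, cT_one, one_mulVec, one_mulVec, Herm.one_app]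

theorem lev_mul {X Y : Matrix (Fin m) (Fin m) F} (hX : IsUnit X.det) (hY : IsUnit Y.det) :
    lev q (X * Y) = lev q X * lev q Y := by
  refine Herm.iso_ext fun ⟨x, t, y⟩ => ?_
  rw [Herm.mul_app, lev_app (by rw [det_mul]; exact hX.mul hY), lev_app hX, lev_app hY, Matrix.mul_inv_rev, cT_mul]
  simp only [mulVec_mulVec]

theorem lev_inv {X : Matrix (Fin m) (Fin m) F} (hX : IsUnit X.det) : lev q X⁻¹ = (lev q X)⁻¹ := by
  refine eq_inv_of_mul_eq_one_left ?_
  rw [← lev_mul (isUnit_nonsing_inv_det X hX) hX, nonsing_inv_mul X hX, lev_one]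

theorem up_zero : up q (0 : Matrix (Fin m) (Fin m) F) = 1 := by
  refine Herm.iso_ext fun ⟨x, t, y⟩ => ?_
  rw [up_app (by rw [cT_zero, neg_zero]), zero_mulVec, add_zero, Herm.one_app]

theorem up_add {S S' : Matrix (Fin m) (Fin m) F} (hS : cT q S = -S) (hS' : cT q S' = -S') :
    up q (S + S') = up q S * up q S' := by
  refine Herm.iso_ext fun ⟨x, t, y⟩ => ?_
  simp only [Herm.mul_app, up_app hS, up_app hS', up_app (rb_add hS hS'), add_mulVec, Prod.mk.injEq, and_true]
  abel

theorem hs_zero : hs q (0 : Fin m → F) = 1 := by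
  refine Herm.iso_ext fun ⟨x, t, y⟩ => ?_
  simp [hs_app, herm_zero_right]

theorem skew_hs (u u' : Fin m → F) :
    cT q (th F q • ou q u' u - σ (th F q) • ou q u u') = -(th F q • ou q u' u - σ (th F q) • ou q u u') := by
  rw [cT_sub, cT_smul, cT_smul, cT_ou, cT_ou, conj_conj, neg_sub]

theorem hs_mul (u u' : Fin m → F) :
    hs q u * hs q u' = up q (th F q • ou q u' u - σ (th F q) • ou q u u') * hs q (u + u') := by
  refine Herm.iso_ext fun ⟨x, t, y⟩ => ?_
  have h : σ (th F q) = 1 - th F q := eq_sub_of_add_eq' th_spec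
  simp only [Herm.mul_app, hs_app, up_app (skew_hs u u'), sub_mulVec, smul_mulVec, ou_mulVec, herm_add_right,
    Prod.mk.injEq, and_true]
  rw [h]
  exact ⟨by module, by ring⟩

theorem skew_sub (u u' : Fin m → F) : cT q (ou q u' u - ou q u u') = -(ou q u' u - ou q u u') := by
  rw [cT_sub, cT_ou, cT_ou, neg_sub]

theorem hs_comm (u u' : Fin m → F) :
    hs q u * hs q u' = up q (ou q u' u - ou q u u') * (hs q u' * hs q u) := by
  refine Herm.iso_ext fun ⟨x, t, y⟩ => ?_
  simp only [Herm.mul_app, hs_app, up_app (skew_sub u u'), sub_mulVec, ou_mulVec, Prod.mk.injEq, and_true]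
  exact ⟨by module, by ring⟩

theorem rr_one : rr q m (1 : F) = 1 := by
  refine Herm.iso_ext fun ⟨x, t, y⟩ => ?_
  rw [rr_app (by simp), one_mul, Herm.one_app]

theorem rr_mul {z z' : F} (hz : z * σ z = 1) (hz' : z' * σ z' = 1) :
    rr q m (z * z') = rr q m z * rr q m z' := by
  refine Herm.iso_ext fun ⟨x, t, y⟩ => ?_
  rw [Herm.mul_app, rr_app hz, rr_app hz', rr_app (by rw [map_mul, mul_mul_mul_comm, hz, hz', mul_one]), mul_assoc]

theorem rr_eq_rf {z : F} (hz : z * σ z = 1) : rr q m z = (fm F q m).rf (0, 1, 0) z := by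
  refine Herm.iso_ext fun ⟨x, t, y⟩ => ?_
  have h : (fm F q m).f (0, 1, 0) (0, 1, 0) = 1 := by simp [fm_f, herm_zero_left]
  rw [rr_app hz, Herm.rf_app _ (h.trans_ne one_ne_zero) hz, h]
  simp [fm_f, herm_zero_right]
  ring

theorem tv_eq_tr (w : Fin m → F) {c : F} (hc : c + σ c = 0) :
    tv q w c = (fm F q m).tr (w, 0, 0) c := by
  refine Herm.iso_ext fun ⟨x, t, y⟩ => ?_
  rw [tv_app w hc, Herm.tr_app _ (by simp [fm_f, herm_zero_left, herm_zero_right]) hc]
  simp [fm_f, herm_zero_right]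

theorem sc_eq {z : F} (hz : z * σ z = 1) :
    sc q m z = lev q (z • (1 : Matrix (Fin m) (Fin m) F)) * rr q m z := by
  refine Herm.iso_ext fun ⟨x, t, y⟩ => ?_
  have z0 : z ≠ 0 := left_ne_zero_of_mul_eq_one hz
  have h : (z • (1 : Matrix (Fin m) (Fin m) F))⁻¹ = σ z • (1 : Matrix (Fin m) (Fin m) F) :=
    inv_eq_right_inv (by rw [smul_mul_smul_comm, hz, one_smul, mul_one])
  rw [Herm.sc_app _ hz, Herm.mul_app, rr_app hz, lev_app (by simp [z0]), h, cT_smul, cT_one, conj_conj]
  simp [smul_mulVec]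

theorem skew_conj (X : Matrix (Fin m) (Fin m) F) {S : Matrix (Fin m) (Fin m) F} (hS : cT q S = -S) :
    cT q (X * S * cT q X) = -(X * S * cT q X) := by
  rw [cT_mul, cT_mul, cT_cT, hS, Matrix.neg_mul, Matrix.mul_neg, Matrix.mul_assoc]

theorem lev_up {X S : Matrix (Fin m) (Fin m) F} (hX : IsUnit X.det) (hS : cT q S = -S) :
    lev q X * up q S = up q (X * S * cT q X) * lev q X := by
  refine Herm.iso_ext fun ⟨x, t, y⟩ => ?_
  have h : cT q X * cT q X⁻¹ = 1 := by rw [← cT_mul, nonsing_inv_mul X hX, cT_one]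
  simp only [Herm.mul_app, lev_app hX, up_app hS, up_app (skew_conj X hS), mulVec_add, mulVec_mulVec]
  rw [Matrix.mul_assoc (X * S), h, Matrix.mul_one]

theorem lev_hs {X : Matrix (Fin m) (Fin m) F} (hX : IsUnit X.det) (u : Fin m → F) :
    lev q X * hs q u = hs q (X *ᵥ u) * lev q X := by
  refine Herm.iso_ext fun ⟨x, t, y⟩ => ?_
  have h : 𝐡 (cT q X⁻¹ *ᵥ y) (X *ᵥ u) = 𝐡 y u := by
    rw [herm_mulVec, cT_cT, mulVec_mulVec, nonsing_inv_mul X hX, one_mulVec]
  simp only [Herm.mul_app, lev_app hX, hs_app, h, mulVec_add, mulVec_smul]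

theorem lev_rr {X : Matrix (Fin m) (Fin m) F} (hX : IsUnit X.det) {z : F} (hz : z * σ z = 1) :
    lev q X * rr q m z = rr q m z * lev q X := by
  refine Herm.iso_ext fun ⟨x, t, y⟩ => ?_
  simp only [Herm.mul_app, lev_app hX, rr_app hz]

theorem rr_up {z : F} (hz : z * σ z = 1) {S : Matrix (Fin m) (Fin m) F} (hS : cT q S = -S) :
    rr q m z * up q S = up q S * rr q m z := by
  refine Herm.iso_ext fun ⟨x, t, y⟩ => ?_
  simp only [Herm.mul_app, up_app hS, rr_app hz]

theorem hs_up (u : Fin m → F) {S : Matrix (Fin m) (Fin m) F} (hS : cT q S = -S) :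
    hs q u * up q S = up q S * hs q u := by
  refine Herm.iso_ext fun ⟨x, t, y⟩ => ?_
  simp only [Herm.mul_app, up_app hS, hs_app, add_right_comm]

theorem rr_hs {z : F} (hz : z * σ z = 1) (u : Fin m → F) :
    rr q m z * hs q u = hs q (σ z • u) * rr q m z := by
  refine Herm.iso_ext fun ⟨x, t, y⟩ => ?_
  simp only [Herm.mul_app, rr_app hz, hs_app, herm_smul_right, conj_conj, Prod.mk.injEq, and_true]
  refine ⟨?_, by ring⟩
  match_scalars
  · rfl
  · linear_combination (th F q * 𝐡 y u - t) * hz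

theorem nn_nn {w w' : Fin m → F} (hw : 𝐡 w w' = 1) : nn q w w' * nn q w w' = 1 := by
  refine Herm.iso_ext fun ⟨x, t, y⟩ => ?_
  simp only [Herm.mul_app, nn_app hw, Herm.one_app, herm_add_left, herm_smul_left, hw, herm_comm_one hw,
    Prod.mk.injEq, true_and]
  exact ⟨by module, by module⟩

theorem nn_rr {w w' : Fin m → F} (hw : 𝐡 w w' = 1) {z : F} (hz : z * σ z = 1) :
    nn q w w' * rr q m z = rr q m z * nn q w w' := by
  refine Herm.iso_ext fun ⟨x, t, y⟩ => ?_
  simp only [Herm.mul_app, nn_app hw, rr_app hz]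

theorem nn_up {w w' u : Fin m → F} (hw : 𝐡 w w' = 1) (hu : 𝐡 u w' = 0) :
    nn q w w' * up q (ou q u w - ou q w u) = lev q (1 + ou q u w') * nn q w w' := by
  refine Herm.iso_ext fun ⟨x, t, y⟩ => ?_
  have h : 1 + 𝐡 u w' ≠ 0 := by rw [hu, add_zero]; exact one_ne_zero
  have hd : IsUnit (1 + ou q u w').det := by rw [det_one_add_ou]; exact h.isUnit
  simp only [Herm.mul_app, nn_app hw, up_app (skew_sub w u), lev_app hd,
    inv_one_add_ou h, cT_sub, cT_smul, cT_one, cT_ou, add_mulVec, sub_mulVec, smul_mulVec, one_mulVec, ou_mulVec,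
    herm_add_left, herm_sub_left, herm_smul_left, hw, hu, herm_comm_zero hu, add_zero, inv_one, map_one,
    Prod.mk.injEq, true_and]
  exact ⟨by module, by module⟩

theorem tv_zero (w : Fin m → F) : tv q w 0 = 1 := by
  rw [tv, zero_smul, up_zero]

theorem tv_add (w : Fin m → F) {c c' : F} (hc : c + σ c = 0) (hc' : c' + σ c' = 0) :
    tv q w (c + c') = tv q w c * tv q w c' := by
  rw [tv, add_smul, up_add (skew_tv w hc) (skew_tv w hc'), tv, tv]

theorem dl_one (w w' : Fin m → F) : dl q w w' 1 = 1 := by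
  rw [dl, sub_self, zero_smul, add_zero, lev_one]

theorem dl_mul {w w' : Fin m → F} (hw : 𝐡 w w' = 1) {a a' : F} (ha : a ≠ 0) (ha' : a' ≠ 0) :
    dl q w w' (a * a') = dl q w w' a * dl q w w' a' := by
  refine Herm.iso_ext fun ⟨x, t, y⟩ => ?_
  simp only [Herm.mul_app, dl_app hw ha, dl_app hw ha', dl_app hw (mul_ne_zero ha ha'), herm_add_left,
    herm_smul_left, hw, herm_comm_one hw, map_mul, mul_inv, Prod.mk.injEq, true_and]
  exact ⟨by module, by module⟩

theorem dl_tv {w w' : Fin m → F} (hw : 𝐡 w w' = 1) {a : F} (ha : a ≠ 0) {c : F} (hc : c + σ c = 0) :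
    dl q w w' a * tv q w c = tv q w (a * σ a * c) * dl q w w' a := by
  refine Herm.iso_ext fun ⟨x, t, y⟩ => ?_
  have h : a * σ a * c + σ (a * σ a * c) = 0 := by
    rw [map_mul, map_mul, conj_conj, rb_neg hc]; ring
  have ha' : σ a ≠ 0 := conj_ne_zero.2 ha
  simp only [Herm.mul_app, dl_app hw ha, tv_app w hc, tv_app w h, herm_add_left,
    herm_smul_left, hw, herm_comm_one hw, Prod.mk.injEq, and_true]
  match_scalars
  · rfl
  · field_simp
    ring

theorem dl_nn {w w' : Fin m → F} (hw : 𝐡 w w' = 1) {a : F} (ha : a ≠ 0) :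
    dl q w w' a * nn q w w' = nn q w w' * dl q w w' (σ a)⁻¹ := by
  refine Herm.iso_ext fun ⟨x, t, y⟩ => ?_
  simp only [Herm.mul_app, dl_app hw ha, dl_app hw (inv_ne_zero (conj_ne_zero.2 ha)), nn_app hw, herm_add_left,
    herm_smul_left, hw, herm_comm_one hw, map_inv₀, conj_conj, inv_inv, Prod.mk.injEq, true_and]
  exact ⟨by module, by module⟩

/-- The Weyl element as a product of transvections. -/
theorem tv_nn_tv {w w' : Fin m → F} (hw : 𝐡 w w' = 1) {c : F} (hc : c + σ c = 0) (hc0 : c ≠ 0) :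
    tv q w c * (nn q w w' * tv q w (-c⁻¹) * nn q w w') * tv q w c = dl q w w' c * nn q w w' := by
  refine Herm.iso_ext fun ⟨x, t, y⟩ => ?_
  simp only [Herm.mul_app, dl_app hw hc0, tv_app w hc, tv_app w (rb_inv hc), nn_app hw, herm_add_left,
    herm_smul_left, hw, herm_comm_one hw, rb_neg hc, Prod.mk.injEq, true_and]
  constructor <;> match_scalars <;> field_simp <;> ring

/-- Bruhat form of a reflection in the plane `⟨w, w'⟩`. -/
theorem bruhat_rf {w w' : Fin m → F} (hw : 𝐡 w w' = 1) {a s : F} (hs0 : s + σ s ≠ 0)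
    (has : a + σ a = s + σ s) :
    tv q w (σ a - s) * dl q w w' a * nn q w w' * tv q w (s - a) =
      (fm F q m).rf (-s • w, 0, w') (-a / σ a) := by
  refine Herm.iso_ext fun ⟨x, t, y⟩ => ?_
  have ha : a ≠ 0 := fun e => hs0 (by rw [← has, e, map_zero, add_zero])
  have ha' : σ a ≠ 0 := conj_ne_zero.2 ha
  have h1 : σ a - s + σ (σ a - s) = 0 := by rw [map_sub, conj_conj]; linear_combination has
  have h2 : s - a + σ (s - a) = 0 := by rw [map_sub]; linear_combination -has
  have h3 : (fm F q m).f (-s • w, 0, w') (-s • w, 0, w') = -(s + σ s) := by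
    simp only [fm_f, herm_smul_left, herm_smul_right, hw, herm_comm_one hw, map_neg]; ring
  have h4 : -a / σ a * σ (-a / σ a) = 1 := by
    rw [map_div₀, map_neg, conj_conj]; field_simp
  have h5 : (-a / σ a - 1) / -(s + σ s) = (σ a)⁻¹ := by
    rw [← has] at hs0 ⊢
    field_simp
    ring
  have h6 : σ s = a + σ a - s := by linear_combination -has
  rw [Herm.rf_app _ (h3.trans_ne (neg_ne_zero.2 hs0)) h4, h3, h5]
  simp only [Herm.mul_app, dl_app hw ha, tv_app w h1, tv_app w h2, nn_app hw, herm_add_left, fm_f,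
    herm_smul_left, herm_smul_right, hw, herm_comm_one hw, map_neg, h6, map_zero, Prod.smul_mk, Prod.mk_add_mk,
    smul_zero, add_zero, mul_zero, Prod.mk.injEq, true_and]
  constructor <;> match_scalars <;> field_simp <;> ring

end Cfsg.Agent.CJ
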