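import Cfsg.Agent.CJ.RelA
import Cfsg.Agent.U7.Gs

/-!
S4793: the Weil operators. Write `h' v = Ψ (β v v) • h (-v)` (`h v * h' v = 1 = h' v * h v`), `I g = ∑ v, h (g v) * h' v`,
`𝔼 X = ∑ v, h v * X * h' v`, `a g = fx g`, `n = finrank V`, `card V = q^(2n)`.
`gauss`: induction on `finrank K`. If `S x x = 0` for all `x` the sum is `card K = (-q)^(2 dim)`. Else take `e` with `s = S e e ≠ 0`;
polarisation gives `S x y = -σ (S y x)`; `K = F e ⊕ e^⊥` (`e^⊥ = ker (x ↦ S x e)`), `S (λe + x) (λe + x) = λ σλ s + S x x`, and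
`∑_λ Ψ (λ σλ s) = 1 + (q+1) ∑_{t ≠ 0, σ t = t} Ψ (t s) = -q` (`card_norm_fiber`; `t ↦ t s` is onto the trace-zero elements).
`avg_h`: `h v * h y * h' v = Ψ (β y v - β v y) • h y`, and `v ↦ Ψ (β y v - β v y)` is a nontrivial character for `y ≠ 0` (`exists_conj_sub_eq`).
`wop_h`: reindex `v ↦ v + u`: `h (g (v+u)) * h' (v+u) * h u = h (g u) * h (g v) * h' v`.
`h (g v) * h' v = Ψ (β v v - β v (g v)) • h (g v - v)`, so `𝔼 (I g) = card V * q^(2 a g)`. Every `X` in the span of the `h y` has `𝔼 X = c • 1`, and if `X` also commutes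
with all `h v` then `𝔼 X = card V • X`, so `X` is a scalar. `I g * I g⁻¹ = ∑ v, I g * h (g⁻¹ v) * h' v = 𝔼 (I g)`, so `wop g * wop g⁻¹ = 1` (`fx g⁻¹ = fx g`).
`wop_mul`: (trivial if `𝒜` is trivial.) `wop g * wop k * wop (g k)⁻¹` is in the span and commutes with the `h v`, so `wop g * wop k = c(g,k) • wop (g k)`; apply `𝔼`:
`𝔼 (I g * I k) = card V * G(g,k)`, `G(g,k) = ∑_{(u,v) ∈ K} Ψ (S (u,v) (u,v))`, `K = {(u,v) | (g u - u) + (k v - v) = 0}` (a submodule of `V × V`),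
`S (u,v) (u',v') = β u u' - β u (g u') + β v v' - β v (k v') + β (k v - v) (g u' - u')`; on `K`, `S x x + σ (S x x) = 0`
(both `β u u - β u (g u) + σ(..)` and the `v` term equal `N = β (g u - u) (g u - u)`, the last term is `-N`). So `c(g,k) = (-q)^e` with `e ∈ ℤ` by `gauss`.
Taking inverses, `c(k⁻¹,g⁻¹) = c(g,k)⁻¹`; the bijection `(u,v) ↦ (k v, g u)` of `K(g,k)` onto `K(k⁻¹,g⁻¹)` negates `S x x`, so `G(k⁻¹,g⁻¹) = conj G(g,k) = G(g,k)`
(real), `c(k⁻¹,g⁻¹) = c(g,k)`, `c² = 1`, `e = 0` (`q ≥ 2`).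
`exists_weil`: `h u` on `V → ℂ`: `(h u f) y = Ψ (β (y - u) u) * f (y - u)`; `trace (h u) = if u = 0 then card V else 0`; `ρ g = wop g`;
`card V * trace X = trace (𝔼 X)`.
May be split (WeilA: gauss, avg_h, wop_h, wop_avg, wop_inv; keep the names).
-/

set_option autoImplicit false
set_option linter.unusedSectionVars false

namespace Cfsg.Agent.CJ

open Module Matrix Cfsg Cfsg.Agent.Class.U Cfsg.Agent.KSG

variable {F : Type*} [Field F] {q : ℕ} [hU : UF F q] {m : ℕ}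

local notation "σ" => conj F q
local notation "𝐡" => hermForm m F q

variable [Fintype F] [DecidableEq F] {Ψ : AddChar F ℂ}

theorem gauss (hΨ : Gd q Ψ) {K : Type*} [AddCommGroup K] [Module F K] [Fintype K] (S : K → K → F)
    (h1 : ∀ x x' y, S (x + x') y = S x y + S x' y) (h2 : ∀ (c : F) x y, S (c • x) y = c * S x y)
    (h3 : ∀ x y y', S x (y + y') = S x y + S x y') (h4 : ∀ (c : F) x y, S x (c • y) = σ c * S x y)
    (h5 : ∀ x, S x x + σ (S x x) = 0) : ∃ j : ℕ, ∑ x, Ψ (S x x) = (-(q : ℂ)) ^ j := by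
  refine U7.gauss hΨ K S h1 h2 fun x y => ?_
  have k : ∀ c : F, c * (S y x + σ (S x y)) + σ (c * (S y x + σ (S x y))) = 0 := fun c => by
    have a := h5 (x + c • y)
    have b := h5 x
    have d := h5 y
    simp only [h1, h2, h3, h4, map_add, map_mul, conj_conj] at a ⊢
    linear_combination a - b - c * σ c * d
  rw [← conj_apply, eq_neg_iff_add_eq_zero]
  by_contra n
  have := k (th F q / (S y x + σ (S x y)))
  rw [div_mul_cancel₀ _ n, th_spec] at this
  exact one_ne_zero this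

variable {V : Type*} [AddCommGroup V] [Module F V] [Fintype V] [DecidableEq V] (β : Herm F q V)
  {𝒜 : Type*} [Ring 𝒜] [Algebra ℂ 𝒜] {h : V → 𝒜}

include hU in
theorem wl_pow (j : ℕ) : (-(q : ℂ)) ^ j ≠ 0 :=
  pow_ne_zero _ (neg_ne_zero.2 (Nat.cast_ne_zero.2 (by have := two_le_q F q; omega)))

theorem wl_card {K : Type*} [AddCommGroup K] [Module F K] [Fintype K] :
    (Fintype.card K : ℂ) = (-(q : ℂ)) ^ finrank F K * (-(q : ℂ)) ^ finrank F K := by
  rw [Module.card_eq_pow_finrank (K := F), Nat.cast_pow, U7.gs_card (q := q), ← mul_pow, neg_mul_neg, sq]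

theorem wl_card_fx (g : β.Iso) : ((Finset.univ.filter fun v => g.1 v - v = 0).card : ℂ) =
    (-(q : ℂ)) ^ Herm.fx g * (-(q : ℂ)) ^ Herm.fx g := by
  classical
  rw [Herm.fx, ← wl_card, Fintype.card_subtype]
  congr 2
  ext v
  simp

theorem wl_fx_inv (g : β.Iso) : Herm.fx g⁻¹ = Herm.fx g := by
  refine congrArg (fun S : Submodule F V => finrank F S) (Submodule.ext fun v => ?_)
  simp only [LinearMap.mem_ker, LinearMap.sub_apply, LinearEquiv.coe_coe, LinearMap.id_apply, sub_eq_zero]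
  constructor
  · intro e
    conv_lhs => rw [← e]
    exact Herm.app_inv g v
  · intro e
    conv_lhs => rw [← e]
    exact Herm.inv_app g v

theorem wl_mul (hm : ∀ u v, h u * h v = Ψ (β.f v u) • h (u + v)) (v w : V) :
    h v * (Ψ (β.f w w) • h (-w)) = Ψ (β.f w w - β.f w v) • h (v - w) := by
  rw [mul_smul_comm, hm, smul_smul, ← AddChar.map_add_eq_mul, β.neg_left, ← sub_eq_add_neg, ← sub_eq_add_neg]

theorem wl_mul_inv (h0 : h 0 = 1) (hm : ∀ u v, h u * h v = Ψ (β.f v u) • h (u + v)) (v : V) :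
    h v * (Ψ (β.f v v) • h (-v)) = 1 := by
  rw [wl_mul β hm, sub_self, sub_self, AddChar.map_zero_eq_one, one_smul, h0]

theorem wl_inv_mul (h0 : h 0 = 1) (hm : ∀ u v, h u * h v = Ψ (β.f v u) • h (u + v)) (v : V) :
    (Ψ (β.f v v) • h (-v)) * h v = 1 := by
  rw [smul_mul_assoc, hm, smul_smul, ← AddChar.map_add_eq_mul, β.neg_right, add_neg_cancel, neg_add_cancel,
    AddChar.map_zero_eq_one, one_smul, h0]

theorem wl_conj (hm : ∀ u v, h u * h v = Ψ (β.f v u) • h (u + v)) (v y : V) :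
    h v * h y * (Ψ (β.f v v) • h (-v)) = Ψ (β.f y v - β.f v y) • h y := by
  rw [hm, smul_mul_assoc, wl_mul β hm, add_sub_cancel_left, smul_smul, ← AddChar.map_add_eq_mul, β.add_right]
  congr 2
  ring

theorem wl_pair (hΨ : Gd q Ψ) (y : V) :
    ∑ v, Ψ (β.f y v - β.f v y) = if y = 0 then (Fintype.card V : ℂ) else 0 := by
  split_ifs with c
  · simp [c, β.zero_left, β.zero_right]
  obtain ⟨d, hd, h1⟩ := hΨ
  obtain ⟨s, hs⟩ := exists_conj_sub_eq (q := q) hd
  obtain ⟨w, hw⟩ : ∃ w, β.f w y ≠ 0 := by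
    by_contra k
    push Not at k
    exact c (β.nondeg y fun w => by rw [← β.conj_f, k, map_zero])
  obtain ⟨u, hu⟩ : ∃ u, β.f u y = s := ⟨(s / β.f w y) • w, by rw [β.smul_left, div_mul_cancel₀ _ hw]⟩
  refine U7.gs_shift _ _ (Equiv.addRight u) (by simp) h1 fun v => ?_
  rw [Equiv.coe_addRight, β.add_left, β.add_right, ← β.conj_f u y, hu, ← AddChar.map_add_eq_mul, ← hs]
  congr 1
  ring

variable (Ψ h) in
/-- averaging over the Heisenberg operators -/
noncomputable def wlE : 𝒜 →ₗ[ℂ] 𝒜 where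
  toFun X := ∑ v, h v * X * (Ψ (β.f v v) • h (-v))
  map_add' X Y := by simp only [mul_add, add_mul, Finset.sum_add_distrib]
  map_smul' c X := by
    simp only [RingHom.id_apply, Finset.smul_sum]
    exact Finset.sum_congr rfl fun v _ => by rw [mul_smul_comm c, smul_mul_assoc c]

theorem wlE_apply (X : 𝒜) : wlE Ψ β h X = ∑ v, h v * X * (Ψ (β.f v v) • h (-v)) := rfl

theorem avg_h (hΨ : Gd q Ψ) (h0 : h 0 = 1) (hm : ∀ u v, h u * h v = Ψ (β.f v u) • h (u + v)) (y : V) :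
    ∑ v, h v * h y * (Ψ (β.f v v) • h (-v)) =
      if y = 0 then (Fintype.card V : ℂ) • (1 : 𝒜) else 0 := by
  simp only [wl_conj β hm, ← Finset.sum_smul, wl_pair β hΨ]
  split_ifs with c
  · rw [c, h0]
  · rw [zero_smul]

theorem wop_h (hm : ∀ u v, h u * h v = Ψ (β.f v u) • h (u + v)) (g : β.Iso) (u : V) :
    wop β Ψ h g * h u = h (g.1 u) * wop β Ψ h g := by
  rw [wop, smul_mul_assoc, mul_smul_comm, Finset.sum_mul, Finset.mul_sum]
  congr 1
  refine (Fintype.sum_equiv (Equiv.addLeft u) _ _ fun y => ?_).symm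
  rw [Equiv.coe_addLeft, ← mul_assoc, hm, Herm.iso_f, ← map_add, mul_assoc, smul_mul_assoc, smul_mul_assoc, hm,
    mul_smul_comm, mul_smul_comm, mul_smul_comm, smul_smul, smul_smul, ← AddChar.map_add_eq_mul,
    ← AddChar.map_add_eq_mul, show -(u + y) + u = -y by abel]
  congr 2
  simp only [β.add_left, β.add_right, β.neg_right]
  ring

theorem wop_avg (hΨ : Gd q Ψ) (h0 : h 0 = 1) (hm : ∀ u v, h u * h v = Ψ (β.f v u) • h (u + v))
    (g : β.Iso) : ∑ v, h v * wop β Ψ h g * (Ψ (β.f v v) • h (-v)) =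
      ((Fintype.card V : ℂ) * (-(q : ℂ)) ^ Herm.fx g / (-(q : ℂ)) ^ finrank F V) • (1 : 𝒜) := by
  have n := wl_pow (F := F) (q := q)
  have e : ∀ x, wlE Ψ β h (h (g.1 x) * (Ψ (β.f x x) • h (-x))) =
      if g.1 x - x = 0 then (Fintype.card V : ℂ) • (1 : 𝒜) else 0 := fun x => by
    rw [wl_mul β hm, map_smul, wlE_apply, avg_h β hΨ h0 hm]
    split_ifs with c
    · rw [sub_eq_zero.1 c, sub_self, AddChar.map_zero_eq_one, one_smul]
    · rw [smul_zero]
  rw [← wlE_apply, wop, map_smul, map_sum]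
  simp only [e]
  rw [← Finset.sum_filter, Finset.sum_const, ← Nat.cast_smul_eq_nsmul ℂ, wl_card_fx, smul_smul, smul_smul, pow_add]
  congr 1
  have := n (Herm.fx g)
  have := n (finrank F V)
  field_simp

theorem wop_one (h0 : h 0 = 1) (hm : ∀ u v, h u * h v = Ψ (β.f v u) • h (u + v)) :
    wop β Ψ h 1 = 1 := by
  have e : Herm.fx (1 : β.Iso) = finrank F V := by
    rw [Herm.fx, show (1 : β.Iso).1.toLinearMap - LinearMap.id = 0 from sub_self _, LinearMap.ker_zero, finrank_top]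
  simp only [wop, e, Herm.one_app, wl_mul_inv β h0 hm, Finset.sum_const, Finset.card_univ]
  rw [← Nat.cast_smul_eq_nsmul ℂ, smul_smul, wl_card (F := F) (q := q), pow_add,
    inv_mul_cancel₀ (mul_ne_zero (wl_pow (F := F) _) (wl_pow (F := F) _)), one_smul]

theorem wop_inv (hΨ : Gd q Ψ) (h0 : h 0 = 1) (hm : ∀ u v, h u * h v = Ψ (β.f v u) • h (u + v))
    (g : β.Iso) : wop β Ψ h g * wop β Ψ h g⁻¹ = 1 := by
  have k : ∀ y, wop β Ψ h g * (h ((g⁻¹).1 y) * (Ψ (β.f y y) • h (-y))) =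
      h y * wop β Ψ h g * (Ψ (β.f y y) • h (-y)) := fun y => by
    rw [← mul_assoc, wop_h β hm, Herm.app_inv]
  rw [wop.eq_def β Ψ h g⁻¹, mul_smul_comm, Finset.mul_sum]
  simp only [k]
  rw [wop_avg β hΨ h0 hm, smul_smul, wl_fx_inv, wl_card (F := F) (q := q), pow_add]
  have := wl_pow (F := F) (q := q) (Herm.fx g)
  have := wl_pow (F := F) (q := q) (finrank F V)
  convert one_smul ℂ _ using 2
  field_simp

theorem wl_span_mul (hm : ∀ u v, h u * h v = Ψ (β.f v u) • h (u + v)) {x y : 𝒜}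
    (hx : x ∈ Submodule.span ℂ (Set.range h)) (hy : y ∈ Submodule.span ℂ (Set.range h)) :
    x * y ∈ Submodule.span ℂ (Set.range h) := by
  have := Submodule.mul_mem_mul hx hy
  rw [Submodule.span_mul_span] at this
  refine Submodule.span_le.2 ?_ this
  rintro _ ⟨_, ⟨v, rfl⟩, _, ⟨w, rfl⟩, rfl⟩
  beta_reduce
  rw [hm]
  exact Submodule.smul_mem _ _ (Submodule.subset_span ⟨_, rfl⟩)

theorem wl_wop_mem (hm : ∀ u v, h u * h v = Ψ (β.f v u) • h (u + v)) (g : β.Iso) :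
    wop β Ψ h g ∈ Submodule.span ℂ (Set.range h) :=
  Submodule.smul_mem _ _ (Submodule.sum_mem _ fun v _ => by
    rw [wl_mul β hm]
    exact Submodule.smul_mem _ _ (Submodule.subset_span ⟨_, rfl⟩))

theorem wl_scalar (hΨ : Gd q Ψ) (h0 : h 0 = 1) (hm : ∀ u v, h u * h v = Ψ (β.f v u) • h (u + v)) {X : 𝒜}
    (hX : X ∈ Submodule.span ℂ (Set.range h)) (hc : ∀ v, X * h v = h v * X) : ∃ c : ℂ, X = c • 1 := by
  have c0 : (Fintype.card V : ℂ) ≠ 0 := Nat.cast_ne_zero.2 Fintype.card_ne_zero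
  have e : wlE Ψ β h X = (Fintype.card V : ℂ) • X := by
    simp only [wlE_apply, ← hc, mul_assoc, wl_mul_inv β h0 hm, mul_one, Finset.sum_const, Finset.card_univ,
      Nat.cast_smul_eq_nsmul]
  obtain ⟨a, rfl⟩ := (Submodule.mem_span_range_iff_exists_fun ℂ).1 hX
  refine ⟨a 0, smul_right_injective _ c0 ?_⟩
  beta_reduce
  rw [← e, map_sum, Finset.sum_eq_single 0 (fun v _ k => by
    rw [map_smul, wlE_apply, avg_h β hΨ h0 hm, if_neg k, smul_zero]) (by simp), map_smul, wlE_apply,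
    avg_h β hΨ h0 hm, if_pos rfl, smul_comm]

theorem wl_s (hΨ : Gd q Ψ) (h0 : h 0 = 1) (hm : ∀ u v, h u * h v = Ψ (β.f v u) • h (u + v))
    (g k : β.Iso) : ∃ s : ℂ, wop β Ψ h g * wop β Ψ h k = s • wop β Ψ h (g * k) := by
  obtain ⟨c, hc⟩ := wl_scalar β hΨ h0 hm (X := wop β Ψ h g * wop β Ψ h k * wop β Ψ h (g * k)⁻¹)
    (wl_span_mul β hm (wl_span_mul β hm (wl_wop_mem β hm _) (wl_wop_mem β hm _)) (wl_wop_mem β hm _)) fun v => by
      rw [mul_assoc, wop_h β hm, ← mul_assoc, mul_assoc (wop β Ψ h g), wop_h β hm, ← mul_assoc, wop_h β hm,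
        ← Herm.mul_app, Herm.app_inv, mul_assoc, mul_assoc, mul_assoc]
  have := wop_inv β hΨ h0 hm (g * k)⁻¹
  rw [inv_inv] at this
  exact ⟨c, by rw [← mul_one (_ * _), ← this, ← mul_assoc, hc, smul_mul_assoc, one_mul]⟩

theorem wl_term (hΨ : Gd q Ψ) (h0 : h 0 = 1) (hm : ∀ u v, h u * h v = Ψ (β.f v u) • h (u + v)) (a b c d : V) :
    wlE Ψ β h (h a * (Ψ (β.f b b) • h (-b)) * (h c * (Ψ (β.f d d) • h (-d)))) =
      ((Fintype.card V : ℂ) * if a - b + (c - d) = 0 then Ψ (β.f (d - a) (a - b)) else 0) • (1 : 𝒜) := by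
  rw [wl_mul β hm, wl_mul β hm, smul_mul_assoc, mul_smul_comm, hm, smul_smul, smul_smul, map_smul, wlE_apply,
    avg_h β hΨ h0 hm]
  split_ifs with k
  · rw [smul_smul, mul_comm, ← AddChar.map_add_eq_mul, ← AddChar.map_add_eq_mul]
    congr 3
    obtain rfl : c = d - (a - b) := by rw [eq_sub_iff_add_eq, ← sub_eq_zero, ← k]; abel
    simp only [β.sub_left, β.sub_right]
    ring
  · rw [smul_zero, mul_zero, zero_smul]

variable (Ψ) in
/-- the Gauss sum attached to a pair of isometries -/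
noncomputable def wlG (g k : β.Iso) : ℂ :=
  ∑ x, ∑ y, if g.1 x - x + (k.1 y - y) = 0 then Ψ (β.f (y - g.1 x) (g.1 x - x)) else 0

theorem wlE_ww (hΨ : Gd q Ψ) (h0 : h 0 = 1) (hm : ∀ u v, h u * h v = Ψ (β.f v u) • h (u + v))
    (g k : β.Iso) : wlE Ψ β h (wop β Ψ h g * wop β Ψ h k) =
      (((-(q : ℂ)) ^ (Herm.fx g + finrank F V))⁻¹ * ((-(q : ℂ)) ^ (Herm.fx k + finrank F V))⁻¹ *
        ((Fintype.card V : ℂ) * wlG Ψ β g k)) • (1 : 𝒜) := by
  rw [wop, wop, smul_mul_assoc, mul_smul_comm, smul_smul, map_smul, Finset.sum_mul_sum, mul_smul _ (_ * wlG Ψ β g k)]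
  simp only [map_sum, wl_term β hΨ h0 hm, wlG, Finset.mul_sum, Finset.sum_smul]

theorem wlG_pow (hΨ : Gd q Ψ) (g k : β.Iso) : ∃ j : ℕ, wlG Ψ β g k = (-(q : ℂ)) ^ j := by
  classical
  let P : Submodule F (V × V) :=
    { carrier := {p | g.1 p.1 - p.1 + (k.1 p.2 - p.2) = 0}
      zero_mem' := by simp
      add_mem' := fun {a b} ha hb => by
        simp only [Set.mem_ofPred_eq, Prod.fst_add, Prod.snd_add, map_add] at ha hb ⊢
        rw [← add_zero (0 : V)]
        nth_rewrite 1 [← ha]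
        rw [← hb]
        abel
      smul_mem' := fun c a ha => by
        simp only [Set.mem_ofPred_eq, Prod.smul_fst, Prod.smul_snd, map_smul] at ha ⊢
        rw [← smul_sub, ← smul_sub, ← smul_add, ha, smul_zero] }
  obtain ⟨j, hj⟩ := U7.gauss hΨ P (fun p p' => β.f (p.1.2 - g.1 p.1.1) (g.1 p'.1.1 - p'.1.1))
    (fun x y z => by
      rw [← β.add_left, Submodule.coe_add, Prod.fst_add, Prod.snd_add, map_add]
      congr 1
      abel)
    (fun c x y => by rw [← β.smul_left, Submodule.coe_smul, Prod.smul_fst, Prod.smul_snd, map_smul, smul_sub])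
    fun x y => by
      have h1 : β.f (g.1 y.1.1) (g.1 x.1.1 - x.1.1) + β.f (g.1 y.1.1 - y.1.1) (g.1 x.1.1) =
          β.f (g.1 y.1.1 - y.1.1) (g.1 x.1.1 - x.1.1) := by
        simp only [β.sub_left, β.sub_right, Herm.iso_f]
        ring
      have h2 : β.f y.1.2 (x.1.2 - k.1 x.1.2) + β.f (y.1.2 - k.1 y.1.2) x.1.2 =
          β.f (y.1.2 - k.1 y.1.2) (x.1.2 - k.1 x.1.2) := by
        simp only [β.sub_left, β.sub_right, Herm.iso_f]
        ring
      have e1 : x.1.2 - k.1 x.1.2 = g.1 x.1.1 - x.1.1 := by rw [← neg_sub, neg_eq_of_add_eq_zero_left x.2]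
      have e2 : y.1.2 - k.1 y.1.2 = g.1 y.1.1 - y.1.1 := by rw [← neg_sub, neg_eq_of_add_eq_zero_left y.2]
      rw [e1, e2] at h2
      rw [← conj_apply, β.conj_f, β.sub_left y.1.2, β.sub_right _ x.1.2]
      linear_combination h2 - h1
  refine ⟨j, ?_⟩
  rw [← hj, wlG, ← Fintype.sum_prod_type', ← Finset.sum_filter]
  exact Finset.sum_subtype _ (fun p => by rw [Finset.mem_filter, and_iff_right (Finset.mem_univ _)]; rfl)
    fun p : V × V => Ψ (β.f (p.2 - g.1 p.1) (g.1 p.1 - p.1))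

variable (Ψ) in
theorem wlG_inv (g k : β.Iso) : wlG Ψ β k⁻¹ g⁻¹ = starRingEnd ℂ (wlG Ψ β g k) := by
  rw [wlG, wlG, ← Equiv.sum_comp k.1.toEquiv, Finset.sum_comm, ← Equiv.sum_comp g.1.toEquiv]
  simp only [LinearEquiv.coe_toEquiv, Herm.inv_app, map_sum]
  refine Finset.sum_congr rfl fun x _ => Finset.sum_congr rfl fun y _ => ?_
  have : y - k.1 y + (x - g.1 x) = -(g.1 x - x + (k.1 y - y)) := by abel
  rw [this]
  by_cases c : g.1 x - x + (k.1 y - y) = 0
  · rw [if_pos c, if_pos (neg_eq_zero.2 c), ← AddChar.map_neg_eq_conj,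
      ← β.neg_left, neg_sub, ← neg_eq_of_add_eq_zero_left c, neg_sub]
  · rw [if_neg c, if_neg (neg_eq_zero.not.2 c), map_zero]

theorem wop_mul (hΨ : Gd q Ψ) (h0 : h 0 = 1) (hm : ∀ u v, h u * h v = Ψ (β.f v u) • h (u + v))
    (g k : β.Iso) : wop β Ψ h g * wop β Ψ h k = wop β Ψ h (g * k) := by
  rcases subsingleton_or_nontrivial 𝒜 with _ | _
  · exact Subsingleton.elim _ _
  have inj : ∀ a b : ℂ, a • (1 : 𝒜) = b • (1 : 𝒜) → a = b := fun a b e => smul_left_injective ℂ one_ne_zero e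
  have n := wl_pow (F := F) (q := q)
  have c0 : (Fintype.card V : ℂ) ≠ 0 := Nat.cast_ne_zero.2 Fintype.card_ne_zero
  obtain ⟨s, hs⟩ := wl_s β hΨ h0 hm g k
  obtain ⟨s', hs'⟩ := wl_s β hΨ h0 hm k⁻¹ g⁻¹
  obtain ⟨j, hj⟩ := wlG_pow β hΨ g k
  have hj' := wlG_inv Ψ β g k
  rw [← _root_.mul_inv_rev] at hs'
  have h1 : s * s' = 1 := by
    have : wop β Ψ h g * wop β Ψ h k * (wop β Ψ h k⁻¹ * wop β Ψ h g⁻¹) = 1 := by
      rw [mul_assoc, ← mul_assoc (wop β Ψ h k), wop_inv β hΨ h0 hm, one_mul, wop_inv β hΨ h0 hm]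
    rw [hs, hs', smul_mul_assoc, mul_smul_comm, wop_inv β hΨ h0 hm, smul_smul] at this
    exact inj _ _ (this.trans (one_smul _ _).symm)
  have t := congrArg (wlE Ψ β h) hs
  have t' := congrArg (wlE Ψ β h) hs'
  rw [hj, map_pow, map_neg, map_natCast] at hj'
  rw [wlE_ww β hΨ h0 hm, map_smul, wlE_apply, wop_avg β hΨ h0 hm, smul_smul] at t t'
  replace t := inj _ _ t
  replace t' := inj _ _ t'
  rw [hj] at t
  rw [hj', wl_fx_inv, wl_fx_inv, wl_fx_inv] at t'
  have h2 : s = s' := by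
    refine mul_right_cancel₀ (div_ne_zero (mul_ne_zero c0 (n (Herm.fx (g * k)))) (n (finrank F V))) ?_
    rw [← t, ← t']
    ring
  have h3 : s * (-(q : ℂ)) ^ (Herm.fx g + finrank F V + (Herm.fx k + finrank F V) + Herm.fx (g * k)) =
      (-(q : ℂ)) ^ (finrank F V + j) := by
    have a := n (Herm.fx g + finrank F V)
    have b := n (Herm.fx k + finrank F V)
    have d := n (finrank F V)
    rw [pow_add _ (_ + _), pow_add _ (Herm.fx g + finrank F V), pow_add _ (finrank F V) j]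
    generalize (-(q : ℂ)) ^ (Herm.fx g + finrank F V) = A at *
    generalize (-(q : ℂ)) ^ (Herm.fx k + finrank F V) = B at *
    generalize (-(q : ℂ)) ^ (finrank F V) = C at *
    field_simp at t
    linear_combination -t
  have h4 := congrArg (· ^ 2) h3
  simp only [mul_pow, sq s, pow_right_comm _ _ 2, neg_sq] at h4
  rw [← h2] at h1
  rw [h1, one_mul] at h4
  have h5 : Herm.fx g + finrank F V + (Herm.fx k + finrank F V) + Herm.fx (g * k) = finrank F V + j :=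
    Nat.pow_right_injective (a := q ^ 2)
      (le_trans (two_le_q F q) (Nat.le_self_pow two_ne_zero q)) (by exact_mod_cast h4)
  rw [h5, mul_eq_right₀ (n _)] at h3
  rw [hs, h3, one_smul]

theorem exists_gd : ∃ Ψ : AddChar F ℂ, Gd q Ψ := by
  obtain ⟨c, c0, hc⟩ := exists_trace_zero (F := F) (q := q)
  obtain ⟨ψ, hψ'⟩ := (AddChar.exists_apply_ne_zero (α := F)).2 c0
  exact ⟨ψ, c, hc, hψ'⟩

variable (Ψ) in
/-- the regular Heisenberg operators -/
def wlL (u : V) : End ℂ (V → ℂ) where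
  toFun f y := Ψ (β.f (y - u) u) * f (y - u)
  map_add' f g := by ext x; simp [mul_add]
  map_smul' c f := by ext x; simp [mul_left_comm]

variable (Ψ) in
theorem wlL_mul (u v : V) : wlL Ψ β u * wlL Ψ β v = Ψ (β.f v u) • wlL Ψ β (u + v) := by
  refine LinearMap.ext fun f => funext fun x => ?_
  change Ψ (β.f (x - u) u) * (Ψ (β.f (x - u - v) v) * f (x - u - v)) =
    Ψ (β.f v u) * (Ψ (β.f (x - (u + v)) (u + v)) * f (x - (u + v)))
  rw [← sub_sub, ← mul_assoc, ← mul_assoc, ← AddChar.map_add_eq_mul, ← AddChar.map_add_eq_mul,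
    β.add_right, β.sub_left (x - u) v u]
  congr 2
  ring

variable (Ψ) in
theorem wlL_zero : wlL Ψ β 0 = 1 := by
  refine LinearMap.ext fun f => funext fun x => ?_
  change Ψ (β.f (x - 0) 0) * f (x - 0) = f x
  rw [β.zero_right, sub_zero, AddChar.map_zero_eq_one, one_mul]

theorem exists_weil : ∃ ρ : β.Iso →* End ℂ (V → ℂ), ∀ g,
    LinearMap.trace ℂ _ (ρ g) * (-(q : ℂ)) ^ finrank F V =
      (Fintype.card V : ℂ) * (-(q : ℂ)) ^ Herm.fx g := by
  obtain ⟨Ψ, hΨ⟩ := exists_gd (F := F) (q := q)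
  have h0 := wlL_zero Ψ β
  have hm := wlL_mul Ψ β
  refine ⟨⟨⟨wop β Ψ (wlL Ψ β), wop_one β h0 hm⟩, fun a b => (wop_mul β hΨ h0 hm a b).symm⟩, fun g => ?_⟩
  have c0 : (Fintype.card V : ℂ) ≠ 0 := Nat.cast_ne_zero.2 Fintype.card_ne_zero
  have t := congrArg (LinearMap.trace ℂ (V → ℂ)) (wop_avg β hΨ h0 hm g)
  have k : ∀ v, LinearMap.trace ℂ (V → ℂ) (wlL Ψ β v * wop β Ψ (wlL Ψ β) g * (Ψ (β.f v v) • wlL Ψ β (-v))) =
      LinearMap.trace ℂ (V → ℂ) (wop β Ψ (wlL Ψ β) g) := fun v => by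
    rw [LinearMap.trace_mul_comm, ← mul_assoc, wl_inv_mul β h0 hm, one_mul]
  rw [map_sum, map_smul, LinearMap.trace_one, Module.finrank_fintype_fun_eq_card] at t
  simp only [k, Finset.sum_const, Finset.card_univ, nsmul_eq_mul, smul_eq_mul] at t
  change LinearMap.trace ℂ (V → ℂ) (wop β Ψ (wlL Ψ β) g) * _ = _
  have d := wl_pow (F := F) (q := q) (finrank F V)
  rw [mul_comm] at t
  rw [mul_right_cancel₀ c0 t, div_mul_cancel₀ _ d]

end Cfsg.Agent.CJ
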