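import Cfsg.Agent.CJ.C3
import Cfsg.Agent.CJ.Weil
import Cfsg.Agent.CJ.RelB
import Cfsg.Agent.Char.Basic

/-!
S4793: generalities on fixed vectors and the conjugation character; the module without fixed vectors
for `R` and for all centralisers.
-/

set_option autoImplicit false
set_option linter.unusedSectionVars false

namespace Cfsg.Agent.CJ

open Module Matrix Cfsg Cfsg.Agent.Class.U Cfsg.Agent.KSG

section General

variable {H : Type*} [Group H] {M : Type*} [AddCommGroup M] [Module ℂ M] [FiniteDimensional ℂ M]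

theorem sum_trace [Fintype H] (ρ : Representation ℂ H M) :
    ∑ h, LinearMap.trace ℂ M (ρ h) = (Fintype.card H : ℂ) * finrank ℂ ρ.invariants := by
  have hc : (Fintype.card H : ℂ) ≠ 0 := Nat.cast_ne_zero.2 Fintype.card_ne_zero
  letI : Invertible (Fintype.card H : ℂ) := invertibleOfNonzero hc
  rw [← (Representation.isProj_averageMap ρ).trace]
  simp [Representation.averageMap, GroupAlgebra.average, _root_.map_sum, hc]

theorem inv_ne_bot_iff (ρ : Representation ℂ H M) :
    finrank ℂ ρ.invariants ≠ 0 ↔ ∃ x : M, x ≠ 0 ∧ ∀ h, ρ h x = x := by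
  rw [Ne, Submodule.finrank_eq_zero, ← Ne, Submodule.ne_bot_iff]
  exact ⟨fun ⟨x, h1, h2⟩ => ⟨x, h2, h1⟩, fun ⟨x, h1, h2⟩ => ⟨x, h2, h1⟩⟩

theorem inner_ne_iff [Fintype H] (ρ : Representation ℂ H M) :
    classInner ρ.character (fun g : H => (Nat.card (Subgroup.centralizer ({g} : Set H)) : ℂ)) ≠ 0 ↔
      ∃ (h : H) (x : M), x ≠ 0 ∧ ∀ g, g * h = h * g → ρ g x = x := by
  classical
  have key : ∑ g : H, ρ.character g *
      (starRingEnd ℂ) (Nat.card (Subgroup.centralizer ({g} : Set H)) : ℂ) =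
      ((∑ h : H, Fintype.card (Subgroup.centralizer ({h} : Set H)) * finrank ℂ
        (Representation.invariants (ρ.comp (Subgroup.centralizer ({h} : Set H)).subtype)) : ℕ) : ℂ) := by
    push_cast
    have h1 : ∀ g : H, (Nat.card (Subgroup.centralizer ({g} : Set H)) : ℂ) =
        ∑ h : H, if g * h = h * g then 1 else 0 := fun g => by
      rw [Nat.card_eq_fintype_card, Fintype.card_subtype, Finset.card_filter]
      push_cast
      refine Finset.sum_congr rfl fun h _ => ?_
      simp [Subgroup.mem_centralizer_iff]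
    have h2 : ∀ h : H, (Fintype.card (Subgroup.centralizer ({h} : Set H)) : ℂ) * finrank ℂ
        (Representation.invariants (ρ.comp (Subgroup.centralizer ({h} : Set H)).subtype)) =
        ∑ g : H, if g * h = h * g then ρ.character g else 0 := fun h => by
      rw [← sum_trace, ← Finset.sum_filter]
      symm
      refine Finset.sum_subtype _ (fun g => ?_) (fun g => ρ.character g)
      simp [Subgroup.mem_centralizer_iff, eq_comm]
    simp_rw [h2, map_natCast, h1, Finset.mul_sum]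
    rw [Finset.sum_comm]
    refine Finset.sum_congr rfl fun h _ => Finset.sum_congr rfl fun g _ => ?_
    split_ifs <;> simp
  have hc : (Nat.card H : ℂ)⁻¹ ≠ 0 := inv_ne_zero (Nat.cast_ne_zero.2 Nat.card_pos.ne')
  rw [classInner, key, mul_ne_zero_iff, and_iff_right hc, Nat.cast_ne_zero, Ne,
    Finset.sum_eq_zero_iff]
  push Not
  constructor
  · rintro ⟨h, -, hh⟩
    obtain ⟨x, hx, hf⟩ := (inv_ne_bot_iff _).1 (right_ne_zero_of_mul hh)
    exact ⟨h, x, hx, fun g hg => hf ⟨g, by simp [Subgroup.mem_centralizer_iff, hg]⟩⟩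
  · rintro ⟨h, x, hx, hf⟩
    refine ⟨h, Finset.mem_univ _, mul_ne_zero Fintype.card_ne_zero ((inv_ne_bot_iff _).2
      ⟨x, hx, fun g => hf g ?_⟩)⟩
    have := g.2
    rw [Subgroup.mem_centralizer_iff] at this
    exact (this h rfl).symm

theorem schur (ρ : Representation ℂ H M) (hρ : ρ.IsIrreducible) (Φ : End ℂ M)
    (hΦ : ∀ g x, Φ (ρ g x) = ρ g (Φ x)) : ∃ c : ℂ, Φ = c • 1 := by
  obtain ⟨hn, hU⟩ := (Char.isIrreducible_iff ρ).1 hρ
  obtain ⟨c, hc⟩ := Module.End.exists_eigenvalue Φ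
  refine ⟨c, ?_⟩
  rcases hU (Φ.eigenspace c) (fun g v hv => by
    rw [End.mem_eigenspace_iff] at hv ⊢
    rw [hΦ, hv, map_smul]) with h | h
  · exact absurd h hc
  · ext x
    have : x ∈ Φ.eigenspace c := h ▸ Submodule.mem_top
    simpa using End.mem_eigenspace_iff.1 this

theorem char_eq_of_iw {M' : Type*} [AddCommGroup M'] [Module ℂ M'] [FiniteDimensional ℂ M']
    (ρ : Representation ℂ H M) (hρ : ρ.IsIrreducible) (ρ' : Representation ℂ H M')
    (hρ' : ρ'.IsIrreducible) {Φ : M →ₗ[ℂ] M'} (h0 : Φ ≠ 0) (hΦ : ∀ g x, Φ (ρ g x) = ρ' g (Φ x)) :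
    ρ.character = ρ'.character := by
  obtain ⟨-, hU⟩ := (Char.isIrreducible_iff ρ).1 hρ
  obtain ⟨-, hU'⟩ := (Char.isIrreducible_iff ρ').1 hρ'
  have h1 : LinearMap.ker Φ = ⊥ := (hU _ fun g v hv => by
    rw [LinearMap.mem_ker] at hv ⊢
    rw [hΦ, hv, map_zero]).resolve_right fun h => h0 (LinearMap.ker_eq_top.1 h)
  have h2 : LinearMap.range Φ = ⊤ := (hU' _ (by
    rintro g _ ⟨v, rfl⟩
    exact ⟨_, hΦ g v⟩)).resolve_left fun h => h0 (LinearMap.range_eq_bot.1 h)
  let e := LinearEquiv.ofBijective Φ ⟨LinearMap.ker_eq_bot.1 h1, LinearMap.range_eq_top.1 h2⟩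
  funext g
  have : ρ' g = e.conj (ρ g) := by
    ext y
    obtain ⟨x, rfl⟩ := e.surjective y
    rw [LinearEquiv.conj_apply_apply, e.symm_apply_apply]
    exact (hΦ g x).symm
  rw [Representation.character, Representation.character, this, LinearMap.trace_conj']

/-- A nonzero invariant subspace contains a minimal one. -/
theorem exists_irr_sub (ρ : Representation ℂ H M) (U : Submodule ℂ M) (hU0 : U ≠ ⊥)
    (hU : ∀ g, ∀ x ∈ U, ρ g x ∈ U) :
    ∃ W : Subrepresentation ρ, W.toSubmodule ≤ U ∧ W.toRepresentation.IsIrreducible := by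
  obtain ⟨W, ⟨hW0, hWU, hW⟩, hmin⟩ := WellFounded.has_min (wellFounded_lt (α := Submodule ℂ M))
    {W | W ≠ ⊥ ∧ W ≤ U ∧ ∀ g, ∀ x ∈ W, ρ g x ∈ W} ⟨U, hU0, le_rfl, hU⟩
  refine ⟨⟨W, fun g x hx => hW g x hx⟩, hWU, (Char.isIrreducible_iff _).2
    ⟨Submodule.nontrivial_iff_ne_bot.2 hW0, fun X hX => ?_⟩⟩
  by_contra hc
  push Not at hc
  refine hmin (X.map W.subtype) ⟨fun h => hc.1 ?_, (Submodule.map_subtype_le _ _).trans hWU, ?_⟩ ?_
  · exact Submodule.map_injective_of_injective W.injective_subtype (by rw [h, Submodule.map_bot])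
  · rintro g _ ⟨v, hv, rfl⟩
    exact ⟨_, hX g v hv, rfl⟩
  · refine lt_of_le_of_ne (Submodule.map_subtype_le _ _) fun h => hc.2 ?_
    exact Submodule.map_injective_of_injective W.injective_subtype
      (by rw [h, Submodule.map_subtype_top])

end General

variable {F : Type*} [Field F] {q : ℕ} [hU : UF F q] {m : ℕ}

local notation "σ" => conj F q

variable (F q) in
/-- The norm-one group. -/
def Mu : Subgroup Fˣ where
  carrier := {z | (z : F) * σ z = 1}
  mul_mem' := fun {a b} ha hb => by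
    simp only [Set.mem_setOf_eq, Units.val_mul, map_mul] at ha hb ⊢
    rw [mul_mul_mul_comm, ha, hb, one_mul]
  one_mem' := by simp
  inv_mem' := fun {a} ha => by
    simp only [Set.mem_setOf_eq, Units.val_inv_eq_inv_val, map_inv₀] at ha ⊢
    rw [← mul_inv, ha, inv_one]

theorem card_Mu : Nat.card (Mu F q) = q + 1 := by
  rw [← card_norm_fiber (F := F) (q := q) one_ne_zero (map_one _)]
  refine Nat.card_congr (Equiv.ofBijective (fun z => ⟨(z.1 : F), z.2⟩) ⟨fun a b h => ?_, fun x => ?_⟩)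
  · exact Subtype.ext (Units.ext (congrArg Subtype.val h))
  · exact ⟨⟨Units.mk0 x.1 (left_ne_zero_of_mul_eq_one x.2), x.2⟩, rfl⟩

theorem sum_Mu [Fintype (Mu F q)] (f : Mu F q → ℂ) (c : ℂ) (h : ∀ z, z ≠ 1 → f z = c) :
    ∑ z, f z = f 1 + q * c := by
  classical
  rw [← Finset.add_sum_erase _ _ (Finset.mem_univ 1), Finset.sum_congr rfl
    (fun z hz => h z (Finset.ne_of_mem_erase hz)), Finset.sum_const, Finset.card_erase_of_mem
    (Finset.mem_univ _), Finset.card_univ, ← Nat.card_eq_fintype_card, card_Mu]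
  simp

theorem finrank_Sp : finrank F (Sp F m) = 2 * m + 1 := by
  simp [Module.finrank_prod]; ring

theorem fx_one : Herm.fx (1 : Ga F q m) = 2 * m + 1 := by
  have : ((1 : Ga F q m).1.toLinearMap - LinearMap.id) = 0 := LinearMap.ext fun x => by simp
  rw [Herm.fx, this, LinearMap.ker_zero, finrank_top, finrank_Sp]

theorem fx_sc {z : F} (hz : z * σ z = 1) (h1 : z ≠ 1) : Herm.fx (sc q m z) = 0 := by
  rw [Herm.fx, Submodule.finrank_eq_zero, eq_bot_iff]
  intro x hx
  have : (z - 1) • x = 0 := by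
    rw [sub_smul, one_smul, ← Herm.sc_app (fm F q m) hz]
    exact hx
  exact (smul_eq_zero.1 this).resolve_left (sub_ne_zero.2 h1)

theorem fx_rr {z : F} (hz : z * σ z = 1) (h1 : z ≠ 1) : Herm.fx (rr q m z) = 2 * m := by
  let l : Sp F m →ₗ[F] F := (LinearMap.fst F _ _).comp (LinearMap.snd F _ _)
  have h2 : LinearMap.ker ((rr q m z).1.toLinearMap - LinearMap.id) = LinearMap.ker l := by
    ext x
    simp only [LinearMap.mem_ker, LinearMap.sub_apply, LinearEquiv.coe_coe, LinearMap.id_apply,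
      rr_app hz, sub_eq_zero]
    constructor
    · intro h
      have h3 : z * x.2.1 = x.2.1 := congrArg (fun y : Sp F m => y.2.1) h
      have : (z - 1) * x.2.1 = 0 := by rw [sub_mul, h3, one_mul, sub_self]
      exact (mul_eq_zero.1 this).resolve_left (sub_ne_zero.2 h1)
    · intro h
      have h3 : x.2.1 = 0 := h
      exact Prod.ext rfl (Prod.ext (by simp [h3]) rfl)
  have h3 := l.finrank_range_add_finrank_ker
  rw [LinearMap.range_eq_top.2 (fun s => ⟨(0, s, 0), rfl⟩), finrank_top, finrank_self,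
    finrank_Sp] at h3
  rw [Herm.fx, h2]
  omega

theorem exists_E [Fintype F] [DecidableEq F] (hm : 1 ≤ m) :
    ∃ (ω : Representation ℂ (Ga F q m) (Sp F m → ℂ)) (W : Subrepresentation ω),
      W.toRepresentation.IsIrreducible ∧ RF W.toRepresentation ∧ ZT W.toRepresentation ∧
      ∀ (g : Ga F q m) (x : W.toSubmodule),
        (∀ k, k * g = g * k → W.toRepresentation k x = x) → x = 0 := by
  classical
  obtain ⟨ω, hω⟩ := exists_weil (fm F q m)
  rw [finrank_Sp] at hω
  have hq := two_le_q F q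
  have hq0 : (-(q : ℂ)) ^ (2 * m + 1) ≠ 0 :=
    pow_ne_zero _ (neg_ne_zero.2 (Nat.cast_ne_zero.2 (by omega)))
  have hV : (Fintype.card (Sp F m) : ℂ) ≠ 0 := Nat.cast_ne_zero.2 Fintype.card_ne_zero
  let rH : Mu F q →* Ga F q m := ⟨⟨fun z => rr q m z.1, rr_one⟩, fun a b => rr_mul a.2 b.2⟩
  let sH : Mu F q →* Ga F q m :=
    ⟨⟨fun z => sc q m z.1, Herm.sc_one _⟩, fun a b => Herm.sc_mul _ a.2 b.2⟩
  have hne : ∀ z : Mu F q, z ≠ 1 → (z.1 : F) ≠ 1 := fun z h e => h (Subtype.ext (Units.ext e))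
  have hR : RF ω := by
    intro x hx
    by_contra h0
    have h1 := (inv_ne_bot_iff (ω.comp rH)).2 ⟨x, h0, fun z => hx z.1 z.2⟩
    have h2 := sum_trace (ω.comp rH)
    have h3 : (∑ z, LinearMap.trace ℂ _ ((ω.comp rH) z)) * (-(q : ℂ)) ^ (2 * m + 1) = 0 := by
      rw [Finset.sum_mul, sum_Mu _ ((Fintype.card (Sp F m) : ℂ) * (-(q : ℂ)) ^ (2 * m))
        fun z hz => by rw [MonoidHom.comp_apply, hω]; exact congrArg _ (congrArg _ (fx_rr z.2 (hne z hz))),
        MonoidHom.comp_apply, hω, map_one, fx_one]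
      ring
    rw [h2] at h3
    exact mul_ne_zero (mul_ne_zero (Nat.cast_ne_zero.2 Fintype.card_ne_zero)
      (Nat.cast_ne_zero.2 h1)) hq0 h3
  have hZ : Representation.invariants (ω.comp sH) ≠ ⊥ := by
    intro h0
    have h2 := sum_trace (ω.comp sH)
    rw [h0, finrank_bot, Nat.cast_zero, mul_zero] at h2
    have h3 : (∑ z, LinearMap.trace ℂ _ ((ω.comp sH) z)) * (-(q : ℂ)) ^ (2 * m + 1) =
        (Fintype.card (Sp F m) : ℂ) * ((-(q : ℂ)) ^ (2 * m + 1) + q) := by
      rw [Finset.sum_mul, sum_Mu _ ((Fintype.card (Sp F m) : ℂ) * (-(q : ℂ)) ^ 0)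
        fun z hz => by rw [MonoidHom.comp_apply, hω]; exact congrArg _ (congrArg _ (fx_sc z.2 (hne z hz))),
        MonoidHom.comp_apply, hω, map_one, fx_one]
      ring
    rw [h2, zero_mul, eq_comm, mul_eq_zero, or_iff_right hV, pow_succ, pow_mul, neg_sq] at h3
    have h4 : ((q ^ 2) ^ m * q : ℕ) = q := by
      have : (((q ^ 2) ^ m * q : ℕ) : ℂ) = q := by push_cast; linear_combination -h3
      exact_mod_cast this
    have h5 : q ^ 2 ≤ (q ^ 2) ^ m := Nat.le_self_pow (by omega) _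
    nlinarith
  obtain ⟨W, hWU, hW⟩ := exists_irr_sub ω _ hZ (fun g x hx z => by
    change ω (sc q m z.1) (ω g x) = ω g x
    rw [← End.mul_apply, ← map_mul, Herm.sc_comm _ z.2, map_mul, End.mul_apply]
    exact congrArg _ (hx z))
  refine ⟨ω, W, hW, fun x hx => Subtype.ext (hR _ fun z hz => congrArg Subtype.val (hx z hz)),
    fun z hz => ?_, fun g x hx => ?_⟩
  · ext x : 1
    exact Subtype.ext (hWU x.2 ⟨Units.mk0 z (left_ne_zero_of_mul_eq_one hz), hz⟩)
  · obtain ⟨H, hH, hs0⟩ := exists_cen_sum (fm F q m) (by rw [finrank_Sp]; exact odd_two_mul_add_one m) g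
    haveI : Fintype H := Fintype.ofFinite _
    rw [finsum_eq_sum_of_fintype] at hs0
    by_contra h0
    have h1 := (inv_ne_bot_iff (ω.comp H.subtype)).2 ⟨x.1, fun e => h0 (Subtype.ext e),
      fun k => congrArg Subtype.val (hx k (hH k k.2))⟩
    have h2 := sum_trace (ω.comp H.subtype)
    have h3 : (∑ k, LinearMap.trace ℂ _ ((ω.comp H.subtype) k)) * (-(q : ℂ)) ^ (2 * m + 1) = 0 := by
      rw [Finset.sum_mul]
      refine (Finset.sum_congr rfl fun k _ => hω (H.subtype k)).trans ?_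
      rw [← Finset.mul_sum]
      exact mul_eq_zero_of_right _ hs0
    rw [h2] at h3
    exact mul_ne_zero (mul_ne_zero (Nat.cast_ne_zero.2 Fintype.card_ne_zero)
      (Nat.cast_ne_zero.2 h1)) hq0 h3

end Cfsg.Agent.CJ
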