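import Cfsg.Agent.CJ.Defs

/-!
S4793: a Fourier lemma on `F = 𝔽_{q²}`. Put `ĝ ξ = ∑_{a ≠ 0} Ψ (-(ξ a)) • g a` and `Λ = {η | ∀ c, c + σ c = 0 → Ψ (η c) = 1}`. With `δ ≠ 0` of trace zero:
`Λ` is closed under multiplication by `σ`-fixed elements, `1 ∉ Λ` (`Gd`), and `Λ ≠ 0` (`η ↦ (t ↦ Ψ (η δ t))` maps the `q²` elements `η` additively to the characters of the fixed field
(`q` of them; or: `∑_η ∑_c Ψ (η c) = q² ≠ q`, where `∑_c Ψ(η c) ∈ {0,q}`)); fix `0 ≠ λ ∈ Λ`; `λ` is not `σ`-fixed (else `1 ∈ Λ`).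
(1) For `y ≠ 0`, `t = σ t`: `ĝ ((y σy + μ + t λ) / y) = ∑_{a ≠ 0} Ψ (-(yσy + μ) a) Ψ (-tλ a) • g (y a)`; `Ψ (-tλ a)` only depends on `a + σ a`, so by the hypothesis only the `a` of trace zero
contribute, where `Ψ (-tλ a) = 1`: `ĝ` is constant on the line `ℓ_y = {(yσy + μ + tλ)/y}`. (2) Lines `ℓ_y, ℓ_y'` with `y/y'` not `σ`-fixed meet (the directions `λ/y, λ/y'` are independent over
the fixed field: solve `x = t + t' ω`); for `y/y'` fixed use a third `y''`. So `ĝ = c` on the union of the lines. (3) `ξ ∈ ℓ_y` iff `(ξ y - yσy - μ)/λ` is `σ`-fixed; with `d = λ⁻¹ - σ λ⁻¹ ≠ 0`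
(trace zero) and `ζ = ξ / (λ d)` this reads `ζ y + σ(ζ y) = yσy + μ`, i.e. `N (y - σ ζ) = N ζ - μ`; solutions exist (`exists_norm_eq`, `card_norm_fiber`), and one with `y ≠ 0` exists if `μ ≠ 0`
(`y = 0` is no solution) or `ξ ≠ 0` (`q + 1 ≥ 2` solutions). (4) Inversion (`Ψ ≠ 1` is primitive: `AddChar.IsPrimitive.of_ne_one`, `AddChar.sum_mulShift`): for `a ≠ 0`,
`q² • g a = ∑_ξ Ψ (ξ a) • ĝ ξ = ĝ 0 - c`, and `ĝ 0 = c` if `μ ≠ 0`.
-/

set_option autoImplicit false
set_option linter.unusedSectionVars false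

namespace Cfsg.Agent.CJ

open Module Matrix Cfsg Cfsg.Agent.Class.U Cfsg.Agent.KSG

variable {F : Type*} [Field F] {q : ℕ} [hU : UF F q] {m : ℕ}

local notation "σ" => conj F q
local notation "𝐡" => hermForm m F q

theorem four_lam [Fintype F] [DecidableEq F] (Ψ : AddChar F ℂ) :
    ∃ l : F, l ≠ 0 ∧ ∀ c, c + σ c = 0 → Ψ (l * c) = 1 := by
  classical
  let T : AddSubgroup F := (AddMonoidHom.id F + (σ).toAddMonoidHom).ker
  have hT : ∀ c : F, c ∈ T ↔ c + σ c = 0 := fun c => by simp [T, AddMonoidHom.mem_ker]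
  have hc : Fintype.card T = q := by
    rw [← Nat.card_eq_fintype_card, ← card_trace_fiber (F := F) (q := q) (a := 0) (map_zero _)]
    exact Nat.card_congr (Equiv.subtypeEquivRight hT)
  have h2 := two_le_q F q
  have hF : Fintype.card F = q ^ 2 := by rw [← Nat.card_eq_fintype_card, hU.card_eq]
  obtain ⟨x, y, hxy, e⟩ := Fintype.exists_ne_map_eq_of_card_lt
    (fun η : F => ((Ψ.mulShift η).compAddMonoidHom T.subtype : AddChar T ℂ))
    (by rw [AddChar.card_eq, hc, hF]; nlinarith)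
  refine ⟨x - y, sub_ne_zero.2 hxy, fun c hc => ?_⟩
  have e1 : Ψ (x * c) = Ψ (y * c) := by
    simpa using DFunLike.congr_fun e ⟨c, (hT c).2 hc⟩
  have e2 : Ψ ((x - y) * c) * Ψ (y * c) = Ψ (x * c) := by
    rw [← AddChar.map_add_eq_mul]; congr 1; ring
  have e3 : Ψ (y * c) ≠ 0 := fun h0 => by
    have := Ψ.map_add_eq_mul (y * c) (-(y * c))
    rw [h0, add_neg_cancel, AddChar.map_zero_eq_one, zero_mul] at this
    exact one_ne_zero this
  rw [e1] at e2
  exact mul_right_cancel₀ e3 (e2.trans (one_mul _).symm)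

theorem four_solve {ω : F} (hω : σ ω ≠ ω) (x : F) :
    ∃ t t' : F, σ t = t ∧ σ t' = t' ∧ x = t - t' * ω := by
  have hd : ω - σ ω ≠ 0 := sub_ne_zero.2 hω.symm
  have hd' : σ ω - ω ≠ 0 := sub_ne_zero.2 hω
  have h' : σ (-(x - σ x) / (ω - σ ω)) = -(x - σ x) / (ω - σ ω) := by
    simp only [map_div₀, map_neg, map_sub, conj_conj]
    field_simp
    ring
  refine ⟨x + -(x - σ x) / (ω - σ ω) * ω, -(x - σ x) / (ω - σ ω), ?_, h', by ring⟩
  rw [map_add, map_mul, h']
  field_simp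
  ring

theorem four_cover {l μ ξ : F} (hl0 : l ≠ 0) (hl : σ l ≠ l) (hμ : σ μ = μ) (h0 : μ ≠ 0 ∨ ξ ≠ 0) :
    ∃ y t : F, y ≠ 0 ∧ σ t = t ∧ ξ = (y * σ y + μ + t * l) / y := by
  have hl1 : σ l ≠ 0 := conj_ne_zero.2 hl0
  have hd : σ l - l ≠ 0 := sub_ne_zero.2 hl
  have hd' : l - σ l ≠ 0 := sub_ne_zero.2 hl.symm
  obtain ⟨ζ, hζ⟩ : ∃ ζ : F, ξ * σ l = ζ * (σ l - l) := ⟨ξ * σ l / (σ l - l), by field_simp⟩
  have hζ' : σ ξ * l = σ ζ * (l - σ l) := by
    have := congrArg (σ) hζ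
    simpa only [map_mul, map_sub, conj_conj] using this
  have key : ∃ x : F, x * σ x = ζ * σ ζ - μ ∧ x + σ ζ ≠ 0 := by
    by_cases hm : μ = 0
    · have hξ : ξ ≠ 0 := h0.resolve_left (not_not.2 hm)
      have hζ0 : ζ ≠ 0 := fun h => by
        rw [h, zero_mul] at hζ
        exact mul_ne_zero hξ hl1 hζ
      obtain ⟨e, he, he1⟩ := exists_norm_one_ne_one F q
      refine ⟨-(σ ζ * e), ?_, ?_⟩
      · simp only [map_neg, map_mul, conj_conj, hm]
        linear_combination ζ * σ ζ * he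
      · have : -(σ ζ * e) + σ ζ = σ ζ * (1 - e) := by ring
        rw [this]
        exact mul_ne_zero (conj_ne_zero.2 hζ0) (sub_ne_zero.2 he1.symm)
    · obtain ⟨x, hx⟩ := exists_norm_eq (F := F) (q := q) (μ := ζ * σ ζ - μ)
        (by simp only [map_sub, map_mul, conj_conj, hμ]; ring)
      refine ⟨x, hx, fun h => hm ?_⟩
      have hx' : x = -σ ζ := eq_neg_of_add_eq_zero_left h
      rw [hx'] at hx
      simp only [map_neg, conj_conj] at hx
      linear_combination hx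
  obtain ⟨x, hx, hy⟩ := key
  refine ⟨x + σ ζ, (ξ * (x + σ ζ) - (x + σ ζ) * σ (x + σ ζ) - μ) / l, hy, ?_, ?_⟩
  · simp only [map_div₀, map_sub, map_mul, map_add, conj_conj, hμ]
    rw [div_eq_div_iff hl1 hl0]
    linear_combination (σ x + ζ) * hζ' - (x + σ ζ) * hζ + (σ l - l) * hx
  · field_simp
    ring

theorem four [Fintype F] [DecidableEq F] {Ψ : AddChar F ℂ} (hΨ : Gd q Ψ) {E : Type*} [AddCommGroup E]
    [Module ℂ E] (g : F → E) {μ : F} (hμ : σ μ = μ)
    (h : ∀ y τ : F, y ≠ 0 → τ ≠ 0 → σ τ = τ →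
      ∑ a ∈ Finset.univ.filter (fun a : F => a + σ a = τ), Ψ (-((y * σ y + μ) * a)) • g (y * a) = 0) :
    (∀ a a', a ≠ 0 → a' ≠ 0 → g a = g a') ∧ (μ ≠ 0 → ∀ a, a ≠ 0 → g a = 0) := by
  classical
  obtain ⟨c0, hc0, hΨ0⟩ := hΨ
  obtain ⟨l, hl0, hl⟩ := four_lam (q := q) Ψ
  have hl1 : σ l ≠ l := fun e => hΨ0 (by
    have := hl (c0 / l) (by rw [map_div₀, e, ← add_div, hc0, zero_div])
    rwa [mul_div_cancel₀ _ hl0] at this)
  have hne : Ψ ≠ 1 := fun e => hΨ0 (by rw [e]; rfl)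
  have hprim : Ψ.IsPrimitive := AddChar.IsPrimitive.of_ne_one hne
  obtain ⟨θ, hθ⟩ := exists_trace_eq_one F q
  let G : F → E := fun ξ => ∑ b, Ψ (-(ξ * b)) • g b
  let K : F → E := fun y =>
    ∑ a ∈ Finset.univ.filter (fun a : F => a + σ a = 0), Ψ (-((y * σ y + μ) * a)) • g (y * a)
  have h1 : ∀ y t : F, y ≠ 0 → σ t = t → G ((y * σ y + μ + t * l) / y) = K y := by
    intro y t hy ht
    have e1 : G ((y * σ y + μ + t * l) / y) =
        ∑ a, Ψ (-(t * l * θ * (a + σ a))) • Ψ (-((y * σ y + μ) * a)) • g (y * a) := by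
      refine (Fintype.sum_equiv (Equiv.mulLeft₀ y hy) _ _ fun a => ?_).symm
      rw [smul_smul, ← AddChar.map_add_eq_mul]
      have e2 := hl (-(t * (a - θ * (a + σ a)))) (by
        simp only [map_neg, map_mul, map_sub, map_add, conj_conj, ht]
        linear_combination t * (a + σ a) * hθ)
      have e3 : -((y * σ y + μ + t * l) / y * (y * a)) =
          (-(t * l * θ * (a + σ a)) + -((y * σ y + μ) * a)) + l * -(t * (a - θ * (a + σ a))) := by
        field_simp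
        ring
      simp only [Equiv.mulLeft₀_apply]
      rw [e3, AddChar.map_add_eq_mul _ _ (l * _), e2, mul_one]
    rw [e1, ← Finset.sum_fiberwise Finset.univ (fun a : F => a + σ a), Finset.sum_eq_single 0]
    · refine Finset.sum_congr rfl fun a ha => ?_
      rw [(Finset.mem_filter.1 ha).2, mul_zero, neg_zero, AddChar.map_zero_eq_one, one_smul]
    · intro τ _ hτ
      by_cases hτ' : σ τ = τ
      · rw [Finset.sum_congr rfl (g := fun a => Ψ (-(t * l * θ * τ)) •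
          Ψ (-((y * σ y + μ) * a)) • g (y * a)) fun a ha => by rw [(Finset.mem_filter.1 ha).2],
          ← Finset.smul_sum, h y τ hy hτ hτ', smul_zero]
      · refine Finset.sum_eq_zero fun a ha => absurd ?_ hτ'
        rw [← (Finset.mem_filter.1 ha).2, map_add, conj_conj, add_comm]
    · intro h0
      exact absurd (Finset.mem_univ _) h0
  have h2 : ∀ y y' : F, y ≠ 0 → y' ≠ 0 → σ (y / y') ≠ y / y' → K y = K y' := by
    intro y y' hy hy' hω
    obtain ⟨t, t', ht, ht', e⟩ := four_solve hω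
      (((y' * σ y' + μ) / y' - (y * σ y + μ) / y) * y / l)
    rw [← h1 y t hy ht, ← h1 y' t' hy' ht']
    congr 1
    have e' : t = ((y' * σ y' + μ) / y' - (y * σ y + μ) / y) * y / l + t' * (y / y') := by
      rw [e]; ring
    rw [e']
    field_simp
    ring
  have h3 : ∀ y : F, y ≠ 0 → K y = K 1 := by
    intro y hy
    by_cases hω : σ y = y
    · rw [← h2 (l * y) y (mul_ne_zero hl0 hy) hy (by rwa [mul_div_cancel_right₀ _ hy]),
        h2 (l * y) 1 (mul_ne_zero hl0 hy) one_ne_zero (by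
          rw [div_one, map_mul, hω]
          exact fun e => hl1 (mul_right_cancel₀ hy e))]
    · exact h2 y 1 hy one_ne_zero (by rwa [div_one])
  have h4 : ∀ ξ : F, μ ≠ 0 ∨ ξ ≠ 0 → G ξ = K 1 := by
    intro ξ h0
    obtain ⟨y, t, hy, ht, e⟩ := four_cover hl0 hl1 hμ h0
    rw [e, h1 y t hy ht, h3 y hy]
  have h5 : ∀ a : F, ∑ ξ, Ψ (ξ * a) • G ξ = (Fintype.card F : ℂ) • g a := by
    intro a
    simp only [G, Finset.smul_sum, smul_smul]
    rw [Finset.sum_comm]
    simp only [← Finset.sum_smul, ← AddChar.map_add_eq_mul]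
    have : ∀ b : F, ∑ ξ : F, Ψ (ξ * a + -(ξ * b)) =
        if a = b then (Fintype.card F : ℂ) else 0 := fun b => by
      have := AddChar.sum_mulShift (a - b) hprim
      simp only [sub_eq_zero] at this
      rw [show (if a = b then (Fintype.card F : ℂ) else 0) =
        ((if a = b then Fintype.card F else 0 : ℕ) : ℂ) by split_ifs <;> simp, ← this]
      exact Finset.sum_congr rfl fun ξ _ => by congr 1; ring
    simp only [this, ite_smul, zero_smul, Finset.sum_ite_eq, Finset.mem_univ, if_true]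
  have h6 : ∀ a : F, a ≠ 0 → (Fintype.card F : ℂ) • g a = G 0 - K 1 := by
    intro a ha
    have e0 : ∑ ξ : F, Ψ (ξ * a) = 0 := by
      have := AddChar.sum_mulShift a hprim
      rwa [if_neg ha, Nat.cast_zero] at this
    have e1 : ∑ ξ, Ψ (ξ * a) • (G ξ - K 1) = G 0 - K 1 := by
      rw [Finset.sum_eq_single 0]
      · rw [zero_mul, AddChar.map_zero_eq_one, one_smul]
      · intro ξ _ hξ
        rw [h4 ξ (Or.inr hξ), sub_self, smul_zero]
      · intro h0
        exact absurd (Finset.mem_univ _) h0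
    rw [← e1, ← h5]
    simp only [smul_sub, Finset.sum_sub_distrib]
    rw [← Finset.sum_smul, e0, zero_smul, sub_zero]
  have hc : (Fintype.card F : ℂ) ≠ 0 := Nat.cast_ne_zero.2 Fintype.card_ne_zero
  refine ⟨fun a a' ha ha' => smul_right_injective E hc ((h6 a ha).trans (h6 a' ha').symm),
    fun hm a ha => ?_⟩
  have := h6 a ha
  rw [h4 0 (Or.inl hm), sub_self] at this
  exact (smul_eq_zero.1 this).resolve_left hc

end Cfsg.Agent.CJ
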