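import Cfsg.Agent.CJ.Defs
import Cfsg.Agent.Char.Values

/-!
S4793: two lemmas of pure (multi)linear algebra over `ℂ`.

`free_orbit`: on `U` put `e χ x = (card A)⁻¹ • ∑ a, χ (-a) • τ a x` for `χ : AddChar A ℂ`; `∑ χ, e χ x = x`
(`AddChar.sum_apply_eq_ite`), `τ a (e χ x) = χ a • e χ x`, and `e χ y = if χ = χ' then y else 0` for `y` of
weight `χ'` (`AddChar.sum_eq_ite`/`sum_eq_zero_iff_ne_zero` for `χ' / χ`). Some `χ ≠ 1` has `y = e χ x ≠ 0` (else
`x = e 1 x` is fixed). `r z y` has weight `χ ∘ π z`, which is `≠ χ` for `z ≠ z0`, so `e χ (∑ r z y) = y ≠ 0`,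
whereas `e χ` kills vectors fixed by all `τ a`.

`det_lemma`: `c` has finite order, so `M` is the direct sum of the eigenspaces for the `(N r)`-th roots of
unity `x`, of dimension `m_x = (N r)⁻¹ ∑_{k < N r} x⁻ᵏ trace (c^k)` (trace of the projection
`(N r)⁻¹ ∑ x⁻ᵏ cᵏ`), which is `1 - [x^N = ε]` by the trace hypotheses. So `det c * ∏_{x^N = ε} x = ∏_{x^(N r) = 1} x`, i.e.
`(-1)^(N+1) ε = (-1)^(N r+1)` (constant terms of `X^N - C ε` and `X^(N r) - 1`; or with a primitive root `ζ`,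
`ε = ζ^(N i)`, the solutions being `ζ^(i + r j)`, `j < N`). One way to get `det c = ∏ x^{m_x}`: a basis of
eigenvectors (`DirectSum.IsInternal.collectedBasis`), or `LinearMap.charpoly` / `det_eq_prod_roots`.
-/

set_option autoImplicit false
set_option linter.unusedSectionVars false

namespace Cfsg.Agent.CJ

open Module Matrix Cfsg Cfsg.Agent.Class.U Cfsg.Agent.KSG

theorem free_orbit {M : Type*} [AddCommGroup M] [Module ℂ M] (U : Submodule ℂ M) {A : Type*}
    [AddCommGroup A] [Finite A] (τ : A → End ℂ M) (hτU : ∀ a, ∀ x ∈ U, τ a x ∈ U)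
    (h0 : ∀ x ∈ U, τ 0 x = x) (hadd : ∀ a b, ∀ x ∈ U, τ (a + b) x = τ a (τ b x))
    {ι : Type*} (s : Finset ι) (r : ι → End ℂ M) (π : ι → A →+ A)
    (hrU : ∀ z ∈ s, ∀ x ∈ U, r z x ∈ U)
    (hr : ∀ z ∈ s, ∀ a, ∀ x ∈ U, τ a (r z x) = r z (τ (π z a) x))
    {z0 : ι} (hz0 : z0 ∈ s) (hr0 : ∀ x ∈ U, r z0 x = x)
    (hfree : ∀ χ : AddChar A ℂ, χ ≠ 1 → ∀ z ∈ s, (∀ a, χ (π z a) = χ a) → z = z0)
    {x : M} (hx : x ∈ U) {a : A} (hxa : τ a x ≠ x) :
    ∃ y ∈ U, ∃ a', τ a' (∑ z ∈ s, r z y) ≠ ∑ z ∈ s, r z y := by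
  classical
  have := Fintype.ofFinite A
  by_contra! hc
  let E : AddChar A ℂ → End ℂ M := fun χ => ∑ a, χ (-a) • τ a
  have n0 : (Fintype.card A : ℂ) ≠ 0 := Nat.cast_ne_zero.2 Fintype.card_ne_zero
  have eE : ∀ χ y, E χ y = ∑ a, χ (-a) • τ a y := fun χ y => by simp [E, LinearMap.sum_apply]
  have e2 : ∀ χ b, τ b (E χ x) = χ b • E χ x := fun χ b => by
    rw [eE, map_sum, Finset.smul_sum, ← Equiv.sum_comp (Equiv.addLeft b) fun a => χ b • χ (-a) • τ a x]
    refine Finset.sum_congr rfl fun a _ => ?_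
    rw [map_smul, ← hadd _ _ _ hx, Equiv.coe_addLeft, smul_smul, ← AddChar.map_add_eq_mul, neg_add,
      add_neg_cancel_left]
  have e3 : ∀ (χ χ' : AddChar A ℂ) y, (∀ a, τ a y = χ' a • y) →
      E χ y = (if χ' = χ then (Fintype.card A : ℂ) else 0) • y := fun χ χ' y hy => by
    rw [eE, ← if_congr sub_eq_zero rfl rfl, ← AddChar.sum_eq_ite, Finset.sum_smul]
    exact Finset.sum_congr rfl fun a _ => by rw [hy, smul_smul, AddChar.sub_apply, mul_comm]
  have e4 : ∀ χ ≠ 1, E χ x = 0 := fun χ h1 => by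
    have hy : E χ x ∈ U := eE χ x ▸ U.sum_mem fun a _ => U.smul_mem _ (hτU a x hx)
    have h2 := e3 χ 1 _ fun a => (hc _ hy a).trans (one_smul ℂ _).symm
    rw [if_neg h1.symm, zero_smul, map_sum, Finset.sum_eq_single_of_mem z0 hz0 fun z hz hne => by
      rw [e3 χ (χ.compAddMonoidHom (π z)) _ fun a => by rw [hr z hz a _ hy, e2, map_smul]; rfl,
        if_neg fun e => hne (hfree χ h1 z hz fun a => DFunLike.congr_fun e a), zero_smul],
      hr0 _ hy, e3 χ χ _ (e2 χ), if_pos rfl] at h2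
    exact (smul_eq_zero.1 h2).resolve_left n0
  have e1 : ∑ χ, E χ x = (Fintype.card A : ℂ) • x := by
    simp only [eE]
    rw [Finset.sum_comm, Finset.sum_eq_single 0 (fun b _ hb => by
      rw [← Finset.sum_smul, AddChar.sum_apply_eq_ite, if_neg (neg_ne_zero.2 hb), zero_smul]) (by simp),
      ← Finset.sum_smul, AddChar.sum_apply_eq_ite, if_pos neg_zero, h0 x hx]
  rw [Finset.sum_eq_single 1 (fun χ _ => e4 χ) (by simp)] at e1
  have := e2 1 a
  rw [e1, map_smul, AddChar.one_apply, one_smul] at this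
  exact hxa (smul_right_injective M n0 this)

theorem gen_sum {n : ℕ} {η α : ℂ} (h : IsPrimitiveRoot η n) (k : ℕ) :
    ∑ i ∈ Finset.range n, (η ^ i * α) ^ k = if n ∣ k then n * α ^ k else 0 := by
  simp only [mul_pow, pow_right_comm η _ k, ← Finset.sum_mul]
  split_ifs with hk
  · simp [(h.pow_eq_one_iff_dvd k).2 hk]
  · have := mul_geom_sum (η ^ k) n
    rw [pow_right_comm, h.pow_eq_one, one_pow, sub_self] at this
    rw [(mul_eq_zero.1 this).resolve_left (sub_ne_zero.2 (mt (h.pow_eq_one_iff_dvd k).1 hk)), zero_mul]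

theorem gen_prod {n : ℕ} {η α : ℂ} (h : IsPrimitiveRoot η n) (hn : 0 < n) :
    (-1) ^ n * ∏ i ∈ Finset.range n, (η ^ i * α) = -α ^ n := by
  have := congrArg (Polynomial.eval 0) (X_pow_sub_C_eq_prod h hn (rfl : α ^ n = _))
  simpa [Polynomial.eval_prod, hn.ne', Finset.prod_neg] using this.symm

theorem det_lemma {M : Type*} [AddCommGroup M] [Module ℂ M] [FiniteDimensional ℂ M] (c : End ℂ M)
    {N r : ℕ} (hN : 0 < N) (hr : 0 < r) (hc : c ^ (N * r) = 1) {ε : ℂ} (hε : ε ^ r = 1)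
    (h1 : ∀ k, ¬ N ∣ k → LinearMap.trace ℂ M (c ^ k) = 0)
    (h2 : ∀ j, ¬ r ∣ j → LinearMap.trace ℂ M (c ^ (N * j)) = -(N : ℂ) * ε ^ j)
    (h3 : finrank ℂ M + N = N * r) (hdet : LinearMap.det c = 1) (hev : Even (finrank ℂ M)) :
    ε = 1 := by
  classical
  have hn : 0 < N * r := Nat.mul_pos hN hr
  obtain ⟨b, l, hl, hb⟩ := Char.exists_eigenbasis_of_pow_eq_one c (Nat.cast_ne_zero.2 hn.ne') hc
  have tr : ∀ k, LinearMap.trace ℂ M (c ^ k) = ∑ i, l i ^ k := fun k =>
    Char.trace_eq_sum_of_eigenbasis _ b _ (Char.pow_apply_eigenbasis c b l hb k)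
  have dt : ∏ i, l i = 1 := by
    rw [← hdet, ← LinearMap.det_toMatrix b, ← Matrix.det_diagonal]
    congr 1
    ext i j
    simp [LinearMap.toMatrix_apply, hb, Matrix.diagonal_apply, Finsupp.single_apply, eq_comm]
    split_ifs with e <;> simp [e]
  obtain ⟨α, hα⟩ := IsAlgClosed.exists_pow_nat_eq ε hN
  have hη := Complex.isPrimitiveRoot_exp N hN.ne'
  have hζ := Complex.isPrimitiveRoot_exp (N * r) hn.ne'
  generalize Complex.exp _ = η at hη
  generalize Complex.exp _ = ζ at hζ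
  have pw : ∀ k, ∑ i, l i ^ k + ∑ i ∈ Finset.range N, (η ^ i * α) ^ k =
      ∑ i ∈ Finset.range (N * r), (ζ ^ i * 1) ^ k := fun k => by
    rw [← tr, gen_sum hη, gen_sum hζ]
    by_cases k1 : N ∣ k
    · obtain ⟨j, rfl⟩ := k1
      rw [if_pos (dvd_mul_right _ _), pow_mul α, hα]
      by_cases k2 : r ∣ j
      · obtain ⟨i, rfl⟩ := k2
        rw [← mul_assoc, if_pos (dvd_mul_right _ _), pow_mul, hc, one_pow, LinearMap.trace_one, pow_mul, hε, one_pow,
          one_pow, mul_one, mul_one, ← h3, Nat.cast_add]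
      · rw [h2 j k2, if_neg fun e => k2 (Nat.dvd_of_mul_dvd_mul_left hN e)]
        ring
    · rw [h1 k k1, if_neg k1, if_neg fun e => k1 ((dvd_mul_right _ _).trans e), add_zero]
  have pl : ∀ p : Polynomial ℂ, ∑ i, p.eval (l i) + ∑ i ∈ Finset.range N, p.eval (η ^ i * α) =
      ∑ i ∈ Finset.range (N * r), p.eval (ζ ^ i * 1) := fun p => by
    induction p using Polynomial.induction_on' with
    | add p q hp hq =>
      simp only [Polynomial.eval_add, Finset.sum_add_distrib]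
      linear_combination hp + hq
    | monomial k a =>
      simp only [Polynomial.eval_monomial, ← Finset.mul_sum]
      linear_combination a * pw k
  obtain ⟨p, hp⟩ : ∃ p : Polynomial ℂ, ∀ x : ℂ, x ^ (N * r) = 1 → Complex.exp (p.eval x) = x :=
    ⟨Lagrange.interpolate (Polynomial.nthRootsFinset (N * r) (1 : ℂ)) id Complex.log, fun x hx => by
      rw [show Polynomial.eval x _ = _ from Lagrange.eval_interpolate_at_node (v := id) Complex.log (Set.injOn_id _)
        ((Polynomial.mem_nthRootsFinset hn 1).2 hx), Complex.exp_log]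
      rintro rfl
      simp [hn.ne'] at hx⟩
  have e := congrArg Complex.exp (pl p)
  rw [Complex.exp_add, Complex.exp_sum, Complex.exp_sum, Complex.exp_sum, Finset.prod_congr rfl fun i _ => hp _ (hl i),
    Finset.prod_congr (s₁ := Finset.range N) rfl fun i _ => hp _ (by
      rw [mul_pow, pow_right_comm, pow_mul η, hη.pow_eq_one, pow_mul α, hα, hε]; simp),
    Finset.prod_congr (s₁ := Finset.range (N * r)) rfl fun i _ => hp _ (by
      rw [mul_one, pow_right_comm, hζ.pow_eq_one, one_pow]), dt, one_mul] at e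
  have a1 := gen_prod (α := α) hη hN
  have a2 := gen_prod (α := 1) hζ hn
  rw [← e, one_pow, show (-1 : ℂ) ^ (N * r) = (-1) ^ N by rw [← h3, pow_add, hev.neg_one_pow, one_mul], a1, hα] at a2
  exact neg_injective a2

end Cfsg.Agent.CJ
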