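import Cfsg.Agent.CJ.Sing

/-!
S4793: a Singer element preserving a nonzero Hermitian matrix of rank at most two is a scalar.
-/

set_option autoImplicit false
set_option linter.unusedSectionVars false

namespace Cfsg.Agent.CJ

open Module Matrix Cfsg Cfsg.Agent.Class.U Cfsg.Agent.KSG

variable {F : Type*} [Field F] {q : ℕ} [hU : UF F q] {m : ℕ}

local notation "σ" => conj F q
local notation "𝐡" => hermForm m F q

variable {K : Type*} [Field K] [Fintype K] [Algebra F K] (ι : K →ₐ[F] Matrix (Fin m) (Fin m) F)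

theorem ga_dep {Δ : Matrix (Fin m) (Fin m) F}
    (hr : m ≤ finrank F (LinearMap.ker (Matrix.mulVecLin Δ)) + 2) (x y z : Fin m → F) :
    ∃ c : Fin 3 → F, c ≠ 0 ∧ Δ *ᵥ (c 0 • x + c 1 • y + c 2 • z) = 0 := by
  let ψ : (Fin 3 → F) →ₗ[F] (Fin m → F) :=
    (LinearMap.proj 0 : (Fin 3 → F) →ₗ[F] F).smulRight x +
      (LinearMap.proj 1 : (Fin 3 → F) →ₗ[F] F).smulRight y +
      (LinearMap.proj 2 : (Fin 3 → F) →ₗ[F] F).smulRight z
  let φ := (Matrix.mulVecLin Δ).comp ψ
  have h1 := LinearMap.finrank_range_add_finrank_ker φ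
  have h2 := LinearMap.finrank_range_add_finrank_ker (Matrix.mulVecLin Δ)
  have h3 : finrank F (LinearMap.range φ) ≤ finrank F (LinearMap.range (Matrix.mulVecLin Δ)) :=
    Submodule.finrank_mono (LinearMap.range_comp_le_range _ _)
  simp only [finrank_fintype_fun_eq_card, Fintype.card_fin] at h1 h2
  have h4 : LinearMap.ker φ ≠ ⊥ := by
    intro h
    rw [h, finrank_bot] at h1
    omega
  obtain ⟨c, hc, hc0⟩ := (Submodule.ne_bot_iff _).1 h4
  exact ⟨c, hc0, by simpa [φ, ψ] using hc⟩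

include hU in
theorem ga_frob : ∃ φ : K →+* K, (∀ x, φ x = x ^ q) ∧ ∀ c : F, φ (algebraMap F K c) = algebraMap F K (σ c) := by
  obtain ⟨p, k, hp, hc, hq, -⟩ := exists_prime_pow F q
  have : CharP K p := charP_of_injective_algebraMap (algebraMap F K).injective p
  have := Fact.mk hp
  refine ⟨iterateFrobenius K p k, fun x => by rw [iterateFrobenius_def, hq], fun c => ?_⟩
  rw [iterateFrobenius_def, conj_apply, map_pow, hq]

theorem ga_mem {t : K} {δ : F} (hδ : δ * σ δ = 1) (ht : t ^ q = algebraMap F K δ * t) :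
    ∃ z : F, t = algebraMap F K z := by
  obtain ⟨φ, hφ, hφa⟩ := ga_frob (F := F) (q := q) (K := K)
  obtain ⟨ω, hω⟩ : ∃ ω : F, σ ω ≠ δ * ω := by
    by_cases h : δ = 1
    · obtain ⟨x, hx⟩ := exists_conj_ne F q
      exact ⟨x, by rwa [h, one_mul]⟩
    · exact ⟨1, by simpa using fun e => h e.symm⟩
  set a := algebraMap F K with ha
  have hinj : Function.Injective a := a.injective
  have hδ0 : δ ≠ 0 := by rintro rfl; simp at hδ
  have hδ' : a δ ≠ 0 := by simpa using hδ0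
  by_cases h1 : t + a ω = 0
  · exact ⟨-ω, by rw [map_neg]; linear_combination h1⟩
  by_cases h2 : a δ * t + a (σ ω) = 0
  · refine ⟨-σ ω / δ, ?_⟩
    rw [map_div₀, map_neg, eq_div_iff hδ']
    linear_combination h2
  have hφt : φ t = a δ * t := by rw [hφ, ht]
  have hdd : a (σ δ) * a δ = 1 := by rw [← map_mul, mul_comm, hδ, map_one]
  have e1 : φ (t + a ω) = a δ * t + a (σ ω) := by rw [map_add, hφt, hφa]
  have e2 : φ (a δ * t + a (σ ω)) = t + a ω := by
    rw [map_add, map_mul, hφt, hφa, hφa, conj_conj, ← mul_assoc, hdd, one_mul]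
  have hw : ((t + a ω) / (a δ * t + a (σ ω))) ^ (q + 1) = 1 := by
    rw [pow_succ, ← hφ, map_div₀, e1, e2]
    field_simp
  obtain ⟨z, -, hz⟩ := exists_mu_of_pow (F := F) (q := q) hw
  rw [div_eq_iff h2] at hz
  have hne : 1 - z * δ ≠ 0 := by
    intro h
    have h3 : a z * a δ = 1 := by rw [← map_mul, ← map_one a]; congr 1; linear_combination -h
    have h4 : a ω = a z * a (σ ω) := by linear_combination hz + t * h3
    rw [← map_mul] at h4
    have h5 := hinj h4
    exact hω (by linear_combination (-δ) * h5 + σ ω * h)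
  have hne' : a (1 - z * δ) ≠ 0 := (map_ne_zero a).2 hne
  refine ⟨(z * σ ω - ω) / (1 - z * δ), ?_⟩
  rw [map_div₀, eq_div_iff hne']
  simp only [map_sub, map_mul, map_one]
  linear_combination hz

theorem ga_alg {t : K} (ht : t ≠ 0) {c0 c1 c2 : F} (hc : ¬ (c0 = 0 ∧ c1 = 0 ∧ c2 = 0))
    (e1 : algebraMap F K c0 + algebraMap F K c1 * t + algebraMap F K c2 * (t * t) = 0)
    (e2 : algebraMap F K (σ c0) + algebraMap F K (σ c1) * t⁻¹ + algebraMap F K (σ c2) * (t⁻¹ * t⁻¹) = 0) :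
    ∃ z : F, t = algebraMap F K z := by
  obtain ⟨φ, hφ, hφa⟩ := ga_frob (F := F) (q := q) (K := K)
  set a := algebraMap F K with ha
  have hinj : Function.Injective a := a.injective
  have lin : ∀ α β : F, α ≠ 0 → a α * t + a β = 0 → ∃ z : F, t = a z := by
    intro α β h e
    have h' : a α ≠ 0 := by simpa using h
    refine ⟨-β / α, ?_⟩
    rw [map_div₀, map_neg, eq_div_iff h']
    linear_combination e
  by_cases h2 : c2 = 0
  · by_cases h1 : c1 = 0
    · refine absurd ⟨?_, h1, h2⟩ hc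
      simpa [h1, h2] using e1
    · exact lin c1 c0 h1 (by rw [h2, map_zero] at e1; linear_combination e1)
  have e2' : a (σ c0) * (t * t) + a (σ c1) * t + a (σ c2) = 0 := by
    have := congrArg (· * (t * t)) e2
    simp only [zero_mul] at this
    rw [← this]
    field_simp
  by_cases h3 : σ c0 * c1 - c2 * σ c1 = 0
  swap
  · refine lin _ (σ c0 * c0 - c2 * σ c2) h3 ?_
    simp only [map_sub, map_mul]
    linear_combination a (σ c0) * e1 - a c2 * e2'
  have h4 : σ c0 * c0 = c2 * σ c2 := by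
    apply hinj
    have h3' := congrArg a h3
    simp only [map_sub, map_mul, map_zero] at h3' ⊢
    linear_combination a (σ c0) * e1 - a c2 * e2' - t * h3'
  have e3 := congrArg φ e1
  simp only [map_add, map_mul, hφa, map_zero] at e3
  by_cases h5 : φ t = t⁻¹
  · have : t ^ (q + 1) = 1 := by rw [pow_succ, ← hφ, h5, inv_mul_cancel₀ ht]
    obtain ⟨z, -, hz⟩ := exists_mu_of_pow (F := F) (q := q) this
    exact ⟨z, hz⟩
  have h6 : a (σ c1) + a (σ c2) * (φ t + t⁻¹) = 0 := by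
    have h5' : φ t - t⁻¹ ≠ 0 := sub_ne_zero.2 h5
    apply mul_left_cancel₀ h5'
    linear_combination e3 - e2
  have hs2 : σ c2 ≠ 0 := conj_ne_zero.2 h2
  have hs2' : a (σ c2) ≠ 0 := by simpa using h2
  refine ga_mem (F := F) (q := q) (δ := σ c0 / σ c2) ?_ ?_
  · rw [map_div₀, conj_conj, conj_conj]
    field_simp
    linear_combination h4
  · rw [← hφ, map_div₀, div_mul_eq_mul_div, eq_div_iff hs2']
    have h7 : a (σ c0) = a (σ c2) * (φ t * t⁻¹) := by linear_combination e2 - t⁻¹ * h6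
    rw [h7]
    field_simp

theorem deg2 {Δ : Matrix (Fin m) (Fin m) F} (hΔ : cT q Δ = Δ) (h0 : Δ ≠ 0)
    (hr : m ≤ finrank F (LinearMap.ker (Matrix.mulVecLin Δ)) + 2) {t : K} (ht : t ≠ 0)
    (h : cT q (ι t) * Δ * ι t = Δ) : ∃ z : F, z * σ z = 1 ∧ t = algebraMap F K z := by
  have hti : ι t * ι t⁻¹ = 1 := by rw [← map_mul, mul_inv_cancel₀ ht, map_one]
  have hU1 : cT q (ι t) * Δ = Δ * ι t⁻¹ := by
    calc cT q (ι t) * Δ = cT q (ι t) * Δ * ι t * ι t⁻¹ := by rw [mul_assoc _ (ι t), hti, mul_one]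
      _ = _ := by rw [h]
  have hU2 : cT q (ι t⁻¹) * cT q (ι t) = 1 := by rw [← cT_mul, hti, cT_one]
  have hR : ∀ x, Δ *ᵥ x = 0 → Δ *ᵥ (ι t *ᵥ x) = 0 := by
    intro x hx
    have : Δ * ι t = cT q (ι t⁻¹) * Δ := by
      calc Δ * ι t = cT q (ι t⁻¹) * (cT q (ι t) * Δ * ι t) := by
            rw [← mul_assoc, ← mul_assoc, hU2, one_mul]
        _ = _ := by rw [h]
    rw [mulVec_mulVec, this, ← mulVec_mulVec, hx, mulVec_zero]
  obtain ⟨x, hx⟩ : ∃ x, Δ *ᵥ x ≠ 0 := by
    by_contra hc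
    push Not at hc
    apply h0
    ext i j
    simpa using congrFun (hc (Pi.single j 1)) i
  obtain ⟨c, hc0, hc⟩ := ga_dep hr x (ι t *ᵥ x) (ι t *ᵥ (ι t *ᵥ x))
  set s : K := algebraMap F K (c 0) + algebraMap F K (c 1) * t + algebraMap F K (c 2) * (t * t) with hs
  have hιs : ι s = c 0 • (1 : Matrix (Fin m) (Fin m) F) + c 1 • ι t + c 2 • (ι t * ι t) := by
    simp only [hs, map_add, map_mul, sing_alg, smul_mul_assoc, one_mul]
  have hsx : ∀ y, ι s *ᵥ y = c 0 • y + c 1 • (ι t *ᵥ y) + c 2 • (ι t *ᵥ (ι t *ᵥ y)) := by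
    intro y
    rw [hιs, add_mulVec, add_mulVec, smul_mulVec, smul_mulVec, smul_mulVec, one_mulVec, mulVec_mulVec]
  have hRs : ∀ y, Δ *ᵥ y = 0 → Δ *ᵥ (ι s *ᵥ y) = 0 := by
    intro y hy
    rw [hsx, mulVec_add, mulVec_add, mulVec_smul, mulVec_smul, mulVec_smul, hy, hR y hy,
      hR _ (hR y hy)]
    simp
  have hRk : ∀ (k : ℕ) y, Δ *ᵥ y = 0 → Δ *ᵥ (ι (s ^ k) *ᵥ y) = 0 := by
    intro k
    induction k with
    | zero => intro y hy; simpa using hy
    | succ k ih =>
      intro y hy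
      rw [pow_succ', map_mul, ← mulVec_mulVec]
      exact hRs _ (ih y hy)
  have hs0 : s = 0 := by
    by_contra hne
    have h1 := hRk (Fintype.card K - 2) _ (by rw [hsx]; exact hc : Δ *ᵥ (ι s *ᵥ x) = 0)
    have h2 : 1 < Fintype.card K := Fintype.one_lt_card
    rw [mulVec_mulVec, mulVec_mulVec, mul_assoc, ← map_mul, ← pow_succ,
      show Fintype.card K - 2 + 1 = Fintype.card K - 1 by omega,
      FiniteField.pow_card_sub_one_eq_one s hne, map_one, mul_one] at h1
    exact hx h1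
  set s' : K := algebraMap F K (σ (c 0)) + algebraMap F K (σ (c 1)) * t⁻¹ +
    algebraMap F K (σ (c 2)) * (t⁻¹ * t⁻¹) with hs'
  have hs'0 : s' = 0 := by
    by_contra hne
    have h1 : cT q (ι s) * Δ = Δ * ι s' := by
      rw [hιs]
      simp only [hs', map_add, map_mul, sing_alg, smul_mul_assoc, one_mul, cT_add, cT_smul, cT_one,
        cT_mul, add_mul, mul_add, mul_smul_comm, mul_one]
      rw [mul_assoc (cT q (ι t)), hU1, ← mul_assoc, hU1, mul_assoc]
    rw [hs0, map_zero, cT_zero, zero_mul] at h1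
    apply h0
    calc Δ = Δ * ι s' * ι s'⁻¹ := by rw [mul_assoc, ← map_mul, mul_inv_cancel₀ hne, map_one, mul_one]
      _ = 0 := by rw [← h1, zero_mul]
  obtain ⟨z, rfl⟩ := ga_alg (F := F) (q := q) ht (c0 := c 0) (c1 := c 1) (c2 := c 2)
    (fun ⟨a0, a1, a2⟩ => hc0 (by ext i; fin_cases i <;> simp [a0, a1, a2])) hs0 hs'0
  refine ⟨z, ?_, rfl⟩
  rw [sing_alg, cT_smul, cT_one, smul_mul_assoc, one_mul, mul_smul_comm, mul_one, smul_smul] at h
  by_contra hne
  apply h0
  have : (z * σ z - 1) • Δ = 0 := by rw [sub_smul, h, one_smul, sub_self]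
  exact (smul_eq_zero.1 this).resolve_left (sub_ne_zero.2 hne)

end Cfsg.Agent.CJ
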