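import Cfsg.Agent.CJ.Weil

/-!
S4793: projective representations `h` of `F` with `h l * h l' = Ψ (l' σ l) • h (l + l')` (Heisenberg group of order `q³`), normalised by `r z`, `z` of norm one.
Let `W z = wop (herm1 F q) Ψ h ((herm1 F q).sc (σ z))` (`Weil`): `W z * h l = h (σ z * l) * W z`, `W (z z') = W z * W z'`, `𝔼 (W z) = q² • (if z = 1 then 1 else -1/q)` where
`𝔼 X = ∑ l, h l * X * h' l` (`fx = 0` for `z ≠ 1`), `𝔼 (X * Y) = 𝔼 X * Y` if `Y` commutes with all `h l`.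
`s z = W (σ z) * r z` commutes with every `h l`, hence with every `W y` (a combination of products of `h`'s); `r z` commutes with `W y` (reindex `v ↦ σ z * v`), so `s` is multiplicative, `r z = W z * s z`.
`r_eq`: apply `𝔼` to `∑ W z * s z = 0`: `∑_{z ≠ 1} s z = q`, so `e = (q+1)⁻¹ ∑ s z = 1` and `s y = s y * e = e = 1`.
`exists_iw1`/`finrank_of_scalar`: `P X = q⁻² ∑ l, h₂ l ∘ X ∘ h₁' l` is a projection of `E →ₗ E'` onto the intertwiners, its trace is `q⁻² ∑ tr (h₂ l) tr (h₁' l) = q⁻² dim E dim E'`, since `tr (h l) = 0` for `l ≠ 0`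
(`q² tr X = tr (𝔼 X)`, `avg_h`). (Trace of `X ↦ A ∘ X ∘ B`: via bases/matrices, or `homTensorHomEquiv`/`dualTensorHomEquiv` and `LinearMap.trace_tensorProduct'`, cf. `Representation.linHom`, `char_linHom`.)
`le_finrank1`: `KSG.card_le_finrank_sq_of_comm`. `scalar_of_finrank`: the rank of `P` is `1` and `1` is an intertwiner. `exists_phi`: `s z = φ z • 1`, `q² tr (W z) = tr 𝔼 (W z)`;
`∑ W z = 0` because `(q+1)⁻¹ ∑ W z` is idempotent of trace `0`.
-/

set_option autoImplicit false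
set_option linter.unusedSectionVars false

namespace Cfsg.Agent.CJ

open Module Matrix Cfsg Cfsg.Agent.Class.U Cfsg.Agent.KSG

variable {F : Type*} [Field F] {q : ℕ} [hU : UF F q] {m : ℕ}

local notation "σ" => conj F q
local notation "𝐡" => hermForm m F q

variable [Fintype F] [DecidableEq F] {Ψ : AddChar F ℂ} {E : Type*} [AddCommGroup E] [Module ℂ E]
  {E' : Type*} [AddCommGroup E'] [Module ℂ E']

/-- A Heisenberg system. -/
structure HS (Ψ : AddChar F ℂ) (h : F → End ℂ E) : Prop where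
  h0 : h 0 = 1
  hm : ∀ l l', h l * h l' = Ψ (l' * σ l) • h (l + l')

/-- A normalising action of the norm-one group. -/
structure RS (h r : F → End ℂ E) : Prop where
  r1 : r 1 = 1
  rm : ∀ z z', z * σ z = 1 → z' * σ z' = 1 → r (z * z') = r z * r z'
  rh : ∀ z l, z * σ z = 1 → r z * h l = h (σ z * l) * r z

theorem h1_nz {z : F} (hz : z * σ z = 1) : σ z * σ (σ z) = 1 := by rw [conj_conj, mul_comm, hz]

theorem h1_nmul {z z' : F} (hz : z * σ z = 1) (hz' : z' * σ z' = 1) : z * z' * σ (z * z') = 1 := by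
  rw [map_mul]; linear_combination (z' * σ z') * hz + hz'

theorem h1_card_mu : ((mu F q).card : ℂ) = q + 1 := by
  have hmu : (mu F q).card = q + 1 := by
    rw [← card_norm_fiber (F := F) (q := q) one_ne_zero (map_one _), Nat.card_eq_fintype_card,
      Fintype.card_subtype, mu]
  rw [hmu]; push_cast; rfl

include hU in
theorem h1_q0 : (q : ℂ) ≠ 0 := Nat.cast_ne_zero.2 (by have := two_le_q F q; omega)

theorem h1_q1 : (q : ℂ) + 1 ≠ 0 := Nat.cast_add_one_ne_zero q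

theorem h1_shift {A : Type*} [AddCommMonoid A] (f : F → A) {y : F} (hy : y * σ y = 1) :
    ∑ z ∈ mu F q, f (y * z) = ∑ z ∈ mu F q, f z := by
  have y0 : y ≠ 0 := by rintro rfl; simp at hy
  refine Finset.sum_equiv (Equiv.mulLeft₀ y y0) (fun z => ?_) fun z _ => rfl
  simp only [mem_mu, Equiv.mulLeft₀_apply]
  refine ⟨h1_nmul hy, fun e => ?_⟩
  rw [map_mul] at e
  linear_combination e - z * σ z * hy

theorem h1_fx {z : F} (hz : z * σ z = 1) :
    Herm.fx ((herm1 F q).sc z) = if z = 1 then 1 else 0 := by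
  split_ifs with c
  · rw [c, Herm.sc_one, Herm.fx,
      show (1 : (herm1 F q).Iso).1.toLinearMap - LinearMap.id = 0 from sub_self _, LinearMap.ker_zero,
      finrank_top, finrank_self]
  · rw [Herm.fx, Submodule.finrank_eq_zero, eq_bot_iff]
    intro x hx
    rw [LinearMap.mem_ker, LinearMap.sub_apply, LinearEquiv.coe_coe, Herm.sc_app _ hz,
      LinearMap.id_apply, smul_eq_mul, ← sub_one_mul, mul_eq_zero, sub_eq_zero] at hx
    exact hx.resolve_left c

variable (q Ψ) in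
/-- The Weil operators of the norm one group. -/
noncomputable def h1W (h : F → End ℂ E) (z : F) : End ℂ E :=
  wop (herm1 F q) Ψ h ((herm1 F q).sc (σ z))

theorem HS.hm' {h : F → End ℂ E} (H : HS (q := q) Ψ h) :
    ∀ u v, h u * h v = Ψ ((herm1 F q).f v u) • h (u + v) := H.hm

theorem h1W_h {h : F → End ℂ E} (H : HS (q := q) Ψ h) {z : F} (hz : z * σ z = 1) (l : F) :
    h1W q Ψ h z * h l = h (σ z * l) * h1W q Ψ h z := by
  rw [h1W, wop_h _ H.hm', Herm.sc_app _ (h1_nz hz), smul_eq_mul]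

theorem h1W_mul (hΨ : Gd q Ψ) {h : F → End ℂ E} (H : HS (q := q) Ψ h) {z z' : F} (hz : z * σ z = 1)
    (hz' : z' * σ z' = 1) : h1W q Ψ h (z * z') = h1W q Ψ h z * h1W q Ψ h z' := by
  rw [h1W, h1W, h1W, map_mul, Herm.sc_mul _ (h1_nz hz) (h1_nz hz'), wop_mul _ hΨ H.h0 H.hm']

theorem h1W_one {h : F → End ℂ E} (H : HS (q := q) Ψ h) : h1W q Ψ h 1 = 1 := by
  rw [h1W, map_one, Herm.sc_one, wop_one _ H.h0 H.hm']

theorem h1W_avg (hΨ : Gd q Ψ) {h : F → End ℂ E} (H : HS (q := q) Ψ h) {z : F} (hz : z * σ z = 1) :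
    wlE Ψ (herm1 F q) h (h1W q Ψ h z) = (if z = 1 then (q : ℂ) ^ 2 else -(q : ℂ)) • (1 : End ℂ E) := by
  have q0 := h1_q0 (F := F) (q := q)
  rw [wlE_apply, h1W, wop_avg _ hΨ H.h0 H.hm', h1_fx (h1_nz hz), finrank_self, U7.gs_card (q := q)]
  congr 1
  by_cases c : z = 1
  · rw [if_pos c, if_pos (by rw [c, map_one])]
    field_simp
  · rw [if_neg c, if_neg (fun e => c (by rw [conj_eq_iff.1 e, map_one]))]
    field_simp

theorem h1_wlE_mul {h : F → End ℂ E} (X : End ℂ E) {Y : End ℂ E} (hY : ∀ l, Y * h l = h l * Y) :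
    wlE Ψ (herm1 F q) h (X * Y) = wlE Ψ (herm1 F q) h X * Y := by
  rw [wlE_apply, wlE_apply, Finset.sum_mul]
  refine Finset.sum_congr rfl fun v _ => ?_
  simp only [mul_assoc, mul_smul_comm, smul_mul_assoc, hY]

theorem h1_comm_W {h : F → End ℂ E} {Y : End ℂ E} (hY : ∀ l, Y * h l = h l * Y) (z : F) :
    Y * h1W q Ψ h z = h1W q Ψ h z * Y := by
  rw [h1W, wop, mul_smul_comm, smul_mul_assoc, Finset.mul_sum, Finset.sum_mul]
  congr 1
  refine Finset.sum_congr rfl fun v _ => ?_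
  rw [← mul_assoc, hY, mul_assoc, mul_assoc]
  simp only [mul_smul_comm, smul_mul_assoc, hY]

theorem h1_s_h {h r : F → End ℂ E} (H : HS (q := q) Ψ h) (R : RS (q := q) h r) {z : F}
    (hz : z * σ z = 1) (l : F) :
    h1W q Ψ h (σ z) * r z * h l = h l * (h1W q Ψ h (σ z) * r z) := by
  rw [mul_assoc, R.rh z l hz, ← mul_assoc, h1W_h H (h1_nz hz), conj_conj, ← mul_assoc z, hz, one_mul,
    mul_assoc]

theorem h1_r_eq (hΨ : Gd q Ψ) {h r : F → End ℂ E} (H : HS (q := q) Ψ h) {z : F}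
    (hz : z * σ z = 1) : r z = h1W q Ψ h z * (h1W q Ψ h (σ z) * r z) := by
  rw [← mul_assoc, ← h1W_mul hΨ H hz (h1_nz hz), hz, h1W_one H, one_mul]

theorem h1_s_mul (hΨ : Gd q Ψ) {h r : F → End ℂ E} (H : HS (q := q) Ψ h) (R : RS (q := q) h r)
    {z z' : F} (hz : z * σ z = 1) (hz' : z' * σ z' = 1) :
    h1W q Ψ h (σ (z * z')) * r (z * z') =
      h1W q Ψ h (σ z) * r z * (h1W q Ψ h (σ z') * r z') := by
  rw [← mul_assoc, h1_comm_W (h1_s_h H R hz), R.rm z z' hz hz', map_mul, mul_comm (σ z),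
    h1W_mul hΨ H (h1_nz hz') (h1_nz hz)]
  simp only [mul_assoc]

theorem r_eq (hΨ : Gd q Ψ) {h r : F → End ℂ E} (H : HS (q := q) Ψ h) (R : RS (q := q) h r)
    (hs0 : ∑ z ∈ mu F q, r z = 0) {z : F} (hz : z * σ z = 1) :
    r z = wop (herm1 F q) Ψ h ((herm1 F q).sc (σ z)) := by
  have q0 := h1_q0 (F := F) (q := q)
  let s : F → End ℂ E := fun y => h1W q Ψ h (σ y) * r y
  have s1 : s 1 = 1 := by simp only [s, map_one, h1W_one H, R.r1, mul_one]
  have m1 : (1 : F) ∈ mu F q := mem_mu.2 (by simp)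
  have e : ∑ y ∈ mu F q, (if y = 1 then (q : ℂ) ^ 2 else -(q : ℂ)) • s y = 0 := by
    have := congrArg (wlE Ψ (herm1 F q) h) hs0
    rw [map_sum, map_zero] at this
    rw [← this]
    refine Finset.sum_congr rfl fun y hy => ?_
    rw [h1_r_eq (r := r) hΨ H (mem_mu.1 hy), h1_wlE_mul _ (h1_s_h H R (mem_mu.1 hy)),
      h1W_avg hΨ H (mem_mu.1 hy), smul_mul_assoc, one_mul]
  have e2 : ∑ y ∈ mu F q, s y = ((q : ℂ) + 1) • (1 : End ℂ E) := by
    have a : ∀ y, (if y = 1 then (q : ℂ) ^ 2 else -(q : ℂ)) • s y =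
        -(q : ℂ) • s y + if y = 1 then ((q : ℂ) ^ 2 + q) • (1 : End ℂ E) else 0 := fun y => by
      split_ifs with c
      · rw [c, s1]; module
      · rw [add_zero]
    simp only [a, Finset.sum_add_distrib, Finset.sum_ite_eq', if_pos m1, ← Finset.smul_sum] at e
    refine smul_right_injective _ q0 ?_
    beta_reduce
    rw [smul_smul, ← sub_eq_zero, ← neg_eq_zero, ← e]
    module
  have e3 : s z * ∑ y ∈ mu F q, s y = ∑ y ∈ mu F q, s y := by
    rw [Finset.mul_sum, ← h1_shift s hz]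
    exact Finset.sum_congr rfl fun y hy => (h1_s_mul hΨ H R hz (mem_mu.1 hy)).symm
  rw [e2, mul_smul_comm, mul_one] at e3
  have e4 : s z = 1 := smul_right_injective _ (h1_q1 (q := q)) e3
  rw [h1_r_eq (r := r) hΨ H hz]
  change h1W q Ψ h z * s z = _
  rw [e4, mul_one, h1W]

theorem iw_r (hΨ : Gd q Ψ) {h r : F → End ℂ E} (H : HS (q := q) Ψ h) (R : RS (q := q) h r)
    (hs0 : ∑ z ∈ mu F q, r z = 0) {h' r' : F → End ℂ E'} (H' : HS (q := q) Ψ h')
    (R' : RS (q := q) h' r') (hs0' : ∑ z ∈ mu F q, r' z = 0) {Φ : E →ₗ[ℂ] E'}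
    (hΦ : ∀ l x, Φ (h l x) = h' l (Φ x)) {z : F} (hz : z * σ z = 1) (x : E) :
    Φ (r z x) = r' z (Φ x) := by
  rw [r_eq hΨ H R hs0 hz, r_eq hΨ H' R' hs0' hz]
  simp only [wop, LinearMap.smul_apply, LinearMap.sum_apply, Module.End.mul_apply, map_smul, map_sum, hΦ]

variable [FiniteDimensional ℂ E] [FiniteDimensional ℂ E']

theorem h1_trace_hom (A : End ℂ E') (B : End ℂ E) :
    LinearMap.trace ℂ (E →ₗ[ℂ] E') (LinearMap.llcomp ℂ E E' E' A ∘ₗ LinearMap.lcomp ℂ E' B) =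
      LinearMap.trace ℂ E B * LinearMap.trace ℂ E' A := by
  rw [← LinearMap.trace_transpose' B, ← LinearMap.trace_tensorProduct',
    ← LinearMap.trace_conj' _ (dualTensorHomEquiv ℂ E E')]
  congr 1
  rw [LinearEquiv.conj_apply, LinearEquiv.eq_comp_toLinearMap_symm]
  ext f y x
  simp [dualTensorHomEquiv, Module.Dual.transpose_apply]

theorem h1_trace_avg {h : F → End ℂ E} (H : HS (q := q) Ψ h) (X : End ℂ E) :
    LinearMap.trace ℂ E (wlE Ψ (herm1 F q) h X) = (q : ℂ) ^ 2 * LinearMap.trace ℂ E X := by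
  have k : ∀ v, LinearMap.trace ℂ E (h v * X * (Ψ ((herm1 F q).f v v) • h (-v))) =
      LinearMap.trace ℂ E X := fun v => by
    rw [LinearMap.trace_mul_comm, ← mul_assoc, wl_inv_mul _ H.h0 H.hm', one_mul]
  rw [wlE_apply, map_sum]
  simp only [k, Finset.sum_const, Finset.card_univ, nsmul_eq_mul, U7.gs_card (q := q)]

theorem h1_trace_h (hΨ : Gd q Ψ) {h : F → End ℂ E} (H : HS (q := q) Ψ h) {l : F} (hl : l ≠ 0) :
    LinearMap.trace ℂ E (h l) = 0 := by
  have := h1_trace_avg H (h l)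
  rw [wlE_apply, avg_h _ hΨ H.h0 H.hm', if_neg hl, map_zero, eq_comm, mul_eq_zero] at this
  exact this.resolve_left (pow_ne_zero _ (h1_q0 (F := F)))

/-- The space of intertwiners. -/
def h1I (h : F → End ℂ E) (h' : F → End ℂ E') : Submodule ℂ (E →ₗ[ℂ] E') where
  carrier := {Φ | ∀ l x, Φ (h l x) = h' l (Φ x)}
  add_mem' := fun {a b} ha hb l x => by simp only [LinearMap.add_apply, map_add, ha l x, hb l x]
  zero_mem' := fun l x => by simp
  smul_mem' := fun c a ha l x => by simp only [LinearMap.smul_apply, map_smul, ha l x]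

theorem h1_finrank_I (hΨ : Gd q Ψ) {h : F → End ℂ E} (H : HS (q := q) Ψ h) {h' : F → End ℂ E'}
    (H' : HS (q := q) Ψ h') : finrank ℂ (h1I h h') * q ^ 2 = finrank ℂ E * finrank ℂ E' := by
  have q0 : (q : ℂ) ^ 2 ≠ 0 := pow_ne_zero _ (h1_q0 (F := F))
  let P : End ℂ (E →ₗ[ℂ] E') := ((q : ℂ) ^ 2)⁻¹ • ∑ l : F, LinearMap.llcomp ℂ E E' E' (h' l) ∘ₗ
    LinearMap.lcomp ℂ E' (Ψ ((herm1 F q).f l l) • h (-l))
  have Pa : ∀ X x, P X x = ((q : ℂ) ^ 2)⁻¹ • ∑ l : F, h' l (X ((Ψ ((herm1 F q).f l l) • h (-l)) x)) :=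
    fun X x => by
      simp only [P, LinearMap.smul_apply, LinearMap.sum_apply, LinearMap.comp_apply,
        LinearMap.llcomp_apply, LinearMap.lcomp_apply]
  have hP : LinearMap.IsProj (h1I h h') P := by
    refine ⟨fun X u x => ?_, fun X hX => LinearMap.ext fun x => ?_⟩
    · rw [Pa, Pa, map_smul, map_sum]
      congr 1
      refine (Fintype.sum_equiv (Equiv.addLeft u) _ _ fun y => ?_).symm
      rw [Equiv.coe_addLeft, ← Module.End.mul_apply, H'.hm', ← Module.End.mul_apply _ (h u),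
        smul_mul_assoc, H.hm', show -(u + y) + u = -y by abel]
      simp only [LinearMap.smul_apply, map_smul, smul_smul, ← AddChar.map_add_eq_mul]
      congr 2
      simp only [Herm.add_left, Herm.add_right, Herm.neg_right]
      ring
    · rw [Pa]
      have k : ∀ l, h' l (X ((Ψ ((herm1 F q).f l l) • h (-l)) x)) = X x := fun l => by
        rw [← hX, ← Module.End.mul_apply, wl_mul_inv _ H.h0 H.hm', Module.End.one_apply]
      simp only [k, Finset.sum_const, Finset.card_univ]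
      rw [← Nat.cast_smul_eq_nsmul ℂ, smul_smul, U7.gs_card (q := q), inv_mul_cancel₀ q0, one_smul]
  have t := hP.trace
  simp only [P, map_smul, map_sum, h1_trace_hom] at t
  rw [Finset.sum_eq_single 0 (fun l _ hl => by rw [h1_trace_h hΨ H' hl, mul_zero]) (by simp),
    neg_zero, H.h0, H'.h0, Herm.zero_left, AddChar.map_zero_eq_one, one_smul, LinearMap.trace_one,
    LinearMap.trace_one, smul_eq_mul] at t
  have : ((finrank ℂ (h1I h h') * q ^ 2 : ℕ) : ℂ) = ((finrank ℂ E * finrank ℂ E' : ℕ) : ℂ) := by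
    push_cast
    rw [← t, mul_right_comm, inv_mul_cancel₀ q0, one_mul]
  exact_mod_cast this

theorem exists_iw1 (hΨ : Gd q Ψ) [Nontrivial E] [Nontrivial E'] {h : F → End ℂ E}
    (H : HS (q := q) Ψ h) {h' : F → End ℂ E'} (H' : HS (q := q) Ψ h') :
    ∃ Φ : E →ₗ[ℂ] E', Φ ≠ 0 ∧ ∀ l x, Φ (h l x) = h' l (Φ x) := by
  have e := h1_finrank_I hΨ H H'
  have a : 0 < finrank ℂ E := finrank_pos
  have b : 0 < finrank ℂ E' := finrank_pos
  have c : h1I h h' ≠ ⊥ := fun k => by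
    rw [k, finrank_bot, zero_mul] at e
    exact (Nat.mul_pos a b).ne e
  obtain ⟨Φ, h1, h2⟩ := Submodule.exists_mem_ne_zero_of_ne_bot c
  exact ⟨Φ, h2, h1⟩

theorem finrank_of_scalar (hΨ : Gd q Ψ) [Nontrivial E] {h : F → End ℂ E} (H : HS (q := q) Ψ h)
    (hc : ∀ Φ : End ℂ E, (∀ l x, Φ (h l x) = h l (Φ x)) → ∃ c : ℂ, Φ = c • 1) : finrank ℂ E = q := by
  have e := h1_finrank_I hΨ H H
  have c : h1I h h = Submodule.span ℂ {(1 : End ℂ E)} := by
    refine le_antisymm (fun Φ hΦ => ?_) (Submodule.span_le.2 ?_)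
    · obtain ⟨c, rfl⟩ := hc Φ hΦ
      exact Submodule.mem_span_singleton.2 ⟨c, rfl⟩
    · rintro _ rfl l x
      rfl
  rw [c, finrank_span_singleton one_ne_zero, one_mul, ← sq] at e
  exact (Nat.pow_left_injective two_ne_zero e).symm

theorem le_finrank1 (hΨ : Gd q Ψ) [Nontrivial E] {h : F → End ℂ E} (H : HS (q := q) Ψ h) :
    q ≤ finrank ℂ E := by
  have e := h1_finrank_I hΨ H H
  have c : h1I h h ≠ ⊥ := fun k => by
    have : (1 : End ℂ E) ∈ h1I h h := fun l x => rfl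
    rw [k] at this
    exact one_ne_zero ((Submodule.mem_bot ℂ).1 this)
  have d : 1 ≤ finrank ℂ (h1I h h) := Submodule.one_le_finrank_iff.2 c
  refine (Nat.pow_le_pow_iff_left two_ne_zero).1 ?_
  rw [sq (finrank ℂ E), ← e]
  exact Nat.le_mul_of_pos_left _ d

theorem scalar_of_finrank (hΨ : Gd q Ψ) {h : F → End ℂ E} (H : HS (q := q) Ψ h)
    (hE : finrank ℂ E = q) {Φ : End ℂ E} (hΦ : ∀ l x, Φ (h l x) = h l (Φ x)) : ∃ c : ℂ, Φ = c • 1 := by
  have q2 := two_le_q F q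
  have e := h1_finrank_I hΨ H H
  rw [hE, ← sq, mul_eq_right₀ (by positivity)] at e
  have : Nontrivial E := (finrank_pos_iff (R := ℂ)).1 (by omega)
  have m1 : (1 : End ℂ E) ∈ h1I h h := fun l x => rfl
  obtain ⟨c, hc⟩ := (finrank_eq_one_iff_of_nonzero' (⟨1, m1⟩ : h1I h h)
    (fun k => one_ne_zero (congrArg Subtype.val k))).1 e ⟨Φ, hΦ⟩
  exact ⟨c, (congrArg Subtype.val hc).symm⟩

theorem exists_phi (hΨ : Gd q Ψ) {h r : F → End ℂ E} (H : HS (q := q) Ψ h) (R : RS (q := q) h r)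
    (hE : finrank ℂ E = q) : ∃ φ : F → ℂ, φ 1 = 1 ∧
      (∀ z z', z * σ z = 1 → z' * σ z' = 1 → φ (z * z') = φ z * φ z') ∧
      (∀ z, z * σ z = 1 → z ≠ 1 → LinearMap.trace ℂ E (r z) = -φ z) ∧
      ((∀ z, z * σ z = 1 → φ z = 1) → ∑ z ∈ mu F q, r z = 0) := by
  have q2 := two_le_q F q
  have q0 := h1_q0 (F := F) (q := q)
  have q1 := h1_q1 (q := q)
  have : Nontrivial E := (finrank_pos_iff (R := ℂ)).1 (by omega)
  have inj : ∀ a b : ℂ, a • (1 : End ℂ E) = b • (1 : End ℂ E) → a = b := fun a b e =>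
    smul_left_injective ℂ one_ne_zero e
  have ex : ∀ z : F, ∃ c : ℂ, z * σ z = 1 → h1W q Ψ h (σ z) * r z = c • 1 := fun z => by
    by_cases hz : z * σ z = 1
    · obtain ⟨c, hc⟩ := scalar_of_finrank hΨ H hE (Φ := h1W q Ψ h (σ z) * r z) fun l x =>
        LinearMap.congr_fun (h1_s_h H R hz l) x
      exact ⟨c, fun _ => hc⟩
    · exact ⟨0, fun k => absurd k hz⟩
  choose φ hφ using ex
  have tW : ∀ z, z * σ z = 1 →
      LinearMap.trace ℂ E (h1W q Ψ h z) = if z = 1 then (q : ℂ) else -1 := fun z hz => by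
    have := h1_trace_avg H (h1W q Ψ h z)
    rw [h1W_avg hΨ H hz, map_smul, LinearMap.trace_one, hE, smul_eq_mul] at this
    refine mul_left_cancel₀ (pow_ne_zero 2 q0) ?_
    rw [← this]
    split_ifs <;> ring
  have rW : ∀ z, z * σ z = 1 → r z = φ z • h1W q Ψ h z := fun z hz => by
    rw [h1_r_eq (r := r) hΨ H hz, hφ z hz, mul_smul_comm, mul_one]
  refine ⟨φ, inj _ _ ?_, fun z z' hz hz' => inj _ _ ?_, fun z hz c => ?_, fun h1 => ?_⟩
  · rw [← hφ 1 (by simp), map_one, h1W_one H, R.r1, mul_one, one_smul]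
  · rw [← hφ _ (h1_nmul hz hz'), h1_s_mul hΨ H R hz hz', hφ z hz, hφ z' hz', smul_mul_smul_comm,
      mul_one]
  · rw [rW z hz, map_smul, tW z hz, if_neg c, smul_eq_mul, mul_neg, mul_one]
  · have e : ∑ z ∈ mu F q, r z = ∑ z ∈ mu F q, h1W q Ψ h z :=
      Finset.sum_congr rfl fun z hz => by rw [rW z (mem_mu.1 hz), h1 z (mem_mu.1 hz), one_smul]
    rw [e]
    set T := ∑ z ∈ mu F q, h1W q Ψ h z with hT
    have a : ∀ y ∈ mu F q, h1W q Ψ h y * T = T := fun y hy => by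
      rw [hT, Finset.mul_sum, ← h1_shift (h1W q Ψ h) (mem_mu.1 hy)]
      exact Finset.sum_congr rfl fun z hz => (h1W_mul hΨ H (mem_mu.1 hy) (mem_mu.1 hz)).symm
    have b : T * T = ((q : ℂ) + 1) • T := by
      conv_lhs => rw [hT, Finset.sum_mul, ← hT, Finset.sum_congr rfl a]
      rw [Finset.sum_const, ← Nat.cast_smul_eq_nsmul ℂ, h1_card_mu]
    have i : IsIdempotentElem (((q : ℂ) + 1)⁻¹ • T) := by
      rw [IsIdempotentElem, smul_mul_smul_comm, b, smul_smul, mul_assoc, inv_mul_cancel₀ q1, mul_one]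
    have t : LinearMap.trace ℂ E T = 0 := by
      rw [hT, map_sum, Finset.sum_congr rfl fun z hz => tW z (mem_mu.1 hz)]
      have k : ∀ y : F, (if y = 1 then (q : ℂ) else -1) = -1 + if y = 1 then (q : ℂ) + 1 else 0 :=
        fun y => by split_ifs <;> ring
      simp only [k, Finset.sum_add_distrib, Finset.sum_ite_eq', Finset.sum_const, nsmul_eq_mul,
        h1_card_mu]
      rw [if_pos (mem_mu.2 (by simp))]
      ring
    have z0 := (LinearMap.IsIdempotentElem.trace_eq_zero_iff i).1 (by rw [map_smul, t, smul_zero])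
    exact (smul_eq_zero.1 z0).resolve_left (inv_ne_zero q1)

end Cfsg.Agent.CJ
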