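import Cfsg.Agent.CJ.RelB

/-!
S4793: the weight spaces of the abelian radical `A`. The pairing `(S, B) ↦ Ψ (trace (S B))` between skew-Hermitian and
Hermitian matrices is bi-additive and nondegenerate on both sides: for `B ≠ 0` Hermitian there is `u` with `𝐡 (B u) u ≠ 0`
(polarisation: else `λ 𝐡(Bu,v) + σλ 𝐡(Bv,u) = 0` for all `λ`), it is fixed by `σ`, and
`trace ((c • ou u u) B) = c 𝐡 (B u) u` takes every trace-zero value; for `S ≠ 0` skew the same with `δ • S` Hermitian (`δ ≠ 0` of trace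
zero) and `B = ε • ou u u`, `σ ε = ε`. `card hmS = card skS` via `B ↦ δ • B`. Hence `∑_{S} Ψ(tr(S B)) = 0` for `B ≠ 0` and
`∑_{B} Ψ(tr(S B)) = 0` for `S ≠ 0` (shift the summation variable), which gives `pj_same`, `pj_ne`, `sum_pj`.
`trace_pj`/`finrank_eq_sum`: `pj B` is a projection onto `Wt B` (`LinearMap.IsProj.trace`).
-/

set_option autoImplicit false
set_option linter.unusedSectionVars false

namespace Cfsg.Agent.CJ

open Module Matrix Cfsg Cfsg.Agent.Class.U Cfsg.Agent.KSG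

variable {F : Type*} [Field F] {q : ℕ} [hU : UF F q] {m : ℕ}

local notation "σ" => conj F q
local notation "𝐡" => hermForm m F q

variable [Fintype F] [DecidableEq F] {M : Type*} [AddCommGroup M] [Module ℂ M]
  {Ψ : AddChar F ℂ} {ρ : Ga F q m →* End ℂ M}

theorem wt_exists_herm_ne {B : Matrix (Fin m) (Fin m) F} (h0 : B ≠ 0) : ∃ u, 𝐡 (B *ᵥ u) u ≠ 0 := by
  by_contra! H
  obtain ⟨l, hl⟩ := exists_conj_ne F q
  have k : ∀ u v, 𝐡 (B *ᵥ u) v + 𝐡 (B *ᵥ v) u = 0 := fun u v => by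
    have := H (u + v)
    rw [mulVec_add, herm_add_left, herm_add_right, herm_add_right, H u, H v] at this
    linear_combination this
  have k2 : ∀ u, B *ᵥ u = 0 := fun u => eq_zero_of_herm_left (q := q) fun v => by
    have h1 := k u v
    have h2 := k (l • u) v
    rw [mulVec_smul, herm_smul_left, herm_smul_right] at h2
    have : (σ l - l) * 𝐡 (B *ᵥ u) v = 0 := by linear_combination σ l * h1 - h2
    exact (mul_eq_zero.1 this).resolve_left (sub_ne_zero.2 hl)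
  refine h0 ?_
  ext i j
  simpa using congrFun (k2 (Pi.single j 1)) i

theorem exists_herm_ne {B : Matrix (Fin m) (Fin m) F} (hB : cT q B = B) (h0 : B ≠ 0) :
    ∃ u, 𝐡 (B *ᵥ u) u ≠ 0 := by
  exact wt_exists_herm_ne h0

theorem wt_sum_shift {A : Type*} [AddCommGroup A] (s : Finset A) (t : A) (ht : ∀ x, x ∈ s ↔ x + t ∈ s)
    (f : A → F) (hf : ∀ x, f (x + t) = f x + f t) (h1 : Ψ (f t) ≠ 1) : ∑ x ∈ s, Ψ (f x) = 0 := by
  have e : ∑ x ∈ s, Ψ (f x) = ∑ x ∈ s, Ψ (f (x + t)) :=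
    (Finset.sum_equiv (Equiv.addRight t) (fun x => ht x) (fun x _ => rfl)).symm
  simp_rw [hf, AddChar.map_add_eq_mul, ← Finset.sum_mul] at e
  have : (∑ x ∈ s, Ψ (f x)) * (1 - Ψ (f t)) = 0 := by linear_combination e
  exact (mul_eq_zero.1 this).resolve_right (sub_ne_zero.2 h1.symm)

theorem wt_sk_add {T : Matrix (Fin m) (Fin m) F} (hT : cT q T = -T) (S : Matrix (Fin m) (Fin m) F) :
    S ∈ skS F q m ↔ S + T ∈ skS F q m := by
  rw [mem_skS, mem_skS, cT_add, hT, neg_add, add_left_inj]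

theorem wt_hm_add {T : Matrix (Fin m) (Fin m) F} (hT : cT q T = T) (S : Matrix (Fin m) (Fin m) F) :
    S ∈ hmS F q m ↔ S + T ∈ hmS F q m := by
  rw [mem_hmS, mem_hmS, cT_add, hT, add_left_inj]

theorem wt_sum_sk_shift {T : Matrix (Fin m) (Fin m) F} (hT : cT q T = -T)
    (f : Matrix (Fin m) (Fin m) F → M) : ∑ S ∈ skS F q m, f (S + T) = ∑ S ∈ skS F q m, f S :=
  Finset.sum_equiv (Equiv.addRight T) (fun x => wt_sk_add hT x) (fun _ _ => rfl)

theorem wt_tr_tv (c : F) (w : Fin m → F) (B : Matrix (Fin m) (Fin m) F) :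
    ((c • ou q w w) * B).trace = c * 𝐡 (B *ᵥ w) w := by
  rw [Matrix.smul_mul, trace_smul, trace_mul_comm, mul_ou, trace_ou, smul_eq_mul]

theorem wt_conj_herm_hm {B : Matrix (Fin m) (Fin m) F} (hB : cT q B = B) (w : Fin m → F) :
    σ (𝐡 (B *ᵥ w) w) = 𝐡 (B *ᵥ w) w := by
  rw [herm_conj, herm_mulVec, hB]

theorem wt_conj_herm_sk {S : Matrix (Fin m) (Fin m) F} (hS : cT q S = -S) (w : Fin m → F) :
    σ (𝐡 (S *ᵥ w) w) = -𝐡 (S *ᵥ w) w := by
  rw [herm_conj, herm_mulVec, hS, neg_mulVec, herm_neg_right, neg_neg]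

theorem wt_div_sk {c b : F} (hc : c + σ c = 0) (hb : σ b = b) : c / b + σ (c / b) = 0 := by
  rw [map_div₀, hb, ← add_div, hc, zero_div]

theorem wt_sum_sk (hΨ : Gd q Ψ) {B : Matrix (Fin m) (Fin m) F} (hB : cT q B = B) (h0 : B ≠ 0) :
    ∑ S ∈ skS F q m, Ψ (S * B).trace = 0 := by
  obtain ⟨c, hc, h1⟩ := hΨ
  obtain ⟨u, hu⟩ := wt_exists_herm_ne (q := q) h0
  refine wt_sum_shift _ ((c / 𝐡 (B *ᵥ u) u) • ou q u u)
    (wt_sk_add (skew_tv u (wt_div_sk hc (wt_conj_herm_hm hB u)))) (fun S => (S * B).trace)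
    (fun S => by rw [Matrix.add_mul, trace_add]) ?_
  rwa [wt_tr_tv, div_mul_cancel₀ _ hu]

theorem wt_sum_hm (hΨ : Gd q Ψ) {S : Matrix (Fin m) (Fin m) F} (hS : cT q S = -S) (h0 : S ≠ 0) :
    ∑ B ∈ hmS F q m, Ψ (S * B).trace = 0 := by
  obtain ⟨c, hc, h1⟩ := hΨ
  obtain ⟨u, hu⟩ := wt_exists_herm_ne (q := q) h0
  refine wt_sum_shift _ ((c / 𝐡 (S *ᵥ u) u) • ou q u u) (wt_hm_add ?_) (fun B => (S * B).trace)
    (fun B => by rw [Matrix.mul_add, trace_add]) ?_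
  · rw [cT_smul, cT_ou, map_div₀, wt_conj_herm_sk hS, eq_neg_of_add_eq_zero_right hc, neg_div_neg_eq]
  · rwa [trace_mul_comm, wt_tr_tv, div_mul_cancel₀ _ hu]

theorem wt_card_hm : (hmS F q m).card = (skS F q m).card := by
  obtain ⟨d, hd, h⟩ := exists_trace_zero F q
  have e : σ d = -d := eq_neg_of_add_eq_zero_right h
  refine Finset.card_nbij' (fun B => d • B) (fun S => d⁻¹ • S) (fun B hB => ?_) (fun S hS => ?_)
    (fun B _ => inv_smul_smul₀ hd B) (fun S _ => smul_inv_smul₀ hd S)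
  · rw [Finset.mem_coe, mem_hmS] at hB
    rw [Finset.mem_coe, mem_skS, cT_smul, hB, e, neg_smul]
  · rw [Finset.mem_coe, mem_skS] at hS
    rw [Finset.mem_coe, mem_hmS, cT_smul, hS, map_inv₀, e, inv_neg, neg_smul, smul_neg, neg_neg]

theorem wt_zero_mem_sk : (0 : Matrix (Fin m) (Fin m) F) ∈ skS F q m := by
  rw [mem_skS, cT_zero, neg_zero]

theorem wt_card_sk_ne : ((skS F q m).card : ℂ) ≠ 0 :=
  Nat.cast_ne_zero.2 (Finset.card_ne_zero.2 ⟨0, wt_zero_mem_sk⟩)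

theorem wt_pj_app (B : Matrix (Fin m) (Fin m) F) (x : M) : pj Ψ ρ B x =
    ((skS F q m).card : ℂ)⁻¹ • ∑ S ∈ skS F q m, Ψ (-(S * B).trace) • ρ (up q S) x := by
  simp [pj, LinearMap.sum_apply]

theorem wt_rho_mul (g h : Ga F q m) (x : M) : ρ g (ρ h x) = ρ (g * h) x := by
  rw [map_mul]; rfl

theorem pj_mem (B : Matrix (Fin m) (Fin m) F) (x : M) : pj Ψ ρ B x ∈ Wt Ψ ρ B := by
  intro T hT
  rw [wt_pj_app, map_smul, map_sum, smul_comm (Ψ _)]
  congr 1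
  rw [Finset.smul_sum,
    ← wt_sum_sk_shift hT fun S => Ψ (T * B).trace • Ψ (-(S * B).trace) • ρ (up q S) x]
  refine Finset.sum_congr rfl fun S hS => ?_
  rw [map_smul, wt_rho_mul, ← up_add hT (mem_skS.1 hS), smul_smul, ← AddChar.map_add_eq_mul,
    Matrix.add_mul, trace_add, add_comm T]
  congr 2
  ring

theorem pj_same {B : Matrix (Fin m) (Fin m) F} {x : M} (hx : x ∈ Wt Ψ ρ B) : pj Ψ ρ B x = x := by
  rw [wt_pj_app, Finset.sum_congr rfl (g := fun _ => x) fun S hS => by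
    rw [hx S (mem_skS.1 hS), smul_smul, ← AddChar.map_add_eq_mul, neg_add_cancel,
      AddChar.map_zero_eq_one, one_smul]]
  rw [Finset.sum_const, ← Nat.cast_smul_eq_nsmul ℂ, inv_smul_smul₀ wt_card_sk_ne]

theorem pj_ne (hΨ : Gd q Ψ) {B B' : Matrix (Fin m) (Fin m) F} (hB : cT q B = B) (hB' : cT q B' = B')
    (h : B ≠ B') {x : M} (hx : x ∈ Wt Ψ ρ B') : pj Ψ ρ B x = 0 := by
  rw [wt_pj_app, Finset.sum_congr rfl (g := fun S => Ψ (S * (B' - B)).trace • x) fun S hS => by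
    rw [hx S (mem_skS.1 hS), smul_smul, ← AddChar.map_add_eq_mul, Matrix.mul_sub, trace_sub,
      neg_add_eq_sub]]
  rw [← Finset.sum_smul, wt_sum_sk hΨ (by rw [cT_sub, hB, hB']) (sub_ne_zero.2 h.symm), zero_smul,
    smul_zero]

theorem sum_pj (hΨ : Gd q Ψ) (x : M) : ∑ B ∈ hmS F q m, pj Ψ ρ B x = x := by
  simp_rw [wt_pj_app]
  rw [← Finset.smul_sum, Finset.sum_comm, Finset.sum_eq_single_of_mem 0 wt_zero_mem_sk]
  · simp only [Matrix.zero_mul, trace_zero, neg_zero, AddChar.map_zero_eq_one, one_smul, up_zero,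
      map_one, End.one_apply, Finset.sum_const]
    rw [wt_card_hm, ← Nat.cast_smul_eq_nsmul ℂ, inv_smul_smul₀ wt_card_sk_ne]
  · intro S hS h0
    have := wt_sum_hm hΨ (S := -S) (by rw [cT_neg, mem_skS.1 hS]) (neg_ne_zero.2 h0)
    simp_rw [Matrix.neg_mul, trace_neg] at this
    rw [← Finset.sum_smul, this, zero_smul]

theorem pj_mem_sub (U : Submodule ℂ M) (hU : ∀ S, cT q S = -S → ∀ x ∈ U, ρ (up q S) x ∈ U)
    (B : Matrix (Fin m) (Fin m) F) {x : M} (hx : x ∈ U) : pj Ψ ρ B x ∈ U := by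
  rw [wt_pj_app]
  exact U.smul_mem _ (U.sum_mem fun S hS => U.smul_mem _ (hU S (mem_skS.1 hS) x hx))

/-- An operator commuting with `A` commutes with the projections. -/
theorem map_pj {M' : Type*} [AddCommGroup M'] [Module ℂ M'] {ρ' : Ga F q m →* End ℂ M'}
    {Φ : M →ₗ[ℂ] M'} (h : ∀ S, cT q S = -S → Iw ρ ρ' Φ (up q S)) (B : Matrix (Fin m) (Fin m) F)
    (x : M) : Φ (pj Ψ ρ B x) = pj Ψ ρ' B (Φ x) := by
  rw [wt_pj_app, wt_pj_app, map_smul, map_sum]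
  congr 1
  exact Finset.sum_congr rfl fun S hS => by rw [map_smul, h S (mem_skS.1 hS) x]

theorem herm_conj_inv (X : Matrix (Fin m) (Fin m) F) {B : Matrix (Fin m) (Fin m) F}
    (hB : cT q B = B) : cT q (cT q X⁻¹ * B * X⁻¹) = cT q X⁻¹ * B * X⁻¹ := by
  rw [cT_mul, cT_mul, cT_cT, hB, Matrix.mul_assoc]

theorem wt_cT_inv_mul {X : Matrix (Fin m) (Fin m) F} (hX : IsUnit X.det) : cT q X⁻¹ * cT q X = 1 := by
  rw [← cT_mul, mul_nonsing_inv _ hX, cT_one]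

theorem wt_cT_mul_inv {X : Matrix (Fin m) (Fin m) F} (hX : IsUnit X.det) : cT q X * cT q X⁻¹ = 1 := by
  rw [← cT_mul, nonsing_inv_mul _ hX, cT_one]

theorem wt_conj_conj_inv {X : Matrix (Fin m) (Fin m) F} (hX : IsUnit X.det)
    (S : Matrix (Fin m) (Fin m) F) : X * (X⁻¹ * S * cT q X⁻¹) * cT q X = S := by
  rw [Matrix.mul_assoc X⁻¹, mul_nonsing_inv_cancel_left _ _ hX, Matrix.mul_assoc, wt_cT_inv_mul hX,
    Matrix.mul_one]

theorem wt_inv_conj_conj {X : Matrix (Fin m) (Fin m) F} (hX : IsUnit X.det)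
    (S : Matrix (Fin m) (Fin m) F) : X⁻¹ * (X * S * cT q X) * cT q X⁻¹ = S := by
  rw [Matrix.mul_assoc X, nonsing_inv_mul_cancel_left _ _ hX, Matrix.mul_assoc, wt_cT_mul_inv hX,
    Matrix.mul_one]

theorem lev_mem {X B : Matrix (Fin m) (Fin m) F} (hX : IsUnit X.det) {x : M} (hx : x ∈ Wt Ψ ρ B) :
    ρ (lev q X) x ∈ Wt Ψ ρ (cT q X⁻¹ * B * X⁻¹) := by
  intro S hS
  have e := lev_up (q := q) hX (skew_conj X⁻¹ hS)
  rw [wt_conj_conj_inv hX] at e
  rw [wt_rho_mul, ← e, ← wt_rho_mul, hx _ (skew_conj X⁻¹ hS), map_smul]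
  congr 2
  simp only [Matrix.mul_assoc]
  rw [trace_mul_comm]
  simp only [Matrix.mul_assoc]

theorem lev_mem_ou {X : Matrix (Fin m) (Fin m) F} (hX : IsUnit X.det) {b : Fin m → F} {x : M}
    (hx : x ∈ Wt Ψ ρ (ou q b b)) :
    ρ (lev q X) x ∈ Wt Ψ ρ (ou q (cT q X⁻¹ *ᵥ b) (cT q X⁻¹ *ᵥ b)) := by
  have := lev_mem hX hx
  rwa [mul_ou, ou_mul] at this

theorem lev_pj {X : Matrix (Fin m) (Fin m) F} (hX : IsUnit X.det) (B : Matrix (Fin m) (Fin m) F)
    (x : M) : ρ (lev q X) (pj Ψ ρ B x) = pj Ψ ρ (cT q X⁻¹ * B * X⁻¹) (ρ (lev q X) x) := by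
  rw [wt_pj_app, wt_pj_app, map_smul, map_sum]
  congr 1
  refine Finset.sum_nbij' (fun S => X * S * cT q X) (fun S => X⁻¹ * S * cT q X⁻¹)
    (fun S hS => mem_skS.2 (skew_conj X (mem_skS.1 hS)))
    (fun S hS => mem_skS.2 (skew_conj X⁻¹ (mem_skS.1 hS)))
    (fun S _ => wt_inv_conj_conj hX S) (fun S _ => wt_conj_conj_inv hX S) fun S hS => ?_
  rw [map_smul, wt_rho_mul, wt_rho_mul, lev_up hX (mem_skS.1 hS)]
  congr 3
  simp only [Matrix.mul_assoc]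
  rw [← Matrix.mul_assoc (cT q X), wt_cT_mul_inv hX, Matrix.one_mul, trace_mul_comm X]
  simp only [Matrix.mul_assoc]
  rw [nonsing_inv_mul _ hX, Matrix.mul_one]

theorem wt_comm_mem {g : Ga F q m} (h : ∀ S, cT q S = -S → g * up q S = up q S * g)
    {B : Matrix (Fin m) (Fin m) F} {x : M} (hx : x ∈ Wt Ψ ρ B) : ρ g x ∈ Wt Ψ ρ B := by
  intro S hS
  rw [wt_rho_mul, ← h S hS, ← wt_rho_mul, hx S hS, map_smul]

theorem wt_up_comm {S S' : Matrix (Fin m) (Fin m) F} (hS : cT q S = -S) (hS' : cT q S' = -S') :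
    up q S * up q S' = up q S' * up q S := by
  rw [← up_add hS hS', ← up_add hS' hS, add_comm]

theorem hs_mem (u : Fin m → F) {B : Matrix (Fin m) (Fin m) F} {x : M} (hx : x ∈ Wt Ψ ρ B) :
    ρ (hs q u) x ∈ Wt Ψ ρ B := by
  exact wt_comm_mem (fun S hS => hs_up u hS) hx

theorem rr_mem {z : F} (hz : z * σ z = 1) {B : Matrix (Fin m) (Fin m) F} {x : M}
    (hx : x ∈ Wt Ψ ρ B) : ρ (rr q m z) x ∈ Wt Ψ ρ B := by
  exact wt_comm_mem (fun S hS => rr_up hz hS) hx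

theorem up_mem {S : Matrix (Fin m) (Fin m) F} (hS : cT q S = -S) {B : Matrix (Fin m) (Fin m) F}
    {x : M} (hx : x ∈ Wt Ψ ρ B) : ρ (up q S) x ∈ Wt Ψ ρ B := by
  exact wt_comm_mem (fun S' hS' => wt_up_comm hS hS') hx

theorem tv_wt (w : Fin m → F) {c : F} (hc : c + σ c = 0) {B : Matrix (Fin m) (Fin m) F} {x : M}
    (hx : x ∈ Wt Ψ ρ B) : ρ (tv q w c) x = Ψ (c * 𝐡 (B *ᵥ w) w) • x := by
  rw [← wt_tr_tv]
  exact hx _ (skew_tv w hc)

/-- A vector fixed by the transvections with centre `w` has no component of weight `B` unless `w` is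
`B`-isotropic. -/
theorem pj_eq_zero_of_tv (hΨ : Gd q Ψ) {w : Fin m → F} {B : Matrix (Fin m) (Fin m) F}
    (hB : cT q B = B) (hw : 𝐡 (B *ᵥ w) w ≠ 0) {x : M}
    (hx : ∀ c, c + σ c = 0 → ρ (tv q w c) x = x) : pj Ψ ρ B x = 0 := by
  obtain ⟨c, hc, h1⟩ := hΨ
  have hd := wt_div_sk hc (wt_conj_herm_hm hB w)
  have e1 := map_pj (Ψ := Ψ) (ρ := ρ) (ρ' := ρ) (Φ := ρ (tv q w (c / 𝐡 (B *ᵥ w) w)))
    (fun S hS y => by rw [wt_rho_mul, wt_rho_mul, tv, wt_up_comm (skew_tv w hd) hS]) B x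
  rw [hx _ hd, tv_wt w hd (pj_mem B x), div_mul_cancel₀ _ hw] at e1
  have : (Ψ c - 1) • pj Ψ ρ B x = 0 := by rw [sub_smul, one_smul, e1, sub_self]
  exact (smul_eq_zero.1 this).resolve_left (sub_ne_zero.2 h1)

theorem wt_finrank_lev_le [FiniteDimensional ℂ M] {X : Matrix (Fin m) (Fin m) F} (hX : IsUnit X.det)
    (B : Matrix (Fin m) (Fin m) F) :
    finrank ℂ (Wt Ψ ρ B) ≤ finrank ℂ (Wt Ψ ρ (cT q X⁻¹ * B * X⁻¹)) := by
  refine LinearMap.finrank_le_finrank_of_injective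
    (f := (ρ (lev q X)).restrict fun x hx => lev_mem hX hx) fun x y e => Subtype.ext ?_
  have e' : ρ (lev q X) x = ρ (lev q X) y := congrArg Subtype.val e
  have := congrArg (ρ (lev q X)⁻¹) e'
  rwa [wt_rho_mul, wt_rho_mul, inv_mul_cancel, map_one] at this

theorem finrank_lev [FiniteDimensional ℂ M] {X : Matrix (Fin m) (Fin m) F} (hX : IsUnit X.det)
    (B : Matrix (Fin m) (Fin m) F) :
    finrank ℂ (Wt Ψ ρ (cT q X⁻¹ * B * X⁻¹)) = finrank ℂ (Wt Ψ ρ B) := by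
  refine le_antisymm ?_ (wt_finrank_lev_le hX B)
  have := wt_finrank_lev_le (Ψ := Ψ) (ρ := ρ) (X := X⁻¹) (isUnit_nonsing_inv_det _ hX)
    (cT q X⁻¹ * B * X⁻¹)
  have e : cT q X⁻¹⁻¹ * (cT q X⁻¹ * B * X⁻¹) * X⁻¹⁻¹ = B := by
    rw [nonsing_inv_nonsing_inv _ hX, Matrix.mul_assoc (cT q X⁻¹), ← Matrix.mul_assoc (cT q X),
      wt_cT_mul_inv hX, Matrix.one_mul, nonsing_inv_mul_cancel_right _ _ hX]
  rwa [e] at this

theorem wt_sum_pj_one (hΨ : Gd q Ψ) : ∑ B ∈ hmS F q m, pj Ψ ρ B = 1 :=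
  LinearMap.ext fun x => by rw [LinearMap.sum_apply, sum_pj hΨ, End.one_apply]

theorem finrank_eq_sum [FiniteDimensional ℂ M] (hΨ : Gd q Ψ) :
    finrank ℂ M = ∑ B ∈ hmS F q m, finrank ℂ (Wt Ψ ρ B) := by
  have e : (finrank ℂ M : ℂ) = ∑ B ∈ hmS F q m, (finrank ℂ (Wt Ψ ρ B) : ℂ) := by
    rw [← LinearMap.trace_one, ← wt_sum_pj_one (ρ := ρ) hΨ, map_sum]
    exact Finset.sum_congr rfl fun B _ =>
      (show LinearMap.IsProj (Wt Ψ ρ B) (pj Ψ ρ B) from ⟨pj_mem B, fun _ hx => pj_same hx⟩).trace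
  exact_mod_cast e

/-- The trace of an operator preserving the weight space. -/
theorem trace_pj_mul [FiniteDimensional ℂ M] {B : Matrix (Fin m) (Fin m) F} {T : End ℂ M}
    (hT : ∀ x ∈ Wt Ψ ρ B, T x ∈ Wt Ψ ρ B) :
    LinearMap.trace ℂ M (T * pj Ψ ρ B) = LinearMap.trace ℂ (Wt Ψ ρ B) (T.restrict hT) := by
  rw [← LinearMap.trace_restrict_eq_of_forall_mem (Wt Ψ ρ B) (T * pj Ψ ρ B)
    fun x => hT _ (pj_mem B x)]
  congr 1
  ext x
  simp [pj_same x.2]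

theorem trace_eq_sum [FiniteDimensional ℂ M] (hΨ : Gd q Ψ) (T : End ℂ M) :
    LinearMap.trace ℂ M T = ∑ B ∈ hmS F q m, LinearMap.trace ℂ M (T * pj Ψ ρ B) := by
  rw [← map_sum, ← Finset.mul_sum, wt_sum_pj_one hΨ, mul_one]

/-- The number of Hermitian matrices of rank one. -/
theorem card_rank_one :
    ((hmS F q m).filter fun B => ∃ b : Fin m → F, b ≠ 0 ∧ B = ou q b b).card * (q + 1) + 1 =
      (q ^ 2) ^ m := by
  have hmu : (mu F q).card = q + 1 := by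
    rw [← card_norm_fiber (F := F) (q := q) one_ne_zero (map_one _), Nat.card_eq_fintype_card,
      Fintype.card_subtype, mu]
  have e : (Finset.univ.erase (0 : Fin m → F)).card = ∑ B ∈ (hmS F q m).filter
      fun B => ∃ b : Fin m → F, b ≠ 0 ∧ B = ou q b b,
      ((Finset.univ.erase (0 : Fin m → F)).filter fun b => ou q b b = B).card :=
    Finset.card_eq_sum_card_fiberwise fun b hb => by
      simp only [Finset.coe_filter, Set.mem_setOf_eq, mem_hmS, cT_ou, true_and]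
      exact ⟨b, by simpa using hb, rfl⟩
  rw [Finset.sum_congr rfl (g := fun _ => q + 1), Finset.sum_const, smul_eq_mul] at e
  · rw [← e, Finset.card_erase_add_one (Finset.mem_univ _), Finset.card_univ, Fintype.card_fun,
      Fintype.card_fin, ← hU.card_eq, Nat.card_eq_fintype_card]
  · intro B hB
    obtain ⟨-, b, hb, rfl⟩ := Finset.mem_filter.1 hB
    rw [← hmu]
    symm
    refine Finset.card_nbij (fun z => z • b) (fun z hz => ?_) (fun z _ z' _ h => ?_) fun v hv => ?_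
    · have hz' := mem_mu.1 (Finset.mem_coe.1 hz)
      have z0 : z ≠ 0 := by rintro rfl; simp at hz'
      simp only [Finset.coe_filter, Set.mem_setOf_eq, Finset.mem_erase, Finset.mem_univ, and_true]
      exact ⟨smul_ne_zero z0 hb, (ou_self_eq_iff.2 ⟨z, hz', rfl⟩).symm⟩
    · exact smul_left_injective F hb h
    · obtain ⟨z, hz, rfl⟩ := ou_self_eq_iff.1 (Finset.mem_filter.1 (Finset.mem_coe.1 hv)).2.symm
      exact ⟨z, Finset.mem_coe.2 (mem_mu.2 hz), rfl⟩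

end Cfsg.Agent.CJ
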