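import Cfsg.Agent.CJ.RelB
import Cfsg.Agent.CJ.Four
import Cfsg.Agent.CJ.Wt

/-!
S4793: the plane `⟨w, w'⟩`.
`sum_rf`: `∑ ρ (rr z) x` is fixed by `R`, so `∑ ρ (rr z) = 0`; scale `e` to norm one (`exists_norm_eq`, `rf_smul`), `exists_move` from `(0,1,0)`, `mul_rf`, `rr_eq_rf`.
`star`: `bruhat_rf`; `a ↦ -a / σ a` is a bijection from `{a | a + σ a = τ}` onto `μ ∖ {1}` (inverse `z ↦ σ(τ/(1 - z))`; `rf e 1 = 1`).
For `l2a`, `l2b` use the projections `e λ = q⁻¹ • ∑_{c + σ c = 0} Ψ (-(λ c)) • ρ (tv w c)` (`σ λ = λ`; `card_trace_fiber`): `e λ (ρ (tv w c) x) = Ψ (λ c) • e λ x`, `∑_{σ λ = λ} e λ = 1`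
(`∑_λ Ψ (λ c) = 0` for `c ≠ 0`), `e 0 x` is fixed by all `tv w c`, `e λ x = 0` for fixed `x` and `λ ≠ 0`, `ρ (dl y) ∘ e (λ y σy) = e λ ∘ ρ (dl y)` (`dl_tv`, reindex).
Common core: if `D` satisfies `e λ (∑_{a + σa = τ} Ψ (μ (s - a)) • ρ (tv w (σ a - s)) (ρ (dl a) D)) = 0` for all `λ ≠ 0`, `τ = s + σ s ≠ 0`, then `g a = e 1 (ρ (dl a) D)` satisfies the hypothesis of `four`
(take `λ = y σy`, apply `ρ (dl y)`, use `σ a = τ - a`). `l2b`: `D = ρ' nn (Φ x) - Φ (ρ nn x)`, the sum is `-Φ x + Φ x = 0` by `star`; so `g = 0`, `e (N a) D = 0` for all `a ≠ 0` (`exists_norm_eq`), `D = e 0 D`.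
`l2a`: `D = ρ nn x`, `μ = 0`, the sum is `-x`, killed by `e λ`; `ρ (dl a) D = α ((σ a)⁻¹) • D` (`dl_nn`), `g` constant gives `(α a0 - 1) • e 1 D = 0` (`α 1 = 1` unless `x = 0`), so `e λ D = 0` for all
`λ ≠ 0`, `D` is fixed by the `tv w c`, and `tv_nn_tv` (with `nn_nn`) gives `ρ (dl c) (ρ nn x) = x`, so `ρ nn x = α c⁻¹ • x`.
-/

set_option autoImplicit false
set_option linter.unusedSectionVars false

namespace Cfsg.Agent.CJ

open Module Matrix Cfsg Cfsg.Agent.Class.U Cfsg.Agent.KSG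

variable {F : Type*} [Field F] {q : ℕ} [hU : UF F q] {m : ℕ}

local notation "σ" => conj F q
local notation "𝐡" => hermForm m F q

variable [Fintype F] [DecidableEq F] {M : Type*} [AddCommGroup M] [Module ℂ M]
  {Ψ : AddChar F ℂ} {ρ : Ga F q m →* End ℂ M}
  {M' : Type*} [AddCommGroup M'] [Module ℂ M'] {ρ' : Ga F q m →* End ℂ M'}

theorem sum_rr (hR : RF ρ) : ∑ z ∈ mu F q, ρ (rr q m z) = 0 := by
  refine LinearMap.ext fun x => hR _ fun z0 h0 => ?_
  have z0ne : z0 ≠ 0 := left_ne_zero_of_mul_eq_one h0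
  rw [LinearMap.sum_apply, map_sum]
  refine Finset.sum_nbij' (fun z => z0 * z) (fun z => z0⁻¹ * z) ?_ ?_ ?_ ?_ ?_
  · intro z hz
    have hz := mem_mu.1 hz
    refine mem_mu.2 ?_
    rw [map_mul]; linear_combination z * σ z * h0 + hz
  · intro z hz
    have hz := mem_mu.1 hz
    refine mem_mu.2 ?_
    have : z0⁻¹ = σ z0 := (eq_inv_of_mul_eq_one_right h0).symm
    rw [this, map_mul, conj_conj]; linear_combination z * σ z * h0 + hz
  · intro z _; exact inv_mul_cancel_left₀ z0ne z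
  · intro z _; exact mul_inv_cancel_left₀ z0ne z
  · intro z hz
    rw [wt_rho_mul, rr_mul h0 (mem_mu.1 hz)]

theorem sum_rf (hR : RF ρ) {e : Sp F m} (he : (fm F q m).f e e ≠ 0) :
    ∑ z ∈ mu F q, ρ ((fm F q m).rf e z) = 0 := by
  obtain ⟨c, hc⟩ := exists_norm_eq (q := q) (μ := ((fm F q m).f e e)⁻¹)
    (by rw [map_inv₀, (fm F q m).conj_f])
  have c0 : c ≠ 0 := left_ne_zero_of_mul (hc ▸ inv_ne_zero he)
  have h1 : (fm F q m).f (0, 1, 0) (0, 1, 0) = 1 := by simp [fm_f, herm_zero_left]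
  obtain ⟨g, hg⟩ := (fm F q m).exists_move (x := (0, 1, 0)) (y := c • e) (by
    rw [h1, (fm F q m).smul_left, (fm F q m).smul_right, ← mul_assoc, hc, inv_mul_cancel₀ he])
    (h1.trans_ne one_ne_zero)
  have e1 : ∀ z ∈ mu F q, ρ ((fm F q m).rf e z) = ρ g * ρ (rr q m z) * ρ g⁻¹ := fun z hz => by
    have hz := mem_mu.1 hz
    rw [← map_mul, ← map_mul, rr_eq_rf hz, (fm F q m).mul_rf g (h1.trans_ne one_ne_zero) hz, hg,
      (fm F q m).rf_smul he hz c0, mul_inv_cancel_right]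
  rw [Finset.sum_congr rfl e1, ← Finset.sum_mul, ← Finset.mul_sum, sum_rr hR, mul_zero, zero_mul]

theorem star (hR : RF ρ) {w w' : Fin m → F} (hw : 𝐡 w w' = 1) {s : F} (hs0 : s + σ s ≠ 0) :
    ∑ a ∈ Finset.univ.filter (fun a : F => a + σ a = s + σ s),
      ρ (tv q w (σ a - s) * dl q w w' a * nn q w w' * tv q w (s - a)) = -1 := by
  have he : (fm F q m).f (-s • w, 0, w') (-s • w, 0, w') ≠ 0 := by
    rw [fm_f]
    simp only [herm_smul_left, herm_smul_right, hw, herm_comm_one hw, map_neg, zero_mul]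
    intro e; exact hs0 (by linear_combination -e)
  have h0 := sum_rf hR he
  have h1 : (fm F q m).rf (-s • w, 0, w') 1 = 1 := Herm.iso_ext fun x => by
    rw [(fm F q m).rf_app he (by simp)]; simp
  rw [← Finset.add_sum_erase _ _ (mem_mu.2 (by simp : (1 : F) * σ 1 = 1)), h1, map_one] at h0
  rw [← eq_neg_of_add_eq_zero_right h0]
  have hτ : σ (s + σ s) = s + σ s := by rw [map_add, conj_conj, add_comm]
  generalize ht : s + σ s = τ at hτ hs0
  have ne : ∀ a : F, a + σ a = τ → a ≠ 0 ∧ σ a ≠ 0 := fun a ha =>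
    have : a ≠ 0 := by rintro rfl; exact hs0 (by simpa using ha.symm)
    ⟨this, conj_ne_zero.2 this⟩
  have nz : ∀ z : F, z ≠ 1 → 1 - z ≠ 0 ∧ 1 - σ z ≠ 0 := fun z hz =>
    ⟨sub_ne_zero.2 hz.symm, sub_ne_zero.2 fun e => hz (conj_injective (e.symm.trans (map_one _).symm))⟩
  refine Finset.sum_nbij' (fun a => -a / σ a) (fun z => τ / (1 - σ z)) ?_ ?_ ?_ ?_ ?_
  · intro a ha
    have ha := (Finset.mem_filter.1 ha).2
    obtain ⟨a0, a1⟩ := ne a ha
    refine Finset.mem_erase.2 ⟨fun e => hs0 ?_, mem_mu.2 ?_⟩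
    · rw [div_eq_one_iff_eq a1] at e
      linear_combination -ha - e
    · rw [map_div₀, map_neg, conj_conj]; field_simp
  · intro z hz
    obtain ⟨z1, hz⟩ := Finset.mem_erase.1 hz
    have hz := mem_mu.1 hz
    obtain ⟨n1, n2⟩ := nz z z1
    refine Finset.mem_filter.2 ⟨Finset.mem_univ _, ?_⟩
    rw [map_div₀, map_sub, map_one, conj_conj, hτ]
    field_simp
    linear_combination -hz
  · intro a ha
    have ha := (Finset.mem_filter.1 ha).2
    obtain ⟨a0, a1⟩ := ne a ha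
    have e : 1 - σ (-a / σ a) = τ / a := by
      rw [map_div₀, map_neg, conj_conj, ← ha]; field_simp; ring
    show τ / (1 - σ (-a / σ a)) = a
    rw [e]; field_simp
  · intro z hz
    obtain ⟨z1, hz⟩ := Finset.mem_erase.1 hz
    have hz := mem_mu.1 hz
    obtain ⟨n1, n2⟩ := nz z z1
    show -(τ / (1 - σ z)) / σ (τ / (1 - σ z)) = z
    rw [map_div₀, map_sub, map_one, conj_conj, hτ]
    field_simp
    linear_combination hz
  · intro a ha
    rw [bruhat_rf hw (ht ▸ hs0) (ht ▸ (Finset.mem_filter.1 ha).2)]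

variable (Ψ ρ) in
/-- the projections, up to a factor -/
noncomputable def l2E (w : Fin m → F) (l : F) : End ℂ M :=
  ∑ c ∈ Finset.univ.filter (fun c : F => c + σ c = 0), Ψ (-(l * c)) • ρ (tv q w c)

theorem l2E_app (w : Fin m → F) (l : F) (x : M) : l2E Ψ ρ w l x =
    ∑ c ∈ Finset.univ.filter (fun c : F => c + σ c = 0), Ψ (-(l * c)) • ρ (tv q w c) x := by
  simp only [l2E, LinearMap.sum_apply, LinearMap.smul_apply]

theorem l2E_tv (w : Fin m → F) (l : F) {c : F} (hc : c + σ c = 0) (x : M) :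
    l2E Ψ ρ w l (ρ (tv q w c) x) = Ψ (l * c) • l2E Ψ ρ w l x := by
  rw [l2E_app, l2E_app, Finset.smul_sum]
  refine Finset.sum_nbij' (fun d => d + c) (fun d => d - c) ?_ ?_ ?_ ?_ ?_
  · intro d hd
    have hd := (Finset.mem_filter.1 hd).2
    exact Finset.mem_filter.2 ⟨Finset.mem_univ _, by rw [map_add]; linear_combination hd + hc⟩
  · intro d hd
    have hd := (Finset.mem_filter.1 hd).2
    exact Finset.mem_filter.2 ⟨Finset.mem_univ _, by rw [map_sub]; linear_combination hd - hc⟩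
  · intro d _; exact add_sub_cancel_right d c
  · intro d _; exact sub_add_cancel d c
  · intro d hd
    rw [wt_rho_mul, ← tv_add w (Finset.mem_filter.1 hd).2 hc, smul_smul, ← AddChar.map_add_eq_mul]
    congr 2; ring

theorem tv_l2E (w : Fin m → F) (l : F) {c : F} (hc : c + σ c = 0) (x : M) :
    ρ (tv q w c) (l2E Ψ ρ w l x) = l2E Ψ ρ w l (ρ (tv q w c) x) := by
  rw [l2E_app, l2E_app, map_sum]
  refine Finset.sum_congr rfl fun d hd => ?_
  have hd := (Finset.mem_filter.1 hd).2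
  rw [map_smul, wt_rho_mul, wt_rho_mul, ← tv_add w hd hc, ← tv_add w hc hd, add_comm]

theorem l2E_sum (hΨ : Gd q Ψ) (w : Fin m → F) (x : M) :
    ∑ l ∈ Finset.univ.filter (fun l : F => σ l = l), l2E Ψ ρ w l x =
      ((Finset.univ.filter fun l : F => σ l = l).card : ℂ) • x := by
  obtain ⟨c0, hc0, h0⟩ := hΨ
  simp only [l2E_app]
  rw [Finset.sum_comm, Finset.sum_eq_single_of_mem 0 (by simp)]
  · simp [tv_zero, Nat.cast_smul_eq_nsmul]
  · intro c hc c1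
    have hc := (Finset.mem_filter.1 hc).2
    have ht : σ (-c0 / c) = -c0 / c := by
      rw [map_div₀, map_neg, rb_neg hc0, rb_neg hc, neg_neg, div_neg, neg_div]
    rw [← Finset.sum_smul, wt_sum_shift (Ψ := Ψ) (Finset.univ.filter fun l : F => σ l = l) (-c0 / c)
      (fun l => by simp only [Finset.mem_filter, Finset.mem_univ, true_and, map_add, ht, add_left_inj])
      (fun l => -(l * c)) (fun l => by ring) (by rwa [div_mul_cancel₀ _ c1, neg_neg]), zero_smul]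

theorem l2E_fix (hΨ : Gd q Ψ) (w : Fin m → F) {l : F} (hl : σ l = l) (l0 : l ≠ 0) {x : M}
    (hx : ∀ c, c + σ c = 0 → ρ (tv q w c) x = x) : l2E Ψ ρ w l x = 0 := by
  obtain ⟨c0, hc0, h0⟩ := hΨ
  have h1 := wt_div_sk hc0 hl
  have := l2E_tv (Ψ := Ψ) (ρ := ρ) w l h1 x
  rw [hx _ h1, mul_div_cancel₀ _ l0] at this
  have e : (1 - Ψ c0) • l2E Ψ ρ w l x = 0 := by rw [sub_smul, one_smul, ← this, sub_self]
  exact (smul_eq_zero.1 e).resolve_left (sub_ne_zero.2 h0.symm)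

theorem dl_l2E {w w' : Fin m → F} (hw : 𝐡 w w' = 1) {y : F} (hy : y ≠ 0) (x : M) :
    ρ (dl q w w' y) (l2E Ψ ρ w (y * σ y) x) = l2E Ψ ρ w 1 (ρ (dl q w w' y) x) := by
  have n0 : y * σ y ≠ 0 := mul_ne_zero hy (conj_ne_zero.2 hy)
  have n1 : σ (y * σ y) = y * σ y := by rw [map_mul, conj_conj, mul_comm]
  rw [l2E_app, l2E_app, map_sum]
  refine Finset.sum_nbij' (fun d => y * σ y * d) (fun d => (y * σ y)⁻¹ * d) ?_ ?_ ?_ ?_ ?_
  · intro d hd
    have hd := (Finset.mem_filter.1 hd).2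
    exact Finset.mem_filter.2 ⟨Finset.mem_univ _, by rw [map_mul _ _ d, n1, ← mul_add, hd, mul_zero]⟩
  · intro d hd
    have hd := (Finset.mem_filter.1 hd).2
    exact Finset.mem_filter.2 ⟨Finset.mem_univ _, by
      rw [map_mul _ _ d, map_inv₀, n1, ← mul_add, hd, mul_zero]⟩
  · intro d _; exact inv_mul_cancel_left₀ n0 d
  · intro d _; exact mul_inv_cancel_left₀ n0 d
  · intro d hd
    rw [map_smul, wt_rho_mul, wt_rho_mul, dl_tv hw hy (Finset.mem_filter.1 hd).2, one_mul]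

theorem l2_fix (hΨ : Gd q Ψ) {w w' : Fin m → F} (hw : 𝐡 w w' = 1) {D : M}
    (h : ∀ a, a ≠ 0 → l2E Ψ ρ w 1 (ρ (dl q w w' a) D) = 0) {c : F} (hc : c + σ c = 0) :
    ρ (tv q w c) D = D := by
  have h1 : ∀ l ∈ Finset.univ.filter (fun l : F => σ l = l), l ≠ 0 → l2E Ψ ρ w l D = 0 := fun l hl l0 => by
    obtain ⟨a, rfl⟩ := exists_norm_eq (Finset.mem_filter.1 hl).2
    have a0 := left_ne_zero_of_mul l0
    have := congrArg (ρ (dl q w w' a)⁻¹) ((dl_l2E hw a0 D).trans (h a a0))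
    rwa [wt_rho_mul, inv_mul_cancel, map_one, map_zero] at this
  have h2 := l2E_sum (ρ := ρ) hΨ w D
  rw [Finset.sum_eq_single_of_mem 0 (by simp) h1] at h2
  have h3 := tv_l2E (Ψ := Ψ) (ρ := ρ) w 0 hc D
  rw [l2E_tv w 0 hc, zero_mul, AddChar.map_zero_eq_one, one_smul, h2, map_smul] at h3
  exact smul_right_injective M (Nat.cast_ne_zero.2 (Finset.card_ne_zero.2 ⟨0, by simp⟩)) h3

theorem l2_core {w w' : Fin m → F} (hw : 𝐡 w w' = 1) {D : M} {μ : F}
    (h : ∀ l s : F, σ l = l → l ≠ 0 → s + σ s ≠ 0 → l2E Ψ ρ w l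
      (∑ a ∈ Finset.univ.filter (fun a : F => a + σ a = s + σ s),
        Ψ (μ * (s - a)) • ρ (tv q w (σ a - s)) (ρ (dl q w w' a) D)) = 0)
    (y τ : F) (hy : y ≠ 0) (h0 : τ ≠ 0) (hτ : σ τ = τ) :
    ∑ a ∈ Finset.univ.filter (fun a : F => a + σ a = τ),
      Ψ (-((y * σ y + μ) * a)) • l2E Ψ ρ w 1 (ρ (dl q w w' (y * a)) D) = 0 := by
  obtain ⟨s, rfl⟩ := exists_trace_eq hτ
  have := congrArg (fun v => Ψ (-(μ * s + y * σ y * σ s)) • ρ (dl q w w' y) v) (h (y * σ y) s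
    (by rw [map_mul, conj_conj, mul_comm]) (mul_ne_zero hy (conj_ne_zero.2 hy)) h0)
  simp only [map_sum, map_smul, map_zero, smul_zero, Finset.smul_sum] at this
  rw [← this]
  refine Finset.sum_congr rfl fun a ha => ?_
  have ha := (Finset.mem_filter.1 ha).2
  have a0 : a ≠ 0 := by rintro rfl; exact h0 (by simpa using ha.symm)
  rw [l2E_tv w _ (by rw [map_sub, conj_conj]; linear_combination ha), map_smul, dl_l2E hw hy, wt_rho_mul,
    ← dl_mul hw hy a0, smul_smul, smul_smul, ← AddChar.map_add_eq_mul, ← AddChar.map_add_eq_mul]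
  congr 2
  linear_combination -(y * σ y) * ha

theorem l2_star (hR : RF ρ) {w w' : Fin m → F} (hw : 𝐡 w w' = 1) {μ : F} {x : M}
    (hx : ∀ c, c + σ c = 0 → ρ (tv q w c) x = Ψ (μ * c) • x) {s : F} (hs0 : s + σ s ≠ 0) :
    ∑ a ∈ Finset.univ.filter (fun a : F => a + σ a = s + σ s),
      Ψ (μ * (s - a)) • ρ (tv q w (σ a - s)) (ρ (dl q w w' a) (ρ (nn q w w') x)) = -x := by
  have := LinearMap.congr_fun (star hR hw hs0) x
  rw [LinearMap.sum_apply] at this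
  refine Eq.trans (Finset.sum_congr rfl fun a ha => ?_) this
  have ha := (Finset.mem_filter.1 ha).2
  rw [← wt_rho_mul, ← wt_rho_mul, ← wt_rho_mul, hx _ (by rw [map_sub]; linear_combination -ha), map_smul,
    map_smul, map_smul]

theorem l2a (hΨ : Gd q Ψ) (hR : RF ρ) {w w' : Fin m → F} (hw : 𝐡 w w' = 1) {x : M}
    (hx : ∀ c, c + σ c = 0 → ρ (tv q w c) x = x) {α : F → ℂ}
    (hα : ∀ a, a ≠ 0 → ρ (dl q w w' a) x = α a • x) {a0 : F} (ha0 : a0 ≠ 0) (h1 : α a0 ≠ 1) :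
    ∃ κ : ℂ, ρ (nn q w w') x = κ • x := by
  have hD : ∀ a, a ≠ 0 → ρ (dl q w w' a) (ρ (nn q w w') x) = α (σ a)⁻¹ • ρ (nn q w w') x := fun a ha => by
    rw [wt_rho_mul, dl_nn hw ha, ← wt_rho_mul, hα _ (inv_ne_zero (conj_ne_zero.2 ha)), map_smul]
  have h2 := (four hΨ (fun a => l2E Ψ ρ w 1 (ρ (dl q w w' a) (ρ (nn q w w') x))) (map_zero _)
    (l2_core hw fun l s hl l0 hs => by
      rw [l2_star hR hw (fun c hc => by rw [hx c hc, zero_mul, AddChar.map_zero_eq_one, one_smul]) hs,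
        map_neg, l2E_fix hΨ w hl l0 hx, neg_zero])).1 (σ a0)⁻¹ 1 (inv_ne_zero (conj_ne_zero.2 ha0)) one_ne_zero
  simp only [dl_one, map_one, End.one_apply] at h2
  rw [hD _ (inv_ne_zero (conj_ne_zero.2 ha0)), map_inv₀, conj_conj, inv_inv, map_smul] at h2
  have h3 : l2E Ψ ρ w 1 (ρ (nn q w w') x) = 0 := by
    have e : (α a0 - 1) • l2E Ψ ρ w 1 (ρ (nn q w w') x) = 0 := by rw [sub_smul, one_smul, h2, sub_self]
    exact (smul_eq_zero.1 e).resolve_left (sub_ne_zero.2 h1)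
  have h4 : ∀ c, c + σ c = 0 → ρ (tv q w c) (ρ (nn q w w') x) = ρ (nn q w w') x := fun c hc =>
    l2_fix hΨ hw (fun a ha => by rw [hD a ha, map_smul, h3, smul_zero]) hc
  have hn : ρ (nn q w w') (ρ (nn q w w') x) = x := by rw [wt_rho_mul, nn_nn hw, map_one, End.one_apply]
  obtain ⟨c, c0, hc⟩ := exists_trace_zero F q
  have h5 := congrArg (fun g => ρ g x) (tv_nn_tv hw hc c0)
  simp only [← wt_rho_mul] at h5
  rw [hx c hc, h4 _ (rb_inv hc), hn, hx c hc, hD c c0] at h5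
  refine ⟨α (σ c)⁻¹, ?_⟩
  conv_lhs => rw [h5]
  rw [map_smul, hn]

theorem l2b (hΨ : Gd q Ψ) (hR : RF ρ) (hR' : RF ρ') {w w' : Fin m → F} (hw : 𝐡 w w' = 1)
    {Φ : M →ₗ[ℂ] M'} (h1 : ∀ c, c + σ c = 0 → Iw ρ ρ' Φ (tv q w c))
    (h2 : ∀ a, a ≠ 0 → Iw ρ ρ' Φ (dl q w w' a)) {μ : F} (hμ : σ μ = μ) (hμ0 : μ ≠ 0) {x : M}
    (hx : ∀ c, c + σ c = 0 → ρ (tv q w c) x = Ψ (μ * c) • x) {c : F} (hc : c + σ c = 0) :
    ρ' (tv q w c) (ρ' (nn q w w') (Φ x) - Φ (ρ (nn q w w') x)) =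
      ρ' (nn q w w') (Φ x) - Φ (ρ (nn q w w') x) := by
  refine l2_fix hΨ hw ((four hΨ (fun a => l2E Ψ ρ' w 1 (ρ' (dl q w w' a)
    (ρ' (nn q w w') (Φ x) - Φ (ρ (nn q w w') x)))) hμ (l2_core hw fun l s _ _ hs => ?_)).2 hμ0) hc
  have e1 := l2_star hR' hw (x := Φ x) (fun c hc => by rw [← h1 c hc, hx c hc, map_smul]) hs
  have e2 := congrArg Φ (l2_star hR hw hx hs)
  rw [map_sum, map_neg, ← e1, eq_comm, ← sub_eq_zero, ← Finset.sum_sub_distrib] at e2
  rw [← map_zero (l2E Ψ ρ' w l), ← e2]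
  refine congrArg _ (Finset.sum_congr rfl fun a ha => ?_)
  have ha := (Finset.mem_filter.1 ha).2
  have a0 : a ≠ 0 := by rintro rfl; exact hs (by simpa using ha.symm)
  rw [map_smul, h1 _ (by rw [map_sub, conj_conj]; linear_combination ha), h2 a a0, map_sub, map_sub, smul_sub]

end Cfsg.Agent.CJ
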