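import Cfsg.Agent.CJ.Wt
import Cfsg.Agent.CJ.Gen
import Cfsg.Agent.CJ.H1
import Cfsg.Agent.CJ.L2

/-!
S4793: the weights occurring when `R` has no fixed vector.
`hs_triv`: `τ l = ρ (hs (l • u))` is additive on `U = Wt B` (`hs_mul`; the `up` factor is a multiple of `ou u u`, acting by `Ψ (c 𝐡 (B u) u) = 1`); `r z = ρ (rr z)`, `π z l = z * l` (`rr_hs`), free on
nontrivial characters (`χ ((z - 1) l) = 1` for all `l` forces `z = 1`); `free_orbit` contradicts `sum_rr`.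
`iso_ker`: `hs_comm` with `l • u` (also isotropic) and any `v`: `Ψ (𝐡 (B v) (l u) - 𝐡 (B (l u)) v) = 1` for all `l`; if `𝐡 (B u) v ≠ 0` these are all trace-zero values (`exists_conj_sub_eq`).
`rank_one_of_iso`: if `B ≠ 0` take `e` with `c = 𝐡 (B e) e ≠ 0` (`exists_herm_ne`); for `𝐡 (B e) v = 0` choose `l` with `l σl c = -𝐡 (B v) v`; `v + l e` is isotropic so `B v + l B e = 0`, pairing with `e` gives `l = 0`.
So `B x = (𝐡 x (B e) / c) • B e`, `b = κ • B e` with `κ σκ = c⁻¹`.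
-/

set_option autoImplicit false
set_option linter.unusedSectionVars false

namespace Cfsg.Agent.CJ

open Module Matrix Cfsg Cfsg.Agent.Class.U Cfsg.Agent.KSG

variable {F : Type*} [Field F] {q : ℕ} [hU : UF F q] {m : ℕ}

local notation "σ" => conj F q
local notation "𝐡" => hermForm m F q

variable [Fintype F] [DecidableEq F] {M : Type*} [AddCommGroup M] [Module ℂ M]
  {Ψ : AddChar F ℂ} {ρ : Ga F q m →* End ℂ M}

variable (q) in
/-- The twisted character occurring in the Heisenberg cocycle. -/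
noncomputable def psiT (Ψ : AddChar F ℂ) : AddChar F ℂ where
  toFun x := Ψ (th F q * x - σ (th F q) * σ x)
  map_zero_eq_one' := by simp
  map_add_eq_mul' x y := by rw [← AddChar.map_add_eq_mul, map_add]; congr 1; ring

theorem gd_psiT (hΨ : Gd q Ψ) : Gd q (psiT q Ψ) := by
  obtain ⟨c, hc, h⟩ := hΨ
  refine ⟨c, hc, fun e => h (Eq.trans (congrArg Ψ ?_) e)⟩
  rw [rb_neg hc]
  linear_combination -c * th_spec (F := F) (q := q)

theorem s1_tr (u v : Fin m → F) (B : Matrix (Fin m) (Fin m) F) : (ou q u v * B).trace = 𝐡 (B *ᵥ u) v := by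
  rw [ou_mul, trace_ou, herm_mulVec]

theorem s1_mul (u u' : Fin m → F) {B : Matrix (Fin m) (Fin m) F} {x : M} (hx : x ∈ Wt Ψ ρ B) :
    ρ (hs q u) (ρ (hs q u') x) =
      Ψ (th F q * 𝐡 (B *ᵥ u') u - σ (th F q) * 𝐡 (B *ᵥ u) u') • ρ (hs q (u + u')) x := by
  rw [wt_rho_mul, hs_mul, ← wt_rho_mul, hs_mem _ hx _ (skew_hs u u'), Matrix.sub_mul, Matrix.smul_mul,
    Matrix.smul_mul, trace_sub, trace_smul, trace_smul, s1_tr, s1_tr, smul_eq_mul, smul_eq_mul]

variable (Ψ ρ) in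
/-- `hs u` on a weight space. -/
noncomputable def hW (B : Matrix (Fin m) (Fin m) F) (u : Fin m → F) : End ℂ (Wt Ψ ρ B) :=
  (ρ (hs q u)).restrict fun _ hx => hs_mem u hx

theorem hW_coe (B : Matrix (Fin m) (Fin m) F) (u : Fin m → F) (x : Wt Ψ ρ B) :
    (hW Ψ ρ B u x : M) = ρ (hs q u) x := rfl

variable (Ψ ρ) in
/-- `rr z` on a weight space. -/
noncomputable def rW (B : Matrix (Fin m) (Fin m) F) (z : F) : End ℂ (Wt Ψ ρ B) :=
  if hz : z * σ z = 1 then (ρ (rr q m z)).restrict fun _ hx => rr_mem hz hx else 1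

theorem rW_coe (B : Matrix (Fin m) (Fin m) F) {z : F} (hz : z * σ z = 1) (x : Wt Ψ ρ B) :
    (rW Ψ ρ B z x : M) = ρ (rr q m z) x := by
  rw [rW, dif_pos hz]; rfl

theorem hS_hW {b w0 : Fin m → F} (hw : 𝐡 w0 b = 1) :
    HS (q := q) (psiT q Ψ) fun l : F => hW Ψ ρ (ou q b b) (l • w0) := by
  refine ⟨LinearMap.ext fun x => Subtype.ext ?_, fun l l' => LinearMap.ext fun x => Subtype.ext ?_⟩
  · rw [hW_coe, zero_smul, hs_zero, map_one]
    rfl
  · change ρ _ (ρ _ x) = Ψ (th F q * (l' * σ l) - σ (th F q) * σ (l' * σ l)) • ρ (hs q ((l + l') • w0)) x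
    rw [s1_mul _ _ x.2, add_smul]
    simp only [ou_mulVec, herm_smul_left, herm_smul_right, hw, herm_comm_one hw, mul_one, map_mul, conj_conj]
    congr 2
    ring

theorem rS_rW (B : Matrix (Fin m) (Fin m) F) (w0 : Fin m → F) :
    RS (q := q) (fun l : F => hW Ψ ρ B (l • w0)) (rW Ψ ρ B) := by
  refine ⟨LinearMap.ext fun x => Subtype.ext ?_, fun z z' hz hz' => LinearMap.ext fun x => Subtype.ext ?_,
    fun z l hz => LinearMap.ext fun x => Subtype.ext ?_⟩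
  · rw [rW_coe _ (by simp), rr_one, map_one]
    rfl
  · rw [rW_coe _ (by rw [map_mul, mul_mul_mul_comm, hz, hz', one_mul]), End.mul_apply, rW_coe _ hz, rW_coe _ hz',
      wt_rho_mul, rr_mul hz hz']
  · rw [End.mul_apply, End.mul_apply, rW_coe _ hz, hW_coe, hW_coe, rW_coe _ hz, wt_rho_mul, wt_rho_mul, rr_hs hz,
      mul_smul]

theorem sum_rW (hR : RF ρ) (B : Matrix (Fin m) (Fin m) F) : ∑ z ∈ mu F q, rW Ψ ρ B z = 0 := by
  refine LinearMap.ext fun x => Subtype.ext ?_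
  rw [LinearMap.sum_apply, Submodule.coe_sum, Finset.sum_congr rfl fun z hz => rW_coe B (mem_mu.1 hz) x,
    ← LinearMap.sum_apply, sum_rr hR]
  rfl

theorem hs_triv (hR : RF ρ) {B : Matrix (Fin m) (Fin m) F} {u : Fin m → F}
    (hu : 𝐡 (B *ᵥ u) u = 0) {x : M} (hx : x ∈ Wt Ψ ρ B) : ρ (hs q u) x = x := by
  by_contra n
  obtain ⟨y, -, a, h⟩ := free_orbit (Wt Ψ ρ B) (fun l : F => ρ (hs q (l • u))) (fun _ _ hx => hs_mem _ hx)
    (fun x _ => by rw [zero_smul, hs_zero, map_one]; rfl)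
    (fun a b x hx => by
      rw [s1_mul _ _ hx, add_smul]
      simp [mulVec_smul, herm_smul_left, herm_smul_right, hu])
    (mu F q) (fun z => ρ (rr q m z)) (fun z => AddMonoidHom.mulLeft z) (fun z hz _ hx => rr_mem (mem_mu.1 hz) hx)
    (fun z hz a x _ => by
      rw [wt_rho_mul, wt_rho_mul, rr_hs (mem_mu.1 hz), smul_smul, AddMonoidHom.coe_mulLeft, ← mul_assoc,
        mul_comm _ z, mem_mu.1 hz, one_mul])
    (z0 := 1) (mem_mu.2 (by simp)) (fun x _ => by rw [rr_one, map_one]; rfl)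
    (fun χ h1 z _ h => by_contra fun e => h1 (AddChar.ext _ _ fun l => by
      have e' := sub_ne_zero.2 e
      have := h (l / (z - 1))
      rw [AddMonoidHom.coe_mulLeft, show z * (l / (z - 1)) = l + l / (z - 1) by field_simp; ring,
        AddChar.map_add_eq_mul] at this
      exact mul_right_cancel₀ (χ.val_isUnit _).ne_zero (this.trans (one_mul _).symm)))
    hx (a := 1) (by rwa [one_smul])
  rw [← LinearMap.sum_apply, sum_rr hR, LinearMap.zero_apply, map_zero] at h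
  exact h rfl

theorem iso_ker (hΨ : Gd q Ψ) (hR : RF ρ) {B : Matrix (Fin m) (Fin m) F} (hB : cT q B = B)
    (hne : Wt Ψ ρ B ≠ ⊥) {u : Fin m → F} (hu : 𝐡 (B *ᵥ u) u = 0) : B *ᵥ u = 0 := by
  obtain ⟨x, hx, h0⟩ := Submodule.exists_mem_ne_zero_of_ne_bot hne
  obtain ⟨c, hc, h1⟩ := hΨ
  obtain ⟨s, hs'⟩ := exists_conj_sub_eq hc
  refine eq_zero_of_herm_left (q := q) fun v => by_contra fun t => h1 ?_
  have hl : 𝐡 (B *ᵥ (s / 𝐡 (B *ᵥ u) v) • u) ((s / 𝐡 (B *ᵥ u) v) • u) = 0 := by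
    rw [mulVec_smul, herm_smul_left, herm_smul_right, hu, mul_zero, mul_zero]
  have h2 := hs_triv hR hl (hs_mem v hx)
  rw [wt_rho_mul, hs_comm, ← wt_rho_mul, ← wt_rho_mul, hs_triv hR hl hx, hs_mem v hx _ (skew_sub _ _),
    Matrix.sub_mul, trace_sub, s1_tr, s1_tr, mulVec_smul, herm_smul_left, herm_smul_right, herm_mulVec B v, hB,
    ← herm_conj (B *ᵥ u) v, ← map_mul, div_mul_cancel₀ _ t, hs'] at h2
  refine smul_left_injective ℂ (fun e => h0 ?_) (h2.trans (one_smul _ _).symm)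
  have := congrArg (ρ (hs q v)⁻¹) e
  rwa [wt_rho_mul, inv_mul_cancel, map_one, map_zero] at this

theorem rank_one_of_iso {B : Matrix (Fin m) (Fin m) F} (hB : cT q B = B)
    (h : ∀ u, 𝐡 (B *ᵥ u) u = 0 → B *ᵥ u = 0) : ∃ b, B = ou q b b := by
  by_cases h0 : B = 0
  · exact ⟨0, h0.trans (ou_self_eq_zero.2 rfl).symm⟩
  obtain ⟨e, he⟩ := exists_herm_ne hB h0
  have hc := wt_conj_herm_hm hB e
  have k : ∀ v, 𝐡 (B *ᵥ e) v = 0 → B *ᵥ v = 0 := fun v hv => by
    have hv' : 𝐡 (B *ᵥ v) e = 0 := by rw [herm_mulVec, hB, herm_comm_zero hv]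
    obtain ⟨l, hl⟩ := exists_norm_eq (F := F) (q := q) (μ := -𝐡 (B *ᵥ v) v / 𝐡 (B *ᵥ e) e)
      (by rw [map_div₀, map_neg, hc, wt_conj_herm_hm hB])
    rw [eq_div_iff he] at hl
    have h1 := h (v + l • e) (by
      simp only [mulVec_add, mulVec_smul, herm_add_left, herm_add_right, herm_smul_left, herm_smul_right, hv, hv']
      linear_combination hl)
    have h2 := congrArg (𝐡 · e) h1
    simp only [mulVec_add, mulVec_smul, herm_add_left, herm_smul_left, hv', zero_add, herm_zero_left] at h2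
    rwa [(mul_eq_zero.1 h2).resolve_right he, zero_smul, add_zero] at h1
  obtain ⟨κ, hκ⟩ := exists_norm_eq (F := F) (q := q) (μ := (𝐡 (B *ᵥ e) e)⁻¹) (by rw [map_inv₀, hc])
  refine ⟨κ • B *ᵥ e, Matrix.ext_iff_mulVec.2 fun x => ?_⟩
  have := k (x - (𝐡 x (B *ᵥ e) / 𝐡 (B *ᵥ e) e) • e) (by
    rw [herm_sub_right, herm_smul_right, map_div₀, hc, herm_conj, div_mul_cancel₀ _ he, sub_self])
  rw [mulVec_sub, mulVec_smul, sub_eq_zero] at this
  rw [this, ou_mulVec, herm_smul_right, smul_smul, div_eq_mul_inv, ← hκ]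
  congr 1
  ring

theorem wt_rank_one (hΨ : Gd q Ψ) (hR : RF ρ) {B : Matrix (Fin m) (Fin m) F} (hB : cT q B = B)
    (hne : Wt Ψ ρ B ≠ ⊥) : ∃ b, B = ou q b b :=
  rank_one_of_iso hB fun _ hu => iso_ker hΨ hR hB hne hu

/-- `hs u` only depends on `𝐡 u b` (`hs_mul` with `u' - u ⊥ b`, `hs_triv`). -/
theorem hs_congr (hR : RF ρ) {b u u' : Fin m → F} (h : 𝐡 u b = 𝐡 u' b) {x : M}
    (hx : x ∈ Wt Ψ ρ (ou q b b)) : ρ (hs q u) x = ρ (hs q u') x := by
  have h1 : 𝐡 (u' - u) b = 0 := by rw [herm_sub_left, h, sub_self]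
  have h2 := s1_mul u (u' - u) hx
  rw [hs_triv hR (by rw [ou_mulVec, h1, zero_smul, herm_zero_left]) hx] at h2
  simpa [ou_mulVec, herm_smul_left, h1, herm_comm_zero h1, herm_zero_left] using h2

end Cfsg.Agent.CJ
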