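import Cfsg.Agent.CJ.Sing
import Cfsg.Agent.CJ.S1
import Cfsg.Agent.CJ.GoodA

/-!
S4793: every nonzero Hermitian matrix is congruent to one whose stabiliser in the Singer cycle consists of scalars.
-/

set_option autoImplicit false
set_option linter.unusedSectionVars false

namespace Cfsg.Agent.CJ

open Module Matrix Cfsg Cfsg.Agent.Class.U Cfsg.Agent.KSG

variable {F : Type*} [Field F] {q : ℕ} [hU : UF F q] {m : ℕ}

local notation "σ" => conj F q
local notation "𝐡" => hermForm m F q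

variable {K : Type*} [Field K] [Fintype K] [Algebra F K] (ι : K →ₐ[F] Matrix (Fin m) (Fin m) F)

variable (q) in
/-- The linear form `x ↦ 𝐡 x p`. -/
def gdL (p : Fin m → F) : (Fin m → F) →ₗ[F] F where
  toFun x := 𝐡 x p
  map_add' x y := herm_add_left x y p
  map_smul' c x := herm_smul_left c x p

theorem gd_ker2 (p d : Fin m → F) {Δ : Matrix (Fin m) (Fin m) F}
    (h : ∀ x, 𝐡 x p = 0 → 𝐡 x d = 0 → Δ *ᵥ x = 0) :
    m ≤ finrank F (LinearMap.ker (Matrix.mulVecLin Δ)) + 2 := by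
  let ψ := (gdL q p).prod (gdL q d)
  have h1 := LinearMap.finrank_range_add_finrank_ker ψ
  have h2 : finrank F (LinearMap.range ψ) ≤ 2 := by
    simpa using Submodule.finrank_le (LinearMap.range ψ)
  have h3 : finrank F (LinearMap.ker ψ) ≤ finrank F (LinearMap.ker (Matrix.mulVecLin Δ)) := by
    refine Submodule.finrank_mono fun x hx => ?_
    have hx' : (𝐡 x p, 𝐡 x d) = (0, 0) := hx
    exact h x (congrArg Prod.fst hx') (congrArg Prod.snd hx')
  simp only [finrank_fintype_fun_eq_card, Fintype.card_fin] at h1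
  omega

variable (q) in
/-- The stabiliser of a matrix in the Singer cycle. -/
def gdS (C : Matrix (Fin m) (Fin m) F) : Subgroup Kˣ where
  carrier := {t | cT q (ι t) * C * ι t = C}
  mul_mem' := fun {a b} ha hb => by
    have ha' : cT q (ι a) * C * ι a = C := ha
    have hb' : cT q (ι b) * C * ι b = C := hb
    show cT q (ι (a * b : Kˣ)) * C * ι (a * b : Kˣ) = C
    rw [Units.val_mul, map_mul, cT_mul]
    calc _ = cT q (ι b) * (cT q (ι a) * C * ι a) * ι b := by simp only [mul_assoc]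
      _ = C := by rw [ha', hb']
  one_mem' := by
    show cT q (ι (1 : Kˣ)) * C * ι (1 : Kˣ) = C
    simp [cT_one]
  inv_mem' := fun {a} ha => by
    have ha' : cT q (ι a) * C * ι a = C := ha
    show cT q (ι (a⁻¹ : Kˣ)) * C * ι (a⁻¹ : Kˣ) = C
    have h1 : ι a * ι (a⁻¹ : Kˣ) = 1 := by rw [← map_mul, Units.mul_inv, map_one]
    calc _ = cT q (ι (a⁻¹ : Kˣ)) * (cT q (ι a) * C * ι a) * ι (a⁻¹ : Kˣ) := by rw [ha']
      _ = cT q (ι a * ι (a⁻¹ : Kˣ)) * C * (ι a * ι (a⁻¹ : Kˣ)) := by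
        rw [cT_mul]; simp only [mul_assoc]
      _ = C := by rw [h1, cT_one, one_mul, mul_one]

theorem mem_gdS {C : Matrix (Fin m) (Fin m) F} {t : Kˣ} :
    t ∈ gdS q ι C ↔ cT q (ι t) * C * ι t = C := Iff.rfl

theorem gd_mu_mem (C : Matrix (Fin m) (Fin m) F) {t : Kˣ} (ht : (t : K) ^ (q + 1) = 1) :
    t ∈ gdS q ι C := by
  obtain ⟨z, hz, e⟩ := exists_mu_of_pow (F := F) (q := q) ht
  rw [mem_gdS, e, sing_alg, cT_smul, cT_one, smul_mul_assoc, one_mul, mul_smul_comm, mul_one,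
    smul_smul, hz, one_smul]

theorem gd_pow_of_mu {t : K} (h : ∃ z : F, z * σ z = 1 ∧ t = algebraMap F K z) : t ^ (q + 1) = 1 := by
  obtain ⟨z, hz, rfl⟩ := h
  rw [← map_pow, ← mul_conj_eq_pow, hz, map_one]

/-- the criterion in the form used below -/
theorem gd_of {C : Matrix (Fin m) (Fin m) F}
    (h : ∀ t : Kˣ, t ∈ gdS q ι C → (t : K) ^ (q + 1) = 1) (t : K) (ht : t ≠ 0)
    (e : cT q (ι t)⁻¹ * C * (ι t)⁻¹ = C) : ∃ z : F, z * σ z = 1 ∧ t = algebraMap F K z := by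
  have h1 : (Units.mk0 t ht)⁻¹ ∈ gdS q ι C := by
    rw [mem_gdS]
    simpa [sing_inv ι ht] using e
  exact exists_mu_of_pow (by simpa using h _ ((gdS q ι C).inv_mem h1))

theorem gd_deg2 {Δ : Matrix (Fin m) (Fin m) F} (hΔ : cT q Δ = Δ) (h0 : Δ ≠ 0)
    (hr : m ≤ finrank F (LinearMap.ker (Matrix.mulVecLin Δ)) + 2) (t : Kˣ) (ht : t ∈ gdS q ι Δ) :
    (t : K) ^ (q + 1) = 1 :=
  gd_pow_of_mu (deg2 ι hΔ h0 hr t.ne_zero ht)

theorem gd_prime {G : Type*} [Group G] (H : Subgroup G) {a : G} {N k : ℕ} (hN : N ≠ 0) (h1 : a ^ N ∈ H)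
    (h2 : a ^ k ∈ H) (h3 : ¬ N ∣ k) : ∃ l ∈ N.primeFactors, a ^ (N / l) ∈ H := by
  have hg : a ^ Nat.gcd k N ∈ H := by
    rw [← _root_.zpow_natCast, Nat.gcd_eq_gcd_ab, _root_.zpow_add, _root_.zpow_mul, _root_.zpow_mul, _root_.zpow_natCast,
      _root_.zpow_natCast]
    exact H.mul_mem (H.zpow_mem h2 _) (H.zpow_mem h1 _)
  obtain ⟨r, hr⟩ := Nat.gcd_dvd_right k N
  have hr1 : r ≠ 1 := by
    rintro rfl
    exact h3 (by rw [hr, mul_one]; exact Nat.gcd_dvd_left _ _)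
  obtain ⟨l, hl, s, rfl⟩ := Nat.exists_prime_and_dvd hr1
  refine ⟨l, Nat.mem_primeFactors.2 ⟨hl, ⟨Nat.gcd k N * s, by rw [mul_left_comm, ← hr]⟩, hN⟩, ?_⟩
  have : N / l = Nat.gcd k N * s := by
    rw [Nat.div_eq_iff_eq_mul_left hl.pos ⟨Nat.gcd k N * s, by rw [mul_left_comm, ← hr]⟩,
      mul_assoc, mul_comm s l, ← hr]
  rw [this, pow_mul]
  exact H.pow_mem hg _

theorem gd_sq_le (x : ℕ) (hx : 4 ≤ x) : x * x ≤ 2 ^ x := by
  induction x, hx using Nat.le_induction with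
  | base => norm_num
  | succ n hn ih => rw [pow_succ]; nlinarith

theorem gd_omega {N x : ℕ} (hN : N ≠ 0) (hx : 4 ≤ x) (h : N < x * x) : N.primeFactors.card < x := by
  have h1 : 2 ^ N.primeFactors.card ≤ ∏ p ∈ N.primeFactors, p :=
    Finset.pow_card_le_prod _ _ _ fun p hp => (Nat.prime_of_mem_primeFactors hp).two_le
  have h2 := Nat.le_of_dvd (Nat.pos_of_ne_zero hN) (Nat.prod_primeFactors_dvd N)
  have h3 := gd_sq_le x hx
  exact (Nat.pow_lt_pow_iff_right (by norm_num : 1 < 2)).1 (by omega)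

theorem gd_line {p d : Fin m → F} (hp : p ≠ 0) (h : ou q p d + ou q d p = 0) :
    ∃ κ : F, κ + σ κ = 0 ∧ d = κ • p := by
  obtain ⟨w, hw⟩ := exists_herm_ne_zero (q := q) hp
  have hw' := herm_comm_ne hw
  have h1 := congrArg (· *ᵥ w) h
  simp only [add_mulVec, ou_mulVec, zero_mulVec] at h1
  have h2 : d = (-(𝐡 w d) / 𝐡 w p) • p := by
    rw [div_eq_inv_mul, mul_smul, eq_inv_smul_iff₀ hw', neg_smul]
    exact eq_neg_of_add_eq_zero_right h1
  refine ⟨_, ?_, h2⟩
  generalize -(𝐡 w d) / 𝐡 w p = κ at h2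
  rw [h2, ou_smul_left, ou_smul_right, ← add_smul, smul_eq_zero, ou_self_eq_zero] at h
  rw [add_comm]
  exact h.resolve_right hp

theorem good (hK : Fintype.card K = (q ^ 2) ^ m) {B : Matrix (Fin m) (Fin m) F} (hB : cT q B = B)
    (h0 : B ≠ 0) : ∃ X : Matrix (Fin m) (Fin m) F, IsUnit X.det ∧ ∀ t : K, t ≠ 0 →
      cT q (ι t)⁻¹ * (cT q X⁻¹ * B * X⁻¹) * (ι t)⁻¹ = cT q X⁻¹ * B * X⁻¹ →
      ∃ z : F, z * σ z = 1 ∧ t = algebraMap F K z := by
  classical
  have := hU.finite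
  have := Fintype.ofFinite F
  by_cases hr : m ≤ finrank F (LinearMap.ker (Matrix.mulVecLin B)) + 2
  · refine ⟨1, by simp, ?_⟩
    rw [inv_one, cT_one, one_mul, mul_one]
    exact gd_of ι (gd_deg2 ι hB h0 hr)
  obtain ⟨u, hu, hp⟩ : ∃ u, 𝐡 (B *ᵥ u) u = 0 ∧ B *ᵥ u ≠ 0 := by
    by_contra hc
    push Not at hc
    obtain ⟨b, rfl⟩ := rank_one_of_iso hB hc
    exact hr (gd_ker2 b b fun x hx _ => by rw [ou_mulVec, hx, zero_smul])
  obtain ⟨n, rfl⟩ : ∃ n, m = n + 3 := ⟨m - 3, by omega⟩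
  set p := B *ᵥ u with hpdef
  by_contra hc
  have hbad : ∀ y : Fin (n + 3) → F, hermForm _ F q y u = 0 →
      ∃ t : Kˣ, t ∈ gdS q ι (B + ou q p y + ou q y p) ∧ (t : K) ^ (q + 1) ≠ 1 := by
    intro y hy
    by_contra hy'
    push Not at hy'
    apply hc
    have hdet : (1 + ou q u y).det = 1 := by rw [det_one_add_ou, herm_comm_zero hy, add_zero]
    have hun : IsUnit (1 + ou q u y).det := by rw [hdet]; exact isUnit_one
    refine ⟨(1 + ou q u y)⁻¹, Matrix.isUnit_nonsing_inv_det _ hun, ?_⟩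
    have e : cT q (1 + ou q u y) * B * (1 + ou q u y) = B + ou q p y + ou q y p := by
      rw [cT_add, cT_one, cT_ou, add_mul, one_mul, ou_mul, hB, mul_add, mul_one, add_mul, mul_ou,
        mul_ou, ou_mulVec, ← hpdef, herm_comm_zero hu, zero_smul]
      have : ou q (0 : Fin (n + 3) → F) y = 0 := by
        simpa using ou_smul_left (q := q) 0 (0 : Fin (n + 3) → F) y
      rw [this]; abel
    rw [Matrix.nonsing_inv_nonsing_inv _ hun, e]
    exact gd_of ι hy'
  have hq := two_le_q F q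
  obtain ⟨a, ha0, hord, hgen⟩ := exists_gen K
  obtain ⟨N, hN⟩ : q + 1 ∣ Fintype.card K - 1 := by
    rw [hK]
    refine Dvd.dvd.trans ?_ (Nat.sub_one_dvd_pow_sub_one _ _)
    exact ⟨q - 1, by simpa using Nat.sq_sub_sq q 1⟩
  have hK1 : 1 < Fintype.card K := Fintype.one_lt_card
  have hN0 : N ≠ 0 := by rintro rfl; omega
  set A : Kˣ := Units.mk0 a ha0 with hA
  have hpow : ∀ k : ℕ, ((A ^ k : Kˣ) : K) ^ (q + 1) = 1 ↔ N ∣ k := by
    intro k
    rw [Units.val_pow_eq_pow_val, hA, Units.val_mk0, ← pow_mul, ← orderOf_dvd_iff_pow_eq_one, hord, hN,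
      mul_comm k, Nat.mul_dvd_mul_iff_left (Nat.succ_pos q)]
  have hl : ∀ y : Fin (n + 3) → F, ∃ l : ℕ, hermForm _ F q y u = 0 →
      l ∈ N.primeFactors ∧ A ^ (N / l) ∈ gdS q ι (B + ou q p y + ou q y p) := by
    intro y
    by_cases hy : hermForm _ F q y u = 0
    swap
    · exact ⟨0, fun h => absurd h hy⟩
    obtain ⟨t, ht, ht1⟩ := hbad y hy
    obtain ⟨k, hk⟩ := hgen t t.ne_zero
    have : t = A ^ k := Units.ext (by simp [hA, hk])
    subst this
    obtain ⟨l, h1, h2⟩ := gd_prime _ hN0 (gd_mu_mem ι _ ((hpow N).2 dvd_rfl)) ht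
      (fun h => ht1 ((hpow k).2 h))
    exact ⟨l, fun _ => ⟨h1, h2⟩⟩
  choose f hf using hl
  set S : Finset (Fin (n + 3) → F) := Finset.univ.filter fun y => hermForm _ F q y u = 0 with hS
  have hcS : (q ^ 2) ^ (n + 2) ≤ S.card := by
    have h1 := LinearMap.finrank_range_add_finrank_ker (gdL q u)
    have h2 : finrank F (LinearMap.range (gdL q u)) ≤ 1 := by
      simpa using Submodule.finrank_le (LinearMap.range (gdL q u))
    simp only [finrank_fintype_fun_eq_card, Fintype.card_fin] at h1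
    have h3 : Nat.card (LinearMap.ker (gdL q u)) = S.card := by
      rw [← Nat.card_eq_finsetCard]
      exact Nat.card_congr (Equiv.subtypeEquivRight fun y => by simp [hS, gdL])
    rw [← h3, Module.natCard_eq_pow_finrank (K := F), hU.card_eq]
    exact Nat.pow_le_pow_right (by positivity) (by omega)
  have hω : N.primeFactors.card < q ^ (2 * n + 3) := by
    have h8 : q ^ 3 ≤ q ^ (2 * n + 3) := Nat.pow_le_pow_right (by omega) (by omega)
    have h9 : 2 ^ 3 ≤ q ^ 3 := Nat.pow_le_pow_left hq 3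
    refine gd_omega hN0 (by omega) ?_
    have h1 : Fintype.card K = q ^ 3 * q ^ (2 * n + 3) := by rw [hK]; ring
    have h2 : N ≤ (q + 1) * N := Nat.le_mul_of_pos_left _ (Nat.succ_pos q)
    have h3 := Nat.mul_le_mul_right (q ^ (2 * n + 3)) h8
    omega
  obtain ⟨l, hlN, hfib⟩ := Finset.exists_lt_card_fiber_of_mul_lt_card_of_maps_to (s := S)
    (t := N.primeFactors) (f := f) (n := q) (fun y hy => (hf y (by simpa [hS] using hy)).1) (by
      have h1 : (q ^ 2) ^ (n + 2) = q ^ (2 * n + 3) * q := by ring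
      have h2 := Nat.mul_lt_mul_of_pos_right hω (show 0 < q by omega)
      omega)
  obtain ⟨y0, hy0⟩ := Finset.card_pos.1 (lt_of_le_of_lt (Nat.zero_le _) hfib)
  have hlp := Nat.prime_of_mem_primeFactors hlN
  have hnot : ((A ^ (N / l) : Kˣ) : K) ^ (q + 1) ≠ 1 := by
    rw [Ne, hpow]
    intro h
    have h1 := Nat.div_lt_self (Nat.pos_of_ne_zero hN0) hlp.one_lt
    have h2 := Nat.div_pos (Nat.le_of_dvd (Nat.pos_of_ne_zero hN0) (Nat.dvd_of_mem_primeFactors hlN)) hlp.pos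
    exact absurd (Nat.le_of_dvd h2 h) (by omega)
  have hmem : ∀ y ∈ S.filter (fun y => f y = l), A ^ (N / l) ∈ gdS q ι (B + ou q p y + ou q y p) := by
    intro y hy
    obtain ⟨h1, h2⟩ := Finset.mem_filter.1 hy
    rw [← h2]
    exact (hf y (by simpa [hS] using h1)).2
  have hsub : S.filter (fun y => f y = l) ⊆
      (Finset.univ.filter fun κ : F => κ + σ κ = 0).image fun κ => y0 + κ • p := by
    intro y hy
    have h1 := hmem y hy
    have h2 := hmem y0 hy0
    rw [mem_gdS] at h1 h2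
    have e : ou q p (y - y0) + ou q (y - y0) p =
        (B + ou q p y + ou q y p) - (B + ou q p y0 + ou q y0 p) := by
      have e1 := ou_add_right (q := q) p (y - y0) y0
      have e2 := ou_add_left (q := q) (y - y0) y0 p
      rw [sub_add_cancel] at e1 e2
      rw [e1, e2]; abel
    by_cases hΔ : ou q p (y - y0) + ou q (y - y0) p = 0
    · obtain ⟨κ, hκ, hd⟩ := gd_line hp hΔ
      exact Finset.mem_image.2 ⟨κ, by simpa using hκ, by rw [← hd]; abel⟩
    refine absurd (gd_deg2 ι (by rw [cT_add, cT_ou, cT_ou]; exact add_comm _ _) hΔ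
      (gd_ker2 p (y - y0) fun x a1 a2 => by
        rw [add_mulVec, ou_mulVec, ou_mulVec, a1, a2, zero_smul, zero_smul, add_zero]) _ ?_) hnot
    rw [mem_gdS, e, mul_sub, sub_mul, h1, h2]
  have h1 := (Finset.card_le_card hsub).trans Finset.card_image_le
  have h2 := card_trace_fiber (F := F) (q := q) (a := 0) (map_zero _)
  rw [Nat.card_eq_fintype_card, Fintype.card_subtype] at h2
  omega

end Cfsg.Agent.CJ
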