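import Cfsg.Agent.CJ.Good
import Cfsg.Agent.CJ.Br

/-!
S4793: if `R` has a fixed vector, so has the Singer cycle. Let `Y = {x | ∀ z, ρ (rr z) x = x} ≠ ⊥`; it is invariant under `lev, up, nn` (they commute with `rr`), and `lev (z • 1)` fixes `Y` pointwise (`sc_eq`, `ZT`). Fix `Ψ` (`exists_gd`).
Case 1: `pj B x ≠ 0` for some `x ∈ Y`, `B ≠ 0` Hermitian (`pj_mem_sub`). By `good` and `lev_mem` we get `0 ≠ x' ∈ Y ∩ Wt B'` with `B'` good; `x'' = ∑_{t ≠ 0} ρ (lev (ι t)) x'` is fixed by all `lev (ι t)`, and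
`pj B' x'' = k • x'` with `k ≥ 1` the number of `t` stabilising `B'` (`pj_ne`, `pj_same`, `sing_alg`). Case 2: `Y ≤ U = Wt 0` (`sum_pj`). `τ u = ρ (hs u)` is additive on `U` (`hs_mul`); if some `hs u` moves some `x ∈ U`, `free_orbit` with
`r t = ρ (lev (ι t))`, `t ≠ 0`, `π t = (ι t⁻¹).mulVecLin` (`lev_hs`; free since `ι (t⁻¹ - 1)` is onto) gives a nonzero fixed vector `∑ r t y`. Otherwise `hs u` fixes `Y`, so `{g | ρ g Y ⊆ Y}` is everything (`gen_top`), the pointwise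
stabiliser of `Y` is normal, contains the scalars and the non-scalar `rr z` (`z ≠ 1`), so is everything (`normal_top`).
-/

set_option autoImplicit false
set_option linter.unusedSectionVars false

namespace Cfsg.Agent.CJ

open Module Matrix Cfsg Cfsg.Agent.Class.U Cfsg.Agent.KSG

variable {F : Type*} [Field F] {q : ℕ} [hU : UF F q] {m : ℕ}

local notation "σ" => conj F q
local notation "𝐡" => hermForm m F q

variable [Fintype F] [DecidableEq F] {M : Type*} [AddCommGroup M] [Module ℂ M]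
  {Ψ : AddChar F ℂ} {ρ : Ga F q m →* End ℂ M}
variable {K : Type*} [Field K] [Fintype K] [Algebra F K] (ι : K →ₐ[F] Matrix (Fin m) (Fin m) F)

/-- the fixed space of `R` -/
def maY (ρ : Ga F q m →* End ℂ M) : Submodule ℂ M where
  carrier := {x | ∀ z : F, z * σ z = 1 → ρ (rr q m z) x = x}
  add_mem' := fun {a b} ha hb z hz => by rw [map_add, ha z hz, hb z hz]
  zero_mem' := fun z _ => map_zero _
  smul_mem' := fun c x hx z hz => by rw [map_smul, hx z hz]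

theorem ma_inv (g : Ga F q m) (x : M) : ρ g⁻¹ (ρ g x) = x := by
  rw [wt_rho_mul, inv_mul_cancel, map_one]; rfl

theorem ma_comm {g : Ga F q m} (h : ∀ z : F, z * σ z = 1 → g * rr q m z = rr q m z * g) {x : M}
    (hx : x ∈ maY ρ) : ρ g x ∈ maY ρ := fun z hz => by
  rw [wt_rho_mul, ← h z hz, ← wt_rho_mul, hx z hz]

theorem ma_sc (hZ : ZT ρ) {z : F} (hz : z * σ z = 1) {x : M} (hx : x ∈ maY ρ) :
    ρ (lev q (z • (1 : Matrix (Fin m) (Fin m) F))) x = x := by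
  conv_lhs => rw [← hx z hz]
  rw [wt_rho_mul, ← sc_eq hz, hZ z hz]; rfl

open Classical in
theorem ma_sum (y : M) {t : K} (ht : t ≠ 0) :
    ρ (lev q (ι t)) (∑ s ∈ Finset.univ.erase (0 : K), ρ (lev q (ι s)) y) =
      ∑ s ∈ Finset.univ.erase (0 : K), ρ (lev q (ι s)) y := by
  rw [map_sum]
  refine Finset.sum_equiv (Equiv.mulLeft₀ t ht) (fun s => by simp [ht]) fun s hs => ?_
  rw [wt_rho_mul, ← lev_mul (sing_unit ι ht) (sing_unit ι (Finset.ne_of_mem_erase hs)), ← map_mul]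
  rfl

theorem ma_one (hK : Fintype.card K = (q ^ 2) ^ m) (hZ : ZT ρ) (hΨ : Gd q Ψ)
    {B : Matrix (Fin m) (Fin m) F} (hB : cT q B = B) (B0 : B ≠ 0) {x : M} (hx : x ∈ maY ρ)
    (hw : x ∈ Wt Ψ ρ B) (x0 : x ≠ 0) :
    ∃ x : M, x ≠ 0 ∧ ∀ t : K, t ≠ 0 → ρ (lev q (ι t)) x = x := by
  classical
  obtain ⟨X, hX, hg⟩ := good ι hK hB B0
  have h1 := ma_comm (fun z hz => lev_rr hX hz) hx
  have h2 := lev_mem hX hw
  have h3 := herm_conj_inv X hB
  have h4 : ρ (lev q X) x ≠ 0 := fun e => x0 (by rw [← ma_inv (ρ := ρ) (lev q X) x, e, map_zero])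
  generalize ρ (lev q X) x = y at h1 h2 h4
  generalize cT q X⁻¹ * B * X⁻¹ = C at hg h2 h3
  refine ⟨_, fun e => ?_, fun t ht => ma_sum ι y ht⟩
  have h5 := congrArg (pj Ψ ρ C) e
  rw [map_sum, map_zero, Finset.sum_congr rfl
    (g := fun t => if C = cT q (ι t)⁻¹ * C * (ι t)⁻¹ then y else 0) fun t ht => by
      have t0 := Finset.ne_of_mem_erase ht
      split_ifs with k
      · obtain ⟨z, hz, rfl⟩ := hg t t0 k.symm
        rw [sing_alg, ma_sc hZ hz h1, pj_same h2]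
      · exact pj_ne hΨ h3 (herm_conj_inv _ h3) k (lev_mem (sing_unit ι t0) h2),
    ← Finset.sum_filter, Finset.sum_const, ← Nat.cast_smul_eq_nsmul ℂ, smul_eq_zero] at h5
  refine h4 (h5.resolve_left (Nat.cast_ne_zero.2 (Finset.card_ne_zero_of_mem (a := 1) ?_)))
  simp [cT_one]

theorem ma_wt0 {x : M} (hx : x ∈ Wt Ψ ρ 0) {S : Matrix (Fin m) (Fin m) F} (hS : cT q S = -S) :
    ρ (up q S) x = x := by
  simpa using hx S hS

theorem ma_two {x : M} (hx : x ∈ Wt Ψ ρ 0) {u : Fin m → F} (hu : ρ (hs q u) x ≠ x) :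
    ∃ x : M, x ≠ 0 ∧ ∀ t : K, t ≠ 0 → ρ (lev q (ι t)) x = x := by
  classical
  obtain ⟨y, -, a, h⟩ := free_orbit (Wt Ψ ρ 0) (fun u : Fin m → F => ρ (hs q u))
    (fun a x hx => hs_mem a hx) (fun x _ => by rw [hs_zero, map_one]; rfl)
    (fun a b x hx => by
      rw [wt_rho_mul, hs_mul, ← wt_rho_mul, ma_wt0 (hs_mem _ hx) (skew_hs a b)])
    (Finset.univ.erase (0 : K)) (fun t => ρ (lev q (ι t)))
    (fun t => (Matrix.mulVecLin (ι t⁻¹)).toAddMonoidHom)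
    (fun t ht x hx => by simpa using lev_mem (sing_unit ι (Finset.ne_of_mem_erase ht)) hx)
    (fun t ht a x _ => by
      have t0 := Finset.ne_of_mem_erase ht
      rw [wt_rho_mul, wt_rho_mul, lev_hs (sing_unit ι t0)]
      simp only [LinearMap.toAddMonoidHom_coe, mulVecLin_apply, mulVec_mulVec]
      rw [← map_mul, mul_inv_cancel₀ t0, map_one, one_mulVec])
    (z0 := 1) (by simp) (fun x _ => by rw [map_one, lev_one, map_one]; rfl)
    (fun χ hχ t ht h => by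
      by_contra t1
      have h1 : t⁻¹ - 1 ≠ 0 := sub_ne_zero.2 (mt inv_eq_one.1 t1)
      refine hχ (AddChar.ext _ _ fun b => ?_)
      have h2 := h (ι (t⁻¹ - 1)⁻¹ *ᵥ b)
      have h3 : ι t⁻¹ *ᵥ ι (t⁻¹ - 1)⁻¹ *ᵥ b = b + ι (t⁻¹ - 1)⁻¹ *ᵥ b := by
        rw [mulVec_mulVec, ← map_mul, show t⁻¹ * (t⁻¹ - 1)⁻¹ = 1 + (t⁻¹ - 1)⁻¹ by
          linear_combination mul_inv_cancel₀ h1, map_add, map_one, add_mulVec, one_mulVec]
      simp only [LinearMap.toAddMonoidHom_coe, mulVecLin_apply] at h2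
      rw [h3, AddChar.map_add_eq_mul] at h2
      exact (mul_eq_right₀ (AddChar.val_isUnit χ _).ne_zero).1 h2)
    hx hu
  exact ⟨_, fun e => h (by rw [e, map_zero]), fun t ht => ma_sum ι y ht⟩

theorem ma_three (hy : Hyp q m) (hZ : ZT ρ) (h : ∀ u, ∀ x ∈ maY ρ, ρ (hs q u) x = x) (g : Ga F q m) :
    ∀ x ∈ maY ρ, ρ g x = x := by
  let H : Subgroup (Ga F q m) :=
    { carrier := {g | ∀ x, x ∈ maY ρ ↔ ρ g x ∈ maY ρ}
      mul_mem' := fun {a b} ha hb x => by rw [← wt_rho_mul]; exact (hb x).trans (ha _)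
      one_mem' := fun x => by rw [map_one]; rfl
      inv_mem' := fun {a} ha x => by
        have := ha (ρ a⁻¹ x)
        rw [wt_rho_mul, mul_inv_cancel, map_one] at this
        exact this.symm }
  let N : Subgroup (Ga F q m) :=
    { carrier := {g | ∀ x ∈ maY ρ, ρ g x = x}
      mul_mem' := fun {a b} ha hb x hx => by rw [← wt_rho_mul, hb x hx, ha x hx]
      one_mem' := fun x _ => by rw [map_one]; rfl
      inv_mem' := fun {a} ha x hx => by
        conv_lhs => rw [← ha x hx]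
        exact ma_inv a x }
  have k1 : ∀ g, (∀ z : F, z * σ z = 1 → g * rr q m z = rr q m z * g) → g ∈ H := fun g hg x =>
    ⟨ma_comm hg, fun hx => ma_inv (ρ := ρ) g x ▸ ma_comm (fun z hz => (Commute.inv_left (hg z hz)).eq) hx⟩
  have k2 : N ≤ H := fun g hg x => ⟨fun hx => (hg x hx).symm ▸ hx, fun hx => by
    rw [← ma_inv (ρ := ρ) g x, N.inv_mem hg _ hx]; exact hx⟩
  have k3 : H = ⊤ := gen_top hy H (fun X hX => k1 _ fun z hz => lev_rr hX hz)
    (fun S hS => k1 _ fun z hz => (rr_up hz hS).symm) (fun u => k2 (h u))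
    (fun z hz => k2 fun x hx => hx z hz) fun w w' hw => k1 _ fun z hz => nn_rr hw hz
  have : N.Normal := ⟨fun n hn g x hx => by
    rw [← wt_rho_mul, ← wt_rho_mul, hn _ ((k3.ge (Subgroup.mem_top g⁻¹) x).1 hx), wt_rho_mul,
      mul_inv_cancel, map_one]; rfl⟩
  obtain ⟨z, hz, z1⟩ := exists_norm_one_ne_one (F := F) (q := q)
  refine (normal_top hy N (fun z hz x _ => by rw [hZ z hz]; rfl)
    ⟨rr q m z, fun x hx => hx z hz, fun z' hz' e => z1 ?_⟩).ge (Subgroup.mem_top g)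
  have h1 := rr_app (m := m) hz (fun _ => 1, 1, 0)
  rw [e, Herm.sc_app _ hz'] at h1
  have h2 := congrFun (congrArg Prod.fst h1) ⟨0, hy.1⟩
  have h3 := congrArg (fun x => x.2.1) h1
  simp only [Prod.smul_fst, Prod.smul_snd, Pi.smul_apply, smul_eq_mul, mul_one] at h2 h3
  rw [← h3, h2]

theorem main_A (hy : Hyp q m) (hK : Fintype.card K = (q ^ 2) ^ m) (hZ : ZT ρ) (hR : ¬ RF ρ) :
    ∃ x : M, x ≠ 0 ∧ ∀ t : K, t ≠ 0 → ρ (lev q (ι t)) x = x := by
  obtain ⟨Ψ, hΨ⟩ := exists_gd (F := F) (q := q)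
  by_cases h1 : ∃ x ∈ maY ρ, ∃ B ∈ hmS F q m, B ≠ 0 ∧ pj Ψ ρ B x ≠ 0
  · obtain ⟨x, hx, B, hB, B0, h⟩ := h1
    exact ma_one ι hK hZ hΨ (mem_hmS.1 hB) B0 (pj_mem_sub (maY ρ)
      (fun S hS x hx => ma_comm (fun z hz => (rr_up hz hS).symm) hx) B hx) (pj_mem B x) h
  push Not at h1
  by_cases h2 : ∃ x ∈ Wt Ψ ρ 0, ∃ u, ρ (hs q u) x ≠ x
  · obtain ⟨x, hx, u, hu⟩ := h2
    exact ma_two ι hx hu
  push Not at h2
  obtain ⟨x, hx, x0⟩ : ∃ x ∈ maY ρ, x ≠ 0 := by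
    by_contra! k
    exact hR k
  refine ⟨x, x0, fun t _ => ma_three hy hZ (fun u y hy => h2 y ?_ u) _ x hx⟩
  rw [← sum_pj (ρ := ρ) hΨ y, Finset.sum_eq_single_of_mem 0 (mem_hmS.2 cT_zero) (h1 y hy)]
  exact pj_mem 0 y

end Cfsg.Agent.CJ
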