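import Cfsg.Agent.CJ.Defs

/-!
S4793: formulas for the elements of a general isometry group, matrix identities, and the `*_app`
formulas of the model elements. All proofs are direct computations: `Herm.el_app` (check the isometry
property with `add_left, smul_left, add_right, smul_right, conj_f`; `field_simp`, `ring`,
`linear_combination`), `Herm.iso_ext`.
`exists_move`: if `β x (x - y) ≠ 0`, with `d = x - y`, `c = -(β x d)⁻¹` the map `u ↦ u + (c * β u d) • d` is an
isometry (`c + σ c + c σ c β d d = 0`, as `β d d = β x d + σ (β x d)`) sending `x` to `y`; otherwise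
`β x y = β x x`, replace `y` by `z • y` (`z ≠ 1` of norm one, `exists_norm_one_ne_one`) and compose with
`β.sc (σ z)`.
-/

set_option autoImplicit false
set_option linter.unusedSectionVars false

namespace Cfsg.Agent.CJ

open Module Matrix Cfsg Cfsg.Agent.Class.U Cfsg.Agent.KSG

variable {F : Type*} [Field F] {q : ℕ} [hU : UF F q] {m : ℕ}

local notation "σ" => conj F q
local notation "𝐡" => hermForm m F q

section
variable {V : Type*} [AddCommGroup V] [Module F V] [FiniteDimensional F V] (β : Herm F q V)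

theorem Herm.ra_gen {e : V} {c : F} (hc : c + σ c + c * σ c * β.f e e = 0) (x : V) :
    (β.el (LinearMap.id + c • (β.lf e).smulRight e)).1 x = x + (c * β.f x e) • e := by
  have hap : ∀ x, (LinearMap.id + c • (β.lf e).smulRight e : V →ₗ[F] V) x =
      x + (c * β.f x e) • e := fun x => by
    simp only [LinearMap.add_apply, LinearMap.id_apply, LinearMap.smul_apply,
      LinearMap.smulRight_apply, Herm.lf_apply, smul_smul]
  rw [β.el_app, hap]
  intro x y
  simp only [hap, β.add_left, β.add_right, β.smul_left, β.smul_right, map_mul, β.conj_f]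
  linear_combination (β.f x e * β.f e y) * hc

theorem Herm.ra_move {x y : V} (h : β.f x x = β.f y y) (h1 : β.f x (x - y) ≠ 0) :
    ∃ g : β.Iso, g.1 x = y := by
  have h2 : σ (β.f x (x - y)) ≠ 0 := conj_ne_zero.2 h1
  have h3 : β.f (x - y) (x - y) = β.f x (x - y) + σ (β.f x (x - y)) := by
    rw [β.conj_f]
    simp only [β.sub_left, β.sub_right]
    linear_combination -h
  refine ⟨β.el (LinearMap.id + (-(β.f x (x - y))⁻¹) • (β.lf (x - y)).smulRight (x - y)), ?_⟩
  rw [β.ra_gen]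
  · rw [neg_mul, inv_mul_cancel₀ h1, neg_one_smul]; abel
  · rw [h3, map_neg, map_inv₀]
    field_simp
    ring

theorem Herm.rf_app {e : V} (he : β.f e e ≠ 0) {z : F} (hz : z * σ z = 1) (x : V) :
    (β.rf e z).1 x = x + ((z - 1) / β.f e e * β.f x e) • e := by
  refine β.ra_gen ?_ x
  have h1 := β.conj_f e e
  rw [map_div₀, map_sub, map_one, h1]
  field_simp
  linear_combination hz

theorem Herm.tr_app {e : V} (he : β.f e e = 0) {c : F} (hc : c + σ c = 0) (x : V) :
    (β.tr e c).1 x = x + (c * β.f x e) • e := by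
  refine β.ra_gen ?_ x
  rw [he, hc]; ring

theorem Herm.sc_app {z : F} (hz : z * σ z = 1) (x : V) : (β.sc z).1 x = z • x := by
  rw [Herm.sc, β.el_app]
  · rfl
  · intro x y
    simp only [LinearMap.smul_apply, LinearMap.id_apply, β.smul_left, β.smul_right]
    rw [← mul_assoc, hz, one_mul]

theorem Herm.sc_one : β.sc 1 = 1 := by
  refine Herm.iso_ext fun x => ?_
  rw [β.sc_app (by simp), one_smul, Herm.one_app]

theorem Herm.sc_mul {z z' : F} (hz : z * σ z = 1) (hz' : z' * σ z' = 1) :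
    β.sc (z * z') = β.sc z * β.sc z' := by
  refine Herm.iso_ext fun x => ?_
  rw [β.sc_app (by rw [map_mul]; linear_combination (z' * σ z') * hz + hz'), Herm.mul_app,
    β.sc_app hz, β.sc_app hz', mul_smul]

theorem Herm.sc_comm {z : F} (hz : z * σ z = 1) (g : β.Iso) : β.sc z * g = g * β.sc z := by
  refine Herm.iso_ext fun x => ?_
  rw [Herm.mul_app, Herm.mul_app, β.sc_app hz, β.sc_app hz, map_smul]

theorem Herm.mul_rf (g : β.Iso) {e : V} (he : β.f e e ≠ 0) {z : F} (hz : z * σ z = 1) :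
    g * β.rf e z = β.rf (g.1 e) z * g := by
  refine Herm.iso_ext fun x => ?_
  have he' : β.f (g.1 e) (g.1 e) ≠ 0 := by rwa [Herm.iso_f]
  rw [Herm.mul_app, Herm.mul_app, β.rf_app he hz, β.rf_app he' hz, map_add, map_smul,
    Herm.iso_f, Herm.iso_f]

theorem Herm.rf_smul {e : V} (he : β.f e e ≠ 0) {z : F} (hz : z * σ z = 1) {c : F} (hc : c ≠ 0) :
    β.rf (c • e) z = β.rf e z := by
  refine Herm.iso_ext fun x => ?_
  have hc' : σ c ≠ 0 := conj_ne_zero.2 hc
  have he' : β.f (c • e) (c • e) ≠ 0 := by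
    rw [β.smul_left, β.smul_right]; exact mul_ne_zero hc (mul_ne_zero hc' he)
  rw [β.rf_app he hz, β.rf_app he' hz, smul_smul, β.smul_left, β.smul_right, β.smul_right]
  congr 2
  field_simp

theorem Herm.mul_tr (g : β.Iso) {e : V} (he : β.f e e = 0) {c : F} (hc : c + σ c = 0) :
    g * β.tr e c = β.tr (g.1 e) c * g := by
  refine Herm.iso_ext fun x => ?_
  have he' : β.f (g.1 e) (g.1 e) = 0 := by rwa [Herm.iso_f]
  rw [Herm.mul_app, Herm.mul_app, β.tr_app he hc, β.tr_app he' hc, map_add, map_smul,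
    Herm.iso_f]

theorem Herm.exists_move {x y : V} (h : β.f x x = β.f y y) (hx : β.f x x ≠ 0) :
    ∃ g : β.Iso, g.1 x = y := by
  by_cases h1 : β.f x (x - y) = 0
  · obtain ⟨z, hz, hz1⟩ := exists_norm_one_ne_one (F := F) (q := q)
    have hz' : σ z * σ (σ z) = 1 := by rw [conj_conj, mul_comm, hz]
    have h2 : β.f x x = β.f (z • y) (z • y) := by
      rw [β.smul_left, β.smul_right, ← mul_assoc, hz, one_mul, h]
    have h3 : β.f x (x - z • y) ≠ 0 := by
      rw [β.sub_right] at h1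
      rw [β.sub_right, β.smul_right, ← sub_eq_zero.1 h1]
      intro h4
      have h5 : (1 - σ z) * β.f x x = 0 := by linear_combination h4
      rcases mul_eq_zero.1 h5 with h6 | h6
      · apply hz1
        have h7 : σ z = 1 := by linear_combination -h6
        rw [h7, mul_one] at hz
        exact hz
      · exact hx h6
    obtain ⟨g, hg⟩ := β.ra_move h2 h3
    refine ⟨β.sc (σ z) * g, ?_⟩
    rw [Herm.mul_app, hg, β.sc_app hz', smul_smul, mul_comm, hz, one_smul]
  · exact β.ra_move h h1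

end

theorem herm_mulVec (X : Matrix (Fin m) (Fin m) F) (u v : Fin m → F) :
    𝐡 (X *ᵥ u) v = 𝐡 u (cT q X *ᵥ v) := by
  simp only [herm_eq, mulVec, dotProduct, cT_apply, map_sum, map_mul, conj_conj, Finset.sum_mul,
    Finset.mul_sum]
  rw [Finset.sum_comm]
  exact Finset.sum_congr rfl fun i _ => Finset.sum_congr rfl fun j _ => by ring

theorem ou_mulVec (u v x : Fin m → F) : ou q u v *ᵥ x = 𝐡 x v • u := by
  ext i
  simp only [ou, herm_eq, mulVec, dotProduct, vecMulVec_apply, Function.comp_apply, Pi.smul_apply,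
    smul_eq_mul, Finset.sum_mul]
  exact Finset.sum_congr rfl fun j _ => by ring

theorem cT_ou (u v : Fin m → F) : cT q (ou q u v) = ou q v u := by
  exact cT_vecMulVec u v

theorem mul_ou (X : Matrix (Fin m) (Fin m) F) (u v : Fin m → F) :
    X * ou q u v = ou q (X *ᵥ u) v := by
  rw [ou, ou, Matrix.mul_vecMulVec]

theorem ou_mul (X : Matrix (Fin m) (Fin m) F) (u v : Fin m → F) :
    ou q u v * X = ou q u (cT q X *ᵥ v) := by
  ext i j
  simp only [ou, Matrix.mul_apply, vecMulVec_apply, Function.comp_apply, mulVec, dotProduct,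
    cT_apply, map_sum, map_mul, conj_conj, Finset.mul_sum]
  exact Finset.sum_congr rfl fun k _ => by ring

theorem trace_ou (u v : Fin m → F) : (ou q u v).trace = 𝐡 u v := by
  simp only [ou, Matrix.trace, Matrix.diag, vecMulVec_apply, Function.comp_apply, herm_eq]

theorem ou_smul_left (c : F) (u v : Fin m → F) : ou q (c • u) v = c • ou q u v := by
  ext i j
  simp only [ou, vecMulVec_apply, Function.comp_apply, Pi.smul_apply, Matrix.smul_apply,
    smul_eq_mul]
  ring

theorem ou_smul_right (c : F) (u v : Fin m → F) : ou q u (c • v) = σ c • ou q u v := by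
  ext i j
  simp only [ou, vecMulVec_apply, Function.comp_apply, Pi.smul_apply, Matrix.smul_apply,
    smul_eq_mul, map_mul]
  ring

theorem ou_add_left (u u' v : Fin m → F) : ou q (u + u') v = ou q u v + ou q u' v := by
  ext i j
  simp only [ou, vecMulVec_apply, Function.comp_apply, Pi.add_apply, Matrix.add_apply]
  ring

theorem ou_add_right (u v v' : Fin m → F) : ou q u (v + v') = ou q u v + ou q u v' := by
  ext i j
  simp only [ou, vecMulVec_apply, Function.comp_apply, Pi.add_apply, Matrix.add_apply, map_add]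
  ring

theorem ou_self_eq_iff {b b' : Fin m → F} :
    ou q b b = ou q b' b' ↔ ∃ z : F, z * σ z = 1 ∧ b' = z • b := by
  constructor
  · intro h
    have hij : ∀ i j, b i * σ (b j) = b' i * σ (b' j) := fun i j => congrFun (congrFun h i) j
    by_cases hb : b = 0
    · refine ⟨1, by simp, ?_⟩
      ext i
      have h1 := hij i i
      rw [hb] at h1 ⊢
      simp only [Pi.zero_apply, zero_mul] at h1
      rcases mul_eq_zero.1 h1.symm with h2 | h2
      · simpa using h2
      · simpa using conj_eq_zero.1 h2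
    · obtain ⟨j, hj⟩ := Function.ne_iff.1 hb
      have hj0 : b j ≠ 0 := hj
      have hj1 : σ (b j) ≠ 0 := conj_ne_zero.2 hj0
      have hjj := hij j j
      have hj2 : σ (b' j) ≠ 0 := by
        intro h0
        rw [h0, mul_zero] at hjj
        exact mul_ne_zero hj0 hj1 hjj
      refine ⟨b' j / b j, ?_, ?_⟩
      · rw [map_div₀]
        field_simp
        exact hjj.symm
      · ext i
        have h1 := hij i j
        simp only [Pi.smul_apply, smul_eq_mul]
        field_simp
        apply mul_right_cancel₀ hj2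
        linear_combination (b i) * hjj - (b j) * h1
  · rintro ⟨z, hz, rfl⟩
    ext i j
    simp only [ou, vecMulVec_apply, Function.comp_apply, Pi.smul_apply, smul_eq_mul, map_mul]
    linear_combination (-(b i * σ (b j))) * hz

theorem ou_self_eq_zero {b : Fin m → F} : ou q b b = 0 ↔ b = 0 := by
  constructor
  · intro h
    ext i
    have h1 : b i * σ (b i) = 0 := congrFun (congrFun h i) i
    rcases mul_eq_zero.1 h1 with h2 | h2
    · exact h2
    · exact conj_eq_zero.1 h2
  · rintro rfl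
    ext i j
    simp [ou, vecMulVec_apply]

theorem det_one_add_ou (u v : Fin m → F) : (1 + ou q u v).det = 1 + 𝐡 u v := by
  exact det_rk1 (q := q) u v

theorem inv_one_add_ou {u v : Fin m → F} (h : 1 + 𝐡 u v ≠ 0) :
    (1 + ou q u v)⁻¹ = 1 - (1 + 𝐡 u v)⁻¹ • ou q u v := by
  apply Matrix.inv_eq_right_inv
  have h1 : ou q u v * ou q u v = 𝐡 u v • ou q u v := by
    rw [mul_ou, ou_mulVec, ou_smul_left]
  rw [mul_sub, mul_one, Matrix.mul_smul, add_mul, one_mul, h1]
  have h2 : ou q u v + 𝐡 u v • ou q u v = (1 + 𝐡 u v) • ou q u v := by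
    rw [add_smul, one_smul]
  rw [h2, smul_smul, inv_mul_cancel₀ h, one_smul, add_sub_cancel_right]

theorem cT_inv (X : Matrix (Fin m) (Fin m) F) : cT q X⁻¹ = (cT q X)⁻¹ := by
  by_cases hX : IsUnit X.det
  · symm
    apply Matrix.inv_eq_right_inv
    rw [← cT_mul, Matrix.nonsing_inv_mul _ hX, cT_one]
  · have hX' : ¬ IsUnit (cT q X).det := by
      rw [det_cT, isUnit_iff_ne_zero, conj_ne_zero, ← isUnit_iff_ne_zero]
      exact hX
    rw [Matrix.nonsing_inv_apply_not_isUnit _ hX, Matrix.nonsing_inv_apply_not_isUnit _ hX', cT_zero]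

theorem lev_app {X : Matrix (Fin m) (Fin m) F} (hX : IsUnit X.det) (x : Sp F m) :
    (lev q X).1 x = (X *ᵥ x.1, x.2.1, cT q X⁻¹ *ᵥ x.2.2) := by
  rw [lev, Herm.el_app]
  · rfl
  · intro x y
    change 𝐡 (X *ᵥ x.1) (cT q X⁻¹ *ᵥ y.2.2) + x.2.1 * σ y.2.1 + 𝐡 (cT q X⁻¹ *ᵥ x.2.2) (X *ᵥ y.1) = _
    rw [fm_f, herm_mulVec, herm_mulVec, cT_cT, mulVec_mulVec, mulVec_mulVec, ← cT_mul,
      Matrix.nonsing_inv_mul _ hX, cT_one, one_mulVec, one_mulVec]

theorem up_app {S : Matrix (Fin m) (Fin m) F} (hS : cT q S = -S) (x : Sp F m) :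
    (up q S).1 x = (x.1 + S *ᵥ x.2.2, x.2.1, x.2.2) := by
  rw [up, Herm.el_app]
  · rfl
  · intro x y
    change 𝐡 (x.1 + S *ᵥ x.2.2) y.2.2 + x.2.1 * σ y.2.1 + 𝐡 x.2.2 (y.1 + S *ᵥ y.2.2) = _
    rw [fm_f, herm_add_left, herm_add_right, herm_mulVec, hS, neg_mulVec, herm_neg_right]
    ring

theorem hs_app (u : Fin m → F) (x : Sp F m) :
    (hs q u).1 x = (x.1 + (x.2.1 - th F q * 𝐡 x.2.2 u) • u, x.2.1 - 𝐡 x.2.2 u, x.2.2) := by
  rw [hs, Herm.el_app]
  · rfl
  · intro x y
    change 𝐡 (x.1 + (x.2.1 - th F q * 𝐡 x.2.2 u) • u) y.2.2 +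
      (x.2.1 - 𝐡 x.2.2 u) * σ (y.2.1 - 𝐡 y.2.2 u) +
      𝐡 x.2.2 (y.1 + (y.2.1 - th F q * 𝐡 y.2.2 u) • u) = _
    have ht := th_spec (F := F) (q := q)
    simp only [fm_f, herm_add_left, herm_add_right, herm_smul_left, herm_smul_right, map_sub,
      map_mul, herm_conj]
    linear_combination (-(𝐡 x.2.2 u * 𝐡 u y.2.2)) * ht

theorem rr_app {z : F} (hz : z * σ z = 1) (x : Sp F m) :
    (rr q m z).1 x = (x.1, z * x.2.1, x.2.2) := by
  rw [rr, Herm.el_app]
  · rfl
  · intro x y
    change 𝐡 x.1 y.2.2 + (z * x.2.1) * σ (z * y.2.1) + 𝐡 x.2.2 y.1 = _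
    rw [fm_f, map_mul]
    linear_combination (x.2.1 * σ y.2.1) * hz

theorem nn_app {w w' : Fin m → F} (hw : 𝐡 w w' = 1) (x : Sp F m) :
    (nn q w w').1 x = (x.1 + (𝐡 x.2.2 w - 𝐡 x.1 w') • w, x.2.1,
      x.2.2 + (𝐡 x.1 w' - 𝐡 x.2.2 w) • w') := by
  rw [nn, Herm.el_app]
  · rfl
  · intro x y
    change 𝐡 (x.1 + (𝐡 x.2.2 w - 𝐡 x.1 w') • w) (y.2.2 + (𝐡 y.1 w' - 𝐡 y.2.2 w) • w') +
      x.2.1 * σ y.2.1 +
      𝐡 (x.2.2 + (𝐡 x.1 w' - 𝐡 x.2.2 w) • w') (y.1 + (𝐡 y.2.2 w - 𝐡 y.1 w') • w) = _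
    have hw' : 𝐡 w' w = 1 := herm_comm_one hw
    simp only [fm_f, herm_add_left, herm_add_right, herm_smul_left, herm_smul_right, map_sub,
      herm_conj, hw, hw']
    ring

theorem skew_tv (w : Fin m → F) {c : F} (hc : c + σ c = 0) :
    cT q (c • ou q w w) = -(c • ou q w w) := by
  rw [cT_smul, cT_ou, ← neg_smul, eq_neg_of_add_eq_zero_right hc]

theorem tv_app (w : Fin m → F) {c : F} (hc : c + σ c = 0) (x : Sp F m) :
    (tv q w c).1 x = (x.1 + (c * 𝐡 x.2.2 w) • w, x.2.1, x.2.2) := by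
  rw [tv, up_app (skew_tv w hc), smul_mulVec, ou_mulVec, smul_smul]

theorem det_dl {w w' : Fin m → F} (hw : 𝐡 w w' = 1) (a : F) :
    (1 + (a - 1) • ou q w w').det = a := by
  rw [← ou_smul_left, det_one_add_ou, herm_smul_left, hw]
  ring

theorem dl_app {w w' : Fin m → F} (hw : 𝐡 w w' = 1) {a : F} (ha : a ≠ 0) (x : Sp F m) :
    (dl q w w' a).1 x = (x.1 + ((a - 1) * 𝐡 x.1 w') • w, x.2.1,
      x.2.2 + (((σ a)⁻¹ - 1) * 𝐡 x.2.2 w) • w') := by
  have hd : IsUnit (1 + (a - 1) • ou q w w').det := by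
    rw [det_dl hw]; exact isUnit_iff_ne_zero.2 ha
  have ha' : σ a ≠ 0 := conj_ne_zero.2 ha
  have h1 : 1 + 𝐡 ((a - 1) • w) w' = a := by rw [herm_smul_left, hw]; ring
  rw [dl, lev_app hd, ← ou_smul_left, inv_one_add_ou (by rwa [h1]), h1, cT_sub, cT_one, cT_smul,
    cT_ou, add_mulVec, one_mulVec, ou_mulVec, sub_mulVec, one_mulVec, smul_mulVec, ou_mulVec,
    herm_smul_right, smul_smul, smul_smul, sub_eq_add_neg x.2.2, ← neg_smul, map_inv₀, map_sub,
    map_one]
  have h2 : -((σ a)⁻¹ * ((σ a - 1) * 𝐡 x.2.2 w)) = ((σ a)⁻¹ - 1) * 𝐡 x.2.2 w := by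
    field_simp
    ring
  rw [h2, mul_comm (𝐡 x.1 w')]

end Cfsg.Agent.CJ
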