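import Cfsg.Agent.CJ.RelB

/-!
S4793: a Singer cycle `ι : K →ₐ Matrix`, `|K| = |F|^m`, and the centraliser of `lev (ι a)`.
`exists_singer`: a field extension of degree `m` (`FiniteField.Extension F p m`, or `GaloisField`; cf. the library) and `Algebra.leftMulMatrix` of a basis indexed by `Fin m`.
`sing_bij`, `sing_bij'`: additive and injective (`ι t` is invertible for `t ≠ 0`), then cardinalities. `sing_comm`: `X` commutes with all `ι t`; pick `v ≠ 0`, `t` with `ι t v = X v`; then `X (ι s v) = ι s (ι t v) = ι t (ι s v)`.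
`cen`: let `c = lev (ι a)`; `a ≠ 1` (`|K| ≥ 9`: `Hyp` excludes `m = 1, q = 2`), so the fixed space of `c` is `F (0,1,0)` (`ι a - 1 = ι (a-1)` and `cT (ι a)⁻¹ - 1` are invertible); `g` preserves it: `g (0,1,0) = (0,z,0)`,
`z σz = 1`, so `g` preserves its orthogonal complement `{s = 0}`. `g` commutes with all `lev (ι t)`. The block `C : W → W'`, `C x = (g (x,0,0)).2.2` satisfies `C (ι t x) = cT (ι t)⁻¹ (C x)` for `t ≠ 0`; if `C x ≠ 0` then for `t ∉ {0,-1}`
additivity gives `cT (ι ((t+1)⁻¹ - t⁻¹ - 1)) (C x) = 0`, so `(t+1)⁻¹ = t⁻¹ + 1`, `t² + t + 1 = 0` for all `t ∉ {0,-1}`, so `|K| ≤ 4`: contradiction. Likewise the block `W' → W` vanishes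
(`C' (cT (ι t) y) = (ι t)⁻¹ (C' y)`). The block `W → W` is a matrix commuting with `ι a`, so `= ι t`, `t ≠ 0`; the block `W' → W'` is then determined by the form.
-/

set_option autoImplicit false
set_option linter.unusedSectionVars false

namespace Cfsg.Agent.CJ

open Module Matrix Cfsg Cfsg.Agent.Class.U Cfsg.Agent.KSG

variable {F : Type*} [Field F] {q : ℕ} [hU : UF F q] {m : ℕ}

local notation "σ" => conj F q
local notation "𝐡" => hermForm m F q

universe u

theorem exists_singer {F : Type u} [Field F] {q : ℕ} [UF F q] {m : ℕ} (hm : 1 ≤ m) :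
    ∃ (K : Type u) (_ : Field K) (_ : Fintype K) (_ : Algebra F K)
      (_ : K →ₐ[F] Matrix (Fin m) (Fin m) F), Fintype.card K = (q ^ 2) ^ m := by
  have := UF.finite (F := F) (q := q)
  obtain ⟨p, hp⟩ := CharP.exists F
  have : Fact p.Prime := ⟨CharP.char_is_prime F p⟩
  have : NeZero m := ⟨by omega⟩
  let E := FiniteField.Extension F p m
  have hE : finrank F E = m := FiniteField.finrank_extension F p m
  let b : Basis (Fin m) F E := Module.finBasisOfFinrankEq F E hE
  let _ : Fintype (ULift.{u} E) := Fintype.ofFinite _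
  refine ⟨ULift.{u} E, inferInstance, inferInstance, inferInstance,
    (Algebra.leftMulMatrix b).comp (ULift.algEquiv (R := F) (A := E)).toAlgHom, ?_⟩
  rw [← Nat.card_eq_fintype_card, Nat.card_ulift, FiniteField.natCard_extension, UF.card_eq (q := q)]

variable {K : Type*} [Field K] [Fintype K] [Algebra F K] (ι : K →ₐ[F] Matrix (Fin m) (Fin m) F)

theorem sing_unit {t : K} (ht : t ≠ 0) : IsUnit (ι t).det := by
  exact (Matrix.isUnit_iff_isUnit_det _).1 ((IsUnit.mk0 t ht).map ι)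

theorem sing_inv {t : K} (ht : t ≠ 0) : (ι t)⁻¹ = ι t⁻¹ := by
  exact Matrix.inv_eq_right_inv (by rw [← map_mul, mul_inv_cancel₀ ht, map_one])

theorem sing_alg (z : F) : ι (algebraMap F K z) = z • (1 : Matrix (Fin m) (Fin m) F) := by
  rw [ι.commutes, Algebra.algebraMap_eq_smul_one]

theorem sing_ker {t : K} (ht : t ≠ 0) {v : Fin m → F} (h : ι t *ᵥ v = 0) : v = 0 := by
  have := congrArg (fun w => ι t⁻¹ *ᵥ w) h
  simpa only [mulVec_mulVec, ← map_mul, inv_mul_cancel₀ ht, map_one, one_mulVec, mulVec_zero] using this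

theorem sing_ker' {t : K} (ht : t ≠ 0) {v : Fin m → F} (h : cT q (ι t) *ᵥ v = 0) : v = 0 := by
  have := congrArg (fun w => cT q (ι t⁻¹) *ᵥ w) h
  simpa only [mulVec_mulVec, ← cT_mul, ← map_mul, mul_inv_cancel₀ ht, map_one, cT_one, one_mulVec,
    mulVec_zero] using this

theorem sing_ext {X Y : Matrix (Fin m) (Fin m) F} (h : ∀ v, X *ᵥ v = Y *ᵥ v) : X = Y :=
  Matrix.toLin'.injective (LinearMap.ext fun v => by simpa using h v)

theorem sing_card (hK : Fintype.card K = (q ^ 2) ^ m) : Nat.card K = Nat.card (Fin m → F) := by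
  rw [Nat.card_eq_fintype_card, hK, Nat.card_fun, hU.card_eq]
  simp

theorem sing_bij (hK : Fintype.card K = (q ^ 2) ^ m) {v : Fin m → F} (hv : v ≠ 0) :
    Function.Bijective fun t : K => ι t *ᵥ v := by
  have := hU.finite
  refine (Nat.bijective_iff_injective_and_card _).2 ⟨fun s t e => ?_, sing_card hK⟩
  by_contra hne
  refine hv (sing_ker ι (sub_ne_zero.2 hne) ?_)
  rw [map_sub, sub_mulVec, sub_eq_zero]
  exact e

theorem sing_bij' (hK : Fintype.card K = (q ^ 2) ^ m) {v : Fin m → F} (hv : v ≠ 0) :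
    Function.Bijective fun t : K => cT q (ι t) *ᵥ v := by
  have := hU.finite
  refine (Nat.bijective_iff_injective_and_card _).2 ⟨fun s t e => ?_, sing_card hK⟩
  by_contra hne
  refine hv (sing_ker' (q := q) ι (sub_ne_zero.2 hne) ?_)
  rw [map_sub, cT_sub, sub_mulVec, sub_eq_zero]
  exact e

theorem exists_gen (K : Type*) [Field K] [Fintype K] :
    ∃ a : K, a ≠ 0 ∧ orderOf a = Fintype.card K - 1 ∧ ∀ t : K, t ≠ 0 → ∃ k : ℕ, a ^ k = t := by
  classical
  obtain ⟨g, hg⟩ := IsCyclic.exists_generator (α := Kˣ)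
  refine ⟨g, g.ne_zero, ?_, fun t ht => ?_⟩
  · rw [orderOf_units, orderOf_eq_card_of_forall_mem_zpowers hg, Nat.card_eq_fintype_card,
      Fintype.card_units]
  · obtain ⟨k, hk⟩ := (mem_powers_iff_mem_zpowers).2 (hg (Units.mk0 t ht))
    exact ⟨k, by simpa using congrArg Units.val hk⟩

theorem sing_comm (hm : 1 ≤ m) (hK : Fintype.card K = (q ^ 2) ^ m) {a : K}
    (ha : ∀ t : K, t ≠ 0 → ∃ k : ℕ, a ^ k = t) {X : Matrix (Fin m) (Fin m) F}
    (h : X * ι a = ι a * X) : ∃ t, X = ι t := by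
  have hc : ∀ s : K, X * ι s = ι s * X := by
    intro s
    by_cases hs : s = 0
    · simp [hs]
    · obtain ⟨k, rfl⟩ := ha s hs
      rw [map_pow]
      exact (Commute.pow_right h k).eq
  have hv : (Pi.single ⟨0, hm⟩ 1 : Fin m → F) ≠ 0 := by simp
  generalize (Pi.single ⟨0, hm⟩ 1 : Fin m → F) = v at hv
  have hb := (sing_bij ι hK hv).2
  obtain ⟨t, ht⟩ := hb (X *ᵥ v)
  refine ⟨t, sing_ext fun w => ?_⟩
  obtain ⟨s, rfl⟩ := hb w
  simp only at ht ⊢
  rw [mulVec_mulVec, hc, ← mulVec_mulVec, ← ht, mulVec_mulVec, mulVec_mulVec, ← map_mul, ← map_mul,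
    mul_comm]

/-- The elements of `K` of order dividing `q + 1` come from `F`. -/
theorem exists_mu_of_pow {t : K} (ht : t ^ (q + 1) = 1) :
    ∃ z : F, z * σ z = 1 ∧ t = algebraMap F K z := by
  classical
  have := hU.finite
  have := Fintype.ofFinite F
  let S : Finset F := Finset.univ.filter fun z => z * σ z = 1
  have hS : S.card = q + 1 := by
    rw [← card_norm_fiber (F := F) (q := q) one_ne_zero (map_one _), Nat.card_eq_fintype_card,
      Fintype.card_subtype]
  let T : Finset K := (Polynomial.nthRoots (q + 1) (1 : K)).toFinset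
  have hT : T.card ≤ q + 1 := (Multiset.toFinset_card_le _).trans (Polynomial.card_nthRoots _ _)
  have mT : ∀ x : K, x ∈ T ↔ x ^ (q + 1) = 1 := fun x => by
    rw [Multiset.mem_toFinset, Polynomial.mem_nthRoots (Nat.succ_pos q)]
  have hsub : S.image (algebraMap F K) ⊆ T := by
    intro x hx
    obtain ⟨z, hz, rfl⟩ := Finset.mem_image.1 hx
    have hz' := (Finset.mem_filter.1 hz).2
    rw [mT, ← map_pow, pow_succ', ← conj_apply (F := F) (q := q), hz', map_one]
  have e := Finset.eq_of_subset_of_card_le hsub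
    (by rw [Finset.card_image_of_injective _ (algebraMap F K).injective, hS]; exact hT)
  have h1 := (mT t).2 ht
  rw [← e] at h1
  obtain ⟨z, hz, rfl⟩ := Finset.mem_image.1 h1
  exact ⟨z, (Finset.mem_filter.1 hz).2, rfl⟩

theorem sing_big (h : 4 < Fintype.card K) :
    ∃ t : K, t ≠ 0 ∧ t + 1 ≠ 0 ∧ (t + 1)⁻¹ - t⁻¹ - 1 ≠ 0 := by
  classical
  let f : Polynomial K := Polynomial.X * (Polynomial.X + 1) * (Polynomial.X ^ 2 + Polynomial.X + 1)
  have hm : f.Monic := by simp only [f]; monicity!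
  have hd : f.natDegree = 4 := by simp only [f]; compute_degree!
  obtain ⟨t, ht⟩ := f.exists_eval_ne_zero_of_natDegree_lt_card hm.ne_zero
    (by rw [hd, Cardinal.mk_fintype]; exact_mod_cast h)
  simp only [f, Polynomial.eval_mul, Polynomial.eval_add, Polynomial.eval_X, Polynomial.eval_one,
    Polynomial.eval_pow, ne_eq, mul_eq_zero, not_or] at ht
  refine ⟨t, ht.1.1, ht.1.2, fun e => ht.2 ?_⟩
  have h0 := ht.1.1
  have h1 := ht.1.2
  field_simp at e
  linear_combination -e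

theorem cen (hy : Hyp q m) (hK : Fintype.card K = (q ^ 2) ^ m) {a : K} (ha0 : a ≠ 0)
    (ha : ∀ t : K, t ≠ 0 → ∃ k : ℕ, a ^ k = t) {g : Ga F q m}
    (h : g * lev q (ι a) = lev q (ι a) * g) :
    ∃ (t : K) (z : F), t ≠ 0 ∧ z * σ z = 1 ∧ g = lev q (ι t) * rr q m z := by
  have h4 : 4 < Fintype.card K := by
    rw [hK]
    have h2 := two_le_q F q
    obtain ⟨h1, hc⟩ := hy
    by_cases hq : q = 2
    · subst hq
      have : m ≠ 1 := by rintro rfl; exact absurd hc (by decide)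
      calc 4 < (2 ^ 2) ^ 2 := by norm_num
        _ ≤ (2 ^ 2) ^ m := Nat.pow_le_pow_right (by norm_num) (by omega)
    · calc 4 < q ^ 2 := by nlinarith [show 3 ≤ q by omega]
        _ = (q ^ 2) ^ 1 := (pow_one _).symm
        _ ≤ (q ^ 2) ^ m := Nat.pow_le_pow_right (by positivity) h1
  obtain ⟨s, s0, s1, s2⟩ := sing_big h4
  have a1 : a ≠ 1 := by
    rintro rfl
    obtain ⟨k, hk⟩ := ha s s0
    obtain ⟨l, hl⟩ := ha _ s1
    rw [one_pow] at hk hl
    exact s0 (by linear_combination -hl)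
  have hp : ∀ k : ℕ, lev q (ι (a ^ k)) = lev q (ι a) ^ k := by
    intro k
    induction k with
    | zero => rw [pow_zero, pow_zero, map_one, lev_one]
    | succ k ih => rw [pow_succ, pow_succ, map_mul, lev_mul (sing_unit ι (pow_ne_zero k ha0))
        (sing_unit ι ha0), ih]
  have hc : ∀ t : K, t ≠ 0 → ∀ x : Sp F m,
      g.1 (ι t *ᵥ x.1, x.2.1, cT q (ι t⁻¹) *ᵥ x.2.2) =
        (ι t *ᵥ (g.1 x).1, (g.1 x).2.1, cT q (ι t⁻¹) *ᵥ (g.1 x).2.2) := by
    intro t ht x
    have e : g * lev q (ι t) = lev q (ι t) * g := by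
      obtain ⟨k, rfl⟩ := ha t ht
      rw [hp]
      exact (Commute.pow_right h k).eq
    have := congrArg (fun y : Ga F q m => y.1 x) e
    simpa only [Herm.mul_app, lev_app (sing_unit ι ht), sing_inv ι ht] using this
  obtain ⟨z, hz⟩ : ∃ z, g.1 (0, 1, 0) = (0, z, 0) := by
    have e := hc a ha0 (0, 1, 0)
    simp only [mulVec_zero] at e
    refine ⟨(g.1 (0, 1, 0)).2.1, Prod.ext ?_ (Prod.ext rfl ?_)⟩
    · refine sing_ker ι (sub_ne_zero.2 a1) ?_
      rw [map_sub, sub_mulVec, map_one, one_mulVec, sub_eq_zero]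
      exact (congrArg Prod.fst e).symm
    · refine sing_ker' (q := q) ι (sub_ne_zero.2 (inv_ne_one.2 a1)) ?_
      rw [map_sub, cT_sub, sub_mulVec, map_one, cT_one, one_mulVec, sub_eq_zero]
      exact (congrArg (fun y : Sp F m => y.2.2) e).symm
  have z1 : z * σ z = 1 := by
    have := Herm.iso_f g (0, 1, 0) (0, 1, 0)
    rw [hz] at this
    simpa [fm_f, herm_zero_left] using this
  have z0 : σ z ≠ 0 := right_ne_zero_of_mul_eq_one z1
  have mid : ∀ x y : Fin m → F, (g.1 (x, 0, y)).2.1 = 0 := by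
    intro x y
    have := Herm.iso_f g (x, 0, y) (0, 1, 0)
    rw [hz] at this
    simpa [fm_f, herm_zero_right, z0] using this
  have hC : ∀ x : Fin m → F, (g.1 (x, 0, 0)).2.2 = 0 := by
    intro x
    have e1 := congrArg (fun y : Sp F m => y.2.2) (hc s s0 (x, 0, 0))
    have e2 := congrArg (fun y : Sp F m => y.2.2) (hc _ s1 (x, 0, 0))
    simp only [mulVec_zero] at e1 e2
    rw [show ((ι (s + 1) *ᵥ x, 0, 0) : Sp F m) = (ι s *ᵥ x, 0, 0) + (x, 0, 0) by
      simp [add_mulVec], map_add, Prod.snd_add, Prod.snd_add, e1] at e2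
    refine sing_ker' (q := q) ι s2 ?_
    rw [map_sub, map_sub, cT_sub, cT_sub, sub_mulVec, sub_mulVec, map_one, cT_one, one_mulVec, ← e2]
    abel
  have hC' : ∀ y : Fin m → F, (g.1 (0, 0, y)).1 = 0 := by
    intro y
    have e1 := congrArg Prod.fst (hc _ (inv_ne_zero s0) (0, 0, y))
    have e2 := congrArg Prod.fst (hc _ (inv_ne_zero s1) (0, 0, y))
    simp only [mulVec_zero, inv_inv] at e1 e2
    rw [show ((0, 0, cT q (ι (s + 1)) *ᵥ y) : Sp F m) = (0, 0, cT q (ι s) *ᵥ y) + (0, 0, y) by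
      simp [add_mulVec, cT_add, cT_one], map_add, Prod.fst_add, e1] at e2
    refine sing_ker ι s2 ?_
    rw [map_sub, map_sub, sub_mulVec, sub_mulVec, map_one, one_mulVec, ← e2]
    abel
  let A : (Fin m → F) →ₗ[F] (Fin m → F) :=
    LinearMap.fst F _ _ ∘ₗ g.1.toLinearMap ∘ₗ LinearMap.inl F _ _
  have hA : ∀ x, LinearMap.toMatrix' A *ᵥ x = (g.1 (x, 0, 0)).1 := fun x => by
    rw [← Matrix.toLin'_apply, Matrix.toLin'_toMatrix']; rfl
  obtain ⟨t, ht⟩ := sing_comm ι hy.1 hK ha (X := LinearMap.toMatrix' A)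
    (sing_ext fun x => by
      have e := congrArg Prod.fst (hc a ha0 (x, 0, 0))
      simp only [mulVec_zero] at e
      rw [← mulVec_mulVec, ← mulVec_mulVec, hA, hA, e])
  rw [ht] at hA
  have g1 : ∀ x, g.1 (x, 0, 0) = (ι t *ᵥ x, 0, 0) := fun x =>
    Prod.ext (hA x).symm (Prod.ext (mid x 0) (hC x))
  have t0 : t ≠ 0 := by
    rintro rfl
    have e := g1 (Pi.single ⟨0, hy.1⟩ 1)
    rw [map_zero, zero_mulVec] at e
    have := congrArg Prod.fst (g.1.map_eq_zero_iff.1 e)
    simp at this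
  have g3 : ∀ y, g.1 (0, 0, y) = (0, 0, cT q (ι t⁻¹) *ᵥ y) := fun y => by
    refine Prod.ext (hC' y) (Prod.ext (mid 0 y) ?_)
    have e : cT q (ι t) *ᵥ (g.1 (0, 0, y)).2.2 = y := by
      rw [← sub_eq_zero]
      refine eq_zero_of_herm_right (q := q) fun x => ?_
      have := Herm.iso_f g (x, 0, 0) (0, 0, y)
      rw [g1] at this
      simp only [fm_f, herm_zero_left, zero_mul, add_zero, herm_mulVec] at this
      rw [herm_sub_right, this, sub_self]
    show (g.1 (0, 0, y)).2.2 = cT q (ι t⁻¹) *ᵥ y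
    conv_rhs => rw [← e]
    rw [mulVec_mulVec, ← cT_mul, ← map_mul, mul_inv_cancel₀ t0, map_one, cT_one, one_mulVec]
  refine ⟨t, z, t0, z1, Herm.iso_ext fun x => ?_⟩
  obtain ⟨x, r, y⟩ := x
  rw [Herm.mul_app, rr_app z1, lev_app (sing_unit ι t0), sing_inv ι t0,
    show ((x, r, y) : Sp F m) = (x, 0, 0) + r • (0, 1, 0) + (0, 0, y) by simp, map_add, map_add,
    map_smul, g1, hz, g3]
  simp [mul_comm]

end Cfsg.Agent.CJ
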